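import Mathlib
import Cfsg.Agent.Lib.helper5.BlockSecond4
import Cfsg.Agent.Lib.helper23.BlockRankTrace

set_option autoImplicit false

/-!
# Counting the characters of a block by subsections

`sum_eq_sum_sections`: a sum of a class function over the group, sorted by the class of the
`p`-part. `card_block_eq_sum_sections`: `k(B) = ∑_x ∑_{b^G = B} l(b)`.
-/

namespace Cfsg.Agent.Lib.helper5

open Cfsg.Agent.Lib.helper23 Cfsg.Agent.Lib.helper24
open scoped ComplexConjugate

universe u

section sections

variable {G : Type u} [Group G] [Fintype G]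

/-- the number of elements conjugating `x` to `z` -/
theorem sum_conj_eq (x z : G) [Fintype (Subgroup.centralizer ({x} : Set G))] [DecidableEq G] :
    (∑ t : G, if t * x * t⁻¹ = z then (1 : ℂ) else 0)
      = if IsConj x z then (Nat.card (Subgroup.centralizer ({x} : Set G)) : ℂ) else 0 := by
  classical
  by_cases hc : IsConj x z
  · rw [if_pos hc]
    obtain ⟨t₀, ht₀⟩ := isConj_iff.mp hc
    rw [← Equiv.sum_comp (Equiv.mulLeft t₀)]
    have h1 : ∀ t : G, (if (Equiv.mulLeft t₀ t) * x * (Equiv.mulLeft t₀ t)⁻¹ = z then (1 : ℂ) else 0)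
        = if t ∈ Subgroup.centralizer ({x} : Set G) then (1 : ℂ) else 0 := by
      intro t
      have e1 : (Equiv.mulLeft t₀ t) = t₀ * t := rfl
      rw [e1]
      have hiff : (t₀ * t) * x * (t₀ * t)⁻¹ = z ↔ t ∈ Subgroup.centralizer ({x} : Set G) := by
        rw [Subgroup.mem_centralizer_singleton_iff, ← ht₀]
        constructor
        · intro h
          have h2 : t₀ * (t * x * t⁻¹) * t₀⁻¹ = t₀ * x * t₀⁻¹ := by
            rw [← h]; group
          have h3 : t * x * t⁻¹ = x := by
            have := mul_left_cancel (mul_right_cancel h2)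
            exact this
          calc t * x = (t * x * t⁻¹) * t := by group
            _ = x * t := by rw [h3]
        · intro h
          have h3 : t * x * t⁻¹ = x := by rw [h]; group
          calc (t₀ * t) * x * (t₀ * t)⁻¹ = t₀ * (t * x * t⁻¹) * t₀⁻¹ := by group
            _ = t₀ * x * t₀⁻¹ := by rw [h3]
      by_cases h : t ∈ Subgroup.centralizer ({x} : Set G)
      · rw [if_pos h, if_pos (hiff.mpr h)]
      · rw [if_neg h, if_neg (fun h' => h (hiff.mp h'))]
    rw [Finset.sum_congr rfl (fun t _ => h1 t), Finset.sum_boole]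
    congr 1
    rw [Nat.card_eq_fintype_card]
    symm
    apply Fintype.card_of_subtype
    intro t
    simp
  · rw [if_neg hc]
    apply Finset.sum_eq_zero
    intro t _
    rw [if_neg]
    intro h
    exact hc (isConj_iff.mpr ⟨t, h⟩)

/-- a sum over a subgroup as a sum over the group -/
theorem sum_subgroup_eq_sum_ite (H : Subgroup G) [Fintype H] (F : G → ℂ)
    [DecidablePred (fun g : G => g ∈ H)] :
    ∑ y : H, F (y : G) = ∑ g : G, if g ∈ H then F g else 0 := by
  rw [← Finset.sum_filter]
  symm
  exact Finset.sum_subtype (Finset.univ.filter (fun g => g ∈ H)) (by intro g; simp) F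

/-- the elements with `p`-part `x` are the `x * y` with `y` in the centralizer, `p`-regular -/
theorem sum_isPPart_eq (p : ℕ) [Fact p.Prime] (x : G) (hx : ∃ k : ℕ, orderOf x = p ^ k)
    [Fintype (Subgroup.centralizer ({x} : Set G))] (f : G → ℂ)
    [DecidablePred (fun g : G => Cfsg.IsPPart p g x)] :
    ∑ g : G, (if Cfsg.IsPPart p g x then f g else 0)
      = ∑ y : Subgroup.centralizer ({x} : Set G),
          if ¬ p ∣ orderOf y then f (x * (y : G)) else 0 := by
  classical
  have h0 : ∑ y : Subgroup.centralizer ({x} : Set G),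
        (if ¬ p ∣ orderOf y then f (x * (y : G)) else 0)
      = ∑ y : Subgroup.centralizer ({x} : Set G),
        (fun g : G => if ¬ p ∣ orderOf g then f (x * g) else 0) (y : G) := by
    apply Finset.sum_congr rfl
    intro y _
    show _ = if ¬ p ∣ orderOf (y : G) then f (x * (y : G)) else 0
    rw [Subgroup.orderOf_coe]
  rw [h0, sum_subgroup_eq_sum_ite (Subgroup.centralizer ({x} : Set G))
    (fun g : G => if ¬ p ∣ orderOf g then f (x * g) else 0), ← Equiv.sum_comp (Equiv.mulLeft x)]
  apply Finset.sum_congr rfl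
  intro g _
  have e1 : (Equiv.mulLeft x g) = x * g := rfl
  rw [e1]
  have hiff : Cfsg.IsPPart p (x * g) x
      ↔ (g ∈ Subgroup.centralizer ({x} : Set G) ∧ ¬ p ∣ orderOf g) := by
    constructor
    · rintro ⟨y, hxy, hc, -, hy⟩
      have : y = g := mul_left_cancel hxy
      rw [this] at hc hy
      refine ⟨?_, hy⟩
      rw [Subgroup.mem_centralizer_singleton_iff]
      exact hc.eq.symm
    · rintro ⟨hg, hy⟩
      rw [Subgroup.mem_centralizer_singleton_iff] at hg
      exact isPPart_mul hg.symm hx hy
  by_cases h1 : g ∈ Subgroup.centralizer ({x} : Set G)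
  · by_cases h2 : ¬ p ∣ orderOf g
    · rw [if_pos (hiff.mpr ⟨h1, h2⟩), if_pos h1, if_pos h2]
    · rw [if_neg (fun h => h2 (hiff.mp h).2), if_pos h1, if_neg h2]
  · rw [if_neg (fun h => h1 (hiff.mp h).1), if_neg h1]

/-- a sum of a class function over the group, sorted by the class of the `p`-part -/
theorem sum_eq_sum_sections (p : ℕ) [Fact p.Prime] (X : Finset G)
    (hX : ∀ x ∈ X, ∃ k : ℕ, orderOf x = p ^ k)
    (hXrep : ∀ g : G, (∃ k : ℕ, orderOf g = p ^ k) → ∃! x, x ∈ X ∧ IsConj g x)
    [∀ x : G, Fintype (Subgroup.centralizer ({x} : Set G))]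
    {f : G → ℂ} (hf : Cfsg.IsClassFunction G f) :
    ∑ g : G, f g
      = ∑ x ∈ X, (Nat.card G : ℂ) / (Nat.card (Subgroup.centralizer ({x} : Set G)) : ℂ)
          * ∑ y : Subgroup.centralizer ({x} : Set G),
              if ¬ p ∣ orderOf y then f (x * (y : G)) else 0 := by
  classical
  have hcne : ∀ x : G, (Nat.card (Subgroup.centralizer ({x} : Set G)) : ℂ) ≠ 0 :=
    fun x => NeZero.ne _
  -- step 2
  have step2 : ∀ x : G, (Nat.card (Subgroup.centralizer ({x} : Set G)) : ℂ)
        * ∑ g : G, (if ∃ t : G, Cfsg.IsPPart p g (t * x * t⁻¹) then f g else 0)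
      = (Nat.card G : ℂ) * ∑ g : G, (if Cfsg.IsPPart p g x then f g else 0) := by
    intro x
    have h1 : ∀ g : G, (Nat.card (Subgroup.centralizer ({x} : Set G)) : ℂ)
          * (if ∃ t : G, Cfsg.IsPPart p g (t * x * t⁻¹) then f g else 0)
        = ∑ t : G, (if Cfsg.IsPPart p g (t * x * t⁻¹) then f g else 0) := by
      intro g
      by_cases hex : ∃ t : G, Cfsg.IsPPart p g (t * x * t⁻¹)
      · rw [if_pos hex]
        obtain ⟨t₀, ht₀⟩ := hex
        have h2 : ∀ t : G, (if Cfsg.IsPPart p g (t * x * t⁻¹) then f g else 0)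
            = (if t * x * t⁻¹ = t₀ * x * t₀⁻¹ then (1 : ℂ) else 0) * f g := by
          intro t
          by_cases h : t * x * t⁻¹ = t₀ * x * t₀⁻¹
          · rw [if_pos h, one_mul, if_pos (by rw [h]; exact ht₀)]
          · rw [if_neg h, zero_mul, if_neg]
            intro h'
            exact h (isPPart_unique h' ht₀)
        rw [Finset.sum_congr rfl (fun t _ => h2 t), ← Finset.sum_mul, sum_conj_eq,
          if_pos (isConj_iff.mpr ⟨t₀, rfl⟩)]
      · rw [if_neg hex, mul_zero]
        symm
        apply Finset.sum_eq_zero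
        intro t _
        rw [if_neg]
        intro h
        exact hex ⟨t, h⟩
    rw [Finset.mul_sum, Finset.sum_congr rfl (fun g _ => h1 g), Finset.sum_comm]
    have h3 : ∀ t : G, ∑ g : G, (if Cfsg.IsPPart p g (t * x * t⁻¹) then f g else 0)
        = ∑ g : G, (if Cfsg.IsPPart p g x then f g else 0) := by
      intro t
      rw [← Equiv.sum_comp (MulAut.conj t).toEquiv]
      apply Finset.sum_congr rfl
      intro g _
      have e1 : (MulAut.conj t).toEquiv g = t * g * t⁻¹ := rfl
      rw [e1, hf g t]
      have hiff : Cfsg.IsPPart p (t * g * t⁻¹) (t * x * t⁻¹) ↔ Cfsg.IsPPart p g x := by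
        constructor
        · intro h
          have h' := isPPart_conj h t⁻¹
          have e2 : t⁻¹ * (t * g * t⁻¹) * t⁻¹⁻¹ = g := by group
          have e3 : t⁻¹ * (t * x * t⁻¹) * t⁻¹⁻¹ = x := by group
          rw [e2, e3] at h'
          exact h'
        · intro h
          exact isPPart_conj h t
      by_cases h : Cfsg.IsPPart p g x
      · rw [if_pos h, if_pos (hiff.mpr h)]
      · rw [if_neg h, if_neg (fun h' => h (hiff.mp h'))]
    rw [Finset.sum_congr rfl (fun t _ => h3 t), Finset.sum_const, Finset.card_univ,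
      nsmul_eq_mul, Nat.card_eq_fintype_card]
  -- step 3
  have step3 : ∀ g : G, f g
      = ∑ x ∈ X, (if ∃ t : G, Cfsg.IsPPart p g (t * x * t⁻¹) then f g else 0) := by
    intro g
    obtain ⟨z, hz⟩ := exists_isPPart p g
    have hzp : ∃ k : ℕ, orderOf z = p ^ k := by
      obtain ⟨y, -, -, hk, -⟩ := hz
      exact hk
    obtain ⟨x₀, ⟨hx₀X, hx₀c⟩, huniq⟩ := hXrep z hzp
    have h1 : ∀ x ∈ X, (if ∃ t : G, Cfsg.IsPPart p g (t * x * t⁻¹) then f g else 0)
        = if x = x₀ then f g else 0 := by
      intro x hxX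
      have hiff : (∃ t : G, Cfsg.IsPPart p g (t * x * t⁻¹)) ↔ x = x₀ := by
        constructor
        · rintro ⟨t, ht⟩
          have hzt : z = t * x * t⁻¹ := isPPart_unique hz ht
          apply huniq
          refine ⟨hxX, isConj_iff.mpr ⟨t⁻¹, ?_⟩⟩
          rw [hzt]; group
        · intro hxx
          rw [hxx]
          obtain ⟨c, hc⟩ := isConj_iff.mp hx₀c
          refine ⟨c⁻¹, ?_⟩
          have : c⁻¹ * x₀ * c⁻¹⁻¹ = z := by rw [← hc]; group
          rw [this]
          exact hz
      by_cases h : x = x₀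
      · rw [if_pos h, if_pos (hiff.mpr h)]
      · rw [if_neg h, if_neg (fun h' => h (hiff.mp h'))]
    rw [Finset.sum_congr rfl h1, Finset.sum_ite_eq' X x₀, if_pos hx₀X]
  rw [Finset.sum_congr rfl (fun g _ => step3 g), Finset.sum_comm]
  apply Finset.sum_congr rfl
  intro x hxX
  rw [← sum_isPPart_eq p x (hX x hxX) f]
  have h := step2 x
  rw [div_mul_eq_mul_div, ← h, mul_div_cancel_left₀ _ (hcne x)]

end sections

section count

variable {M : Ideal Cfsg.AlgInt} {p : ℕ} [Fact p.Prime]

/-- `∑_{y p-regular} ∑_{ψ ∈ b} |ψ(y)|² = |K| l(b)` -/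
theorem sum_pRegular_block (hM : Cfsg.IsPModular p M) {K : Type u} [Group K] [Fintype K]
    [Fintype (Cfsg.IrrCharacter K)]
    (b : Set (Cfsg.IrrCharacter K)) (hb : Cfsg.IsPBlock M b) :
    ∑ y : K, (if ¬ p ∣ orderOf y then ∑ ψ : Cfsg.IrrCharacter K,
        b.indicator (fun _ => (1 : ℂ)) ψ * (ψ.1 y * conj (ψ.1 y)) else 0)
      = (Nat.card K : ℂ) * (Cfsg.blockRank p b : ℂ) := by
  classical
  rw [blockRank_trace_formula p M hM b hb]
  apply Finset.sum_congr rfl
  intro y _
  rw [finsum_mem_def, finsum_eq_sum_of_fintype]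
  by_cases hy : ¬ p ∣ orderOf y
  · rw [if_pos hy]
    apply Finset.sum_congr rfl
    intro ψ _
    by_cases hψ : ψ ∈ b
    · rw [Set.indicator_of_mem hψ, Set.indicator_of_mem hψ, one_mul, pRegularPart_apply,
        if_pos (show Cfsg.IsPRegular p y from hy), irr_inv]
    · rw [Set.indicator_of_notMem hψ, Set.indicator_of_notMem hψ, zero_mul]
  · rw [if_neg hy]
    symm
    apply Finset.sum_eq_zero
    intro ψ _
    by_cases hψ : ψ ∈ b
    · rw [Set.indicator_of_mem hψ, pRegularPart_apply,
        if_neg (show ¬ Cfsg.IsPRegular p y from hy), zero_mul]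
    · rw [Set.indicator_of_notMem hψ]

variable {G : Type u} [Group G] [Fintype G] [Fintype (Cfsg.IrrCharacter G)]

/-- **Brauer's count of the characters of a block by subsections**:
`k(B) = ∑_x ∑_{b^G = B} l(b)`. -/
theorem card_block_eq_sum_sections (hM : Cfsg.IsPModular p M)
    (B : Set (Cfsg.IrrCharacter G)) (hB : Cfsg.IsPBlock M B) (X : Finset G)
    (hX : ∀ x ∈ X, ∃ k : ℕ, orderOf x = p ^ k)
    (hXrep : ∀ g : G, (∃ k : ℕ, orderOf g = p ^ k) → ∃! x, x ∈ X ∧ IsConj g x) :
    Nat.card B = ∑ x ∈ X, ∑ᶠ b ∈ {b : Set (Cfsg.IrrCharacter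
        ↥(Subgroup.centralizer ({x} : Set G))) |
        Cfsg.IsInducedBlock M (Subgroup.centralizer ({x} : Set G)) b B},
      Cfsg.blockRank p b := by
  classical
  have : ∀ x : G, Fintype (Subgroup.centralizer ({x} : Set G)) := fun x => Fintype.ofFinite _
  have : ∀ x : G, Fintype (Cfsg.IrrCharacter (Subgroup.centralizer ({x} : Set G))) :=
    fun x => Fintype.ofFinite _
  have hMp := isPModular_isPrime hM
  have hMt := hMp.ne_top
  have hne : (Nat.card G : ℂ) ≠ 0 := NeZero.ne _
  -- the class function
  obtain ⟨f, hfdef⟩ : ∃ f : G → ℂ, f = fun g => ∑ χ : Cfsg.IrrCharacter G,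
      B.indicator (fun _ => (1 : ℂ)) χ * (χ.1 g * conj (χ.1 g)) := ⟨_, rfl⟩
  have hfapp : ∀ g : G, f g = ∑ χ : Cfsg.IrrCharacter G,
      B.indicator (fun _ => (1 : ℂ)) χ * (χ.1 g * conj (χ.1 g)) := by
    intro g; rw [hfdef]
  have hf : Cfsg.IsClassFunction G f := by
    intro g h
    rw [hfapp, hfapp]
    apply Finset.sum_congr rfl
    intro χ _
    rw [isClassFunction_irr χ g h]
  -- total sum
  have htot : ∑ g : G, f g = (Nat.card G : ℂ) * (Nat.card B : ℂ) := by
    rw [Finset.sum_congr rfl (fun g _ => hfapp g), Finset.sum_comm]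
    have h1 : ∀ χ : Cfsg.IrrCharacter G,
        ∑ g : G, B.indicator (fun _ => (1 : ℂ)) χ * (χ.1 g * conj (χ.1 g))
          = (Nat.card G : ℂ) * B.indicator (fun _ => (1 : ℂ)) χ := by
      intro χ
      rw [← Finset.mul_sum, sum_mul_conj_eq_classInner, irr_orthonormal, if_pos rfl, mul_one,
        mul_comm]
    rw [Finset.sum_congr rfl (fun χ _ => h1 χ), ← Finset.mul_sum]
    congr 1
    have h2 : ∀ χ : Cfsg.IrrCharacter G, B.indicator (fun _ => (1 : ℂ)) χ
        = if χ ∈ B then 1 else 0 := by
      intro χ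
      by_cases h : χ ∈ B
      · rw [Set.indicator_of_mem h, if_pos h]
      · rw [Set.indicator_of_notMem h, if_neg h]
    rw [Finset.sum_congr rfl (fun χ _ => h2 χ), Finset.sum_boole]
    congr 1
    rw [Nat.card_eq_fintype_card]
    symm
    apply Fintype.card_of_subtype
    intro χ
    simp
  have hsec := sum_eq_sum_sections p X hX hXrep hf
  rw [htot] at hsec
  -- each x
  have hx : ∀ x ∈ X, (Nat.card G : ℂ) / (Nat.card (Subgroup.centralizer ({x} : Set G)) : ℂ)
        * ∑ y : Subgroup.centralizer ({x} : Set G),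
            (if ¬ p ∣ orderOf y then f (x * (y : G)) else 0)
      = (Nat.card G : ℂ) * ((∑ᶠ b ∈ {b : Set (Cfsg.IrrCharacter
          ↥(Subgroup.centralizer ({x} : Set G))) |
          Cfsg.IsInducedBlock M (Subgroup.centralizer ({x} : Set G)) b B},
        Cfsg.blockRank p b : ℕ) : ℂ) := by
    intro x hxX
    have hcne : (Nat.card (Subgroup.centralizer ({x} : Set G)) : ℂ) ≠ 0 := NeZero.ne _
    have h1 : ∀ y : Subgroup.centralizer ({x} : Set G),
        (if ¬ p ∣ orderOf y then f (x * (y : G)) else 0)
        = if ¬ p ∣ orderOf y then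
            ∑ ψ : Cfsg.IrrCharacter (Subgroup.centralizer ({x} : Set G)),
              (secSet M x B).indicator (fun _ => (1 : ℂ)) ψ * (ψ.1 y * conj (ψ.1 y)) else 0 := by
      intro y
      by_cases hy : ¬ p ∣ orderOf y
      · rw [if_pos hy, if_pos hy, hfapp]
        exact section_norm_sum hM x (hX x hxX) B hB y hy
      · rw [if_neg hy, if_neg hy]
    rw [Finset.sum_congr rfl (fun y _ => h1 y)]
    have h2 : ∀ ψ : Cfsg.IrrCharacter (Subgroup.centralizer ({x} : Set G)),
        (secSet M x B).indicator (fun _ => (1 : ℂ)) ψ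
          = ∑ b : Set (Cfsg.IrrCharacter (Subgroup.centralizer ({x} : Set G))),
              if Cfsg.IsInducedBlock M (Subgroup.centralizer ({x} : Set G)) b B
              then b.indicator (fun _ => (1 : ℂ)) ψ else 0 := by
      intro ψ
      rw [Finset.sum_eq_single (Cfsg.blockOf M ψ.1)]
      · by_cases h : ψ ∈ secSet M x B
        · rw [Set.indicator_of_mem h, if_pos (show Cfsg.IsInducedBlock M _
            (Cfsg.blockOf M ψ.1) B from h), Set.indicator_of_mem (mem_blockOf_self hMt ψ)]
        · rw [Set.indicator_of_notMem h, if_neg (show ¬ Cfsg.IsInducedBlock M _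
            (Cfsg.blockOf M ψ.1) B from h)]
      · intro b _ hbne
        by_cases hb : Cfsg.IsInducedBlock M (Subgroup.centralizer ({x} : Set G)) b B
        · rw [if_pos hb]
          apply Set.indicator_of_notMem
          intro hψb
          apply hbne
          obtain ⟨ξ₀, hb0⟩ := hb.1
          rw [hb0] at hψb ⊢
          exact (blockOf_eq_of_mem hMp hψb).symm
        · rw [if_neg hb]
      · intro h; exact absurd (Finset.mem_univ _) h
    have h3 : ∑ y : Subgroup.centralizer ({x} : Set G), (if ¬ p ∣ orderOf y then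
          ∑ ψ : Cfsg.IrrCharacter (Subgroup.centralizer ({x} : Set G)),
            (secSet M x B).indicator (fun _ => (1 : ℂ)) ψ * (ψ.1 y * conj (ψ.1 y)) else 0)
        = ∑ b : Set (Cfsg.IrrCharacter (Subgroup.centralizer ({x} : Set G))),
            if Cfsg.IsInducedBlock M (Subgroup.centralizer ({x} : Set G)) b B then
              ∑ y : Subgroup.centralizer ({x} : Set G), (if ¬ p ∣ orderOf y then
                ∑ ψ : Cfsg.IrrCharacter (Subgroup.centralizer ({x} : Set G)),
                  b.indicator (fun _ => (1 : ℂ)) ψ * (ψ.1 y * conj (ψ.1 y)) else 0)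
            else 0 := by
      have h4 : ∀ b : Set (Cfsg.IrrCharacter (Subgroup.centralizer ({x} : Set G))),
          (if Cfsg.IsInducedBlock M (Subgroup.centralizer ({x} : Set G)) b B then
              ∑ y : Subgroup.centralizer ({x} : Set G), (if ¬ p ∣ orderOf y then
                ∑ ψ : Cfsg.IrrCharacter (Subgroup.centralizer ({x} : Set G)),
                  b.indicator (fun _ => (1 : ℂ)) ψ * (ψ.1 y * conj (ψ.1 y)) else 0)
            else 0)
          = ∑ y : Subgroup.centralizer ({x} : Set G), (if ¬ p ∣ orderOf y then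
                ∑ ψ : Cfsg.IrrCharacter (Subgroup.centralizer ({x} : Set G)),
                  (if Cfsg.IsInducedBlock M (Subgroup.centralizer ({x} : Set G)) b B
                    then b.indicator (fun _ => (1 : ℂ)) ψ else 0)
                    * (ψ.1 y * conj (ψ.1 y)) else 0) := by
        intro b
        by_cases hb : Cfsg.IsInducedBlock M (Subgroup.centralizer ({x} : Set G)) b B
        · simp only [if_pos hb]
        · simp only [if_neg hb, zero_mul, Finset.sum_const_zero, ite_self]
      rw [Finset.sum_congr rfl (fun b _ => h4 b), Finset.sum_comm]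
      apply Finset.sum_congr rfl
      intro y _
      by_cases hy : ¬ p ∣ orderOf y
      · simp only [if_pos hy]
        rw [Finset.sum_comm]
        apply Finset.sum_congr rfl
        intro ψ _
        rw [h2 ψ, Finset.sum_mul]
      · simp only [if_neg hy, Finset.sum_const_zero]
    rw [h3]
    have h5 : ∀ b : Set (Cfsg.IrrCharacter (Subgroup.centralizer ({x} : Set G))),
        (if Cfsg.IsInducedBlock M (Subgroup.centralizer ({x} : Set G)) b B then
              ∑ y : Subgroup.centralizer ({x} : Set G), (if ¬ p ∣ orderOf y then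
                ∑ ψ : Cfsg.IrrCharacter (Subgroup.centralizer ({x} : Set G)),
                  b.indicator (fun _ => (1 : ℂ)) ψ * (ψ.1 y * conj (ψ.1 y)) else 0)
            else 0)
          = (Nat.card (Subgroup.centralizer ({x} : Set G)) : ℂ)
            * (if Cfsg.IsInducedBlock M (Subgroup.centralizer ({x} : Set G)) b B
                then (Cfsg.blockRank p b : ℂ) else 0) := by
      intro b
      by_cases hb : Cfsg.IsInducedBlock M (Subgroup.centralizer ({x} : Set G)) b B
      · rw [if_pos hb, if_pos hb]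
        exact sum_pRegular_block hM b hb.1
      · rw [if_neg hb, if_neg hb, mul_zero]
    rw [Finset.sum_congr rfl (fun b _ => h5 b), ← Finset.mul_sum]
    have hfin : ∑ᶠ b ∈ {b : Set (Cfsg.IrrCharacter
          ↥(Subgroup.centralizer ({x} : Set G))) |
          Cfsg.IsInducedBlock M (Subgroup.centralizer ({x} : Set G)) b B},
        Cfsg.blockRank p b
        = ∑ b : Set (Cfsg.IrrCharacter (Subgroup.centralizer ({x} : Set G))),
            if Cfsg.IsInducedBlock M (Subgroup.centralizer ({x} : Set G)) b B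
                then Cfsg.blockRank p b else 0 := by
      rw [finsum_mem_def, finsum_eq_sum_of_fintype]
      apply Finset.sum_congr rfl
      intro b _
      by_cases hb : Cfsg.IsInducedBlock M (Subgroup.centralizer ({x} : Set G)) b B
      · rw [if_pos hb, Set.indicator_of_mem (by exact hb)]
      · rw [if_neg hb, Set.indicator_of_notMem (by exact hb)]
    rw [hfin]
    push_cast
    field_simp
  rw [Finset.sum_congr rfl hx, ← Finset.mul_sum] at hsec
  have h6 := mul_left_cancel₀ hne hsec
  exact_mod_cast h6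

end count

end Cfsg.Agent.Lib.helper5
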