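import Mathlib
import Cfsg.Agent.Lib.helper5.ClassSep
import Cfsg.Agent.Lib.helper24.CharPerm

set_option autoImplicit false

/-!
# Counting pairs of class elements whose quotient lies in a subgroup

`card_pairs_formula`: for a subgroup `S`,
`#{(y, z) | y ~ x₁, z ~ x₂, z y⁻¹ ∈ S} * |C(x₂)| = |S| * ∑ χ, ω_χ(x₁) χ(x₂⁻¹) m_χ`
where `m_χ` is the multiplicity of the trivial character of `S` in `χ`.
-/

namespace Cfsg.Agent.Lib.helper5

open Cfsg.Agent.Lib.helper23 Cfsg.Agent.Lib.helper24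
open scoped ComplexConjugate

universe u

section pc

variable {G : Type u} [Group G]

theorem conjCount_eq_ite [Finite G] (g x : G) [Decidable (IsConj g x)] :
    conjCount g x
      = if IsConj g x then (Nat.card (Subgroup.centralizer ({g} : Set G)) : ℂ) else 0 := by
  unfold conjCount
  split_ifs with h
  · rw [card_conj_eq_of_isConj' h]
  · have : IsEmpty {t : G // t * g * t⁻¹ = x} := ⟨fun t => h (isConj_iff.mpr ⟨t.1, t.2⟩)⟩
    rw [Nat.card_of_isEmpty, Nat.cast_zero]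

theorem card_pairs_formula [Fintype G] [Fintype (Cfsg.IrrCharacter G)] (x₁ x₂ : G)
    (S : Subgroup G) [Fintype S] (m : Cfsg.IrrCharacter G → ℕ)
    (hm : ∀ χ : Cfsg.IrrCharacter G, ∑ z : S, χ.1 (z : G) = (Fintype.card S : ℂ) * (m χ : ℂ)) :
    (Nat.card {yz : G × G // IsConj x₁ yz.1 ∧ IsConj x₂ yz.2 ∧ yz.2 * yz.1⁻¹ ∈ S} : ℂ)
        * (Nat.card (Subgroup.centralizer ({x₂} : Set G)) : ℂ)
      = (Fintype.card S : ℂ) * ∑ χ : Cfsg.IrrCharacter G,
          Cfsg.centralChar χ.1 x₁ * χ.1 x₂⁻¹ * (m χ : ℂ) := by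
  classical
  obtain ⟨c₁, hc₁⟩ : ∃ c₁ : ℂ, c₁ = (Nat.card (Subgroup.centralizer ({x₁} : Set G)) : ℂ) :=
    ⟨_, rfl⟩
  obtain ⟨c₂, hc₂⟩ : ∃ c₂ : ℂ, c₂ = (Nat.card (Subgroup.centralizer ({x₂} : Set G)) : ℂ) :=
    ⟨_, rfl⟩
  have hc₁0 : c₁ ≠ 0 := by
    rw [hc₁]
    exact_mod_cast Nat.card_pos.ne'
  have hA : (Nat.card {yz : G × G // IsConj x₁ yz.1 ∧ IsConj x₂ yz.2 ∧ yz.2 * yz.1⁻¹ ∈ S} : ℂ)
        * c₁ * c₂
      = ∑ y : G, conjCount x₁ y
          * ∑ z : G, conjCount x₂ z * (if z * y⁻¹ ∈ S then (1 : ℂ) else 0) := by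
    rw [Nat.card_eq_fintype_card, Fintype.card_subtype, Finset.card_filter]
    push_cast
    rw [Fintype.sum_prod_type, Finset.sum_mul, Finset.sum_mul]
    apply Finset.sum_congr rfl
    intro y _
    rw [Finset.sum_mul, Finset.sum_mul, Finset.mul_sum]
    apply Finset.sum_congr rfl
    intro z _
    rw [conjCount_eq_ite, conjCount_eq_ite, ← hc₁, ← hc₂]
    by_cases h1 : IsConj x₁ y <;> by_cases h2 : IsConj x₂ z <;>
      by_cases h3 : z * y⁻¹ ∈ S <;>
      simp only [h1, h2, h3, and_self, and_true, true_and, and_false, false_and, if_true,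
        if_false, mul_zero, zero_mul, mul_one, one_mul]
  have hB : ∀ y : G, ∑ z : G, conjCount x₂ z * (if z * y⁻¹ ∈ S then (1 : ℂ) else 0)
      = ∑ s : S, conjCount x₂ ((s : G) * y) := by
    intro y
    rw [← Equiv.sum_comp (Equiv.mulRight y)
      (fun z => conjCount x₂ z * (if z * y⁻¹ ∈ S then (1 : ℂ) else 0))]
    simp only [Equiv.coe_mulRight, mul_inv_cancel_right]
    rw [← Finset.sum_subtype (Finset.univ.filter (fun w : G => w ∈ S)) (by simp)
      (fun w => conjCount x₂ (w * y)), Finset.sum_filter]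
    apply Finset.sum_congr rfl
    intro w _
    split_ifs <;> simp
  have hC : ∑ y : G, conjCount x₁ y * ∑ s : S, conjCount x₂ ((s : G) * y)
      = ∑ t : G, ∑ s : S, conjCount x₂ ((s : G) * (t * x₁ * t⁻¹)) :=
    sum_conjCount_mul x₁ (fun y => ∑ s : S, conjCount x₂ ((s : G) * y))
  have hD : ∀ w : G, conjCount x₂ w
      = ∑ χ : Cfsg.IrrCharacter G, χ.1 w * conj (χ.1 x₂) := fun w =>
    (second_orth_count x₂ w).symm
  have hE : ∑ t : G, ∑ s : S, conjCount x₂ ((s : G) * (t * x₁ * t⁻¹))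
      = ∑ χ : Cfsg.IrrCharacter G, (Nat.card G : ℂ) * χ.1 x₁ / χ.1 1 * conj (χ.1 x₂)
          * ((Fintype.card S : ℂ) * (m χ : ℂ)) := by
    simp only [hD]
    rw [Finset.sum_comm]
    have h1 : ∀ s : S, ∑ t : G, ∑ χ : Cfsg.IrrCharacter G,
        χ.1 ((s : G) * (t * x₁ * t⁻¹)) * conj (χ.1 x₂)
        = ∑ χ : Cfsg.IrrCharacter G,
          (Nat.card G : ℂ) * χ.1 x₁ * χ.1 (s : G) / χ.1 1 * conj (χ.1 x₂) := by
      intro s
      rw [Finset.sum_comm]
      apply Finset.sum_congr rfl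
      intro χ _
      rw [← Finset.sum_mul]
      congr 1
      rw [← irr_sum_conj_mul χ x₁ (s : G)]
      apply Finset.sum_congr rfl
      intro t _
      have h2 := isClassFunction_irr χ (t * x₁ * t⁻¹ * (s : G)) (s : G)
      rw [← h2]
      congr 1
      group
    rw [Finset.sum_congr rfl (fun s _ => h1 s), Finset.sum_comm]
    apply Finset.sum_congr rfl
    intro χ _
    rw [← hm χ, Finset.mul_sum]
    apply Finset.sum_congr rfl
    intro s _
    ring
  have hF : ∀ χ : Cfsg.IrrCharacter G, (Nat.card G : ℂ) * χ.1 x₁ / χ.1 1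
      = c₁ * Cfsg.centralChar χ.1 x₁ := by
    intro χ
    unfold Cfsg.centralChar
    have e1 : ((Subgroup.centralizer ({x₁} : Set G)).index : ℂ) * c₁ = (Nat.card G : ℂ) := by
      rw [hc₁]
      exact_mod_cast Subgroup.index_mul_card (Subgroup.centralizer ({x₁} : Set G))
    rw [← e1]
    ring
  have htot : (Nat.card {yz : G × G // IsConj x₁ yz.1 ∧ IsConj x₂ yz.2 ∧ yz.2 * yz.1⁻¹ ∈ S} : ℂ)
        * c₁ * c₂
      = c₁ * ((Fintype.card S : ℂ) * ∑ χ : Cfsg.IrrCharacter G,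
          Cfsg.centralChar χ.1 x₁ * χ.1 x₂⁻¹ * (m χ : ℂ)) := by
    rw [hA, Finset.sum_congr rfl (fun y _ => by rw [hB y]), hC, hE, Finset.mul_sum, Finset.mul_sum]
    apply Finset.sum_congr rfl
    intro χ _
    rw [hF χ, irr_inv]
    ring
  rw [← hc₂]
  apply mul_left_cancel₀ hc₁0
  rw [← htot]
  ring

end pc

end Cfsg.Agent.Lib.helper5
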