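import Mathlib
import Cfsg.Agent.Lib.helper5.SepBlocks
import Cfsg.Agent.Lib.helper5.PairCount
import Cfsg.Agent.Lib.helper5.RankLemmas
import Cfsg.Agent.Lib.helper5.BlockSecond3
import Cfsg.Agent.Lib.helper22.SubsecNorm
import Cfsg.Agent.Lib.helper23.MinMax
import Cfsg.Agent.Lib.helper23.TwoPrimes
import Cfsg.Agent.Lib.helper23.BrauerFeit
import Cfsg.Agent.Lib.helper23.BPMax4
import Cfsg.Agent.Lib.helper23.PTrunc
import Cfsg.Agent.Lib.helper24.CharReg

set_option autoImplicit false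

/-!
# The number of blocks with a given normal defect group as a matrix rank

* `locIdeal_isMaximal`: the residue ring of the local ring is a field.
* `sum_block_mul_mult`: `∑ χ ∈ B, χ(y⁻¹) m_χ = |G : S| β_B(y)` for `p`-regular `y`.
* `block_count_rank`: the number of blocks with normal defect group `D` is the rank of the
  matrix of pair counts of the classes with defect group `D`.
-/

namespace Cfsg.Agent.Lib.helper5

open Cfsg.Agent.Lib.helper23 Cfsg.Agent.Lib.helper24
open scoped ComplexConjugate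

universe u v

section resfield

variable {M : Ideal Cfsg.AlgInt}

theorem locIdeal_isMaximal (hMp : M.IsPrime) : (locIdeal M hMp).IsMaximal := by
  rw [Ideal.isMaximal_iff]
  refine ⟨fun h => not_memLocalIdeal_one hMp h, ?_⟩
  intro J x _ hx hxJ
  have hx' : ¬ Cfsg.MemLocalIdeal M (x : ℂ) := hx
  have hinv : Cfsg.MemLocalRing M ((x : ℂ))⁻¹ := memLocalRing_inv x.2 hx'
  have hx0 : (x : ℂ) ≠ 0 := by
    intro h0
    apply hx'
    rw [h0]
    exact memLocalIdeal_zero hMp.ne_top
  have h1 : (1 : ↥(locRing M hMp)) = (⟨((x : ℂ))⁻¹, hinv⟩ : ↥(locRing M hMp)) * x := by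
    apply Subtype.ext
    rw [Subring.coe_mul, Subring.coe_one]
    exact (inv_mul_cancel₀ hx0).symm
  rw [h1]
  exact J.mul_mem_left _ hxJ

end resfield

section blocksum

variable {G : Type u} [Group G] [Fintype G] [Fintype (Cfsg.IrrCharacter G)]
variable {M : Ideal Cfsg.AlgInt} {p : ℕ} [Fact p.Prime]

theorem isPPart_self_of_pow (s : G) (k : ℕ) (hk : orderOf s = p ^ k) : Cfsg.IsPPart p s s := by
  have hp : p.Prime := Fact.out
  refine ⟨1, mul_one s, Commute.one_right s, ⟨k, hk⟩, ?_⟩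
  rw [orderOf_one]
  exact hp.one_lt.ne' ∘ Nat.dvd_one.mp

open Classical in
/-- `∑ χ ∈ B, χ(y⁻¹) m_χ = |G : S| β_B(y)` for a `p`-regular element `y` and a `p`-subgroup `S`,
where `m_χ` is the multiplicity of the trivial character of `S` in `χ` -/
theorem sum_block_mul_mult (hM : Cfsg.IsPModular p M) (S : Subgroup G) [Fintype S]
    (hS : IsPGroup p S) (m : Cfsg.IrrCharacter G → ℕ)
    (hm : ∀ χ : Cfsg.IrrCharacter G, ∑ z : S, χ.1 (z : G) = (Fintype.card S : ℂ) * (m χ : ℂ))
    (B : Set (Cfsg.IrrCharacter G)) (hB : Cfsg.IsPBlock M B) (y : G) (hy : ¬ p ∣ orderOf y) :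
    ∑ χ : Cfsg.IrrCharacter G, (if χ ∈ B then χ.1 y⁻¹ * (m χ : ℂ) else 0)
      = (S.index : ℂ) * Cfsg.blockCoeff B y := by
  classical
  have hS0 : (Fintype.card S : ℂ) ≠ 0 := by
    exact_mod_cast Fintype.card_ne_zero
  have hG0 : (Nat.card G : ℂ) ≠ 0 := by
    exact_mod_cast Nat.card_pos.ne'
  have h1 : (Fintype.card S : ℂ)
      * ∑ χ : Cfsg.IrrCharacter G, (if χ ∈ B then χ.1 y⁻¹ * (m χ : ℂ) else 0)
      = ∑ s : S, ∑ᶠ χ ∈ B, χ.1 (s : G) * χ.1 y⁻¹ := by
    have h2 : ∀ s : S, ∑ᶠ χ ∈ B, χ.1 (s : G) * χ.1 y⁻¹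
        = ∑ χ : Cfsg.IrrCharacter G, (if χ ∈ B then χ.1 (s : G) * χ.1 y⁻¹ else 0) :=
      fun s => finsum_mem_eq_sum_ite B _
    rw [Finset.sum_congr rfl (fun s _ => h2 s), Finset.sum_comm, Finset.mul_sum]
    apply Finset.sum_congr rfl
    intro χ _
    split_ifs with hχ
    · rw [← Finset.sum_mul, hm χ]
      ring
    · simp
  have h3 : ∀ s : S, ∑ᶠ χ ∈ B, χ.1 (s : G) * χ.1 y⁻¹
      = if s = 1 then (Nat.card G : ℂ) * Cfsg.blockCoeff B y else 0 := by
    intro s
    split_ifs with hs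
    · subst hs
      unfold Cfsg.blockCoeff
      rw [← mul_assoc, mul_inv_cancel₀ hG0, one_mul]
      apply finsum_mem_congr rfl
      intro χ _
      rw [irr_inv, Subgroup.coe_one]
    · obtain ⟨k, hk⟩ := (IsPGroup.iff_orderOf.mp hS) s
      rw [← Subgroup.orderOf_coe] at hk
      apply block_orth hM (s : G) y (s : G) 1 (isPPart_self_of_pow (s : G) k hk)
        (Cfsg.Agent.Lib.helper22.isPPart_one_of_regular y hy) _ B hB
      intro hc
      rw [isConj_one_left] at hc
      exact hs (Subtype.ext hc)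
  rw [Finset.sum_congr rfl (fun s _ => h3 s), Finset.sum_ite_eq' Finset.univ (1 : S),
    if_pos (Finset.mem_univ _)] at h1
  have h4 : (Nat.card G : ℂ) = (S.index : ℂ) * (Fintype.card S : ℂ) := by
    rw [← Nat.card_eq_fintype_card, ← Nat.cast_mul, Subgroup.index_mul_card]
  rw [h4] at h1
  apply mul_left_cancel₀ hS0
  rw [h1]
  ring

end blocksum

section defgrp

variable {G : Type u} [Group G] [Fintype G] [Fintype (Cfsg.IrrCharacter G)]
variable {M : Ideal Cfsg.AlgInt} {p : ℕ} [Fact p.Prime]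

/-- if `ω_τ(u) ∉ J` and the `p`-part of `|C(u)|` is at most the defect of the block of `τ`,
then a Sylow `p`-subgroup of `C(u)` is a defect group of the block of `τ` -/
theorem isDefectGroup_of_centralChar (hM : Cfsg.IsPModular p M) (τ : Cfsg.IrrCharacter G) (u : G)
    (hu : ¬ Cfsg.MemLocalIdeal M (Cfsg.centralChar τ.1 u))
    (Du : Sylow p (Subgroup.centralizer ({u} : Set G)))
    (hle : (Nat.card (Subgroup.centralizer ({u} : Set G))).factorization p
      ≤ Cfsg.blockDefect p (Cfsg.blockOf M τ.1)) :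
    Cfsg.IsDefectGroup p M (Cfsg.blockOf M τ.1)
      ((Du : Subgroup (Subgroup.centralizer ({u} : Set G))).map
        (Subgroup.centralizer ({u} : Set G)).subtype) := by
  have hMp := isPModular_isPrime hM
  have hp : p.Prime := Fact.out
  obtain ⟨g₀, hg₀⟩ := exists_defectClass hMp τ
  obtain ⟨Dv⟩ : Nonempty (Sylow p (Subgroup.centralizer ({g₀} : Set G))) := inferInstance
  obtain ⟨c, hc⟩ := key_sylow hM τ u g₀ hu hg₀.2.1 Du Dv
  have hcard : Nat.card (((Du : Subgroup (Subgroup.centralizer ({u} : Set G))).map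
        (Subgroup.centralizer ({u} : Set G)).subtype).map (MulAut.conj c).toMonoidHom)
      ≤ Nat.card ((Dv : Subgroup (Subgroup.centralizer ({g₀} : Set G))).map
        (Subgroup.centralizer ({g₀} : Set G)).subtype) := by
    rw [card_map_conj, card_sylow_map, card_sylow_map, defect_class_factorization hM τ g₀ hg₀]
    exact Nat.pow_le_pow_right hp.pos hle
  have heq := Subgroup.eq_of_le_of_card_ge hc hcard
  have hdef : Cfsg.IsDefectGroup p M (Cfsg.blockOf M τ.1)
      ((Dv : Subgroup (Subgroup.centralizer ({g₀} : Set G))).map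
        (Subgroup.centralizer ({g₀} : Set G)).subtype) := ⟨g₀, hg₀, Dv, rfl⟩
  have h2 := isDefectGroup_conj hdef c⁻¹
  rw [heq, map_conj_map_conj, inv_mul_cancel, map_conj_one] at h2
  exact h2

theorem map_conj_of_normal (D : Subgroup G) [D.Normal] (c : G) :
    D.map (MulAut.conj c).toMonoidHom = D := by
  ext a
  rw [mem_map_conj]
  constructor
  · intro h
    have h1 := Subgroup.Normal.conj_mem (inferInstance : D.Normal) _ h c
    have h2 : c * (c⁻¹ * a * c) * c⁻¹ = a := by group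
    rwa [h2] at h1
  · intro h
    have h1 := Subgroup.Normal.conj_mem (inferInstance : D.Normal) _ h c⁻¹
    rwa [inv_inv] at h1

/-- if the normal subgroup `D` is a defect group of the block of `τ`, `ω_τ(u) ∉ J` and the
`p`-part of `|C(u)|` is at most `|D|`, then `D` is a Sylow `p`-subgroup of `C(u)` -/
theorem sylow_centralizer_eq_of_normal_defect (hM : Cfsg.IsPModular p M)
    (τ : Cfsg.IrrCharacter G) (D : Subgroup G) [D.Normal]
    (hD : Cfsg.IsDefectGroup p M (Cfsg.blockOf M τ.1) D) (u : G)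
    (hu : ¬ Cfsg.MemLocalIdeal M (Cfsg.centralChar τ.1 u))
    (hle : (Nat.card (Subgroup.centralizer ({u} : Set G))).factorization p
      ≤ Cfsg.blockDefect p (Cfsg.blockOf M τ.1))
    (Du : Sylow p (Subgroup.centralizer ({u} : Set G))) :
    (Du : Subgroup (Subgroup.centralizer ({u} : Set G))).map
        (Subgroup.centralizer ({u} : Set G)).subtype = D := by
  have h1 := isDefectGroup_of_centralChar hM τ u hu Du hle
  obtain ⟨c, hc⟩ := defectGroups_conj hM τ _ _ h1 hD
  rw [map_conj_of_normal] at hc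
  exact hc.symm

end defgrp

section pairs

variable {G : Type u} [Group G] [Fintype G] [Fintype (Cfsg.IrrCharacter G)]
variable {M : Ideal Cfsg.AlgInt} {p : ℕ} [Fact p.Prime]

/-- the pair count of two classes relative to a Sylow `p`-subgroup is divisible by
`p ^ (a - d)`, and the quotient times the `p'`-part of `|C(x₂)|` is the character sum -/
theorem pairs_div_formula (hM : Cfsg.IsPModular p M) (S : Sylow p G)
    [Fintype (S : Subgroup G)] (m : Cfsg.IrrCharacter G → ℕ)
    (hm : ∀ χ : Cfsg.IrrCharacter G, ∑ z : (S : Subgroup G), χ.1 (z : G)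
      = (Fintype.card (S : Subgroup G) : ℂ) * (m χ : ℂ)) (x₁ x₂ : G) :
    ((Nat.card {yz : G × G // IsConj x₁ yz.1 ∧ IsConj x₂ yz.2 ∧
          yz.2 * yz.1⁻¹ ∈ (S : Subgroup G)}
        / p ^ ((Nat.card G).factorization p
          - (Nat.card (Subgroup.centralizer ({x₂} : Set G))).factorization p) : ℕ) : ℂ)
      * ((Nat.card (Subgroup.centralizer ({x₂} : Set G))
          / p ^ (Nat.card (Subgroup.centralizer ({x₂} : Set G))).factorization p : ℕ) : ℂ)
      = ∑ χ : Cfsg.IrrCharacter G, Cfsg.centralChar χ.1 x₁ * χ.1 x₂⁻¹ * (m χ : ℂ) := by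
  have hMp := isPModular_isPrime hM
  have hp : p.Prime := Fact.out
  have hform := card_pairs_formula x₁ x₂ (S : Subgroup G) m hm
  obtain ⟨N, hN⟩ : ∃ N : ℕ, N = Nat.card {yz : G × G // IsConj x₁ yz.1 ∧ IsConj x₂ yz.2 ∧
      yz.2 * yz.1⁻¹ ∈ (S : Subgroup G)} := ⟨_, rfl⟩
  obtain ⟨C, hC⟩ : ∃ C : ℕ, C = Nat.card (Subgroup.centralizer ({x₂} : Set G)) := ⟨_, rfl⟩
  obtain ⟨a, ha⟩ : ∃ a : ℕ, a = (Nat.card G).factorization p := ⟨_, rfl⟩
  obtain ⟨d, hd⟩ : ∃ d : ℕ, d = C.factorization p := ⟨_, rfl⟩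
  obtain ⟨T, hT⟩ : ∃ T : ℂ, T = ∑ χ : Cfsg.IrrCharacter G,
      Cfsg.centralChar χ.1 x₁ * χ.1 x₂⁻¹ * (m χ : ℂ) := ⟨_, rfl⟩
  obtain ⟨c, hc⟩ : ∃ c : ℕ, c = C / p ^ d := ⟨_, rfl⟩
  rw [← hN, ← hC, ← hT] at hform
  rw [← hN, ← hC, ← hd, ← ha, ← hc, ← hT]
  have hS : Fintype.card (S : Subgroup G) = p ^ a := by
    rw [← Nat.card_eq_fintype_card, ha]
    exact Sylow.card_eq_multiplicity S
  have hC0 : C ≠ 0 := by
    rw [hC]
    exact Nat.card_pos.ne'
  have hda : d ≤ a := by
    rw [hd, ha]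
    exact (Nat.factorization_le_iff_dvd hC0 Nat.card_pos.ne').mpr
      (by rw [hC]; exact Subgroup.card_subgroup_dvd_card _) p
  have hCc : C = p ^ d * c := by
    rw [hc, hd]
    exact (Nat.ordProj_mul_ordCompl_eq_self C p).symm
  have hpc : ¬ p ∣ c := by
    rw [hc, hd]
    exact Nat.not_dvd_ordCompl hp hC0
  have hTR : Cfsg.MemLocalRing M T := by
    rw [hT]
    apply memLocalRing_sum hMp
    intro χ _
    exact memLocalRing_mul hMp (memLocalRing_mul hMp (memLocalRing_centralChar hMp χ x₁)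
      (memLocalRing_of_isIntegral hMp.ne_top
        (isCharacter_isIntegral (isCharacter_of_isIrrCharacter χ.2) x₂⁻¹)))
      (memLocalRing_natCast hMp.ne_top _)
  have hp0 : (p : ℂ) ≠ 0 := by exact_mod_cast hp.ne_zero
  have h1 : ((N * c : ℕ) : ℂ) = (p : ℂ) ^ (a - d) * T := by
    have h2 : (p : ℂ) ^ a = (p : ℂ) ^ (a - d) * (p : ℂ) ^ d := by
      rw [← pow_add, Nat.sub_add_cancel hda]
    rw [hS, hCc] at hform
    push_cast at hform ⊢
    rw [h2] at hform
    have h3 : (p : ℂ) ^ d ≠ 0 := pow_ne_zero _ hp0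
    apply mul_right_cancel₀ h3
    linear_combination hform
  have hdvd : p ^ (a - d) ∣ N := by
    have h2 : (p : ℤ) ^ (a - d) ∣ ((N * c : ℕ) : ℤ) := by
      apply pow_dvd_of_memLocalRing hM
      have h3 : (((N * c : ℕ) : ℤ) : ℂ) / (p : ℂ) ^ (a - d) = T := by
        rw [Int.cast_natCast, h1]
        field_simp
      rw [h3]
      exact hTR
    have h4 : p ^ (a - d) ∣ N * c := by exact_mod_cast h2
    exact (Nat.Coprime.pow_left _ ((Nat.Prime.coprime_iff_not_dvd hp).mpr hpc)).dvd_of_dvd_mul_right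
      h4
  obtain ⟨n, hn⟩ := hdvd
  have hn' : N / p ^ (a - d) = n := by
    rw [hn]
    exact Nat.mul_div_cancel_left n (pow_pos hp.pos _)
  rw [hn']
  rw [hn] at h1
  push_cast at h1
  have h5 : (p : ℂ) ^ (a - d) ≠ 0 := pow_ne_zero _ hp0
  apply mul_left_cancel₀ h5
  linear_combination h1

/-- duality between the block idempotent coefficients and the central characters on the
classes with defect group `D`, modulo the local ideal -/
theorem dual_mod (hM : Cfsg.IsPModular p M) (D : Subgroup G) [D.Normal]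
    {ι : Type v} [Fintype ι] [DecidableEq ι] (K : ι → ConjClasses G)
    (hKinj : Function.Injective K)
    (hK : ∀ C : ConjClasses G, (∃ i, K i = C) ↔ ∃ x ∈ C.carrier, ¬ p ∣ orderOf x ∧
      ∃ Q : Sylow p (Subgroup.centralizer ({x} : Set G)),
        (Q : Subgroup (Subgroup.centralizer ({x} : Set G))).map
          (Subgroup.centralizer ({x} : Set G)).subtype = D)
    (x : ι → G) (hx : ∀ i, x i ∈ (K i).carrier) (τ τ' : Cfsg.IrrCharacter G)
    (hτ : Cfsg.IsDefectGroup p M (Cfsg.blockOf M τ.1) D)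
    (hτ' : Cfsg.IsDefectGroup p M (Cfsg.blockOf M τ'.1) D) :
    Cfsg.MemLocalIdeal M
      ((∑ i : ι, Cfsg.blockCoeff (Cfsg.blockOf M τ.1) (x i) * Cfsg.centralChar τ'.1 (x i))
        - (Cfsg.blockOf M τ.1).indicator (fun _ => (1 : ℂ)) τ') := by
  classical
  have hMp := isPModular_isPrime hM
  have hp : p.Prime := Fact.out
  have h1 := coord_eq_sum_conjClasses ((Cfsg.blockOf M τ.1).indicator (fun _ => (1 : ℂ))) τ'
  have hcardD := card_defectGroup p hM _ ⟨τ, rfl⟩ D hτ
  have hcardD' := card_defectGroup p hM _ ⟨τ', rfl⟩ D hτ'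
  have hdd : Cfsg.blockDefect p (Cfsg.blockOf M τ.1) = Cfsg.blockDefect p (Cfsg.blockOf M τ'.1) :=
    Nat.pow_right_injective hp.two_le (hcardD.symm.trans hcardD')
  -- the terms of the classes outside the range of `K` lie in the ideal
  have hout : ∀ c : ConjClasses G, c ∉ Finset.univ.image K →
      Cfsg.MemLocalIdeal M (coef ((Cfsg.blockOf M τ.1).indicator (fun _ => (1 : ℂ)))
        (Quotient.out c) * Cfsg.centralChar τ'.1 (Quotient.out c)) := by
    intro c hc
    rw [coef_indicator]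
    by_contra hcon
    have hb : ¬ Cfsg.MemLocalIdeal M (Cfsg.blockCoeff (Cfsg.blockOf M τ.1) (Quotient.out c)) :=
      fun h => hcon (memLocalIdeal_mul_right hMp h (memLocalRing_centralChar hMp τ' _))
    have hw : ¬ Cfsg.MemLocalIdeal M (Cfsg.centralChar τ'.1 (Quotient.out c)) :=
      fun h => hcon (memLocalIdeal_mul_left hMp (memLocalRing_blockCoeff hM τ _) h)
    have hreg := regular_of_blockCoeff hM τ _ hb
    have hle := factorization_le_blockDefect hM τ _ hb
    rw [hdd] at hle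
    obtain ⟨Du⟩ : Nonempty (Sylow p (Subgroup.centralizer ({Quotient.out c} : Set G))) :=
      inferInstance
    have hDu := sylow_centralizer_eq_of_normal_defect hM τ' D hτ' (Quotient.out c) hw hle Du
    apply hc
    rw [Finset.mem_image]
    obtain ⟨i, hi⟩ := (hK c).mpr ⟨Quotient.out c,
      ConjClasses.mem_carrier_iff_mk_eq.mpr (Quotient.out_eq c), hreg, Du, hDu⟩
    exact ⟨i, Finset.mem_univ i, hi⟩
  have hin : ∀ i : ι, coef ((Cfsg.blockOf M τ.1).indicator (fun _ => (1 : ℂ)))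
        (Quotient.out (K i)) * Cfsg.centralChar τ'.1 (Quotient.out (K i))
      = Cfsg.blockCoeff (Cfsg.blockOf M τ.1) (x i) * Cfsg.centralChar τ'.1 (x i) := by
    intro i
    rw [coef_indicator]
    have h2 : ConjClasses.mk (x i) = ConjClasses.mk (Quotient.out (K i)) := by
      rw [ConjClasses.mem_carrier_iff_mk_eq.mp (hx i)]
      exact (Quotient.out_eq (K i)).symm
    obtain ⟨t, ht⟩ := isConj_iff.mp (ConjClasses.mk_eq_mk_iff_isConj.mp h2)
    rw [← ht, Cfsg.Agent.Lib.helper5.blockCoeff_conj, Cfsg.Agent.Lib.helper5.centralChar_conj]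
  rw [← Finset.sum_add_sum_compl (Finset.univ.image K)] at h1
  rw [Finset.sum_image (fun i _ j _ hij => hKinj hij), Finset.sum_congr rfl (fun i _ => hin i)]
    at h1
  rw [h1, sub_add_cancel_left]
  apply memLocalIdeal_neg
  apply memLocalIdeal_sum hMp
  intro c hc
  rw [Finset.mem_compl] at hc
  exact hout c hc

end pairs

section main

variable {G : Type u} [Group G] [Fintype G] [Fintype (Cfsg.IrrCharacter G)]
variable {M : Ideal Cfsg.AlgInt} {p : ℕ} [Fact p.Prime]

/-- the rank computation over a residue field `k` of the local ring -/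
theorem block_count_rank_aux (hM : Cfsg.IsPModular p M) (hMp : M.IsPrime)
    {k : Type} [Field k] (π : ↥(locRing M hMp) →+* k)
    (hπ : ∀ z : ↥(locRing M hMp), π z = 0 ↔ Cfsg.MemLocalIdeal M (z : ℂ))
    (D : Subgroup G) [D.Normal] (S : Sylow p G)
    {ι : Type v} [Fintype ι] [DecidableEq ι] (K : ι → ConjClasses G)
    (hKinj : Function.Injective K)
    (hK : ∀ C : ConjClasses G, (∃ i, K i = C) ↔ ∃ x ∈ C.carrier, ¬ p ∣ orderOf x ∧
      ∃ Q : Sylow p (Subgroup.centralizer ({x} : Set G)),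
        (Q : Subgroup (Subgroup.centralizer ({x} : Set G))).map
          (Subgroup.centralizer ({x} : Set G)).subtype = D)
    (x : ι → G) (hxK : ∀ i, x i ∈ (K i).carrier) (hxreg : ∀ i, ¬ p ∣ orderOf (x i))
    (Q : ∀ i, Sylow p (Subgroup.centralizer ({x i} : Set G)))
    (hQ : ∀ i, ((Q i : Sylow p (Subgroup.centralizer ({x i} : Set G))) :
      Subgroup (Subgroup.centralizer ({x i} : Set G))).map
        (Subgroup.centralizer ({x i} : Set G)).subtype = D)
    [Fintype {τ : Cfsg.IrrCharacter G //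
      blockRep M τ = τ ∧ Cfsg.IsDefectGroup p M (Cfsg.blockOf M τ.1) D}] :
    (Matrix.of fun i j : ι =>
      ((Nat.card {yz : G × G // IsConj (x i) yz.1 ∧ IsConj (x j) yz.2 ∧
          yz.2 * yz.1⁻¹ ∈ (S : Subgroup G)}
        / p ^ ((Nat.card G).factorization p - (Nat.card D).factorization p) : ℕ) : k)).rank
      = Fintype.card {τ : Cfsg.IrrCharacter G //
          blockRep M τ = τ ∧ Cfsg.IsDefectGroup p M (Cfsg.blockOf M τ.1) D} := by
  classical
  have hp : p.Prime := Fact.out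
  haveI : Fintype (S : Subgroup G) := Fintype.ofFinite _
  choose m hm using fun χ : Cfsg.IrrCharacter G => irr_sum_subgroup χ (S : Subgroup G)
  obtain ⟨d, hd⟩ : ∃ d, d = (Nat.card D).factorization p := ⟨_, rfl⟩
  have hcent : ∀ l : ι,
      (Nat.card (Subgroup.centralizer ({x l} : Set G))).factorization p = d := by
    intro l
    rw [hd, ← hQ l, card_sylow_map, hp.factorization_pow, Finsupp.single_eq_same]
  have hπeq : ∀ z w : ↥(locRing M hMp), Cfsg.MemLocalIdeal M ((z : ℂ) - (w : ℂ)) →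
      π z = π w := by
    intro z w h
    apply sub_eq_zero.mp
    rw [← map_sub, hπ, AddSubgroupClass.coe_sub]
    exact h
  have hπnat : ∀ n : ℕ, ¬ p ∣ n → ((n : ℕ) : k) ≠ 0 := by
    intro n hn h0
    have h1 : ((n : ℕ) : k) = π ((n : ℕ) : ↥(locRing M hMp)) := (map_natCast π n).symm
    rw [h1, hπ, Subring.coe_natCast, memLocalIdeal_natCast_iff hM] at h0
    exact hn h0
  -- the pair counts
  obtain ⟨n, hn⟩ : ∃ n : ι → ι → ℕ, ∀ i j, n i j
      = Nat.card {yz : G × G // IsConj (x i) yz.1 ∧ IsConj (x j) yz.2 ∧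
          yz.2 * yz.1⁻¹ ∈ (S : Subgroup G)}
        / p ^ ((Nat.card G).factorization p - d) := ⟨fun i j => _, fun _ _ => rfl⟩
  obtain ⟨c, hc⟩ : ∃ c : ι → ℕ, ∀ j, c j
      = Nat.card (Subgroup.centralizer ({x j} : Set G)) / p ^ d := ⟨fun j => _, fun _ => rfl⟩
  have hcp : ∀ j, ¬ p ∣ c j := by
    intro j
    rw [hc, ← hcent j]
    exact Nat.not_dvd_ordCompl hp Nat.card_pos.ne'
  have hident : ∀ i j : ι, ((n i j : ℕ) : ℂ) * ((c j : ℕ) : ℂ)
      = ∑ χ : Cfsg.IrrCharacter G,
          Cfsg.centralChar χ.1 (x i) * χ.1 (x j)⁻¹ * (m χ : ℂ) := by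
    intro i j
    have h1 := pairs_div_formula hM S m hm (x i) (x j)
    rw [hcent j] at h1
    rw [hn, hc]
    exact h1
  simp only [← hd, ← hn]
  -- lifts to the local ring
  obtain ⟨W, hW⟩ : ∃ W : Cfsg.IrrCharacter G → ι → ↥(locRing M hMp),
      ∀ χ i, ((W χ i : ↥(locRing M hMp)) : ℂ) = Cfsg.centralChar χ.1 (x i) :=
    ⟨fun χ i => ⟨_, memLocalRing_centralChar hMp χ (x i)⟩, fun _ _ => rfl⟩
  obtain ⟨Y, hY⟩ : ∃ Y : Cfsg.IrrCharacter G → ι → ↥(locRing M hMp),
      ∀ χ j, ((Y χ j : ↥(locRing M hMp)) : ℂ) = χ.1 (x j)⁻¹ :=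
    ⟨fun χ j => ⟨_, memLocalRing_of_isIntegral hMp.ne_top
      (isCharacter_isIntegral (isCharacter_of_isIrrCharacter χ.2) (x j)⁻¹)⟩, fun _ _ => rfl⟩
  obtain ⟨bR, hbR⟩ : ∃ bR : Cfsg.IrrCharacter G → ι → ↥(locRing M hMp),
      ∀ τ j, ((bR τ j : ↥(locRing M hMp)) : ℂ)
        = Cfsg.blockCoeff (Cfsg.blockOf M τ.1) (x j) :=
    ⟨fun τ j => ⟨_, memLocalRing_blockCoeff hM τ (x j)⟩, fun _ _ => rfl⟩
  have hidentR : ∀ i j : ι,
      ∑ χ : Cfsg.IrrCharacter G, W χ i * Y χ j * (m χ : ↥(locRing M hMp))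
      = ((n i j : ℕ) : ↥(locRing M hMp)) * ((c j : ℕ) : ↥(locRing M hMp)) := by
    intro i j
    apply Subtype.ext
    rw [AddSubmonoidClass.coe_finsetSum]
    simp only [Subring.coe_mul, hW, hY, Subring.coe_natCast]
    rw [hident i j]
  have hres : ∀ i j : ι, ∑ χ : Cfsg.IrrCharacter G,
      π (W χ i) * π (Y χ j) * (m χ : k) = ((n i j : ℕ) : k) * ((c j : ℕ) : k) := by
    intro i j
    have h1 := congrArg π (hidentR i j)
    rw [map_sum] at h1
    simp only [map_mul, map_natCast] at h1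
    exact h1
  have hWrep : ∀ χ i, π (W χ i) = π (W (blockRep M χ) i) := by
    intro χ i
    apply hπeq
    rw [hW, hW]
    exact (blockRep_mem hMp χ) (x i)
  obtain ⟨A, hA⟩ : ∃ A : Matrix ι (Cfsg.IrrCharacter G) k,
      ∀ i τ, A i τ = π (W τ i) := ⟨fun i τ => π (W τ i), fun _ _ => rfl⟩
  obtain ⟨U, hU⟩ : ∃ U : Matrix (Cfsg.IrrCharacter G) ι k,
      ∀ τ j, U τ j = π (bR τ j) := ⟨fun τ j => π (bR τ j), fun _ _ => rfl⟩
  obtain ⟨V, hV⟩ : ∃ V : Matrix (Cfsg.IrrCharacter G) ι k,
      ∀ τ j, V τ j = π (∑ χ ∈ Finset.univ.filter (fun χ => blockRep M χ = τ),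
        Y χ j * (m χ : ↥(locRing M hMp))) := ⟨fun τ j => _, fun _ _ => rfl⟩
  have hAV : ∀ i j : ι, ∑ τ : Cfsg.IrrCharacter G, A i τ * V τ j
      = ((n i j : ℕ) : k) * ((c j : ℕ) : k) := by
    intro i j
    rw [← hres i j]
    have h1 : ∀ τ : Cfsg.IrrCharacter G, A i τ * V τ j
        = ∑ χ ∈ Finset.univ.filter (fun χ => blockRep M χ = τ),
            π (W χ i) * π (Y χ j) * (m χ : k) := by
      intro τ
      rw [hA, hV, map_sum, Finset.mul_sum]
      apply Finset.sum_congr rfl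
      intro χ hχ
      rw [Finset.mem_filter] at hχ
      rw [hWrep χ i, hχ.2, map_mul, map_natCast, mul_assoc]
    rw [Finset.sum_congr rfl (fun τ _ => h1 τ)]
    exact Finset.sum_fiberwise _ _ _
  -- the matrix `V` in terms of the block idempotent coefficients
  have hVU : ∀ τ j, V τ j
      = if blockRep M τ = τ then (((S : Subgroup G).index : ℕ) : k) * U τ j else 0 := by
    intro τ j
    split_ifs with hτ
    · have h1 : ∑ χ ∈ Finset.univ.filter (fun χ => blockRep M χ = τ),
            Y χ j * (m χ : ↥(locRing M hMp))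
          = (((S : Subgroup G).index : ℕ) : ↥(locRing M hMp)) * bR τ j := by
        apply Subtype.ext
        rw [AddSubmonoidClass.coe_finsetSum]
        simp only [Subring.coe_mul, hY, hbR, Subring.coe_natCast]
        rw [← sum_block_mul_mult hM (S : Subgroup G) S.isPGroup' m hm (Cfsg.blockOf M τ.1)
          ⟨τ, rfl⟩ (x j) (hxreg j), Finset.sum_filter]
        apply Finset.sum_congr rfl
        intro χ _
        have hiff : blockRep M χ = τ ↔ χ ∈ Cfsg.blockOf M τ.1 := by
          constructor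
          · intro h
            have h2 := blockRep_mem hMp χ
            rw [h] at h2
            exact sameBlock_symm h2
          · intro h
            rw [blockRep_congr hMp (blockOf_eq_of_mem hMp h), hτ]
        by_cases h : χ ∈ Cfsg.blockOf M τ.1
        · rw [if_pos (hiff.mpr h), if_pos h]
        · rw [if_neg (fun h' => h (hiff.mp h')), if_neg h]
      rw [hV, h1, map_mul, map_natCast, hU]
    · have hemp : Finset.univ.filter (fun χ : Cfsg.IrrCharacter G => blockRep M χ = τ) = ∅ := by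
        rw [Finset.eq_empty_iff_forall_notMem]
        intro χ hχ
        rw [Finset.mem_filter] at hχ
        apply hτ
        rw [← hχ.2, blockRep_blockRep hMp]
      rw [hV, hemp, Finset.sum_empty, map_zero]
  -- terms outside the blocks with defect group `D` vanish
  have hvan : ∀ (i j : ι) (τ : Cfsg.IrrCharacter G),
      ¬ Cfsg.IsDefectGroup p M (Cfsg.blockOf M τ.1) D → A i τ * U τ j = 0 := by
    intro i j τ hτD
    by_contra hne
    have hAne : A i τ ≠ 0 := left_ne_zero_of_mul hne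
    have hUne : U τ j ≠ 0 := right_ne_zero_of_mul hne
    rw [hA, Ne, hπ, hW] at hAne
    rw [hU, Ne, hπ, hbR] at hUne
    have hle := factorization_le_blockDefect hM τ (x j) hUne
    rw [hcent j, ← hcent i] at hle
    have h1 := isDefectGroup_of_centralChar hM τ (x i) hAne (Q i) hle
    rw [hQ i] at h1
    exact hτD h1
  obtain ⟨A', hA'⟩ : ∃ A' : Matrix ι {τ : Cfsg.IrrCharacter G //
      blockRep M τ = τ ∧ Cfsg.IsDefectGroup p M (Cfsg.blockOf M τ.1) D} k,
      ∀ i τ, A' i τ = A i τ.1 := ⟨fun i τ => A i τ.1, fun _ _ => rfl⟩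
  obtain ⟨U', hU'⟩ : ∃ U' : Matrix {τ : Cfsg.IrrCharacter G //
      blockRep M τ = τ ∧ Cfsg.IsDefectGroup p M (Cfsg.blockOf M τ.1) D} ι k,
      ∀ τ j, U' τ j = U τ.1 j := ⟨fun τ j => U τ.1 j, fun _ _ => rfl⟩
  have hNk : (Matrix.of fun i j : ι => ((n i j : ℕ) : k))
        * Matrix.diagonal (fun j : ι => ((c j : ℕ) : k))
      = (((S : Subgroup G).index : ℕ) : k) • (A' * U') := by
    ext i j
    rw [Matrix.mul_diagonal, Matrix.of_apply, Matrix.smul_apply, Matrix.mul_apply, smul_eq_mul,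
      ← hAV i j, Finset.mul_sum]
    have h1 : ∀ τ : Cfsg.IrrCharacter G, A i τ * V τ j
        = if blockRep M τ = τ ∧ Cfsg.IsDefectGroup p M (Cfsg.blockOf M τ.1) D
          then (((S : Subgroup G).index : ℕ) : k) * (A i τ * U τ j) else 0 := by
      intro τ
      rw [hVU]
      by_cases h1 : blockRep M τ = τ
      · by_cases h2 : Cfsg.IsDefectGroup p M (Cfsg.blockOf M τ.1) D
        · rw [if_pos h1, if_pos ⟨h1, h2⟩]
          ring
        · rw [if_pos h1, if_neg (fun h => h2 h.2)]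
          rw [mul_left_comm, hvan i j τ h2, mul_zero]
      · rw [if_neg h1, if_neg (fun h => h1 h.1), mul_zero]
    rw [Finset.sum_congr rfl (fun τ _ => h1 τ), ← Finset.sum_filter]
    rw [Finset.sum_subtype (p := fun τ : Cfsg.IrrCharacter G =>
        blockRep M τ = τ ∧ Cfsg.IsDefectGroup p M (Cfsg.blockOf M τ.1) D)
      (Finset.univ.filter (fun τ : Cfsg.IrrCharacter G =>
        blockRep M τ = τ ∧ Cfsg.IsDefectGroup p M (Cfsg.blockOf M τ.1) D))
      (fun τ => by simp)]
    apply Finset.sum_congr rfl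
    intro τ _
    rw [hA', hU']
  -- duality
  have hUA : U' * A' = 1 := by
    ext τ τ'
    rw [Matrix.mul_apply]
    have h1 : ∑ i : ι, U' τ i * A' i τ' = π (∑ i : ι, bR τ.1 i * W τ'.1 i) := by
      rw [map_sum]
      apply Finset.sum_congr rfl
      intro i _
      rw [hU', hA', hU, hA, map_mul]
    have h2 := dual_mod hM D K hKinj hK x hxK τ.1 τ'.1 τ.2.2 τ'.2.2
    rw [h1, Matrix.one_apply]
    split_ifs with hττ
    · rw [← map_one π]
      apply hπeq
      rw [AddSubmonoidClass.coe_finsetSum]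
      simp only [Subring.coe_mul, hbR, hW, Subring.coe_one]
      have h3 : τ'.1 ∈ Cfsg.blockOf M τ.1.1 := by
        rw [hττ]
        exact mem_blockOf_self hMp.ne_top τ'.1
      rw [Set.indicator_of_mem h3] at h2
      exact h2
    · rw [hπ, AddSubmonoidClass.coe_finsetSum]
      simp only [Subring.coe_mul, hbR, hW]
      have h3 : τ'.1 ∉ Cfsg.blockOf M τ.1.1 := by
        intro h
        apply hττ
        apply Subtype.ext
        have h4 := blockRep_congr hMp (blockOf_eq_of_mem hMp h)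
        rw [τ.2.1, τ'.2.1] at h4
        exact h4.symm
      rw [Set.indicator_of_notMem h3, sub_zero] at h2
      exact h2
  rw [← rank_mul_diagonal_of_ne_zero (fun j : ι => ((c j : ℕ) : k)) (fun j => hπnat _ (hcp j)),
    hNk, rank_smul_of_ne_zero _ (hπnat _ S.not_dvd_index)]
  exact rank_mul_of_left_inv A' U' hUA

end main

end Cfsg.Agent.Lib.helper5
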