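import Mathlib
import Cfsg.Agent.Lib.helper23.BrauerFeit
import Cfsg.Agent.Lib.helper23.BlockDefectZero

set_option autoImplicit false

/-!
# 2-blocks of defect one

A `2`-block of numerical defect one consists of two characters that agree on the elements of odd
order and are negatives of each other on the elements of even order.
-/

namespace Cfsg.Agent.Lib.helper5

open Cfsg.Agent.Lib.helper23 Cfsg.Agent.Lib.helper24
open scoped ComplexConjugate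

universe u

section defectone

variable {K : Type u} [Group K] [Fintype K] [Fintype (Cfsg.IrrCharacter K)]
variable {M : Ideal Cfsg.AlgInt}

theorem defect_one_two (hM : Cfsg.IsPModular 2 M) (B : Set (Cfsg.IrrCharacter K))
    (hB : Cfsg.IsPBlock M B) (hd : Cfsg.blockDefect 2 B = 1) :
    ∃ χ₁ χ₂ : Cfsg.IrrCharacter K, χ₁ ≠ χ₂ ∧ B = {χ₁, χ₂} ∧
      (∀ g : K, ¬ 2 ∣ orderOf g → χ₁.1 g = χ₂.1 g) ∧
      (∀ g : K, 2 ∣ orderOf g → χ₂.1 g = - χ₁.1 g) := by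
  classical
  haveI : Fact (Nat.Prime 2) := ⟨Nat.prime_two⟩
  have hMp := isPModular_isPrime hM
  obtain ⟨ν₀, hν₀, hht, χ₁, hχ₁, h0⟩ := block_nu 2 hM B hB
  obtain ⟨χ₀, hBdef⟩ := id hB
  obtain ⟨a, ha⟩ : ∃ a : ℕ, a = (Nat.card K).factorization 2 := ⟨_, rfl⟩
  rw [hd, ← ha] at hν₀
  obtain ⟨n, hn⟩ : ∃ n : ℤ, n = nInt 2 χ₁ χ₁ := ⟨_, rfl⟩
  have hdeg1 : (Cfsg.charDegree χ₁.1).factorization 2 = ν₀ := by
    rw [hht χ₁ hχ₁, h0, add_zero]
  have hn1 := nInt_of_height_zero 2 hM B hB χ₁ χ₁ hχ₁ hχ₁ h0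
  rw [hdeg1, ← hn] at hn1
  have hn2 := nInt_self_bounds 2 χ₁
  rw [← hn, ← ha] at hn2
  simp only [Nat.cast_ofNat] at hn1 hn2
  have hpos : (0 : ℤ) < 2 ^ ν₀ := by positivity
  have h2a : (2 : ℤ) ^ a = 2 ^ ν₀ * 2 := by rw [← hν₀, pow_succ]
  have hnval : n = 2 ^ ν₀ := by
    obtain ⟨c, hc⟩ := hn1.2
    have hc1 : 0 < c := by
      by_contra hcn
      push Not at hcn
      have h1 : n ≤ 0 := by
        rw [hc]
        nlinarith
      linarith [hn2.1]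
    have hc2 : c ≤ 2 := by
      have h1 : (2 : ℤ) ^ ν₀ * c ≤ 2 ^ ν₀ * 2 := by rw [← hc, ← h2a]; exact hn2.2.1
      exact le_of_mul_le_mul_left h1 hpos
    have hc' : c = 1 ∨ c = 2 := by omega
    rcases hc' with rfl | rfl
    · rw [hc, mul_one]
    · exfalso
      have hnfull : n = 2 ^ a := by rw [hc, h2a]
      have hvan := hn2.2.2 hnfull
      have h1 := factorization_le_of_vanish_singular 2 χ₁ hvan
      rw [hdeg1, ← ha] at h1
      omega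
  have hoff := nInt_offdiag 2 χ₁
  rw [← hn, ← ha, hnval] at hoff
  simp only [Nat.cast_ofNat] at hoff
  have hoffval : (2 : ℤ) ^ ν₀ * (2 ^ a - 2 ^ ν₀) = (2 ^ ν₀) ^ 2 := by rw [h2a]; ring
  rw [hoffval] at hoff
  have hout : ∀ ψ : Cfsg.IrrCharacter K, ψ ∉ B → nInt 2 χ₁ ψ = 0 := by
    intro ψ hψ
    have h1 := inner_ptrunc_eq_zero_of_not_mem hM χ₀ χ₁ ψ (by rw [← hBdef]; exact hχ₁)
      (by rw [← hBdef]; exact hψ)
    rw [nInt_spec] at h1
    exact_mod_cast h1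
  have hin : ∀ ψ ∈ B, (2 : ℤ) ^ ν₀ ∣ nInt 2 χ₁ ψ ∧ nInt 2 χ₁ ψ ≠ 0 := by
    intro ψ hψ
    have h1 := nInt_of_height_zero 2 hM B hB χ₁ ψ hχ₁ hψ h0
    refine ⟨?_, h1.1⟩
    have h2 : ν₀ ≤ (Cfsg.charDegree ψ.1).factorization 2 := by rw [hht ψ hψ]; omega
    have h3 := h1.2
    simp only [Nat.cast_ofNat] at h3
    exact dvd_trans (pow_dvd_pow 2 h2) h3
  have hsq : ∀ ψ ∈ B, ((2 : ℤ) ^ ν₀) ^ 2 ≤ nInt 2 χ₁ ψ ^ 2 :=
    fun ψ hψ => sq_ge_of_dvd hpos (hin ψ hψ).1 (hin ψ hψ).2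
  have hsqpos : (0 : ℤ) < (2 ^ ν₀) ^ 2 := by positivity
  have hex : ∃ χ₂ : Cfsg.IrrCharacter K, χ₂ ≠ χ₁ ∧ nInt 2 χ₁ χ₂ ≠ 0 := by
    by_contra hcon
    push Not at hcon
    have h1 : ∑ ψ : Cfsg.IrrCharacter K, (if ψ ≠ χ₁ then nInt 2 χ₁ ψ ^ 2 else 0) = 0 := by
      apply Finset.sum_eq_zero
      intro ψ _
      by_cases h : ψ ≠ χ₁
      · rw [if_pos h, hcon ψ h]; ring
      · rw [if_neg h]
    rw [h1] at hoff
    omega
  obtain ⟨χ₂, h21, hm0⟩ := hex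
  have hχ₂ : χ₂ ∈ B := by
    by_contra h
    exact hm0 (hout χ₂ h)
  have htnn : ∀ ψ : Cfsg.IrrCharacter K, 0 ≤ (if ψ ≠ χ₁ then nInt 2 χ₁ ψ ^ 2 else 0) := by
    intro ψ
    split_ifs <;> positivity
  have hothers : ∀ ψ ∈ B, ψ = χ₁ ∨ ψ = χ₂ := by
    intro ψ hψ
    by_contra hcon
    push Not at hcon
    have hpair : ∑ i ∈ ({χ₂, ψ} : Finset (Cfsg.IrrCharacter K)),
          (if i ≠ χ₁ then nInt 2 χ₁ i ^ 2 else 0)
        ≤ ∑ i : Cfsg.IrrCharacter K, (if i ≠ χ₁ then nInt 2 χ₁ i ^ 2 else 0) :=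
      Finset.sum_le_sum_of_subset_of_nonneg (Finset.subset_univ _) (fun i _ _ => htnn i)
    rw [Finset.sum_pair (Ne.symm hcon.2), if_pos h21, if_pos hcon.1, hoff] at hpair
    have h1 := hsq χ₂ hχ₂
    have h2 := hsq ψ hψ
    linarith
  have hm2 : nInt 2 χ₁ χ₂ ^ 2 = ((2 : ℤ) ^ ν₀) ^ 2 := by
    apply le_antisymm
    · have hsingle : (if χ₂ ≠ χ₁ then nInt 2 χ₁ χ₂ ^ 2 else 0)
          ≤ ∑ i : Cfsg.IrrCharacter K, (if i ≠ χ₁ then nInt 2 χ₁ i ^ 2 else 0) :=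
        Finset.single_le_sum (fun i _ => htnn i) (Finset.mem_univ χ₂)
      rw [if_pos h21, hoff] at hsingle
      exact hsingle
    · exact hsq χ₂ hχ₂
  have hBeq : B = {χ₁, χ₂} := by
    ext ψ
    rw [Set.mem_insert_iff, Set.mem_singleton_iff]
    constructor
    · intro hψ
      exact hothers ψ hψ
    · rintro (h | h)
      · rw [h]; exact hχ₁
      · rw [h]; exact hχ₂
  have hexp : ∀ g : K, ptrunc 2 χ₁.1 g
      = (2 : ℂ) ^ ν₀ * χ₁.1 g + (nInt 2 χ₁ χ₂ : ℂ) * χ₂.1 g := by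
    intro g
    rw [ptrunc_expansion 2 χ₁ g, Finset.sum_eq_add χ₁ χ₂ (Ne.symm h21)]
    · rw [nInt_spec, nInt_spec, ← hn, hnval]
      push_cast
      rfl
    · intro ξ _ hξ
      have hξB : ξ ∉ B := fun hξB => by
        rcases hothers ξ hξB with h | h
        · exact hξ.1 h
        · exact hξ.2 h
      rw [nInt_spec, hout ξ hξB]
      simp
    · intro h; exact absurd (Finset.mem_univ _) h
    · intro h; exact absurd (Finset.mem_univ _) h
  have h2ne : (2 : ℂ) ^ ν₀ ≠ 0 := pow_ne_zero _ (by norm_num)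
  have hptr_reg : ∀ g : K, ¬ 2 ∣ orderOf g → ptrunc 2 χ₁.1 g = (2 : ℂ) ^ ν₀ * 2 * χ₁.1 g := by
    intro g hg
    unfold ptrunc
    rw [if_neg hg, ← ha, ← hν₀]
    push_cast
    ring
  have hptr_sing : ∀ g : K, 2 ∣ orderOf g → ptrunc 2 χ₁.1 g = 0 := by
    intro g hg
    unfold ptrunc
    rw [if_pos hg]
  rcases eq_or_eq_neg_of_sq_eq_sq _ _ hm2 with hm | hm
  · refine ⟨χ₁, χ₂, Ne.symm h21, hBeq, ?_, ?_⟩
    · intro g hg
      have h := hexp g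
      rw [hptr_reg g hg, hm] at h
      push_cast at h
      have h3 : (2 : ℂ) ^ ν₀ * (χ₁.1 g - χ₂.1 g) = 0 := by linear_combination h
      rcases mul_eq_zero.mp h3 with h' | h'
      · exact absurd h' h2ne
      · exact sub_eq_zero.mp h'
    · intro g hg
      have h := hexp g
      rw [hptr_sing g hg, hm] at h
      push_cast at h
      have h3 : (2 : ℂ) ^ ν₀ * (χ₂.1 g + χ₁.1 g) = 0 := by linear_combination -h
      rcases mul_eq_zero.mp h3 with h' | h'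
      · exact absurd h' h2ne
      · exact eq_neg_of_add_eq_zero_left h'
  · exfalso
    have h := hexp 1
    rw [hptr_reg 1 (by rw [orderOf_one]; norm_num), hm] at h
    push_cast at h
    have h3 : (2 : ℂ) ^ ν₀ * (χ₁.1 1 + χ₂.1 1) = 0 := by linear_combination h
    have h4 : χ₁.1 1 + χ₂.1 1 = 0 := by
      rcases mul_eq_zero.mp h3 with h' | h'
      · exact absurd h' h2ne
      · exact h'
    obtain ⟨-, hd1, he1⟩ := irr_charDegree_facts χ₁
    obtain ⟨-, hd2, he2⟩ := irr_charDegree_facts χ₂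
    rw [he1, he2] at h4
    have h5 : Cfsg.charDegree χ₁.1 + Cfsg.charDegree χ₂.1 = 0 := by exact_mod_cast h4
    omega

end defectone

end Cfsg.Agent.Lib.helper5
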