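import Mathlib
import Cfsg.Agent.Lib.helper5.BlockCover
import Cfsg.Agent.S0919

/-!
# Transitivity of block induction and the extended first main theorem
-/

set_option autoImplicit false

namespace Cfsg.Agent.Lib.helper5

open Cfsg.Agent.Lib.helper23 Cfsg.Agent.Lib.helper24
open scoped ComplexConjugate

universe u

section trans

variable {G : Type u} [Group G] [Fintype G] [Fintype (Cfsg.IrrCharacter G)]
variable {M : Ideal Cfsg.AlgInt}

omit [Fintype (Cfsg.IrrCharacter G)] in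
theorem isInducedBlock_of_single (hMp : M.IsPrime) (H : Subgroup G)
    (ξ₀ : Cfsg.IrrCharacter H) (χ₀ : Cfsg.IrrCharacter G)
    (h : ∀ g, Cfsg.MemLocalIdeal M
      (Cfsg.inducedCentralChar H ξ₀.1 g - Cfsg.centralChar χ₀.1 g)) :
    Cfsg.IsInducedBlock M H (Cfsg.blockOf M ξ₀.1) (Cfsg.blockOf M χ₀.1) := by
  refine ⟨⟨ξ₀, rfl⟩, ⟨χ₀, rfl⟩, ?_⟩
  intro ξ hξ χ hχ g
  have h1 := memLocalIdeal_inducedCentralChar_sub hMp H ξ.1 ξ₀.1 (isClassFunction_irr ξ)
    (isClassFunction_irr ξ₀) (sameBlock_symm hξ) g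
  have h2 : Cfsg.MemLocalIdeal M (Cfsg.centralChar χ₀.1 g - Cfsg.centralChar χ.1 g) := hχ g
  have h3 := memLocalIdeal_add hMp (memLocalIdeal_add hMp h1 (h g)) h2
  have e : Cfsg.inducedCentralChar H ξ.1 g - Cfsg.inducedCentralChar H ξ₀.1 g
      + (Cfsg.inducedCentralChar H ξ₀.1 g - Cfsg.centralChar χ₀.1 g)
      + (Cfsg.centralChar χ₀.1 g - Cfsg.centralChar χ.1 g)
      = Cfsg.inducedCentralChar H ξ.1 g - Cfsg.centralChar χ.1 g := by ring
  rw [e] at h3
  exact h3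

omit [Fintype G] [Fintype (Cfsg.IrrCharacter G)] in
theorem sameBlock_of_isInducedBlock (hMp : M.IsPrime) {H : Subgroup G}
    {b : Set (Cfsg.IrrCharacter H)} {χ χ' : Cfsg.IrrCharacter G}
    (h1 : Cfsg.IsInducedBlock M H b (Cfsg.blockOf M χ.1))
    (h2 : Cfsg.IsInducedBlock M H b (Cfsg.blockOf M χ'.1)) : Cfsg.SameBlock M χ.1 χ'.1 := by
  obtain ⟨ξ, hb⟩ := h1.1
  have hξ : ξ ∈ b := by
    rw [hb]
    exact mem_blockOf_self hMp.ne_top ξ
  intro g
  have a1 := h1.2.2 ξ hξ χ (mem_blockOf_self hMp.ne_top χ) g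
  have a2 := h2.2.2 ξ hξ χ' (mem_blockOf_self hMp.ne_top χ') g
  have h3 := memLocalIdeal_sub hMp a2 a1
  have e : Cfsg.inducedCentralChar H ξ.1 g - Cfsg.centralChar χ'.1 g
      - (Cfsg.inducedCentralChar H ξ.1 g - Cfsg.centralChar χ.1 g)
      = Cfsg.centralChar χ.1 g - Cfsg.centralChar χ'.1 g := by ring
  rw [e] at h3
  exact h3

/-- transitivity of block induction -/
theorem isInducedBlock_trans (hMp : M.IsPrime) (H K : Subgroup G) (hKH : K ≤ H)
    [Fintype H] [Fintype (Cfsg.IrrCharacter H)] [Fintype K] [Fintype (Cfsg.IrrCharacter K)]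
    [Fintype (K.subgroupOf H)] [Fintype (Cfsg.IrrCharacter (K.subgroupOf H))]
    (ξ : Cfsg.IrrCharacter K) (ξ' : Cfsg.IrrCharacter (K.subgroupOf H))
    (hξ' : ξ'.1 = ξ.1 ∘ (Subgroup.subgroupOfEquivOfLe hKH))
    (χ₁ : Cfsg.IrrCharacter H) (χ : Cfsg.IrrCharacter G)
    (h1 : Cfsg.IsInducedBlock M (K.subgroupOf H) (Cfsg.blockOf M ξ'.1) (Cfsg.blockOf M χ₁.1))
    (h2 : Cfsg.IsInducedBlock M H (Cfsg.blockOf M χ₁.1) (Cfsg.blockOf M χ.1)) :
    Cfsg.IsInducedBlock M K (Cfsg.blockOf M ξ.1) (Cfsg.blockOf M χ.1) := by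
  classical
  have key : ∀ a ∈ osimaRing G M hMp, Cfsg.MemLocalIdeal M (brFun K ⊤ ξ a - a χ) := by
    intro a ha
    have hF : Cfsg.IsClassFunction H (brTrunc H ⊤ a) :=
      brTrunc_isClassFunction (fun _ _ _ _ => Subgroup.mem_top _) a
    have hR : ∀ h : H, Cfsg.MemLocalRing M (brTrunc H ⊤ a h) :=
      fun h => brTrunc_memLocalRing hMp H ⊤ ha h
    have haH := coord_mem_osimaRing hMp hF hR
    have e1 : brFun (K.subgroupOf H) ⊤ ξ' (coord (brTrunc H ⊤ a)) = brFun K ⊤ ξ a := by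
      rw [brFun_apply, brFun_apply]
      show (∑ k' : K.subgroupOf H,
          brTrunc (K.subgroupOf H) ⊤ (coord (brTrunc H ⊤ a)) k' * ξ'.1 k') / ξ'.1 1
        = (∑ k : K, brTrunc K ⊤ a k * ξ.1 k) / ξ.1 1
      have hone : ξ'.1 1 = ξ.1 1 := by
        rw [hξ']
        show ξ.1 (Subgroup.subgroupOfEquivOfLe hKH 1) = ξ.1 1
        rw [map_one]
      rw [hone]
      congr 1
      rw [← Equiv.sum_comp (Subgroup.subgroupOfEquivOfLe hKH).toEquiv
        (fun k : K => brTrunc K ⊤ a k * ξ.1 k)]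
      apply Finset.sum_congr rfl
      intro k' _
      rw [brTrunc_of_mem _ (Subgroup.mem_top _), coef_coord _ hF,
        brTrunc_of_mem _ (Subgroup.mem_top _), hξ']
      show coef a (((k' : H) : G)) * ξ.1 (Subgroup.subgroupOfEquivOfLe hKH k')
        = brTrunc K ⊤ a (Subgroup.subgroupOfEquivOfLe hKH k')
          * ξ.1 (Subgroup.subgroupOfEquivOfLe hKH k')
      rw [brTrunc_of_mem _ (Subgroup.mem_top _)]
      rfl
    have h3 := brFun_top_of_induced (K.subgroupOf H) hMp h1 (mem_blockOf_self hMp.ne_top ξ')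
      (mem_blockOf_self hMp.ne_top χ₁) haH
    have h4 := brFun_top_of_induced H hMp h2 (mem_blockOf_self hMp.ne_top χ₁)
      (mem_blockOf_self hMp.ne_top χ) ha
    rw [e1] at h3
    have e2 : coord (brTrunc H ⊤ a) χ₁ = brFun H ⊤ χ₁ a := rfl
    rw [e2] at h3
    have h5 := memLocalIdeal_add hMp h3 h4
    rwa [sub_add_sub_cancel] at h5
  apply isInducedBlock_of_single hMp
  intro g
  have h6 := key _ (centralChar_mem_osimaRing hMp g)
  rwa [brFun_top] at h6

end trans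

section ext

variable {G : Type u} [Group G] [Fintype G] [Fintype (Cfsg.IrrCharacter G)]
variable {M : Ideal Cfsg.AlgInt} {p : ℕ} [Fact p.Prime]

/-- a block of `H` (`D ≤ H ≤ N_G(D)`) inducing a block with defect group `D` has defect group
`D` -/
theorem defect_of_induced (hM : Cfsg.IsPModular p M) (D : Subgroup G) (hD : IsPGroup p D)
    (H : Subgroup G) [Fintype H] [Fintype (Cfsg.IrrCharacter H)] (hDH : D ≤ H)
    (hHN : H ≤ Subgroup.normalizer (D : Set G)) (χ₀ : Cfsg.IrrCharacter G)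
    (hdef : Cfsg.IsDefectGroup p M (Cfsg.blockOf M χ₀.1) D) (ξ : Cfsg.IrrCharacter H)
    (hξ : Cfsg.IsInducedBlock M H (Cfsg.blockOf M ξ.1) (Cfsg.blockOf M χ₀.1)) :
    Cfsg.IsDefectGroup p M (Cfsg.blockOf M ξ.1) (D.subgroupOf H) := by
  classical
  have hMp := isPModular_isPrime hM
  obtain ⟨Eb, hEb⟩ := exists_defectGroup (p := p) hMp ξ
  haveI : (D.subgroupOf H).Normal :=
    (Subgroup.normal_subgroupOf_iff_le_normalizer hDH).mpr hHN
  have hDNp : IsPGroup p (D.subgroupOf H) := hD.comap_subtype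
  have hle : D.subgroupOf H ≤ Eb := by
    obtain ⟨y, hy, PE, rfl⟩ := hEb
    exact normal_pgroup_le_sylow_centralizer hM ξ y
      (hy.2.2 ξ (mem_blockOf_self hMp.ne_top ξ)) _ hDNp PE
  obtain ⟨E, hE, hEbE⟩ := Cfsg.Agent.S0917.result p M hM H
    (Cfsg.blockOf M ξ.1) ⟨ξ, rfl⟩ (Cfsg.blockOf M χ₀.1) ⟨χ₀, rfl⟩ hξ Eb hEb
  have hcE := Cfsg.Agent.S0908.result p M hM _ ⟨χ₀, rfl⟩ E hE
  have hcD := Cfsg.Agent.S0908.result p M hM _ ⟨χ₀, rfl⟩ D hdef
  have hcard : Nat.card Eb ≤ Nat.card (D.subgroupOf H) := by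
    rw [Nat.card_congr (Subgroup.subgroupOfEquivOfLe hDH).toEquiv, hcD, ← hcE,
      ← Subgroup.card_map_of_injective H.subtype_injective]
    exact Subgroup.card_le_of_le hEbE
  have hEq : D.subgroupOf H = Eb := Subgroup.eq_of_le_of_card_ge hle hcard
  rw [hEq]
  exact hEb

/-- for a normal `p`-subgroup `Q` and a normal subgroup `N ⊇ C_G(Q)`, a block of `N` induces
every block covering it -/
theorem cover_induced (hM : Cfsg.IsPModular p M) (Q : Subgroup G) [Q.Normal]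
    (hQ : IsPGroup p Q) (N : Subgroup G) [hN : N.Normal] [Fintype N]
    [Fintype (Cfsg.IrrCharacter N)] (hCN : Subgroup.centralizer (Q : Set G) ≤ N)
    (χ : Cfsg.IrrCharacter G) (θ : Cfsg.IrrCharacter N)
    (hcon : Cfsg.classInner (fun n : N => χ.1 n) θ.1 ≠ 0) :
    Cfsg.IsInducedBlock M N (Cfsg.blockOf M θ.1) (Cfsg.blockOf M χ.1) := by
  have hMp := isPModular_isPrime hM
  apply isInducedBlock_of_single hMp
  intro g
  by_cases hg : g ∈ N
  · have h1 : Cfsg.centralChar χ.1 g = Cfsg.inducedCentralChar N θ.1 g :=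
      centralChar_eq_induced_of_constituent N χ θ hcon ⟨g, hg⟩
    rw [h1, sub_self]
    exact memLocalIdeal_zero hMp.ne_top
  · have h1 : Cfsg.inducedCentralChar N θ.1 g = 0 := by
      unfold Cfsg.inducedCentralChar
      have hemp : {h : N | IsConj g (h : G)} = ∅ := by
        ext h
        simp only [Set.mem_setOf_eq, Set.mem_empty_iff_false, iff_false]
        intro hc
        obtain ⟨t, ht⟩ := isConj_iff.mp hc
        apply hg
        have h' := hN.conj_mem (h : G) h.2 t⁻¹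
        rw [← ht] at h'
        have e : t⁻¹ * (t * g * t⁻¹) * t⁻¹⁻¹ = g := by group
        rwa [e] at h'
      rw [hemp, finsum_mem_empty]
    rw [h1, zero_sub]
    apply memLocalIdeal_neg
    exact memLocalIdeal_centralChar_of_not_mem_centralizer hM Q hQ g
      (fun hgc => hg (hCN hgc)) χ

omit [Fintype G] [Fintype (Cfsg.IrrCharacter G)] [Fact p.Prime] in
theorem conj_mem_sup_centralizer (P : Subgroup G) {n : G}
    (hn : n ∈ Subgroup.normalizer (P : Set G)) {x : G}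
    (hx : x ∈ P ⊔ Subgroup.centralizer (P : Set G)) :
    n * x * n⁻¹ ∈ P ⊔ Subgroup.centralizer (P : Set G) := by
  have hle : P ⊔ Subgroup.centralizer (P : Set G)
      ≤ (P ⊔ Subgroup.centralizer (P : Set G)).comap (MulAut.conj n).toMonoidHom := by
    apply sup_le
    · intro u hu
      rw [Subgroup.mem_comap]
      apply Subgroup.mem_sup_left
      exact (Subgroup.mem_normalizer_iff.mp hn u).mp hu
    · intro u hu
      rw [Subgroup.mem_comap]
      apply Subgroup.mem_sup_right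
      exact conj_mem_centralizer_of_le_normalizer (le_refl _) n hn u hu
  exact hle hx

/-- conjugation by `n` as an automorphism of a subgroup it normalizes -/
def conjEquivOn (L : Subgroup G) (n : G) (h1 : ∀ x ∈ L, n * x * n⁻¹ ∈ L)
    (h2 : ∀ x ∈ L, n⁻¹ * x * n ∈ L) : L ≃* L where
  toFun x := ⟨n * x * n⁻¹, h1 x x.2⟩
  invFun x := ⟨n⁻¹ * x * n, h2 x x.2⟩
  left_inv x := Subtype.ext (by
    show n⁻¹ * (n * (x : G) * n⁻¹) * n = x
    group)
  right_inv x := Subtype.ext (by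
    show n * (n⁻¹ * (x : G) * n) * n⁻¹ = x
    group)
  map_mul' x y := Subtype.ext (by
    show n * ((x : G) * (y : G)) * n⁻¹ = (n * x * n⁻¹) * (n * y * n⁻¹)
    group)

/-- **extended first main theorem**, conjugacy part -/
theorem ext_fmt_conj (hM : Cfsg.IsPModular p M) (P : Subgroup G) (hP : IsPGroup p P)
    (χ₀ : Cfsg.IrrCharacter G) (hdef : Cfsg.IsDefectGroup p M (Cfsg.blockOf M χ₀.1) P)
    (L : Subgroup G) (hCL : Subgroup.centralizer (P : Set G) ≤ L)
    (hLN : L ≤ Subgroup.normalizer (P : Set G))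
    (hLc : ∀ n ∈ Subgroup.normalizer (P : Set G), ∀ x ∈ L, n * x * n⁻¹ ∈ L)
    [Fintype L] [Fintype (Cfsg.IrrCharacter L)] (θ θ' : Cfsg.IrrCharacter L)
    (h₁ : Cfsg.IsInducedBlock M L (Cfsg.blockOf M θ.1) (Cfsg.blockOf M χ₀.1))
    (h₂ : Cfsg.IsInducedBlock M L (Cfsg.blockOf M θ'.1) (Cfsg.blockOf M χ₀.1)) :
    ∃ n, ∃ hn : n ∈ Subgroup.normalizer (P : Set G),
      Cfsg.SameBlock M θ'.1 (fun x : L => θ.1 ⟨n * (x : G) * n⁻¹, hLc n hn x x.2⟩) := by
  classical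
  have hMp := isPModular_isPrime hM
  haveI : Fintype (Subgroup.normalizer (P : Set G)) := Fintype.ofFinite _
  haveI : Fintype (Cfsg.IrrCharacter (Subgroup.normalizer (P : Set G))) := Fintype.ofFinite _
  haveI : Fintype (L.subgroupOf (Subgroup.normalizer (P : Set G))) := Fintype.ofFinite _
  haveI : Fintype (Cfsg.IrrCharacter (L.subgroupOf (Subgroup.normalizer (P : Set G)))) :=
    Fintype.ofFinite _
  have hPN : P ≤ Subgroup.normalizer (P : Set G) := Subgroup.le_normalizer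
  haveI hP'n : (P.subgroupOf (Subgroup.normalizer (P : Set G))).Normal :=
    (Subgroup.normal_subgroupOf_iff_le_normalizer hPN).mpr (le_refl _)
  have hNL : Subgroup.normalizer (P : Set G) ≤ Subgroup.normalizer (L : Set G) := by
    intro n hn
    rw [Subgroup.mem_normalizer_iff]
    intro x
    constructor
    · exact hLc n hn x
    · intro hx
      have h' := hLc n⁻¹ (inv_mem hn) _ hx
      have e : n⁻¹ * (n * x * n⁻¹) * n⁻¹⁻¹ = x := by group
      rwa [e] at h'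
  haveI hL'n : (L.subgroupOf (Subgroup.normalizer (P : Set G))).Normal :=
    (Subgroup.normal_subgroupOf_iff_le_normalizer hLN).mpr hNL
  have hP'p : IsPGroup p (P.subgroupOf (Subgroup.normalizer (P : Set G))) := hP.comap_subtype
  have hC' : Subgroup.centralizer
      ((P.subgroupOf (Subgroup.normalizer (P : Set G)) :
        Subgroup (Subgroup.normalizer (P : Set G))) : Set (Subgroup.normalizer (P : Set G)))
      ≤ L.subgroupOf (Subgroup.normalizer (P : Set G)) := by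
    intro x hx
    rw [Subgroup.mem_subgroupOf]
    apply hCL
    rw [Subgroup.mem_centralizer_iff]
    intro u hu
    have h1 := Subgroup.mem_centralizer_iff.mp hx ⟨u, hPN hu⟩ (by
      rw [SetLike.mem_coe, Subgroup.mem_subgroupOf]
      exact hu)
    exact congrArg Subtype.val h1
  obtain ⟨e, he⟩ : ∃ e : ↥(L.subgroupOf (Subgroup.normalizer (P : Set G))) ≃* ↥L,
      e = Subgroup.subgroupOfEquivOfLe hLN := ⟨_, rfl⟩
  have main : ∀ ϑ : Cfsg.IrrCharacter L,
      Cfsg.IsInducedBlock M L (Cfsg.blockOf M ϑ.1) (Cfsg.blockOf M χ₀.1) →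
      ∃ χ₁ : Cfsg.IrrCharacter (Subgroup.normalizer (P : Set G)),
        Cfsg.classInner (fun n : L.subgroupOf (Subgroup.normalizer (P : Set G)) => χ₁.1 n)
          (ϑ.1 ∘ e) ≠ 0 ∧
        Cfsg.IsInducedBlock M (Subgroup.normalizer (P : Set G)) (Cfsg.blockOf M χ₁.1)
          (Cfsg.blockOf M χ₀.1) := by
    intro ϑ hϑ
    have hirr : Cfsg.IsIrrCharacter _ (ϑ.1 ∘ e) := isIrrCharacter_comp_equiv e ϑ.2
    obtain ⟨χ₁, hχ₁'⟩ := Cfsg.Agent.Lib.helper22.exists_irr_over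
      (L.subgroupOf (Subgroup.normalizer (P : Set G))) hirr
    have hχ₁ : Cfsg.classInner
        (fun n : L.subgroupOf (Subgroup.normalizer (P : Set G)) => χ₁.1 n) (ϑ.1 ∘ e) ≠ 0 := hχ₁'
    refine ⟨χ₁, hχ₁, ?_⟩
    have hcov := cover_induced hM (P.subgroupOf (Subgroup.normalizer (P : Set G))) hP'p
      (L.subgroupOf (Subgroup.normalizer (P : Set G))) hC' χ₁ ⟨ϑ.1 ∘ e, hirr⟩ hχ₁
    obtain ⟨B₂, hB₂⟩ := Cfsg.Agent.S0919.result p M hM P (Subgroup.normalizer (P : Set G)) hP hPN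
      (Subgroup.centralizer_le_normalizer _) (le_refl _) (Cfsg.blockOf M χ₁.1) ⟨χ₁, rfl⟩
    obtain ⟨χ₂, rfl⟩ := hB₂.2.1
    have htr := isInducedBlock_trans hMp (Subgroup.normalizer (P : Set G)) L hLN ϑ
      ⟨ϑ.1 ∘ e, hirr⟩ (congrArg (fun t : ↥(L.subgroupOf (Subgroup.normalizer (P : Set G))) ≃* ↥L
        => ϑ.1 ∘ ⇑t) he) χ₁ χ₂ hcov hB₂
    have hsb := sameBlock_of_isInducedBlock hMp htr hϑ
    have hEq : Cfsg.blockOf M χ₂.1 = Cfsg.blockOf M χ₀.1 :=
      blockOf_eq_of_mem hMp (show χ₂ ∈ Cfsg.blockOf M χ₀.1 from sameBlock_symm hsb)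
    rw [← hEq]
    exact hB₂
  obtain ⟨χ₁, hc₁, hi₁⟩ := main θ h₁
  obtain ⟨χ₁', hc₁', hi₁'⟩ := main θ' h₂
  have hd₁ := defect_of_induced hM P hP (Subgroup.normalizer (P : Set G)) hPN (le_refl _) χ₀
    hdef χ₁ hi₁
  have hsb := fmt_unique P (Subgroup.normalizer (P : Set G)) rfl hM hP χ₀ χ₁ χ₁' hd₁ hi₁ hi₁'
  obtain ⟨g, hg⟩ := cover_conj (L.subgroupOf (Subgroup.normalizer (P : Set G))) hMp
    (sameBlock_symm hsb)
    (θ := ⟨θ'.1 ∘ e, isIrrCharacter_comp_equiv e θ'.2⟩)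
    (ψ := ⟨θ.1 ∘ e, isIrrCharacter_comp_equiv e θ.2⟩) hc₁' hc₁
  refine ⟨(g : G), g.2, ?_⟩
  have h5 := sameBlock_comp_equiv e.symm hg
  have e1 : (θ'.1 ∘ e) ∘ e.symm = θ'.1 := by
    funext x
    simp
  have e2 : (helper24.conjFun (L.subgroupOf (Subgroup.normalizer (P : Set G))) (θ.1 ∘ e) g)
      ∘ e.symm = fun x : L => θ.1 ⟨(g : G) * (x : G) * (g : G)⁻¹, hLc g g.2 x x.2⟩ := by
    funext x
    show θ.1 (e ⟨g * (e.symm x) * g⁻¹, _⟩) = _
    subst he
    rfl
  rw [e1, e2] at h5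
  exact h5

end ext

end Cfsg.Agent.Lib.helper5
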