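import Mathlib
import Cfsg.Agent.Lib.helper5.BlockFMT
import Cfsg.Agent.Lib.helper5.BlockBrauer2
import Cfsg.Agent.Lib.helper5.BlockInduce
import Cfsg.Agent.Lib.helper5.BlockReg
import Cfsg.Agent.Lib.helper5.BlockExt
import Cfsg.Agent.Lib.helper23.BrauerIdem
import Cfsg.Agent.Lib.helper23.BPDefect

set_option autoImplicit false

/-!
# The Brauer correspondence through idempotent coefficients

* `brTrunc_sub_blockCoeff`: if the block `b` of `N = N_G(D)` with defect group `D` induces the
  block `B` of `G`, the truncation to `C_G(D)` of the idempotent of `B` is congruent to the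
  idempotent of `b`.
* `blockOf_eq_of_blockCoeff_congr`: blocks with congruent idempotents are equal.
-/

namespace Cfsg.Agent.Lib.helper5

open Cfsg.Agent.Lib.helper23 Cfsg.Agent.Lib.helper24
open scoped ComplexConjugate

universe u

section corr

variable {G : Type u} [Group G] [Fintype G] [Fintype (Cfsg.IrrCharacter G)]
variable {M : Ideal Cfsg.AlgInt} {p : ℕ} [Fact p.Prime]

omit [Fact p.Prime] in
/-- blocks with congruent idempotents are equal -/
theorem blockOf_eq_of_blockCoeff_congr (hMp : M.IsPrime) (ξ₁ ξ₂ : Cfsg.IrrCharacter G)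
    (h : ∀ g, Cfsg.MemLocalIdeal M (Cfsg.blockCoeff (Cfsg.blockOf M ξ₁.1) g
      - Cfsg.blockCoeff (Cfsg.blockOf M ξ₂.1) g)) :
    Cfsg.blockOf M ξ₁.1 = Cfsg.blockOf M ξ₂.1 := by
  classical
  set a : Cfsg.IrrCharacter G → ℂ := (Cfsg.blockOf M ξ₁.1).indicator (fun _ => (1 : ℂ))
    - (Cfsg.blockOf M ξ₂.1).indicator (fun _ => (1 : ℂ)) with ha
  have hcoef : ∀ g, Cfsg.MemLocalIdeal M (coef a g) := by
    intro g
    rw [ha, coef_sub, coef_indicator, coef_indicator]
    exact h g
  have hcl : Cfsg.IsClassFunction G (coef a) := fun g x => coef_conj a g x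
  have h1 := memLocalIdeal_coord_of_classFunction hMp hcl hcoef ξ₁
  rw [coord_coef] at h1
  by_cases hmem : ξ₁ ∈ Cfsg.blockOf M ξ₂.1
  · exact blockOf_eq_of_mem hMp hmem
  · exfalso
    rw [ha, Pi.sub_apply, Set.indicator_of_mem (mem_blockOf_self hMp.ne_top ξ₁),
      Set.indicator_of_notMem hmem, sub_zero] at h1
    exact not_memLocalIdeal_one hMp h1

variable (D N : Subgroup G) [Fintype N] [Fintype (Cfsg.IrrCharacter N)]

/-- if the block of `ξ₀` of `N = N_G(D)`, with defect group `D`, induces the block of `χ₀`, the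
truncation to `C_G(D)` of the idempotent of the block of `χ₀` is congruent to the idempotent of
the block of `ξ₀` -/
theorem brTrunc_sub_blockCoeff (hN : N = Subgroup.normalizer (D : Set G))
    (hM : Cfsg.IsPModular p M) (hD : IsPGroup p D)
    (χ₀ : Cfsg.IrrCharacter G) (ξ₀ : Cfsg.IrrCharacter N)
    (h₁ : Cfsg.IsDefectGroup p M (Cfsg.blockOf M ξ₀.1) (D.subgroupOf N))
    (hi : Cfsg.IsInducedBlock M N (Cfsg.blockOf M ξ₀.1) (Cfsg.blockOf M χ₀.1)) (n : N) :
    Cfsg.MemLocalIdeal M (brTrunc N (Subgroup.centralizer (D : Set G))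
      ((Cfsg.blockOf M χ₀.1).indicator (fun _ => (1 : ℂ))) n
      - Cfsg.blockCoeff (Cfsg.blockOf M ξ₀.1) n) := by
  classical
  have hMp := isPModular_isPrime hM
  have hDN : D ≤ N := by
    rw [hN]
    exact Subgroup.le_normalizer
  have hNle : N ≤ Subgroup.normalizer (D : Set G) := le_of_eq hN
  have hCN : Subgroup.centralizer (D : Set G) ≤ N := by
    rw [hN]
    exact Subgroup.centralizer_le_normalizer _
  set S := Subgroup.centralizer (D : Set G) with hS
  set a : Cfsg.IrrCharacter G → ℂ := (Cfsg.blockOf M χ₀.1).indicator (fun _ => (1 : ℂ))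
    with ha_def
  have ha : a ∈ osimaRing G M hMp := indicator_mem_osimaRing hMp χ₀
  have haa : a * a = a := indicator_mul_self _
  have hnorm := conj_mem_centralizer_of_le_normalizer hNle
  have hcF := brTrunc_isClassFunction hnorm a
  set v : Cfsg.IrrCharacter N → ℂ := coord (brTrunc N S a) with hv_def
  have hv : v ∈ osimaRing N M hMp :=
    coord_mem_osimaRing hMp hcF (brTrunc_memLocalRing hMp N S ha)
  have hcoefv : ∀ h : N, coef v h = brTrunc N S a h := fun h => coef_coord _ hcF h
  have hidem : ∀ h : N, Cfsg.MemLocalIdeal M (coef (v * v) h - coef v h) := by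
    intro h
    have h1 := brTrunc_mul N hM D hD hCN ha ha h
    rw [haa] at h1
    have h2 : coef (v * v) h = conv (brTrunc N S a) (brTrunc N S a) h := by
      rw [coef_mul]
      unfold conv
      apply Finset.sum_congr rfl
      intro x _
      rw [hcoefv, hcoefv]
    rw [h2, hcoefv]
    have := memLocalIdeal_neg h1
    rwa [neg_sub] at this
  set u : Cfsg.IrrCharacter N → ℂ := (Cfsg.blockOf M ξ₀.1).indicator (fun _ => (1 : ℂ))
    with hu_def
  have hu : u ∈ osimaRing N M hMp := indicator_mem_osimaRing hMp ξ₀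
  have huu : u * u = u := indicator_mul_self _
  have hw : ∀ ξ, Cfsg.MemLocalIdeal M (v ξ - u ξ) := by
    intro ξ
    have hvξ : v ξ = brFun N S ξ a := rfl
    by_cases hξ : ξ ∈ Cfsg.blockOf M ξ₀.1
    · have h1 := brFun_top_of_induced N hMp hi hξ (mem_blockOf_self hMp.ne_top χ₀) ha
      have h2 := brFun_top_sub_centralizer N hM D hD hDN hNle ξ ha
      have ha1 : a χ₀ = 1 := by
        rw [ha_def, Set.indicator_of_mem (mem_blockOf_self hMp.ne_top χ₀)]
      rw [ha1] at h1
      rw [hu_def, Set.indicator_of_mem hξ, hvξ]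
      have := memLocalIdeal_sub hMp h1 h2
      rwa [sub_sub_sub_cancel_left] at this
    · obtain ⟨χ, hχ⟩ := exists_brFun_block N hM D hD hCN hNle ξ
      have hχB : χ ∉ Cfsg.blockOf M χ₀.1 := by
        intro hmem
        have hind2 : Cfsg.IsInducedBlock M N (Cfsg.blockOf M ξ.1) (Cfsg.blockOf M χ₀.1) := by
          rw [← blockOf_eq_of_mem hMp hmem]
          apply isInducedBlock_of_brauer N hM D hD hDN hNle ξ χ
          intro g
          have := hχ _ (centralChar_mem_osimaRing hMp g)
          rwa [brFun_centralizer] at this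
        exact hξ (fmt_unique D N hN hM hD χ₀ ξ₀ ξ h₁ hi hind2)
      have h1 := hχ a ha
      have ha0 : a χ = 0 := by
        rw [ha_def, Set.indicator_of_notMem hχB]
      rw [ha0, sub_zero] at h1
      rw [hu_def, Set.indicator_of_notMem hξ, sub_zero, hvξ]
      exact h1
  have key := coef_sub_memLocalIdeal_of_idem hM hv hu hidem huu hw n
  rw [hcoefv, hu_def, coef_indicator] at key
  exact key

end corr

section setlevel

variable {G : Type u} [Group G] [Fintype G]
variable {M : Ideal Cfsg.AlgInt} {p : ℕ} [Fact p.Prime]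

omit [Fintype G] in
theorem subgroupBlockCoeff_of_mem (H : Subgroup G) (c : Set (Cfsg.IrrCharacter H)) {x : G}
    (hx : x ∈ H) : Cfsg.subgroupBlockCoeff H c x = Cfsg.blockCoeff c ⟨x, hx⟩ := by
  unfold Cfsg.subgroupBlockCoeff
  exact dif_pos hx

omit [Fintype G] in
theorem subgroupBlockCoeff_of_not_mem (H : Subgroup G) (c : Set (Cfsg.IrrCharacter H)) {x : G}
    (hx : x ∉ H) : Cfsg.subgroupBlockCoeff H c x = 0 := by
  unfold Cfsg.subgroupBlockCoeff
  exact dif_neg hx

omit [Fact p.Prime] in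
/-- blocks with congruent idempotents are equal -/
theorem block_eq_of_congr (hMp : M.IsPrime) {b₁ b₂ : Set (Cfsg.IrrCharacter G)}
    (h₁ : Cfsg.IsPBlock M b₁) (h₂ : Cfsg.IsPBlock M b₂)
    (h : ∀ g, Cfsg.MemLocalIdeal M (Cfsg.blockCoeff b₁ g - Cfsg.blockCoeff b₂ g)) : b₁ = b₂ := by
  classical
  haveI := Fintype.ofFinite (Cfsg.IrrCharacter G)
  obtain ⟨ξ₁, rfl⟩ := h₁
  obtain ⟨ξ₂, rfl⟩ := h₂
  exact blockOf_eq_of_blockCoeff_congr hMp ξ₁ ξ₂ h

omit [Fintype G] [Fact p.Prime] in
/-- the induced block is unique -/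
theorem induced_unique (hMp : M.IsPrime) {H : Subgroup G} {b : Set (Cfsg.IrrCharacter H)}
    {B₁ B₂ : Set (Cfsg.IrrCharacter G)} (h₁ : Cfsg.IsInducedBlock M H b B₁)
    (h₂ : Cfsg.IsInducedBlock M H b B₂) : B₁ = B₂ := by
  obtain ⟨χ₁, rfl⟩ := h₁.2.1
  obtain ⟨χ₂, rfl⟩ := h₂.2.1
  have h := sameBlock_of_isInducedBlock hMp h₁ h₂
  exact (blockOf_eq_of_mem hMp (show χ₂ ∈ Cfsg.blockOf M χ₁.1 from h)).symm

/-- the idempotent of a block `B` with defect group `D` and the idempotent of its Brauer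
correspondent `b` in `N_G(D)` are congruent on `C_G(D)`, and the latter vanishes modulo `M`
outside `C_G(D)` -/
theorem corr_coeff (hM : Cfsg.IsPModular p M) (D : Subgroup G) (hD : IsPGroup p D)
    (B : Set (Cfsg.IrrCharacter G))
    (b : Set (Cfsg.IrrCharacter (Subgroup.normalizer (D : Set G)))) (hb : Cfsg.IsPBlock M b)
    (hbD : Cfsg.IsDefectGroup p M b (D.subgroupOf (Subgroup.normalizer (D : Set G))))
    (hind : Cfsg.IsInducedBlock M (Subgroup.normalizer (D : Set G)) b B) :
    (∀ (x : G) (hx : x ∈ Subgroup.centralizer (D : Set G)),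
      Cfsg.MemLocalIdeal M (Cfsg.blockCoeff B x
        - Cfsg.blockCoeff b ⟨x, Subgroup.centralizer_le_normalizer _ hx⟩)) ∧
    (∀ n : Subgroup.normalizer (D : Set G), (n : G) ∉ Subgroup.centralizer (D : Set G) →
      Cfsg.MemLocalIdeal M (Cfsg.blockCoeff b n)) := by
  classical
  haveI := Fintype.ofFinite (Cfsg.IrrCharacter G)
  haveI : Fintype (Subgroup.normalizer (D : Set G)) := Fintype.ofFinite _
  haveI := Fintype.ofFinite (Cfsg.IrrCharacter (Subgroup.normalizer (D : Set G)))
  have hMp := isPModular_isPrime hM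
  obtain ⟨ξ₀, rfl⟩ := hb
  obtain ⟨χ₀, rfl⟩ := hind.2.1
  have key := brTrunc_sub_blockCoeff D (Subgroup.normalizer (D : Set G)) rfl hM hD χ₀ ξ₀ hbD hind
  constructor
  · intro x hx
    have h1 := key ⟨x, Subgroup.centralizer_le_normalizer _ hx⟩
    rw [brTrunc_of_mem _ hx, coef_indicator] at h1
    exact h1
  · intro n hn
    have h1 := key n
    rw [brTrunc_of_not_mem _ hn, zero_sub] at h1
    have := memLocalIdeal_neg h1
    rwa [neg_neg] at this

end setlevel

end Cfsg.Agent.Lib.helper5
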