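import Mathlib
import Cfsg.Agent.Lib.helper5.BlockCover
import Cfsg.Agent.Lib.helper5.BlockCentral
import Cfsg.Agent.Lib.helper5.BlockExt
import Cfsg.Agent.Lib.helper5.BlockFong
import Cfsg.Agent.Lib.helper24.CharClifford
import Cfsg.Agent.Lib.helper23.CliffordOrbit
import Cfsg.Agent.S0933
import Cfsg.Agent.S0964

/-!
# The Fong–Reynolds correspondence

`clifford_ge`: the Clifford correspondence over any subgroup `T` containing the inertia group
of `ϑ` (the proof is the norm computation of `helper24.clifford_correspondence`, where `T` is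
the inertia group itself).  `coord_indFun_coef`: the trace from the centre of the group algebra
of `T` to that of `G`, in coordinates.
-/

set_option autoImplicit false

namespace Cfsg.Agent.Lib.helper5

open Cfsg.Agent.Lib.helper23 Cfsg.Agent.Lib.helper24
open scoped ComplexConjugate

universe u

section cliffordGe

variable {G : Type u} [Group G] [Fintype G]

/-- Clifford correspondence over a subgroup `T` containing the inertia group of `ϑ`. -/
theorem clifford_ge (H : Subgroup G) [hN : H.Normal] [Fintype H] (ϑ : H → ℂ)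
    (hϑ : Cfsg.IsIrrCharacter H ϑ) (T : Subgroup G) [Fintype T] [Fintype (Cfsg.IrrCharacter T)]
    (hT : ∀ g : G, (∀ n : H, ϑ ⟨g * n * g⁻¹, hN.conj_mem (n : G) n.2 g⟩ = ϑ n) → g ∈ T)
    (hHT : H ≤ T) :
    ∃ c : Cfsg.IrrCharacter T → ℕ,
      (∀ ψ : Cfsg.IrrCharacter T,
        Cfsg.classInner (fun n : H => ψ.1 ⟨(n : G), hHT n.2⟩) ϑ = (c ψ : ℂ)) ∧
      Cfsg.indFun H ϑ = ∑ ψ : Cfsg.IrrCharacter T, (c ψ : ℂ) • Cfsg.indFun T ψ.1 ∧
      (∀ ψ, c ψ ≠ 0 → Cfsg.IsIrrCharacter G (Cfsg.indFun T ψ.1)) ∧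
      (∀ ψ ψ', c ψ ≠ 0 → c ψ' ≠ 0 → ψ ≠ ψ' →
        Cfsg.classInner (Cfsg.indFun T ψ.1) (Cfsg.indFun T ψ'.1) = 0) := by
  classical
  let H' : Subgroup T := H.subgroupOf T
  let e : H' ≃* H := Subgroup.subgroupOfEquivOfLe hHT
  let ϑ' : H' → ℂ := fun x => ϑ ⟨(x : T), Subgroup.mem_subgroupOf.mp x.2⟩
  have hϑ'e : ϑ' = ϑ ∘ e := rfl
  have hϑ' : Cfsg.IsIrrCharacter H' ϑ' := isIrrCharacter_comp_equiv e hϑ
  have hH'n : H'.Normal := Subgroup.Normal.subgroupOf hN T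
  let Φ : T → ℂ := Cfsg.indFun H' ϑ'
  have hΦ : Cfsg.IsCharacter T Φ := isCharacter_indFun H' (isCharacter_of_isIrrCharacter hϑ')
  have htrans : Cfsg.indFun T Φ = Cfsg.indFun H ϑ := indFun_trans H T hHT ϑ
  have hcoef : ∀ ψ : Cfsg.IrrCharacter T, ∃ n : ℕ, Cfsg.classInner Φ ψ.1 = n :=
    fun ψ => isCharacter_inner_irr_nat hΦ ψ
  choose c hc using hcoef
  have hexp : Φ = ∑ ψ : Cfsg.IrrCharacter T, (c ψ : ℂ) • ψ.1 := by
    have h1 := classFunction_expansion (isCharacter_conj_class hΦ)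
    calc Φ = ∑ χ : Cfsg.IrrCharacter T, Cfsg.classInner Φ χ.1 • χ.1 := h1
      _ = ∑ ψ : Cfsg.IrrCharacter T, (c ψ : ℂ) • ψ.1 :=
        Finset.sum_congr rfl (fun ψ _ => by rw [hc ψ])
  have hind : Cfsg.indFun H ϑ = ∑ ψ : Cfsg.IrrCharacter T, (c ψ : ℂ) • Cfsg.indFun T ψ.1 := by
    rw [← htrans]
    conv_lhs => rw [hexp]
    rw [indFun_sum]
    exact Finset.sum_congr rfl (fun ψ _ => indFun_smul T _ _)
  have hfib : ∀ ψ : Cfsg.IrrCharacter T,
      Cfsg.classInner (fun n : H => ψ.1 ⟨(n : G), hHT n.2⟩) ϑ = (c ψ : ℂ) := by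
    intro ψ
    have h1 := frobenius_reciprocity H' ϑ' (isClassFunction_irr ψ)
    rw [hc ψ] at h1
    have h2 : Cfsg.classInner (fun x : H' => ψ.1 x) ϑ' = (c ψ : ℂ) := by
      rw [classInner_conj_symm, ← h1]; simp
    have h3 := classInner_comp_equiv e (fun n : H => ψ.1 ⟨(n : G), hHT n.2⟩) ϑ
    rw [← h3]
    exact h2
  -- norms
  have hcardH' : Nat.card H' = Nat.card H := Nat.card_congr e.toEquiv
  have hnormG := card_mul_inner_indFun_normal H hϑ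
  have hnormT := card_mul_inner_indFun_normal H' hϑ'
  have hcards : Nat.card {g : G // ∀ h : H, ϑ ⟨g * h * g⁻¹, hN.conj_mem h h.2 g⟩ = ϑ h}
      = Nat.card {t : T // ∀ h : H', ϑ' ⟨t * h * t⁻¹, hH'n.conj_mem h h.2 t⟩ = ϑ' h} := by
    apply Nat.card_congr
    refine ⟨fun g => ⟨⟨g.1, hT g.1 g.2⟩, fun h => ?_⟩, fun t => ⟨(t.1 : G), fun h => ?_⟩,
      fun g => rfl, fun t => rfl⟩
    · have := g.2 (e h)
      exact this
    · have := t.2 ⟨⟨(h : G), hHT h.2⟩, Subgroup.mem_subgroupOf.mpr h.2⟩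
      exact this
  rw [hcards] at hnormG
  rw [hcardH'] at hnormT
  have hHne : (Nat.card H : ℂ) ≠ 0 := by
    exact_mod_cast (Nat.card_pos (α := H)).ne'
  have hnorm_eq : Cfsg.classInner (Cfsg.indFun H ϑ) (Cfsg.indFun H ϑ) = Cfsg.classInner Φ Φ :=
    mul_left_cancel₀ hHne (hnormG.trans hnormT.symm)
  -- expand both sides
  have hnat : ∀ ψ ψ' : Cfsg.IrrCharacter T, ∃ n : ℕ,
      Cfsg.classInner (Cfsg.indFun T ψ.1) (Cfsg.indFun T ψ'.1) = n :=
    fun ψ ψ' => isCharacter_inner_nat (isCharacter_indFun T (isCharacter_irr ψ))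
      (isCharacter_indFun T (isCharacter_irr ψ'))
  choose n hn using hnat
  have hdiag : ∀ ψ : Cfsg.IrrCharacter T, 1 ≤ n ψ ψ := by
    intro ψ
    have h1 : Cfsg.indFun T ψ.1 1 ≠ 0 := by
      rw [indFun_one]
      apply mul_ne_zero
      · exact_mod_cast (Subgroup.index_ne_zero_of_finite (H := T))
      · exact irr_one_ne_zero ψ
    obtain ⟨k, hk, hk'⟩ := isCharacter_inner_self_pos (isCharacter_indFun T (isCharacter_irr ψ)) h1
    rw [hn ψ ψ] at hk'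
    have : n ψ ψ = k := by exact_mod_cast hk'
    omega
  have hL : Cfsg.classInner (Cfsg.indFun H ϑ) (Cfsg.indFun H ϑ)
      = ((∑ x : Cfsg.IrrCharacter T × Cfsg.IrrCharacter T, c x.1 * c x.2 * n x.1 x.2 : ℕ) : ℂ) := by
    rw [hind, classInner_sum_left]
    rw [Fintype.sum_prod_type]
    push_cast
    apply Finset.sum_congr rfl
    intro ψ _
    rw [classInner_smul_left, classInner_sum_right, Finset.mul_sum]
    apply Finset.sum_congr rfl
    intro ψ' _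
    rw [classInner_smul_right, hn ψ ψ']
    simp only [Complex.conj_natCast]
    ring
  have hR : Cfsg.classInner Φ Φ
      = ((∑ x : Cfsg.IrrCharacter T × Cfsg.IrrCharacter T,
          (if x.1 = x.2 then c x.1 * c x.2 else 0) : ℕ) : ℂ) := by
    conv_lhs => rw [hexp]
    rw [classInner_sum_left, Fintype.sum_prod_type]
    push_cast
    apply Finset.sum_congr rfl
    intro ψ _
    rw [classInner_smul_left, classInner_sum_right, Finset.mul_sum]
    apply Finset.sum_congr rfl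
    intro ψ' _
    rw [classInner_smul_right, irr_orthonormal]
    simp only [Complex.conj_natCast]
    split_ifs <;> simp
  rw [hL, hR] at hnorm_eq
  have hnat_eq : ∑ x : Cfsg.IrrCharacter T × Cfsg.IrrCharacter T,
      (if x.1 = x.2 then c x.1 * c x.2 else 0)
        = ∑ x : Cfsg.IrrCharacter T × Cfsg.IrrCharacter T, c x.1 * c x.2 * n x.1 x.2 := by
    exact_mod_cast hnorm_eq.symm
  have hle : ∀ x ∈ (Finset.univ : Finset (Cfsg.IrrCharacter T × Cfsg.IrrCharacter T)),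
      (if x.1 = x.2 then c x.1 * c x.2 else 0) ≤ c x.1 * c x.2 * n x.1 x.2 := by
    intro x _
    split_ifs with hx
    · have := hdiag x.1
      rw [← hx]
      nlinarith [Nat.zero_le (c x.1 * c x.1)]
    · exact Nat.zero_le _
  have hterm := (Finset.sum_eq_sum_iff_of_le hle).mp hnat_eq
  refine ⟨c, hfib, hind, ?_, ?_⟩
  · intro ψ hψ
    have h1 := hterm (ψ, ψ) (Finset.mem_univ _)
    simp only [if_true] at h1
    have h2 : n ψ ψ = 1 := by
      have hpos : 0 < c ψ * c ψ := Nat.mul_pos (Nat.pos_of_ne_zero hψ) (Nat.pos_of_ne_zero hψ)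
      have : c ψ * c ψ * 1 = c ψ * c ψ * n ψ ψ := by rw [mul_one]; exact h1
      exact (Nat.eq_of_mul_eq_mul_left hpos this).symm
    apply isIrrCharacter_of_inner_self_eq_one (isCharacter_indFun T (isCharacter_irr ψ))
    rw [hn ψ ψ, h2]; simp
  · intro ψ ψ' hψ hψ' hne
    have h1 := hterm (ψ, ψ') (Finset.mem_univ _)
    simp only [if_neg hne] at h1
    rw [hn ψ ψ']
    have hpos : 0 < c ψ * c ψ' := Nat.mul_pos (Nat.pos_of_ne_zero hψ) (Nat.pos_of_ne_zero hψ')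
    have h2 : n ψ ψ' = 0 := by
      rcases Nat.eq_zero_or_pos (n ψ ψ') with h | h
      · exact h
      · exfalso
        have := Nat.mul_pos hpos h
        omega
    rw [h2]; simp

end cliffordGe

section frClifford

variable {G : Type u} [Group G] [Fintype G]
variable (N : Subgroup G) [hN : N.Normal] [Fintype N]
variable (T : Subgroup G) [Fintype T] [Fintype (Cfsg.IrrCharacter T)] (hNT : N ≤ T)

/-- a character of `T` lying over `θ` induces irreducibly to `G`, when `T` contains the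
inertia group of `θ` -/
theorem fr_irr (θ : Cfsg.IrrCharacter N)
    (hst : ∀ g : G, (∀ n : N, θ.1 ⟨g * n * g⁻¹, hN.conj_mem (n : G) n.2 g⟩ = θ.1 n) → g ∈ T)
    (ψ : Cfsg.IrrCharacter T)
    (h : Cfsg.classInner (fun n : N => ψ.1 ⟨(n : G), hNT n.2⟩) θ.1 ≠ 0) :
    Cfsg.IsIrrCharacter G (Cfsg.indFun T ψ.1) := by
  obtain ⟨c, hfib, hind, hirr, horth⟩ := clifford_ge N θ.1 θ.2 T hst hNT
  apply hirr ψ
  intro h0
  apply h
  rw [hfib, h0]
  simp

/-- the induced character has the same ramification over `θ` -/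
theorem fr_inner (θ : Cfsg.IrrCharacter N)
    (hst : ∀ g : G, (∀ n : N, θ.1 ⟨g * n * g⁻¹, hN.conj_mem (n : G) n.2 g⟩ = θ.1 n) → g ∈ T)
    (ψ : Cfsg.IrrCharacter T)
    (h : Cfsg.classInner (fun n : N => ψ.1 ⟨(n : G), hNT n.2⟩) θ.1 ≠ 0) :
    Cfsg.classInner (fun n : N => Cfsg.indFun T ψ.1 n) θ.1
      = Cfsg.classInner (fun n : N => ψ.1 ⟨(n : G), hNT n.2⟩) θ.1 := by
  classical
  obtain ⟨c, hfib, hind, hirr, horth⟩ := clifford_ge N θ.1 θ.2 T hst hNT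
  have hcψ : c ψ ≠ 0 := by
    intro h0
    apply h
    rw [hfib, h0]
    simp
  have hfrob := frobenius_reciprocity N θ.1 (indFun_isClassFunction T ψ.1)
  have hsum : Cfsg.classInner (Cfsg.indFun N θ.1) (Cfsg.indFun T ψ.1)
      = ∑ ψ' : Cfsg.IrrCharacter T, (c ψ' : ℂ)
          * Cfsg.classInner (Cfsg.indFun T ψ'.1) (Cfsg.indFun T ψ.1) := by
    rw [hind, classInner_sum_left]
    exact Finset.sum_congr rfl (fun ψ' _ => classInner_smul_left _ _ _)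
  have h2 : ∑ ψ' : Cfsg.IrrCharacter T, (c ψ' : ℂ)
      * Cfsg.classInner (Cfsg.indFun T ψ'.1) (Cfsg.indFun T ψ.1) = (c ψ : ℂ) := by
    rw [Finset.sum_eq_single ψ]
    · rw [isIrrCharacter_inner_self (hirr ψ hcψ), mul_one]
    · intro ψ' _ hne'
      by_cases h0 : c ψ' = 0
      · rw [h0]; simp
      · rw [horth ψ' ψ h0 hcψ hne', mul_zero]
    · intro hh
      exact absurd (Finset.mem_univ _) hh
  rw [hfib ψ, classInner_conj_symm, ← hfrob, hsum, h2]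
  simp

/-- induction is injective on the characters of `T` lying over `θ` -/
theorem fr_inj (θ : Cfsg.IrrCharacter N)
    (hst : ∀ g : G, (∀ n : N, θ.1 ⟨g * n * g⁻¹, hN.conj_mem (n : G) n.2 g⟩ = θ.1 n) → g ∈ T)
    (ψ ψ' : Cfsg.IrrCharacter T)
    (h : Cfsg.classInner (fun n : N => ψ.1 ⟨(n : G), hNT n.2⟩) θ.1 ≠ 0)
    (h' : Cfsg.classInner (fun n : N => ψ'.1 ⟨(n : G), hNT n.2⟩) θ.1 ≠ 0)
    (heq : Cfsg.indFun T ψ.1 = Cfsg.indFun T ψ'.1) : ψ = ψ' := by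
  obtain ⟨c, hfib, hind, hirr, horth⟩ := clifford_ge N θ.1 θ.2 T hst hNT
  have hcψ : c ψ ≠ 0 := by
    intro h0
    apply h
    rw [hfib, h0]
    simp
  have hcψ' : c ψ' ≠ 0 := by
    intro h0
    apply h'
    rw [hfib, h0]
    simp
  by_contra hne
  have h1 := horth ψ ψ' hcψ hcψ' hne
  rw [← heq, isIrrCharacter_inner_self (hirr ψ hcψ)] at h1
  exact one_ne_zero h1

/-- every character of `G` lying over `θ` is induced from a character of `T` lying over `θ` -/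
theorem fr_surj (θ : Cfsg.IrrCharacter N)
    (hst : ∀ g : G, (∀ n : N, θ.1 ⟨g * n * g⁻¹, hN.conj_mem (n : G) n.2 g⟩ = θ.1 n) → g ∈ T)
    (χ : Cfsg.IrrCharacter G)
    (hcon : Cfsg.classInner (fun n : N => χ.1 n) θ.1 ≠ 0) :
    ∃ ψ : Cfsg.IrrCharacter T,
      Cfsg.classInner (fun n : N => ψ.1 ⟨(n : G), hNT n.2⟩) θ.1 ≠ 0 ∧ Cfsg.indFun T ψ.1 = χ.1 := by
  classical
  obtain ⟨c, hfib, hind, hirr, horth⟩ := clifford_ge N θ.1 θ.2 T hst hNT
  have hfrob := frobenius_reciprocity N θ.1 (isClassFunction_irr χ)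
  have hne : Cfsg.classInner (Cfsg.indFun N θ.1) χ.1 ≠ 0 := by
    rw [hfrob, classInner_conj_symm]
    simpa using hcon
  have hsum : Cfsg.classInner (Cfsg.indFun N θ.1) χ.1
      = ∑ ψ : Cfsg.IrrCharacter T, (c ψ : ℂ) * Cfsg.classInner (Cfsg.indFun T ψ.1) χ.1 := by
    rw [hind, classInner_sum_left]
    exact Finset.sum_congr rfl (fun ψ _ => classInner_smul_left _ _ _)
  rw [hsum] at hne
  obtain ⟨ψ, -, hψ⟩ := Finset.exists_ne_zero_of_sum_ne_zero hne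
  have hcψ : c ψ ≠ 0 := by
    intro h0
    apply hψ
    rw [h0]; simp
  have hin : Cfsg.classInner (Cfsg.indFun T ψ.1) χ.1 ≠ 0 := by
    intro h0
    apply hψ
    rw [h0]; simp
  have heq : Cfsg.indFun T ψ.1 = χ.1 := by
    have := irr_eq_of_inner_ne_zero (χ := ⟨Cfsg.indFun T ψ.1, hirr ψ hcψ⟩) (ψ := χ) hin
    exact congrArg Subtype.val this
  refine ⟨ψ, ?_, heq⟩
  rw [hfib ψ]
  exact_mod_cast hcψ

omit [Fintype G] [Fintype (Cfsg.IrrCharacter T)] in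
/-- the restriction to `N` of a class function of `T` is `T`-invariant -/
theorem classInner_res_conjFun {ψ : T → ℂ} (hψ : Cfsg.IsClassFunction T ψ) (θ : N → ℂ)
    {t : G} (ht : t ∈ T) :
    Cfsg.classInner (fun n : N => ψ ⟨(n : G), hNT n.2⟩) (helper24.conjFun N θ t)
      = Cfsg.classInner (fun n : N => ψ ⟨(n : G), hNT n.2⟩) θ := by
  unfold Cfsg.classInner
  congr 1
  rw [← Equiv.sum_comp (MulAut.conjNormal t : N ≃* N).toEquiv
    (fun m => ψ ⟨(m : G), hNT m.2⟩ * conj (θ m))]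
  apply Finset.sum_congr rfl
  intro n _
  have h1 : ψ ⟨(((MulAut.conjNormal t : N ≃* N).toEquiv n : N) : G), hNT (SetLike.coe_mem _)⟩
      = ψ ⟨(n : G), hNT n.2⟩ := by
    have := hψ ⟨(n : G), hNT n.2⟩ ⟨t, ht⟩
    rw [← this]
    rfl
  rw [h1]
  rfl

end frClifford

section frTrace

variable {G : Type u} [Group G] [Fintype G] [Fintype (Cfsg.IrrCharacter G)]
variable (T : Subgroup G) [Fintype T] [Fintype (Cfsg.IrrCharacter T)]
variable {M : Ideal Cfsg.AlgInt}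

/-- the trace from the centre of the group algebra of `T` to that of `G`, in coordinates -/
theorem coord_indFun_coef (a : Cfsg.IrrCharacter T → ℂ) (χ : Cfsg.IrrCharacter G) :
    coord (Cfsg.indFun T (coef a)) χ = (T.index : ℂ) / χ.1 1 *
      ∑ ψ : Cfsg.IrrCharacter T, Cfsg.classInner (fun t : T => χ.1 t) ψ.1 * (a ψ * ψ.1 1) := by
  classical
  have hG : (Nat.card G : ℂ) ≠ 0 := NeZero.ne _
  have hTne : (Nat.card T : ℂ) ≠ 0 := NeZero.ne _
  have hcc : Cfsg.IsClassFunction G (fun g => conj (χ.1 g)) := by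
    intro g x
    show conj (χ.1 (x * g * x⁻¹)) = conj (χ.1 g)
    rw [isClassFunction_irr χ g x]
  have hfrob := frobenius_reciprocity T (coef a) hcc
  unfold Cfsg.classInner at hfrob
  simp only [Complex.conj_conj] at hfrob
  have h1 : ∑ g : G, Cfsg.indFun T (coef a) g * χ.1 g
      = (T.index : ℂ) * ∑ t : T, coef a t * χ.1 t := by
    have hidx : (T.index : ℂ) = (Nat.card G : ℂ) * (Nat.card T : ℂ)⁻¹ := by
      rw [eq_mul_inv_iff_mul_eq₀ hTne, ← Nat.cast_mul, Subgroup.index_mul_card]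
    have : ∑ g : G, Cfsg.indFun T (coef a) g * χ.1 g
        = (Nat.card G : ℂ) * ((Nat.card T : ℂ)⁻¹ * ∑ t : T, coef a t * χ.1 t) := by
      rw [← hfrob, ← mul_assoc, mul_inv_cancel₀ hG, one_mul]
    rw [this, hidx]
    ring
  have hres : Cfsg.IsClassFunction T (fun t : T => χ.1 t) := by
    intro t x
    exact isClassFunction_irr χ (t : G) (x : G)
  have hexp := classFunction_expansion hres
  have hpt : ∀ t : T, χ.1 t
      = ∑ ψ : Cfsg.IrrCharacter T, Cfsg.classInner (fun t : T => χ.1 t) ψ.1 * ψ.1 t := by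
    intro t
    have h := congrFun hexp t
    rw [Finset.sum_apply] at h
    exact h
  have h2 : ∑ t : T, coef a t * χ.1 t
      = ∑ ψ : Cfsg.IrrCharacter T, Cfsg.classInner (fun t : T => χ.1 t) ψ.1 * (a ψ * ψ.1 1) := by
    calc ∑ t : T, coef a t * χ.1 t
        = ∑ t : T, ∑ ψ : Cfsg.IrrCharacter T,
            Cfsg.classInner (fun t : T => χ.1 t) ψ.1 * (coef a t * ψ.1 t) := by
          apply Finset.sum_congr rfl
          intro t _
          conv_lhs => rw [hpt t]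
          rw [Finset.mul_sum]
          apply Finset.sum_congr rfl
          intro ψ _
          ring
      _ = ∑ ψ : Cfsg.IrrCharacter T, ∑ t : T,
            Cfsg.classInner (fun t : T => χ.1 t) ψ.1 * (coef a t * ψ.1 t) := Finset.sum_comm
      _ = ∑ ψ : Cfsg.IrrCharacter T,
            Cfsg.classInner (fun t : T => χ.1 t) ψ.1 * (a ψ * ψ.1 1) := by
          apply Finset.sum_congr rfl
          intro ψ _
          rw [← Finset.mul_sum, sum_coef_mul]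
  unfold coord
  rw [h1, h2]
  ring

/-- the trace of a central element with local coefficients has local coefficients -/
theorem indFun_coef_mem_osimaRing (hM : M.IsPrime) {a : Cfsg.IrrCharacter T → ℂ}
    (ha : a ∈ osimaRing T M hM) :
    coord (Cfsg.indFun T (coef a)) ∈ osimaRing G M hM := by
  classical
  haveI := Fintype.ofFinite (G ⧸ T)
  have hTne : (Nat.card T : ℂ) ≠ 0 := NeZero.ne _
  apply coord_mem_osimaRing hM (indFun_isClassFunction T (coef a))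
  intro g
  have hinv : ∀ x : G, ∀ k ∈ T, Cfsg.extendByZero T (coef a) ((x * k)⁻¹ * g * (x * k))
      = Cfsg.extendByZero T (coef a) (x⁻¹ * g * x) := by
    intro x k hk
    have e : (x * k)⁻¹ * g * (x * k) = k⁻¹ * (x⁻¹ * g * x) * k⁻¹⁻¹ := by group
    by_cases hy : x⁻¹ * g * x ∈ T
    · have hy' : k⁻¹ * (x⁻¹ * g * x) * k⁻¹⁻¹ ∈ T :=
        T.mul_mem (T.mul_mem (T.inv_mem hk) hy) (T.inv_mem (T.inv_mem hk))
      rw [e, extendByZero_apply_mem T _ hy, extendByZero_apply_mem T _ hy']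
      exact coef_conj a ⟨x⁻¹ * g * x, hy⟩ ⟨k⁻¹, T.inv_mem hk⟩
    · have hy' : k⁻¹ * (x⁻¹ * g * x) * k⁻¹⁻¹ ∉ T := by
        intro h
        apply hy
        have h2 := T.mul_mem (T.mul_mem hk h) (T.inv_mem hk)
        have e2 : k * (k⁻¹ * (x⁻¹ * g * x) * k⁻¹⁻¹) * k⁻¹ = x⁻¹ * g * x := by group
        rwa [e2] at h2
      rw [e, extendByZero_apply_not_mem T _ hy, extendByZero_apply_not_mem T _ hy']
  have hsum := sum_eq_card_mul_sum_quotient T
    (fun x => Cfsg.extendByZero T (coef a) (x⁻¹ * g * x)) hinv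
  have hval : Cfsg.indFun T (coef a) g
      = ∑ q : G ⧸ T, Cfsg.extendByZero T (coef a) (q.out⁻¹ * g * q.out) := by
    show (Nat.card T : ℂ)⁻¹ * ∑ x : G, Cfsg.extendByZero T (coef a) (x⁻¹ * g * x) = _
    rw [hsum, ← mul_assoc, inv_mul_cancel₀ hTne, one_mul]
  rw [hval]
  apply memLocalRing_sum hM
  intro q _
  by_cases hy : q.out⁻¹ * g * q.out ∈ T
  · rw [extendByZero_apply_mem T _ hy]
    exact ha _
  · rw [extendByZero_apply_not_mem T _ hy]
    exact memLocalRing_zero hM.ne_top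

end frTrace

section frBlocks

variable {G : Type u} [Group G] [Fintype G] [Fintype (Cfsg.IrrCharacter G)]
variable (N : Subgroup G) [hN : N.Normal] [Fintype N] [Fintype (Cfsg.IrrCharacter N)]
variable (T : Subgroup G) [Fintype T] [Fintype (Cfsg.IrrCharacter T)] (hNT : N ≤ T)
variable {M : Ideal Cfsg.AlgInt}

/-- `T` is the stabilizer of the set `b` of characters of `N` -/
def IsStabOf (b : Set (Cfsg.IrrCharacter N)) : Prop :=
  ∀ g : G, g ∈ T ↔ ∀ θ ∈ b, ∀ θ' : Cfsg.IrrCharacter N,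
    (∀ n : N, θ'.1 n = θ.1 ⟨g * n * g⁻¹, hN.conj_mem n n.2 g⟩) → θ' ∈ b

omit [Fintype G] [Fintype (Cfsg.IrrCharacter G)] [Fintype N] [Fintype (Cfsg.IrrCharacter N)]
  [Fintype T] [Fintype (Cfsg.IrrCharacter T)] in
theorem stab_iff {b : Set (Cfsg.IrrCharacter N)} (hT : IsStabOf N T b) (g : G) :
    g ∈ T ↔ ∀ θ ∈ b, conjIrr N g θ ∈ b := by
  rw [hT g]
  constructor
  · intro h θ hθ
    exact h θ hθ (conjIrr N g θ) (fun n => rfl)
  · intro h θ hθ θ' hθ'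
    have : θ' = conjIrr N g θ := Subtype.ext (funext hθ')
    rw [this]
    exact h θ hθ

omit [Fintype G] [Fintype (Cfsg.IrrCharacter G)] [Fintype N] [Fintype (Cfsg.IrrCharacter N)]
  [Fintype T] [Fintype (Cfsg.IrrCharacter T)] in
theorem mem_stab_of_conj (hMp : M.IsPrime) {b : Set (Cfsg.IrrCharacter N)}
    (hb : Cfsg.IsPBlock M b) (hT : IsStabOf N T b) {θ : Cfsg.IrrCharacter N} (hθ : θ ∈ b)
    {g : G} (hg : conjIrr N g θ ∈ b) : g ∈ T := by
  rw [stab_iff N T hT]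
  intro θ₁ hθ₁
  obtain ⟨θ₀, rfl⟩ := hb
  have h1 : Cfsg.SameBlock M θ₀.1 (helper24.conjFun N θ.1 g) := hg
  have h2 : Cfsg.SameBlock M θ₀.1 θ.1 := hθ
  have h3 : Cfsg.SameBlock M θ₀.1 θ₁.1 := hθ₁
  show Cfsg.SameBlock M θ₀.1 (helper24.conjFun N θ₁.1 g)
  exact sameBlock_trans hMp h1
    (sameBlock_conjFun N g (sameBlock_trans hMp (sameBlock_symm h2) h3))

omit [Fintype G] [Fintype (Cfsg.IrrCharacter G)] [Fintype N] [Fintype (Cfsg.IrrCharacter N)]
  [Fintype T] [Fintype (Cfsg.IrrCharacter T)] in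
theorem inertia_le_stab (hMp : M.IsPrime) {b : Set (Cfsg.IrrCharacter N)}
    (hb : Cfsg.IsPBlock M b) (hT : IsStabOf N T b) {θ : Cfsg.IrrCharacter N} (hθ : θ ∈ b)
    (g : G) (hg : ∀ n : N, θ.1 ⟨g * n * g⁻¹, hN.conj_mem (n : G) n.2 g⟩ = θ.1 n) : g ∈ T := by
  apply mem_stab_of_conj N T hMp hb hT hθ (g := g)
  have : conjIrr N g θ = θ := Subtype.ext (funext hg)
  rw [this]
  exact hθ

omit [Fintype (Cfsg.IrrCharacter G)] in
/-- every member of a block of `T` covering `b` lies over `b` -/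
theorem cover_all_T (hMp : M.IsPrime) {b : Set (Cfsg.IrrCharacter N)}
    (hb : Cfsg.IsPBlock M b) (B' : Set (Cfsg.IrrCharacter T)) (hB' : Cfsg.IsPBlock M B')
    (hcov : ∃ ψ ∈ B', ∃ θ ∈ b,
      Cfsg.classInner (fun n : N => ψ.1 ⟨(n : G), hNT n.2⟩) θ.1 ≠ 0) :
    ∀ ψ ∈ B', ∃ θ ∈ b, Cfsg.classInner (fun n : N => ψ.1 ⟨(n : G), hNT n.2⟩) θ.1 ≠ 0 := by
  classical
  obtain ⟨ψ₀, hψ₀, θ₀, hθ₀, hcon⟩ := hcov
  intro ψ hψ
  let N' : Subgroup T := N.subgroupOf T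
  let e : N' ≃* N := Subgroup.subgroupOfEquivOfLe hNT
  haveI hN'n : N'.Normal := Subgroup.Normal.subgroupOf hN T
  haveI : Fintype N' := Fintype.ofFinite _
  haveI : Fintype (Cfsg.IrrCharacter N') := Fintype.ofFinite _
  let θ₀' : Cfsg.IrrCharacter N' := ⟨θ₀.1 ∘ e, isIrrCharacter_comp_equiv e θ₀.2⟩
  have hsb : Cfsg.SameBlock M ψ₀.1 ψ.1 := by
    obtain ⟨ξ, rfl⟩ := hB'
    exact sameBlock_trans hMp (sameBlock_symm hψ₀) hψ
  have hcon' : Cfsg.classInner (fun n : N' => ψ₀.1 n) θ₀'.1 ≠ 0 := by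
    have h3 := classInner_comp_equiv e (fun n : N => ψ₀.1 ⟨(n : G), hNT n.2⟩) θ₀.1
    rw [← h3] at hcon
    exact hcon
  obtain ⟨φ', hφ'⟩ := exists_constituent_restrict N' ψ
  obtain ⟨t, ht⟩ := cover_conj N' hMp hsb hcon' hφ'
  let φ : Cfsg.IrrCharacter N := ⟨φ'.1 ∘ e.symm, isIrrCharacter_comp_equiv e.symm φ'.2⟩
  have hφe : φ.1 ∘ e = φ'.1 := by
    funext x
    show φ'.1 (e.symm (e x)) = φ'.1 x
    rw [e.symm_apply_apply]
  have hconj : helper24.conjFun N' φ'.1 t = (helper24.conjFun N φ.1 (t : G)) ∘ e := by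
    funext x
    show φ'.1 ⟨t * x * t⁻¹, _⟩
      = φ'.1 (e.symm ⟨(t : G) * ((e x : N) : G) * (t : G)⁻¹, _⟩)
    congr 1
  refine ⟨conjIrr N (t : G) φ, ?_, ?_⟩
  · obtain ⟨θ₁, rfl⟩ := hb
    have h1 : Cfsg.SameBlock M θ₁.1 θ₀.1 := hθ₀
    have h2 : Cfsg.SameBlock M (θ₀.1 ∘ e) ((helper24.conjFun N φ.1 (t : G)) ∘ e) := by
      rw [← hconj]
      exact ht
    have h3 := Cfsg.Agent.Lib.helper5.sameBlock_comp_equiv e.symm h2
    have e1 : (θ₀.1 ∘ e) ∘ e.symm = θ₀.1 := by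
      funext x
      simp
    have e2 : ((helper24.conjFun N φ.1 (t : G)) ∘ e) ∘ e.symm
        = helper24.conjFun N φ.1 (t : G) := by
      funext x
      simp
    rw [e1, e2] at h3
    exact sameBlock_trans hMp h1 h3
  · rw [conjIrr_val, classInner_res_conjFun N T hNT (isClassFunction_irr ψ) φ.1 t.2]
    have h3 := classInner_comp_equiv e (fun n : N => ψ.1 ⟨(n : G), hNT n.2⟩) φ.1
    rw [← h3, hφe]
    exact hφ'

/-- every member of a block of `G` covering `b` lies over `b` -/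
theorem cover_all_G (hMp : M.IsPrime) {b : Set (Cfsg.IrrCharacter N)}
    (hb : Cfsg.IsPBlock M b) (B : Set (Cfsg.IrrCharacter G)) (hB : Cfsg.IsPBlock M B)
    (hcov : ∃ χ ∈ B, ∃ θ ∈ b, Cfsg.classInner (fun n : N => χ.1 n) θ.1 ≠ 0) :
    ∀ χ ∈ B, ∃ θ ∈ b, Cfsg.classInner (fun n : N => χ.1 n) θ.1 ≠ 0 := by
  obtain ⟨χ₀, hχ₀, θ₀, hθ₀, hcon⟩ := hcov
  intro χ hχ
  have hsb : Cfsg.SameBlock M χ₀.1 χ.1 := by
    obtain ⟨ξ, rfl⟩ := hB
    exact sameBlock_trans hMp (sameBlock_symm hχ₀) hχ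
  obtain ⟨φ, hφ⟩ := exists_constituent_restrict N χ
  obtain ⟨g, hg⟩ := cover_conj N hMp hsb hcon hφ
  refine ⟨conjIrr N g φ, ?_, ?_⟩
  · obtain ⟨θ₁, rfl⟩ := hb
    have h1 : Cfsg.SameBlock M θ₁.1 θ₀.1 := hθ₀
    exact sameBlock_trans hMp h1 hg
  · rw [constituent_conjIrr]
    exact hφ

omit [Fintype (Cfsg.IrrCharacter G)] [Fintype (Cfsg.IrrCharacter N)] in
/-- a character of `T` over `b` occurring in the restriction of `ψ^G`, `ψ` over `b`, is `ψ` -/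
theorem fr_key (hMp : M.IsPrime) {b : Set (Cfsg.IrrCharacter N)}
    (hb : Cfsg.IsPBlock M b) (hT : IsStabOf N T b) (ψ ψ' : Cfsg.IrrCharacter T)
    {θ θ' : Cfsg.IrrCharacter N} (hθ : θ ∈ b) (hθ' : θ' ∈ b)
    (h : Cfsg.classInner (fun n : N => ψ.1 ⟨(n : G), hNT n.2⟩) θ.1 ≠ 0)
    (h' : Cfsg.classInner (fun n : N => ψ'.1 ⟨(n : G), hNT n.2⟩) θ'.1 ≠ 0)
    (hne : Cfsg.classInner (fun t : T => Cfsg.indFun T ψ.1 t) ψ'.1 ≠ 0) : ψ' = ψ := by
  have hst := fun g hg => inertia_le_stab N T hMp hb hT hθ g hg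
  have hst' := fun g hg => inertia_le_stab N T hMp hb hT hθ' g hg
  have hirr := fr_irr N T hNT θ hst ψ h
  have hirr' := fr_irr N T hNT θ' hst' ψ' h'
  have hfrob := frobenius_reciprocity T ψ'.1 (indFun_isClassFunction T ψ.1)
  have hne2 : Cfsg.classInner (Cfsg.indFun T ψ'.1) (Cfsg.indFun T ψ.1) ≠ 0 := by
    rw [hfrob, classInner_conj_symm]
    simpa using hne
  have heq : Cfsg.indFun T ψ'.1 = Cfsg.indFun T ψ.1 :=
    congrArg Subtype.val (irr_eq_of_inner_ne_zero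
      (χ := ⟨Cfsg.indFun T ψ'.1, hirr'⟩) (ψ := ⟨Cfsg.indFun T ψ.1, hirr⟩) hne2)
  have hχθ : Cfsg.classInner (fun n : N => Cfsg.indFun T ψ.1 n) θ.1 ≠ 0 := by
    rw [fr_inner N T hNT θ hst ψ h]
    exact h
  have hχθ' : Cfsg.classInner (fun n : N => Cfsg.indFun T ψ.1 n) θ'.1 ≠ 0 := by
    rw [← heq, fr_inner N T hNT θ' hst' ψ' h']
    exact h'
  obtain ⟨g, hg⟩ := constituent_mem_conjOrbit N hirr θ.2 θ'.2 hχθ hχθ'
  have hgT : g ∈ T := by
    apply mem_stab_of_conj N T hMp hb hT hθ (g := g)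
    have : conjIrr N g θ = θ' := Subtype.ext hg.symm
    rw [this]
    exact hθ'
  have hψθ' : Cfsg.classInner (fun n : N => ψ.1 ⟨(n : G), hNT n.2⟩) θ'.1 ≠ 0 := by
    rw [hg, classInner_res_conjFun N T hNT (isClassFunction_irr ψ) θ.1 hgT]
    exact h
  exact fr_inj N T hNT θ' hst' ψ' ψ h' hψθ' heq

end frBlocks

section frMain

variable {G : Type u} [Group G] [Fintype G] [Fintype (Cfsg.IrrCharacter G)]
variable (N : Subgroup G) [hN : N.Normal] [Fintype N] [Fintype (Cfsg.IrrCharacter N)]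
variable (T : Subgroup G) [Fintype T] [Fintype (Cfsg.IrrCharacter T)] (hNT : N ≤ T)
variable {M : Ideal Cfsg.AlgInt} {p : ℕ} [Fact p.Prime]

/-- Fong–Reynolds, injectivity: distinct blocks of the stabilizer `T` covering `b` induce
distinct blocks of `G` -/
theorem fr_block_inj (hM : Cfsg.IsPModular p M) {b : Set (Cfsg.IrrCharacter N)}
    (hb : Cfsg.IsPBlock M b) (hT : IsStabOf N T b)
    (B'₁ B'₂ : Set (Cfsg.IrrCharacter T)) (hB'₁ : Cfsg.IsPBlock M B'₁)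
    (hB'₂ : Cfsg.IsPBlock M B'₂)
    (hc₁ : ∃ ψ ∈ B'₁, ∃ θ ∈ b,
      Cfsg.classInner (fun n : N => ψ.1 ⟨(n : G), hNT n.2⟩) θ.1 ≠ 0)
    (hc₂ : ∃ ψ ∈ B'₂, ∃ θ ∈ b,
      Cfsg.classInner (fun n : N => ψ.1 ⟨(n : G), hNT n.2⟩) θ.1 ≠ 0)
    (B : Set (Cfsg.IrrCharacter G)) (h₁ : Cfsg.IsInducedBlock M T B'₁ B)
    (h₂ : Cfsg.IsInducedBlock M T B'₂ B) : B'₁ = B'₂ := by
  classical
  have hMp := isPModular_isPrime hM
  by_contra hne
  obtain ⟨ψ₁, hψ₁, θ₁, hθ₁, hcon₁⟩ := hc₁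
  obtain ⟨ψ₂, hψ₂, θ₂, hθ₂, hcon₂⟩ := hc₂
  have hst₁ := fun g hg => inertia_le_stab N T hMp hb hT hθ₁ g hg
  have hst₂ := fun g hg => inertia_le_stab N T hMp hb hT hθ₂ g hg
  have hirr₁ := fr_irr N T hNT θ₁ hst₁ ψ₁ hcon₁
  have hirr₂ := fr_irr N T hNT θ₂ hst₂ ψ₂ hcon₂
  obtain ⟨χ₁, hχ₁⟩ : ∃ χ₁ : Cfsg.IrrCharacter G, χ₁.1 = Cfsg.indFun T ψ₁.1 :=
    ⟨⟨Cfsg.indFun T ψ₁.1, hirr₁⟩, rfl⟩
  obtain ⟨χ₂, hχ₂⟩ : ∃ χ₂ : Cfsg.IrrCharacter G, χ₂.1 = Cfsg.indFun T ψ₂.1 :=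
    ⟨⟨Cfsg.indFun T ψ₂.1, hirr₂⟩, rfl⟩
  have hB1 : B'₁ = Cfsg.blockOf M ψ₁.1 := by
    obtain ⟨ξ, rfl⟩ := hB'₁
    exact (blockOf_eq_of_mem hMp hψ₁).symm
  have hB2 : B'₂ = Cfsg.blockOf M ψ₂.1 := by
    obtain ⟨ξ, rfl⟩ := hB'₂
    exact (blockOf_eq_of_mem hMp hψ₂).symm
  have hi₁ := Cfsg.Agent.S0933.result p M hM T ψ₁ hirr₁
  have hi₂ := Cfsg.Agent.S0933.result p M hM T ψ₂ hirr₂
  rw [← hχ₁, ← hB1] at hi₁
  rw [← hχ₂, ← hB2] at hi₂
  obtain ⟨χ₀, hχ₀⟩ := h₁.2.1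
  rw [hχ₀] at h₁ h₂
  have hs₁ : Cfsg.SameBlock M χ₀.1 χ₁.1 := sameBlock_of_isInducedBlock hMp h₁ hi₁
  have hs₂ : Cfsg.SameBlock M χ₀.1 χ₂.1 := sameBlock_of_isInducedBlock hMp h₂ hi₂
  have hs : Cfsg.SameBlock M χ₁.1 χ₂.1 := sameBlock_trans hMp (sameBlock_symm hs₁) hs₂
  have ha : (Cfsg.blockOf M ψ₁.1).indicator (fun _ => (1:ℂ)) ∈ osimaRing T M hMp :=
    indicator_mem_osimaRing hMp ψ₁
  have hA := indFun_coef_mem_osimaRing (G := G) T hMp ha
  have hsub := memLocalIdeal_coord_sub hMp hA hs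
  rw [coord_indFun_coef, coord_indFun_coef] at hsub
  have hcovB : ∃ ψ ∈ Cfsg.blockOf M ψ₁.1, ∃ θ ∈ b,
      Cfsg.classInner (fun n : N => ψ.1 ⟨(n : G), hNT n.2⟩) θ.1 ≠ 0 :=
    ⟨ψ₁, mem_blockOf_self hMp.ne_top ψ₁, θ₁, hθ₁, hcon₁⟩
  have hall := cover_all_T N T hNT hMp hb (Cfsg.blockOf M ψ₁.1) ⟨ψ₁, rfl⟩ hcovB
  have hsum₁ : ∑ ψ : Cfsg.IrrCharacter T, Cfsg.classInner (fun t : T => χ₁.1 t) ψ.1
      * ((Cfsg.blockOf M ψ₁.1).indicator (fun _ => (1:ℂ)) ψ * ψ.1 1) = ψ₁.1 1 := by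
    rw [Finset.sum_eq_single ψ₁]
    · have hfrob := frobenius_reciprocity T ψ₁.1 (isClassFunction_irr χ₁)
      have h1 : Cfsg.classInner (fun t : T => χ₁.1 t) ψ₁.1 = 1 := by
        rw [classInner_conj_symm, ← hfrob, hχ₁, isIrrCharacter_inner_self hirr₁]
        simp
      rw [h1, Set.indicator_of_mem (mem_blockOf_self hMp.ne_top ψ₁)]
      ring
    · intro ψ' _ hne'
      by_cases hmem : ψ' ∈ Cfsg.blockOf M ψ₁.1
      · have hz : Cfsg.classInner (fun t : T => χ₁.1 t) ψ'.1 = 0 := by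
          by_contra hnz
          obtain ⟨θ', hθ', hcon'⟩ := hall ψ' hmem
          rw [hχ₁] at hnz
          exact hne' (fr_key N T hNT hMp hb hT ψ₁ ψ' hθ₁ hθ' hcon₁ hcon' hnz)
        rw [hz, zero_mul]
      · rw [Set.indicator_of_notMem hmem]
        ring
    · intro h
      exact absurd (Finset.mem_univ _) h
  have hsum₂ : ∑ ψ : Cfsg.IrrCharacter T, Cfsg.classInner (fun t : T => χ₂.1 t) ψ.1
      * ((Cfsg.blockOf M ψ₁.1).indicator (fun _ => (1:ℂ)) ψ * ψ.1 1) = 0 := by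
    apply Finset.sum_eq_zero
    intro ψ' _
    by_cases hmem : ψ' ∈ Cfsg.blockOf M ψ₁.1
    · have hz : Cfsg.classInner (fun t : T => χ₂.1 t) ψ'.1 = 0 := by
        by_contra hnz
        obtain ⟨θ', hθ', hcon'⟩ := hall ψ' hmem
        rw [hχ₂] at hnz
        have h2 := fr_key N T hNT hMp hb hT ψ₂ ψ' hθ₂ hθ' hcon₂ hcon' hnz
        apply hne
        rw [hB1, hB2]
        rw [h2] at hmem
        exact (blockOf_eq_of_mem hMp hmem).symm
      rw [hz, zero_mul]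
    · rw [Set.indicator_of_notMem hmem]
      ring
  rw [hsum₁, hsum₂] at hsub
  have hχ1 : χ₁.1 1 = (T.index : ℂ) * ψ₁.1 1 := by
    rw [hχ₁]
    exact indFun_one T ψ₁.1
  have hone : (T.index : ℂ) / χ₁.1 1 * ψ₁.1 1 - (T.index : ℂ) / χ₂.1 1 * 0 = 1 := by
    rw [hχ1, mul_zero, sub_zero]
    have h1 : (T.index : ℂ) ≠ 0 := by
      exact_mod_cast (Subgroup.index_ne_zero_of_finite (H := T))
    have h2 := irr_one_ne_zero ψ₁
    field_simp
  rw [hone] at hsub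
  exact not_memLocalIdeal_one hMp hsub

end frMain

end Cfsg.Agent.Lib.helper5
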