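import Mathlib
import Cfsg.Agent.Lib.helper5.FongReynolds
import Cfsg.Agent.Lib.helper5.BrauerCorr
import Cfsg.Agent.Lib.helper23.BPDefect
import Cfsg.Agent.S0970
import Cfsg.Agent.S0908
import Cfsg.Agent.S4435
import Cfsg.Agent.S4436

set_option autoImplicit false

/-!
# Relative versions of the covering theorems

Transport of blocks along isomorphisms and versions of Fong's theorems for a subgroup `T`
containing a subgroup `N` that it normalizes.
-/

namespace Cfsg.Agent.Lib.helper5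

open Cfsg.Agent.Lib.helper23 Cfsg.Agent.Lib.helper24
open scoped ComplexConjugate

universe u

section transport

variable {K K' : Type u} [Group K] [Group K']
variable {M : Ideal Cfsg.AlgInt}

theorem isPBlock_image_irrMap (ψ : K' ≃* K) {b : Set (Cfsg.IrrCharacter K)}
    (hb : Cfsg.IsPBlock M b) : Cfsg.IsPBlock M (irrMap ψ '' b) := by
  obtain ⟨θ₀, rfl⟩ := hb
  exact ⟨irrMap ψ θ₀, irrMap_image_blockOf M ψ θ₀⟩

theorem image_irrMap_symm_image (ψ : K' ≃* K) (b : Set (Cfsg.IrrCharacter K)) :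
    irrMap ψ.symm '' (irrMap ψ '' b) = b := by
  ext θ
  constructor
  · rintro ⟨_, ⟨θ', hθ', rfl⟩, rfl⟩
    rw [irrMap_symm_irrMap]
    exact hθ'
  · intro hθ
    exact ⟨irrMap ψ θ, ⟨θ, hθ, rfl⟩, irrMap_symm_irrMap ψ θ⟩

theorem image_irrMap_image_symm (ψ : K' ≃* K) (b : Set (Cfsg.IrrCharacter K')) :
    irrMap ψ '' (irrMap ψ.symm '' b) = b := by
  ext θ
  constructor
  · rintro ⟨_, ⟨θ', hθ', rfl⟩, rfl⟩
    rw [irrMap_irrMap_symm]
    exact hθ'
  · intro hθ
    exact ⟨irrMap ψ.symm θ, ⟨θ, hθ, rfl⟩, irrMap_irrMap_symm ψ θ⟩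

theorem charDegree_irrMap (ψ : K' ≃* K) (θ : Cfsg.IrrCharacter K) :
    Cfsg.charDegree (irrMap ψ θ).1 = Cfsg.charDegree θ.1 := by
  unfold Cfsg.charDegree
  rw [irrMap_apply, map_one]

theorem blockDefect_image_irrMap (p : ℕ) (ψ : K' ≃* K) (b : Set (Cfsg.IrrCharacter K)) :
    Cfsg.blockDefect p (irrMap ψ '' b) = Cfsg.blockDefect p b := by
  unfold Cfsg.blockDefect
  rw [Nat.card_congr ψ.toEquiv, Set.image_image]
  congr 2
  apply Set.image_congr
  intro θ _
  show (Cfsg.charDegree (irrMap ψ θ).1).factorization p = _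
  rw [charDegree_irrMap]

end transport

section rel

variable {G : Type u} [Group G] [Fintype G]
variable {M : Ideal Cfsg.AlgInt} {p : ℕ} [Fact p.Prime]

/-- a block `B'` of `T ≥ N` covers the block `b` of `N` -/
def CovRel (N T : Subgroup G) [Fintype N] (hNT : N ≤ T) (b : Set (Cfsg.IrrCharacter N))
    (B' : Set (Cfsg.IrrCharacter T)) : Prop :=
  ∃ ψ ∈ B', ∃ θ ∈ b, Cfsg.classInner (fun n : N => ψ.1 ⟨(n : G), hNT n.2⟩) θ.1 ≠ 0

/-- **Fong's theorem for an invariant block, relative version**: `N ≤ T` normalized by `T`, `b`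
a `T`-invariant block of `N`, `B'` a block of `T` covering `b` of maximal defect. -/
theorem fong_rel (hM : Cfsg.IsPModular p M) (N T : Subgroup G) [Fintype N] (hNT : N ≤ T)
    (hnorm : T ≤ Subgroup.normalizer (N : Set G))
    (b : Set (Cfsg.IrrCharacter N)) (hb : Cfsg.IsPBlock M b)
    (hinv : ∀ t ∈ T, Cfsg.StabilizesBlock N b t)
    (B' : Set (Cfsg.IrrCharacter T)) (hB' : Cfsg.IsPBlock M B') (hcov : CovRel N T hNT b B')
    (hmax : ∀ B'' : Set (Cfsg.IrrCharacter T), Cfsg.IsPBlock M B'' → CovRel N T hNT b B'' →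
      Cfsg.blockDefect p B'' ≤ Cfsg.blockDefect p B')
    (D : Subgroup T) (hD : Cfsg.IsDefectGroup p M B' D) :
    ¬ p ∣ ((D.map T.subtype) ⊔ N).relIndex T ∧
    Cfsg.IsDefectGroup p M b (((D.map T.subtype) ⊓ N).subgroupOf N) ∧
    Cfsg.blockDefect p B' = Cfsg.blockDefect p b + (N.relIndex T).factorization p := by
  classical
  haveI : Fintype T := Fintype.ofFinite T
  haveI hN'n : (N.subgroupOf T).Normal :=
    (Subgroup.normal_subgroupOf_iff_le_normalizer hNT).mpr hnorm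
  haveI : Fintype (N.subgroupOf T) := Fintype.ofFinite _
  let e : N.subgroupOf T ≃* N := Subgroup.subgroupOfEquivOfLe hNT
  have hb' : Cfsg.IsPBlock M (irrMap e '' b) := isPBlock_image_irrMap e hb
  have hinv' : ∀ g : T, ∀ θ ∈ irrMap e '' b, ∀ θ' : Cfsg.IrrCharacter (N.subgroupOf T),
      (∀ n : N.subgroupOf T, θ'.1 n = θ.1 ⟨g * n * g⁻¹, hN'n.conj_mem n n.2 g⟩) →
      θ' ∈ irrMap e '' b := by
    rintro g _ ⟨θ₀, hθ₀, rfl⟩ θ' hθ'
    obtain ⟨-, h⟩ := hinv ((g⁻¹ : T) : G) (g⁻¹ : T).2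
    obtain ⟨χ', hχ', hconj⟩ := h θ₀ hθ₀
    refine ⟨χ', hχ', ?_⟩
    apply Subtype.ext
    funext n
    rw [hθ' n]
    show χ'.1 (e n) = θ₀.1 (e ⟨g * n * g⁻¹, hN'n.conj_mem n n.2 g⟩)
    apply hconj
    show ((n : T) : G) = ((g⁻¹ : T) : G) * ((g : G) * ((n : T) : G) * (g : G)⁻¹)
      * ((g⁻¹ : T) : G)⁻¹
    rw [Subgroup.coe_inv]
    group
  have hcov' : ∃ χ ∈ B', ∃ θ ∈ irrMap e '' b,
      Cfsg.classInner (fun n : N.subgroupOf T => (χ : T → ℂ) n)
        (θ : N.subgroupOf T → ℂ) ≠ 0 := by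
    obtain ⟨ψ, hψ, θ, hθ, hne⟩ := hcov
    refine ⟨ψ, hψ, irrMap e θ, ⟨θ, hθ, rfl⟩, ?_⟩
    have h3 := classInner_comp_equiv e (fun n : N => ψ.1 ⟨(n : G), hNT n.2⟩) θ.1
    rw [← h3] at hne
    exact hne
  have hmax' : ∀ B'' : Set (Cfsg.IrrCharacter T), Cfsg.IsPBlock M B'' →
      (∃ χ ∈ B'', ∃ θ ∈ irrMap e '' b,
        Cfsg.classInner (fun n : N.subgroupOf T => (χ : T → ℂ) n)
          (θ : N.subgroupOf T → ℂ) ≠ 0) →
      Cfsg.blockDefect p B'' ≤ Cfsg.blockDefect p B' := by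
    rintro B'' hB'' ⟨χ, hχ, _, ⟨θ, hθ, rfl⟩, hne⟩
    apply hmax B'' hB''
    refine ⟨χ, hχ, θ, hθ, ?_⟩
    have h3 := classInner_comp_equiv e (fun n : N => χ.1 ⟨(n : G), hNT n.2⟩) θ.1
    rw [← h3]
    exact hne
  obtain ⟨h1, h2, h3⟩ := Cfsg.Agent.S0970.result p M hM (N.subgroupOf T) (irrMap e '' b) hb'
    hinv' B' hB' hcov' hmax' D hD
  refine ⟨?_, ?_, ?_⟩
  · have heq : ((D.map T.subtype) ⊔ N).subgroupOf T = D ⊔ N.subgroupOf T := by
      rw [Subgroup.subgroupOf_sup (Subgroup.map_subtype_le D) hNT]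
      congr 1
      exact Subgroup.comap_map_eq_self_of_injective (Subgroup.subtype_injective T) D
    show ¬ p ∣ (((D.map T.subtype) ⊔ N).subgroupOf T).index
    rw [heq]
    exact h1
  · have h4 := isDefectGroup_irrMap (p := p) (M := M) e.symm (irrMap e '' b) _ h2
    rw [image_irrMap_symm_image] at h4
    have heq : ((D ⊓ N.subgroupOf T).subgroupOf (N.subgroupOf T)).comap e.symm.toMonoidHom
        = ((D.map T.subtype) ⊓ N).subgroupOf N := by
      ext x
      rw [Subgroup.mem_comap, Subgroup.mem_subgroupOf, Subgroup.mem_subgroupOf,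
        Subgroup.mem_inf, Subgroup.mem_inf, Subgroup.mem_subgroupOf]
      constructor
      · rintro ⟨h5, h6⟩
        exact ⟨⟨_, h5, rfl⟩, x.2⟩
      · rintro ⟨⟨y, hy, hyx⟩, h6⟩
        refine ⟨?_, h6⟩
        have : ((e.symm.toMonoidHom x : N.subgroupOf T) : T) = y := Subtype.ext hyx.symm
        rw [this]
        exact hy
    rw [heq] at h4
    exact h4
  · rw [h3, blockDefect_image_irrMap]
    rfl

end rel

section stab

variable {G : Type u} [Group G]
variable {M : Ideal Cfsg.AlgInt}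
variable (N : Subgroup G) [hN : N.Normal]

/-- the conjugation stabilizer of a block is closed under inverses -/
theorem conjIrr_mem_inv (hMp : M.IsPrime) {b : Set (Cfsg.IrrCharacter N)}
    (hb : Cfsg.IsPBlock M b) (g : G) (h : ∀ θ ∈ b, conjIrr N g θ ∈ b) :
    ∀ θ ∈ b, conjIrr N g⁻¹ θ ∈ b := by
  obtain ⟨θ₁, rfl⟩ := hb
  intro θ hθ
  have h1 : Cfsg.SameBlock M θ₁.1 (conjIrr N g θ₁).1 := h θ₁ (mem_blockOf_self hMp.ne_top θ₁)
  have h2 : Cfsg.SameBlock M (conjIrr N g⁻¹ θ₁).1 (conjIrr N g⁻¹ (conjIrr N g θ₁)).1 :=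
    sameBlock_conjFun N g⁻¹ h1
  rw [← conjIrr_mul, mul_inv_cancel, conjIrr_one] at h2
  have h3 : Cfsg.SameBlock M θ₁.1 θ.1 := hθ
  have h4 : Cfsg.SameBlock M (conjIrr N g⁻¹ θ₁).1 (conjIrr N g⁻¹ θ).1 :=
    sameBlock_conjFun N g⁻¹ h3
  exact sameBlock_trans hMp (sameBlock_symm h2) h4

theorem stabilizesBlock_iff (b : Set (Cfsg.IrrCharacter N)) (t : G) :
    Cfsg.StabilizesBlock N b t ↔ ∀ θ ∈ b, conjIrr N t⁻¹ θ ∈ b := by
  constructor
  · rintro ⟨-, h⟩ θ hθ
    obtain ⟨χ', hχ', hconj⟩ := h θ hθ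
    have : conjIrr N t⁻¹ θ = χ' := by
      apply Subtype.ext
      funext k'
      rw [conjIrr_val]
      symm
      exact hconj ⟨t⁻¹ * k' * t⁻¹⁻¹, hN.conj_mem k' k'.2 t⁻¹⟩ k' (by simp [mul_assoc])
    rw [this]
    exact hχ'
  · intro h
    refine ⟨?_, ?_⟩
    · rw [Subgroup.normalizer_eq_top]
      exact Subgroup.mem_top _
    · intro χ hχ
      refine ⟨conjIrr N t⁻¹ χ, h χ hχ, ?_⟩
      intro k k' hkk'
      rw [conjIrr_val]
      show χ.1 ⟨t⁻¹ * k' * t⁻¹⁻¹, _⟩ = χ.1 k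
      refine congrArg χ.1 (Subtype.ext ?_)
      show t⁻¹ * (k' : G) * t⁻¹⁻¹ = k
      rw [hkk']
      group

end stab

section extlocal

variable {G : Type u} [Group G] [Fintype G]
variable {M : Ideal Cfsg.AlgInt} {p : ℕ} [Fact p.Prime]

omit [Fintype G] in
theorem isPBlock_eq_blockOf (hMp : M.IsPrime) {B : Set (Cfsg.IrrCharacter G)}
    (hB : Cfsg.IsPBlock M B) {χ : Cfsg.IrrCharacter G} (hχ : χ ∈ B) :
    B = Cfsg.blockOf M χ.1 := by
  obtain ⟨χ₀, rfl⟩ := hB
  exact (blockOf_eq_of_mem hMp hχ).symm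

/-- for a normal `p`-subgroup `Q` and a normal subgroup `N ⊇ C_G(Q)`, a block of `N` induces
every block covering it -/
theorem cover_isInduced (hM : Cfsg.IsPModular p M) (Q : Subgroup G) [Q.Normal]
    (hQ : IsPGroup p Q) (N : Subgroup G) [hN : N.Normal] [Fintype N]
    (hCN : Subgroup.centralizer (Q : Set G) ≤ N) {b : Set (Cfsg.IrrCharacter N)}
    (hb : Cfsg.IsPBlock M b) {B : Set (Cfsg.IrrCharacter G)} (hB : Cfsg.IsPBlock M B)
    (hcov : ∃ χ ∈ B, ∃ θ ∈ b, Cfsg.classInner (fun n : N => χ.1 n) θ.1 ≠ 0) :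
    Cfsg.IsInducedBlock M N b B := by
  classical
  haveI := Fintype.ofFinite (Cfsg.IrrCharacter G)
  haveI := Fintype.ofFinite (Cfsg.IrrCharacter N)
  have hMp := isPModular_isPrime hM
  obtain ⟨χ, hχ, θ, hθ, hcon⟩ := hcov
  rw [isPBlock_eq_blockOf hMp hB hχ, isPBlock_eq_blockOf hMp hb hθ]
  exact cover_induced hM Q hQ N hCN χ θ hcon

/-- every block of a subgroup between `P C_G(P)` and `N_G(P)` induces a block of `G` -/
theorem exists_induced_of_le_normalizer (hM : Cfsg.IsPModular p M) (P : Subgroup G)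
    (hP : IsPGroup p P) (K : Subgroup G) (hPK : P ≤ K)
    (hCK : Subgroup.centralizer (P : Set G) ≤ K) (hKN : K ≤ Subgroup.normalizer (P : Set G))
    {b : Set (Cfsg.IrrCharacter K)} (hb : Cfsg.IsPBlock M b) :
    ∃ B : Set (Cfsg.IrrCharacter G), Cfsg.IsInducedBlock M K b B := by
  classical
  haveI := Fintype.ofFinite (Cfsg.IrrCharacter G)
  haveI : Fintype K := Fintype.ofFinite K
  haveI := Fintype.ofFinite (Cfsg.IrrCharacter K)
  have hMp := isPModular_isPrime hM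
  obtain ⟨ξ, rfl⟩ := hb
  obtain ⟨χ, hχ⟩ := exists_brFun_block K hM P hP hCK hKN ξ
  refine ⟨Cfsg.blockOf M χ.1, isInducedBlock_of_brauer K hM P hP hPK hKN ξ χ ?_⟩
  intro g
  have := hχ _ (centralChar_mem_osimaRing hMp g)
  rwa [brFun_centralizer] at this

/-- a normal `p`-subgroup lies in every defect group -/
theorem normal_pgroup_le_defectGroup (hM : Cfsg.IsPModular p M) (Q : Subgroup G) [Q.Normal]
    (hQ : IsPGroup p Q) {B : Set (Cfsg.IrrCharacter G)} (hB : Cfsg.IsPBlock M B)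
    {D : Subgroup G} (hD : Cfsg.IsDefectGroup p M B D) : Q ≤ D := by
  classical
  haveI := Fintype.ofFinite (Cfsg.IrrCharacter G)
  have hMp := isPModular_isPrime hM
  obtain ⟨ξ, rfl⟩ := hB
  obtain ⟨y, hy, PE, rfl⟩ := hD
  exact normal_pgroup_le_sylow_centralizer hM ξ y (hy.2.2 ξ (mem_blockOf_self hMp.ne_top ξ)) Q hQ PE

omit [Fintype G] in
theorem exists_defectGroup_of_isPBlock [Finite G] (hMp : M.IsPrime)
    {B : Set (Cfsg.IrrCharacter G)} (hB : Cfsg.IsPBlock M B) :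
    ∃ D : Subgroup G, Cfsg.IsDefectGroup p M B D := by
  classical
  haveI := Fintype.ofFinite G
  haveI := Fintype.ofFinite (Cfsg.IrrCharacter G)
  obtain ⟨ξ, rfl⟩ := hB
  exact exists_defectGroup hMp ξ

/-- **local form of the extended first main theorem**: `Q` a normal `p`-subgroup, `N ⊇ Q C_G(Q)`
normal, `b` a block of `N` with defect group `Q`, `T` its stabilizer and `B₁` a block covering
`b`.  Then `B₁` has defect group `Q` iff `p ∤ |T : N|`. -/
theorem ext_fmt_local (hM : Cfsg.IsPModular p M) (Q : Subgroup G) [hQn : Q.Normal]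
    (hQ : IsPGroup p Q) (N : Subgroup G) [hN : N.Normal] [Fintype N] (hQN : Q ≤ N)
    (hCN : Subgroup.centralizer (Q : Set G) ≤ N) (b : Set (Cfsg.IrrCharacter N))
    (hb : Cfsg.IsPBlock M b) (hbQ : Cfsg.IsDefectGroup p M b (Q.subgroupOf N))
    (T : Subgroup G) (hT : IsStabOf N T b)
    (B₁ : Set (Cfsg.IrrCharacter G)) (hB₁ : Cfsg.IsPBlock M B₁)
    (hcov : ∃ χ ∈ B₁, ∃ θ ∈ b, Cfsg.classInner (fun n : N => χ.1 n) θ.1 ≠ 0) :
    Cfsg.IsDefectGroup p M B₁ Q ↔ ¬ p ∣ N.relIndex T := by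
  classical
  haveI : Fintype T := Fintype.ofFinite T
  have hMp := isPModular_isPrime hM
  have hp : p.Prime := Fact.out
  -- N ≤ T
  have hNT : N ≤ T := by
    intro n hn
    obtain ⟨θ, hθ⟩ : ∃ θ, θ ∈ b := by
      obtain ⟨θ₀, rfl⟩ := hb
      exact ⟨θ₀, mem_blockOf_self hMp.ne_top θ₀⟩
    apply inertia_le_stab N T hMp hb hT hθ n
    intro m
    exact isClassFunction_irr θ m ⟨n, hn⟩
  have hQT : Q ≤ T := hQN.trans hNT
  have FR := Cfsg.Agent.S4435.result p M hM N b hb T hT hNT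
  obtain ⟨B', hB', hcovB', hindB'⟩ := FR.2.2 B₁ hB₁ hcov
  have defmap := (Cfsg.Agent.S4436.result p M hM N b hb T hT hNT B' hB' hcovB' B₁ hindB').1
  have hmax : ∀ B'' : Set (Cfsg.IrrCharacter T), Cfsg.IsPBlock M B'' → CovRel N T hNT b B'' →
      Cfsg.blockDefect p B'' ≤ Cfsg.blockDefect p B' := by
    intro B'' hB'' hcov''
    obtain ⟨B₂, hind₂, hcov₂, -, -⟩ := FR.1 B'' hB'' hcov''
    have h1 := cover_isInduced hM Q hQ N hCN hb hind₂.2.1 hcov₂
    have h2 := cover_isInduced hM Q hQ N hCN hb hB₁ hcov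
    have h3 : B₂ = B₁ := induced_unique hMp h1 h2
    rw [h3] at hind₂
    have h4 : B'' = B' := FR.2.1 B'' B' hB'' hB' hcov'' hcovB' B₁ hind₂ hindB'
    rw [h4]
  have hinv : ∀ t ∈ T, Cfsg.StabilizesBlock N b t := by
    intro t ht
    rw [stabilizesBlock_iff]
    exact (stab_iff N T hT t⁻¹).mp (T.inv_mem ht)
  have hnorm : T ≤ Subgroup.normalizer (N : Set G) := by
    rw [Subgroup.normalizer_eq_top]
    exact le_top
  obtain ⟨D', hD'⟩ := exists_defectGroup_of_isPBlock (p := p) hMp hB'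
  obtain ⟨-, -, hc⟩ := fong_rel hM N T hNT hnorm b hb hinv B' hB' hcovB' hmax D' hD'
  have hcardb : Nat.card Q = p ^ Cfsg.blockDefect p b := by
    rw [← Cfsg.Agent.S0908.result p M hM b hb _ hbQ]
    exact (Nat.card_congr (Subgroup.subgroupOfEquivOfLe hQN).toEquiv).symm
  have hcardD' : Nat.card D' = p ^ Cfsg.blockDefect p B' :=
    Cfsg.Agent.S0908.result p M hM B' hB' D' hD'
  have hrel0 : N.relIndex T ≠ 0 := by
    show (N.subgroupOf T).index ≠ 0
    exact Subgroup.index_ne_zero_of_finite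
  have hfac : (N.relIndex T).factorization p = 0 ↔ ¬ p ∣ N.relIndex T := by
    rw [Nat.factorization_eq_zero_iff]
    constructor
    · rintro (h | h | h)
      · exact absurd hp h
      · exact h
      · exact absurd h hrel0
    · intro h
      exact Or.inr (Or.inl h)
  constructor
  · intro hdef
    rw [← hfac]
    have h1 := defmap D' hD'
    have h2 := Cfsg.Agent.S0908.result p M hM B₁ hB₁ _ h1
    have h3 := Cfsg.Agent.S0908.result p M hM B₁ hB₁ _ hdef
    rw [Subgroup.card_map_of_injective (Subgroup.subtype_injective T), hcardD'] at h2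
    rw [hcardb] at h3
    have h4 : Cfsg.blockDefect p B' = Cfsg.blockDefect p b :=
      Nat.pow_right_injective hp.two_le (h2.trans h3.symm)
    omega
  · intro hnd
    have h0 := hfac.mpr hnd
    have h4 : Cfsg.blockDefect p B' = Cfsg.blockDefect p b := by omega
    haveI : (Q.subgroupOf T).Normal := hQn.subgroupOf T
    have hle : Q.subgroupOf T ≤ D' :=
      normal_pgroup_le_defectGroup hM (Q.subgroupOf T) hQ.comap_subtype hB' hD'
    have hcard : Nat.card D' ≤ Nat.card (Q.subgroupOf T) := by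
      rw [Nat.card_congr (Subgroup.subgroupOfEquivOfLe hQT).toEquiv, hcardD', hcardb, h4]
    have heq : Q.subgroupOf T = D' := Subgroup.eq_of_le_of_card_ge hle hcard
    have h1 := defmap D' hD'
    rw [← heq, Subgroup.map_subgroupOf_eq_of_le hQT] at h1
    exact h1

end extlocal

end Cfsg.Agent.Lib.helper5
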