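import Mathlib
import Cfsg.Agent.Lib.helper5.BlockCentralProd
import Cfsg.Agent.Lib.helper23.CliffordOrbit
import Cfsg.Agent.Lib.helper23.LinChar
import Cfsg.Agent.Lib.helper24.CharRelM2
import Cfsg.Agent.Lib.helper24.CharKer

set_option autoImplicit false

/-!
# Tools for Reynolds' theorem on blocks with normal defect group

* `irr_mul_of_ker`: elements of the kernel of `χ` can be cancelled.
* `exists_nontrivial_on`: a block does not have a nontrivial `p`-element centralizing a defect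
  class in the kernel of all its characters.
* `constituent_degree_dvd`: if `χ` is nontrivial at a commutator of the normal `p`-subgroup `P`,
  all constituents of `χ|_P` have degree divisible by `p`.
* `memLocalIdeal_char_of_centralizer`: if all constituents of `χ|_P` have degree divisible by `p`,
  the values of `χ` on `C_G(P)` lie in the local ideal.
-/

namespace Cfsg.Agent.Lib.helper5

open Cfsg.Agent.Lib.helper23 Cfsg.Agent.Lib.helper24
open scoped ComplexConjugate

universe u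

section reynolds

variable {G : Type u} [Group G]

/-- elements of the kernel of an irreducible character can be cancelled -/
theorem irr_mul_of_ker [Finite G] (χ : Cfsg.IrrCharacter G) {q : G} (hq : χ.1 q = χ.1 1)
    (x : G) : χ.1 (q * x) = χ.1 x := by
  have hq' : q ∈ irrKer χ := (mem_irrKer χ q).mpr hq
  obtain ⟨ψ, hψ⟩ := (irrInfl_range' (irrKer χ) χ).mpr le_rfl
  have h1 : ∀ g : G, χ.1 g = ψ.1 (g : G ⧸ irrKer χ) := by
    intro g
    have h2 : (irrInfl (irrKer χ) ψ).1 g = χ.1 g := by rw [hψ]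
    rw [← h2, irrInfl_apply]
  rw [h1, h1, QuotientGroup.mk_mul, (QuotientGroup.eq_one_iff q).mpr hq', one_mul]

variable {M : Ideal Cfsg.AlgInt} {p : ℕ} [Fact p.Prime]

/-- some character of the block is nontrivial at a given nontrivial `p`-element commuting with
a defect class -/
theorem exists_nontrivial_on [Fintype G] [Fintype (Cfsg.IrrCharacter G)]
    (hM : Cfsg.IsPModular p M) (χ₀ : Cfsg.IrrCharacter G) (x : G)
    (hx : Cfsg.IsDefectClass M (Cfsg.blockOf M χ₀.1) x) (q : G) (hq1 : q ≠ 1)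
    (hqo : ∃ k : ℕ, orderOf q = p ^ k) (hqx : Commute q x) :
    ∃ χ ∈ Cfsg.blockOf M χ₀.1, χ.1 q ≠ χ.1 1 := by
  classical
  have hMp := isPModular_isPrime hM
  have hp : p.Prime := Fact.out
  by_contra hcon
  push Not at hcon
  have hxreg : ¬ p ∣ orderOf x := by
    intro hdvd
    apply hx.2.1
    rw [← coef_indicator, coef_eq_zero_of_singular hM (indicator_mem_osimaRing hMp χ₀)
      (indicator_mul_self _) x hdvd]
    exact memLocalIdeal_zero hMp.ne_top
  have h1 : Cfsg.blockCoeff (Cfsg.blockOf M χ₀.1) (q * x)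
      = Cfsg.blockCoeff (Cfsg.blockOf M χ₀.1) x := by
    unfold Cfsg.blockCoeff
    congr 1
    apply finsum_mem_congr rfl
    intro χ hχ
    rw [irr_mul_of_ker χ (hcon χ hχ) x]
  have hsing : p ∣ orderOf (q * x) := by
    by_contra hreg
    have h2 : Cfsg.IsPPart p (q * x) q := isPPart_mul hqx hqo hxreg
    have h3 : Cfsg.IsPPart p (q * x) 1 :=
      ⟨q * x, one_mul _, Commute.one_left _, ⟨0, by simp⟩, hreg⟩
    exact hq1 (isPPart_unique h2 h3)
  have h2 : Cfsg.blockCoeff (Cfsg.blockOf M χ₀.1) (q * x) = 0 := by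
    rw [← coef_indicator, coef_eq_zero_of_singular hM (indicator_mem_osimaRing hMp χ₀)
      (indicator_mul_self _) _ hsing]
  apply hx.2.1
  rw [← h1, h2]
  exact memLocalIdeal_zero hMp.ne_top

/-- if `χ` is nontrivial at a commutator of elements of the normal `p`-subgroup `P`, every
irreducible constituent of the restriction of `χ` to `P` has degree divisible by `p` -/
theorem constituent_degree_dvd [Fintype G] (P : Subgroup G) [hPn : P.Normal] [Fintype P]
    (hP : IsPGroup p P)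
    (χ : Cfsg.IrrCharacter G) (a c : G) (ha : a ∈ P) (hc : c ∈ P)
    (hχ : χ.1 (a * c * a⁻¹ * c⁻¹) ≠ χ.1 1) (η : Cfsg.IrrCharacter P)
    (hη : Cfsg.classInner (fun u : P => χ.1 u) η.1 ≠ 0) : p ∣ Cfsg.charDegree η.1 := by
  classical
  haveI := Fintype.ofFinite (Cfsg.IrrCharacter P)
  have hp : p.Prime := Fact.out
  have hcl : Cfsg.IsClassFunction P (fun u : P => χ.1 u) :=
    isCharacter_conj_class
      (Cfsg.Agent.Lib.helper24.isCharacter_restrict P (isCharacter_of_isIrrCharacter χ.2))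
  have hno : ∀ η₀ : Cfsg.IrrCharacter P, Cfsg.classInner (fun u : P => χ.1 u) η₀.1 ≠ 0 →
      Cfsg.charDegree η₀.1 ≠ 1 := by
    intro η₀ hη₀ hdeg1
    apply hχ
    have hlin : ∀ η' : Cfsg.IrrCharacter P, Cfsg.classInner (fun u : P => χ.1 u) η'.1 ≠ 0 →
        η'.1 (⟨a, ha⟩ * ⟨c, hc⟩ * ⟨a, ha⟩⁻¹ * ⟨c, hc⟩⁻¹) = η'.1 1 := by
      intro η' hη'
      obtain ⟨g, hg⟩ := constituent_mem_conjOrbit P χ.2 η₀.2 η'.2 hη₀ hη'
      have hη1 : η'.1 1 = 1 := by
        rw [hg, Cfsg.Agent.Lib.helper24.conjFun_apply]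
        have e : (⟨g * ((1 : P) : G) * g⁻¹, hPn.conj_mem (1 : P) (1 : P).2 g⟩ : P) = 1 := by
          apply Subtype.ext
          simp
        rw [e, ← charDegree_cast, hdeg1]
        simp
      have hmul := irr_linear_mul η' hη1
      rw [hmul, hmul, hmul]
      have h1 : η'.1 ⟨a, ha⟩ * η'.1 (⟨a, ha⟩⁻¹) = 1 := by
        rw [← hmul, mul_inv_cancel, hη1]
      have h2 : η'.1 ⟨c, hc⟩ * η'.1 (⟨c, hc⟩⁻¹) = 1 := by
        rw [← hmul, mul_inv_cancel, hη1]
      rw [hη1]
      calc η'.1 ⟨a, ha⟩ * η'.1 ⟨c, hc⟩ * η'.1 (⟨a, ha⟩⁻¹) * η'.1 (⟨c, hc⟩⁻¹)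
          = (η'.1 ⟨a, ha⟩ * η'.1 (⟨a, ha⟩⁻¹)) * (η'.1 ⟨c, hc⟩ * η'.1 (⟨c, hc⟩⁻¹)) := by ring
        _ = 1 := by rw [h1, h2, one_mul]
    have hexp := classFunction_expansion_apply hcl (⟨a, ha⟩ * ⟨c, hc⟩ * ⟨a, ha⟩⁻¹ * ⟨c, hc⟩⁻¹ : P)
    have hexp1 := classFunction_expansion_apply hcl (1 : P)
    refine hexp.trans (Eq.trans ?_ hexp1.symm)
    apply Finset.sum_congr rfl
    intro η' _
    by_cases h : Cfsg.classInner (fun u : P => χ.1 u) η'.1 = 0
    · rw [h, zero_mul, zero_mul]
    · rw [hlin η' h]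
  have h1 := hno η hη
  obtain ⟨n, hn⟩ := IsPGroup.exists_card_eq hP
  have h2 : Cfsg.charDegree η.1 ∣ p ^ n := by
    rw [← hn]
    exact Cfsg.Agent.Lib.helper22.charDegree_dvd_card η
  obtain ⟨j, -, hj⟩ := (Nat.dvd_prime_pow hp).mp h2
  rw [hj]
  have hj0 : j ≠ 0 := by
    rintro rfl
    exact h1 (by rw [hj, pow_zero])
  exact dvd_pow_self p hj0

/-- if all constituents of `χ|_P` have degree divisible by `p`, the values of `χ` on `C_G(P)`
lie in the local ideal -/
theorem memLocalIdeal_char_of_centralizer [Finite G] (hM : Cfsg.IsPModular p M) (P : Subgroup G)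
    [Fintype P] (χ : Cfsg.IrrCharacter G)
    (hnl : ∀ η : Cfsg.IrrCharacter P, Cfsg.classInner (fun u : P => χ.1 u) η.1 ≠ 0 →
      p ∣ Cfsg.charDegree η.1) (x : G) (hx : x ∈ Subgroup.centralizer (P : Set G)) :
    Cfsg.MemLocalIdeal M (χ.1 x) := by
  classical
  haveI := Fintype.ofFinite G
  haveI := Fintype.ofFinite (Subgroup.centralizer (P : Set G))
  haveI := Fintype.ofFinite (Cfsg.IrrCharacter (P × Subgroup.centralizer (P : Set G)))
  have hMp := isPModular_isPrime hM
  have hMtop := hMp.ne_top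
  have hA : Cfsg.IsCharacter (P × Subgroup.centralizer (P : Set G)) (χ.1 ∘ mulHomPC P) :=
    isCharacter_comp (mulHomPC P) (isCharacter_of_isIrrCharacter χ.2)
  have hexp := classFunction_expansion_apply (isCharacter_conj_class hA)
    ((1, ⟨x, hx⟩) : P × Subgroup.centralizer (P : Set G))
  have e : χ.1 x = (χ.1 ∘ mulHomPC P) ((1, ⟨x, hx⟩) : P × Subgroup.centralizer (P : Set G)) := by
    simp [mulHomPC_apply]
  rw [e, hexp]
  apply memLocalIdeal_sum hMp
  intro τ _
  by_cases hτ : Cfsg.classInner (χ.1 ∘ mulHomPC P) τ.1 = 0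
  · rw [hτ, zero_mul]
    exact memLocalIdeal_zero hMtop
  · obtain ⟨φ, ψ, hφ, hψ, hτeq⟩ := exists_of_isIrrCharacter_prod τ.2
    obtain ⟨n, hn⟩ := isCharacter_inner_irr_nat hA τ
    -- φ is a constituent of the restriction of χ to P
    have hA' := isCharacter_sub_irr hA τ hτ
    have hres := isCharacter_comp (MonoidHom.inl P (Subgroup.centralizer (P : Set G))) hA'
    obtain ⟨n', hn'⟩ := isCharacter_inner_irr_nat hres (⟨φ, hφ⟩ : Cfsg.IrrCharacter P)
    have hsplit : (fun u : P => χ.1 u)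
        = (ψ 1) • φ + ((χ.1 ∘ mulHomPC P - τ.1)
          ∘ (MonoidHom.inl P (Subgroup.centralizer (P : Set G)))) := by
      funext u
      simp only [Pi.add_apply, Pi.smul_apply, Function.comp_apply, Pi.sub_apply,
        MonoidHom.inl_apply, smul_eq_mul, mulHomPC_apply]
      rw [hτeq]
      simp only [Subgroup.coe_one, mul_one]
      ring
    have hψ1 : ψ 1 = (Cfsg.charDegree ψ : ℂ) :=
      (charDegree_cast (⟨ψ, hψ⟩ : Cfsg.IrrCharacter (Subgroup.centralizer (P : Set G)))).symm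
    have hcon : Cfsg.classInner (fun u : P => χ.1 u) φ ≠ 0 := by
      rw [hsplit, classInner_add_left, classInner_smul_left, hn',
        irr_inner_self (⟨φ, hφ⟩ : Cfsg.IrrCharacter P), hψ1, mul_one]
      have hpos := charDegree_pos (⟨ψ, hψ⟩ : Cfsg.IrrCharacter (Subgroup.centralizer (P : Set G)))
      have : (Cfsg.charDegree ψ + n' : ℕ) ≠ 0 := by
        have : 0 < Cfsg.charDegree ψ := hpos
        omega
      exact_mod_cast this
    obtain ⟨k, hk⟩ := hnl ⟨φ, hφ⟩ hcon
    have hφ1 : φ 1 = ((p * k : ℕ) : ℂ) := by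
      rw [← hk]
      exact (charDegree_cast (⟨φ, hφ⟩ : Cfsg.IrrCharacter P)).symm
    have hval : Cfsg.classInner (χ.1 ∘ mulHomPC P) τ.1
        * τ.1 ((1, ⟨x, hx⟩) : P × Subgroup.centralizer (P : Set G))
        = (p : ℂ) * ((n : ℂ) * (k : ℂ) * ψ ⟨x, hx⟩) := by
      rw [hn, hτeq]
      show (n : ℂ) * (φ 1 * ψ ⟨x, hx⟩) = _
      rw [hφ1]
      push_cast
      ring
    rw [hval]
    apply memLocalIdeal_mul_right hMp ((memLocalIdeal_natCast_iff hM p).mpr dvd_rfl)
    exact memLocalRing_mul hMp (memLocalRing_mul hMp (memLocalRing_natCast hMtop n)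
      (memLocalRing_natCast hMtop k))
      (memLocalRing_of_isIntegral hMtop
        (isCharacter_isIntegral (isCharacter_of_isIrrCharacter hψ) _))

end reynolds

end Cfsg.Agent.Lib.helper5
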