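import Mathlib
import Cfsg.Agent.Lib.helper5.BlockCentralProd
import Cfsg.Agent.S4669

set_option autoImplicit false

/-!
# Blocks with central defect group: values on `p`-regular elements

* `central_defect_deg`: all members of a block with central defect group `D` have the same
  `p`-part of the degree.
* `central_defect_reg_eq`: all members of such a block agree on the `p`-regular elements.
-/

namespace Cfsg.Agent.Lib.helper5

open Cfsg.Agent.Lib.helper23 Cfsg.Agent.Lib.helper24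
open scoped ComplexConjugate

universe u

section creg

variable {G : Type u} [Group G] {p : ℕ} [Fact p.Prime] {M : Ideal Cfsg.AlgInt}

theorem central_defect_deg [Finite G] (hM : Cfsg.IsPModular p M) (D : Subgroup G)
    (hD : IsPGroup p D) (hDZ : D ≤ Subgroup.center G) (ψ₀ : Cfsg.IrrCharacter G)
    (hdeg : (Cfsg.charDegree ψ₀.1).factorization p = D.index.factorization p)
    (ψ : Cfsg.IrrCharacter G) (hψ : ψ ∈ Cfsg.blockOf M ψ₀.1) :
    (Cfsg.charDegree ψ.1).factorization p = D.index.factorization p := by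
  classical
  haveI := Fintype.ofFinite G
  haveI := Fintype.ofFinite (Cfsg.IrrCharacter G)
  have hp : p.Prime := Fact.out
  have hB : Cfsg.IsPBlock M (Cfsg.blockOf M ψ₀.1) := ⟨ψ₀, rfl⟩
  have hdefgrp := (laradji_central p M hM D hD hDZ ψ₀ hdeg).1
  have hcardD := card_defectGroup p hM _ hB D hdefgrp
  obtain ⟨ν₀, hν₀, hht, -⟩ := block_nu p hM _ hB
  have hidx : D.index.factorization p + Cfsg.blockDefect p (Cfsg.blockOf M ψ₀.1)
      = (Nat.card G).factorization p := by
    rw [← Subgroup.index_mul_card D,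
      Nat.factorization_mul Subgroup.index_ne_zero_of_finite Nat.card_pos.ne', hcardD,
      Nat.Prime.factorization_pow hp]
    simp
  have hle : (Cfsg.charDegree ψ.1).factorization p ≤ D.index.factorization p := by
    have h1 : Cfsg.charDegree ψ.1 ∣ D.index :=
      (Cfsg.Agent.Lib.helper22.charDegree_dvd_index_center ψ).trans
        (Subgroup.index_dvd_of_le hDZ)
    exact (Nat.factorization_le_iff_dvd (charDegree_pos ψ).ne'
      Subgroup.index_ne_zero_of_finite).mpr h1 p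
  have h1 := hht ψ hψ
  omega

theorem central_defect_reg_eq [Finite G] (hM : Cfsg.IsPModular p M) (D : Subgroup G)
    (hD : IsPGroup p D) (hDZ : D ≤ Subgroup.center G) (ψ₀ : Cfsg.IrrCharacter G)
    (hdeg : (Cfsg.charDegree ψ₀.1).factorization p = D.index.factorization p)
    (ψ ψ' : Cfsg.IrrCharacter G) (hψ : ψ ∈ Cfsg.blockOf M ψ₀.1)
    (hψ' : ψ' ∈ Cfsg.blockOf M ψ₀.1) (x : G) (hx : ¬ p ∣ orderOf x) :
    ψ.1 x = ψ'.1 x := by
  classical
  haveI := Fintype.ofFinite G
  haveI := Fintype.ofFinite (Cfsg.IrrCharacter G)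
  have hp : p.Prime := Fact.out
  have hB : Cfsg.IsPBlock M (Cfsg.blockOf M ψ₀.1) := ⟨ψ₀, rfl⟩
  have hdefgrp := (laradji_central p M hM D hD hDZ ψ₀ hdeg).1
  have hrank := Cfsg.Agent.S4669.central_defect_rank p M hM _ hB D hdefgrp hDZ
  have hd1 := central_defect_deg hM D hD hDZ ψ₀ hdeg ψ hψ
  have hd2 := central_defect_deg hM D hD hDZ ψ₀ hdeg ψ' hψ'
  have hi1 := (central_defect_core p D hD hDZ ψ hd1).1
  have hi2 := (central_defect_core p D hD hDZ ψ' hd2).1
  rw [hd1] at hi1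
  rw [hd2] at hi2
  -- sums over regular elements agree
  have hs1 := card_mul_inner_ptrunc p ψ.1 ψ.1
  have hs2 := card_mul_inner_ptrunc p ψ'.1 ψ'.1
  rw [hi1] at hs1
  rw [hi2] at hs2
  have hpa : ((p ^ (Nat.card G).factorization p : ℕ) : ℂ) ≠ 0 := by
    exact_mod_cast (pow_pos hp.pos _).ne'
  have hsum : ∑ g : G, (if p ∣ orderOf g then (0 : ℂ) else ψ.1 g * conj (ψ.1 g))
      = ∑ g : G, (if p ∣ orderOf g then (0 : ℂ) else ψ'.1 g * conj (ψ'.1 g)) :=
    mul_left_cancel₀ hpa (hs1.symm.trans hs2)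
  -- rank one
  unfold Cfsg.blockRank at hrank
  have hmem : ∀ ξ ∈ Cfsg.blockOf M ψ₀.1, Cfsg.pRegularPart p ξ.1
      ∈ Submodule.span ℂ ((fun χ : Cfsg.IrrCharacter G => Cfsg.pRegularPart p (χ : G → ℂ))
        '' Cfsg.blockOf M ψ₀.1) :=
    fun ξ hξ => Submodule.subset_span ⟨ξ, hξ, rfl⟩
  have hval : ∀ (ξ : Cfsg.IrrCharacter G) (g : G),
      Cfsg.pRegularPart p ξ.1 g = if p ∣ orderOf g then 0 else ξ.1 g := by
    intro ξ g
    unfold Cfsg.pRegularPart Cfsg.IsPRegular
    by_cases hg : p ∣ orderOf g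
    · simp [hg]
    · simp [hg]
  have hone : ¬ p ∣ orderOf (1 : G) := by
    rw [orderOf_one]
    exact hp.one_lt.ne' ∘ Nat.dvd_one.mp
  have hnz : (⟨Cfsg.pRegularPart p ψ.1, hmem ψ hψ⟩ : Submodule.span ℂ
      ((fun χ : Cfsg.IrrCharacter G => Cfsg.pRegularPart p (χ : G → ℂ))
        '' Cfsg.blockOf M ψ₀.1)) ≠ 0 := by
    intro h0
    have h1 := congrFun (congrArg Subtype.val h0) 1
    simp only [Submodule.coe_zero, Pi.zero_apply] at h1
    rw [hval, if_neg hone] at h1
    exact irr_one_ne_zero ψ h1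
  obtain ⟨c, hc⟩ := (finrank_eq_one_iff_of_nonzero' _ hnz).mp hrank
    ⟨Cfsg.pRegularPart p ψ'.1, hmem ψ' hψ'⟩
  have hc' : ∀ g : G, ¬ p ∣ orderOf g → c * ψ.1 g = ψ'.1 g := by
    intro g hg
    have h1 := congrFun (congrArg Subtype.val hc) g
    simp only [Submodule.coe_smul, Pi.smul_apply, smul_eq_mul] at h1
    rw [hval, hval, if_neg hg, if_neg hg] at h1
    exact h1
  -- c is a positive real of modulus one
  have hc1 := hc' 1 hone
  rw [← charDegree_cast ψ, ← charDegree_cast ψ'] at hc1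
  have hdpos : (0 : ℝ) < (Cfsg.charDegree ψ.1 : ℝ) := by exact_mod_cast charDegree_pos ψ
  have hd'pos : (0 : ℝ) < (Cfsg.charDegree ψ'.1 : ℝ) := by exact_mod_cast charDegree_pos ψ'
  have hcr : c = (((Cfsg.charDegree ψ'.1 : ℝ) / (Cfsg.charDegree ψ.1 : ℝ) : ℝ) : ℂ) := by
    have hd0 : ((Cfsg.charDegree ψ.1 : ℕ) : ℂ) ≠ 0 := by
      exact_mod_cast (charDegree_pos ψ).ne'
    push_cast
    field_simp
    exact hc1
  have hsum' : ∑ g : G, (if p ∣ orderOf g then (0 : ℂ) else ψ'.1 g * conj (ψ'.1 g))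
      = (c * conj c) * ∑ g : G, (if p ∣ orderOf g then (0 : ℂ) else ψ.1 g * conj (ψ.1 g)) := by
    rw [Finset.mul_sum]
    apply Finset.sum_congr rfl
    intro g _
    by_cases hg : p ∣ orderOf g
    · rw [if_pos hg, if_pos hg, mul_zero]
    · rw [if_neg hg, if_neg hg, ← hc' g hg, map_mul]
      ring
  have hSne : ∑ g : G, (if p ∣ orderOf g then (0 : ℂ) else ψ.1 g * conj (ψ.1 g)) ≠ 0 := by
    intro h0
    rw [h0, mul_zero] at hs1
    have hG0 : (Nat.card G : ℂ) ≠ 0 := by exact_mod_cast Nat.card_pos.ne'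
    have : (((p : ℤ) ^ D.index.factorization p : ℤ) : ℂ) = 0 := by
      rcases mul_eq_zero.mp hs1 with h | h
      · exact absurd h hG0
      · exact h
    have h2 : ((p : ℤ) ^ D.index.factorization p : ℤ) = 0 := by exact_mod_cast this
    exact absurd h2 (pow_ne_zero _ (by exact_mod_cast hp.ne_zero))
  rw [← hsum] at hsum'
  have hcc : c * conj c = 1 := by
    have h3 : (1 : ℂ) * ∑ g : G, (if p ∣ orderOf g then (0 : ℂ) else ψ.1 g * conj (ψ.1 g))
        = (c * conj c) * ∑ g : G, (if p ∣ orderOf g then (0 : ℂ) else ψ.1 g * conj (ψ.1 g)) := by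
      rw [one_mul]
      exact hsum'
    exact (mul_right_cancel₀ hSne h3).symm
  have hc_one : c = 1 := by
    rw [hcr] at hcc ⊢
    rw [Complex.conj_ofReal, ← Complex.ofReal_mul] at hcc
    have h4 : (Cfsg.charDegree ψ'.1 : ℝ) / (Cfsg.charDegree ψ.1 : ℝ)
        * ((Cfsg.charDegree ψ'.1 : ℝ) / (Cfsg.charDegree ψ.1 : ℝ)) = 1 := by
      exact_mod_cast hcc
    have h5 : (0 : ℝ) < (Cfsg.charDegree ψ'.1 : ℝ) / (Cfsg.charDegree ψ.1 : ℝ) :=
      div_pos hd'pos hdpos
    have h6 : (Cfsg.charDegree ψ'.1 : ℝ) / (Cfsg.charDegree ψ.1 : ℝ) = 1 := by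
      nlinarith
    rw [h6]
    simp
  have := hc' x hx
  rw [hc_one, one_mul] at this
  exact this

end creg

end Cfsg.Agent.Lib.helper5
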