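import Mathlib
import Cfsg.Prelude.Def_Solvable
import Cfsg.Prelude.Def_Local
import Cfsg.Agent.Lib.helper3.OddSolvQuad
import Cfsg.Agent.Lib.helper8.CoprimeAction
import Cfsg.Agent.Lib.helper9.PPrimeCore

set_option autoImplicit false

namespace Cfsg.Agent.Lib.helper5

open Cfsg.Agent.Lib.helper8 Cfsg.Agent.Lib.helper9 Cfsg.Agent.Lib.helper3

universe u

section CoreControl

variable {G : Type u} [Group G]

/-- the image in `G` of a characteristic subgroup of `K` is normalized by `N_G(K)`. -/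
theorem cc_char_map (K : Subgroup G) (N : Subgroup K) [hN : N.Characteristic] :
    Subgroup.normalizer (K : Set G) ≤
      Subgroup.normalizer ((N.map K.subtype : Subgroup G) : Set G) := by
  apply le_normalizer_of_conj_mem
  rintro g hg _ ⟨n, hn, rfl⟩
  let φ : MulAut K := K.normalizerMonoidHom ⟨g, hg⟩
  have hφ : N.map φ.toMonoidHom = N := Subgroup.characteristic_iff_map_eq.mp hN φ
  have hmem : φ n ∈ N := by rw [← hφ]; exact ⟨n, hn, rfl⟩
  exact ⟨φ n, hmem, rfl⟩

theorem cc_core [Finite G] {p q : ℕ} [Fact p.Prime] [Fact q.Prime]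
    (H P X Y : Subgroup G) [hHn : H.Normal]
    (hHp : (Nat.card H).Coprime p) (hP : IsPGroup p P)
    (hsol : Group.IsSolvable ↥⁅H, P⁆)
    (hO : ∀ N : Subgroup G, N ≤ H → H ≤ Subgroup.normalizer (N : Set G) →
      (Nat.card N).Coprime q → N = ⊥)
    (z : G) (hzH : z ∈ H) (hz : ∃ k : ℕ, orderOf z = q ^ k)
    (hXle : X ≤ H ⊓ Subgroup.centralizer ({z} : Set G))
    (hXn : H ⊓ Subgroup.centralizer ({z} : Set G) ≤ Subgroup.normalizer (X : Set G))
    (hXP : P ≤ Subgroup.normalizer (X : Set G)) (hXq : (Nat.card X).Coprime q)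
    (hYle : Y ≤ H ⊓ Subgroup.centralizer (P : Set G))
    (hYn : H ⊓ Subgroup.centralizer (P : Set G) ≤ Subgroup.normalizer (Y : Set G))
    (hYq : (Nat.card Y).Coprime q) :
    X ⊓ Y = ⊥ ∧ ⁅X, P⁆ = ⊥ := by
  classical
  have hq : q.Prime := Fact.out
  have hLH : ⁅H, P⁆ ≤ H := Subgroup.commutator_le_left H P
  have hPH : P ≤ Subgroup.normalizer (H : Set G) := by
    rw [Subgroup.normalizer_eq_top]; exact le_top
  have hHL : H ≤ Subgroup.normalizer ((⁅H, P⁆ : Subgroup G) : Set G) :=
    le_normalizer_commutator_left H P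
  have hPL : P ≤ Subgroup.normalizer ((⁅H, P⁆ : Subgroup G) : Set G) :=
    le_normalizer_commutator_right hPH
  generalize hL : ⁅H, P⁆ = L at hsol hLH hHL hPL
  -- O_{q'}(L) = 1
  have hOL : Cfsg.pPrimeCore q L = ⊥ := by
    have hchar := pPrimeCore_characteristic q L
    have h1 := hO ((Cfsg.pPrimeCore q L).map L.subtype)
      ((Subgroup.map_subtype_le _).trans hLH)
      (hHL.trans (cc_char_map L _))
      (by rw [Subgroup.card_map_of_injective L.subtype_injective]; exact pPrimeCore_coprime q L)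
    exact (Subgroup.map_eq_bot_iff_of_injective _ L.subtype_injective).mp h1
  have hRchar := pCore_char3 q L
  have hLR : Subgroup.normalizer (L : Set G) ≤
      Subgroup.normalizer (((Cfsg.pCore q L).map L.subtype : Subgroup G) : Set G) :=
    cc_char_map L _
  have hRL : (Cfsg.pCore q L).map L.subtype ≤ L := Subgroup.map_subtype_le _
  have hRq : IsPGroup q ((Cfsg.pCore q L).map L.subtype : Subgroup G) :=
    (pCore_isPGroup3 q L).map _
  -- C_L(R) ≤ R
  have hCLR : L ⊓ Subgroup.centralizer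
      (((Cfsg.pCore q L).map L.subtype : Subgroup G) : Set G) ≤ (Cfsg.pCore q L).map L.subtype := by
    intro x hx
    have hx1 : x ∈ L := hx.1
    have hx2 := hx.2
    have hcl := centralizer_pCore_le_of_pPrimeCore_bot (X := L) (p := q) hOL
    have hmem : (⟨x, hx1⟩ : L) ∈ Subgroup.centralizer (Cfsg.pCore q L : Set L) := by
      rw [Subgroup.mem_centralizer_iff]
      intro y hy
      apply Subtype.ext
      have hyR : (y : G) ∈ (Cfsg.pCore q L).map L.subtype := ⟨y, hy, rfl⟩
      exact (Subgroup.mem_centralizer_iff.mp hx2) _ hyR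
    exact ⟨⟨x, hx1⟩, hcl hmem, rfl⟩
  generalize hR : (Cfsg.pCore q L).map L.subtype = R at hLR hRL hRq hCLR
  have hHR : H ≤ Subgroup.normalizer (R : Set G) := hHL.trans hLR
  have hPR : P ≤ Subgroup.normalizer (R : Set G) := hPL.trans hLR
  have hXR : ∀ x, x ∈ X → x ∈ R → x = 1 := by
    intro x hxX hxR
    obtain ⟨n, hn⟩ := hRq.exists_card_eq
    have hcop : (Nat.card X).Coprime (Nat.card R) := by
      rw [hn]; exact Nat.Coprime.pow_right n hXq
    exact eq_one_of_coprime hcop hxX hxR
  have hZq : IsPGroup q (Subgroup.zpowers z) := by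
    obtain ⟨k, hk⟩ := hz
    exact IsPGroup.of_card (by rw [Nat.card_zpowers, hk])
  have hzL : z ∈ Subgroup.normalizer (L : Set G) := hHL hzH
  -- X centralizes R
  have hXCR : X ≤ Subgroup.centralizer (R : Set G) := by
    apply thompson_pq (p := q) (Subgroup.zpowers z) X R hZq hXq hRq
    · rw [Subgroup.zpowers_le, Subgroup.mem_centralizer_iff]
      intro x hx
      have hxz : x ∈ Subgroup.centralizer ({z} : Set G) := (hXle hx).2
      rw [Subgroup.mem_centralizer_iff] at hxz
      exact (hxz z (Set.mem_singleton z)).symm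
    · rw [Subgroup.zpowers_le]; exact hLR hzL
    · exact (hXle.trans inf_le_left).trans hHR
    · intro r hr
      rw [Subgroup.mem_centralizer_iff]
      intro x hx
      have hrR : r ∈ R := hr.1
      have hrz : r ∈ Subgroup.centralizer ({z} : Set G) := by
        have hr2 : r ∈ Subgroup.centralizer ((Subgroup.zpowers z : Subgroup G) : Set G) := hr.2
        rw [Subgroup.mem_centralizer_iff] at hr2 ⊢
        intro y hy
        rw [Set.mem_singleton_iff] at hy
        subst hy
        exact hr2 y (Subgroup.mem_zpowers y)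
      have hrN : r ∈ Subgroup.normalizer (X : Set G) := hXn ⟨hLH (hRL hrR), hrz⟩
      have hxN : x ∈ Subgroup.normalizer (R : Set G) := hHR (hXle hx).1
      have hc1 : x * r * x⁻¹ * r⁻¹ ∈ R :=
        R.mul_mem (conj_mem_of_mem_normalizer hxN hrR) (R.inv_mem hrR)
      have hc2 : x * r * x⁻¹ * r⁻¹ ∈ X := by
        have : x * r * x⁻¹ * r⁻¹ = x * (r * x⁻¹ * r⁻¹) := by group
        rw [this]
        exact X.mul_mem hx (conj_mem_of_mem_normalizer hrN (X.inv_mem hx))
      have h1 := hXR _ hc2 hc1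
      calc x * r = (x * r * x⁻¹ * r⁻¹) * (r * x) := by group
        _ = r * x := by rw [h1, one_mul]
  have hXL : X ⊓ L = ⊥ := by
    rw [eq_bot_iff]
    intro x hx
    have h1 : x ∈ R := hCLR ⟨hx.2, hXCR hx.1⟩
    exact Subgroup.mem_bot.mpr (hXR x hx.1 h1)
  have hA : ⁅X, P⁆ = ⊥ := by
    rw [eq_bot_iff, ← hXL]
    refine le_inf (commutator_le_of_le_normalizer hXP) ?_
    rw [← hL]
    exact Subgroup.commutator_mono (hXle.trans inf_le_left) le_rfl
  refine ⟨?_, hA⟩
  -- Goal B
  have hNCR : ∀ g, g ∈ Subgroup.normalizer (R : Set G) →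
      ∀ c ∈ Subgroup.centralizer (R : Set G), g * c * g⁻¹ ∈ Subgroup.centralizer (R : Set G) := by
    intro g hg c hc
    rw [Subgroup.mem_centralizer_iff] at hc ⊢
    intro r hr
    have hr' : g⁻¹ * r * g ∈ R := conj_mem_of_mem_normalizer' hg hr
    have h1 := hc _ hr'
    calc r * (g * c * g⁻¹) = g * ((g⁻¹ * r * g) * c) * g⁻¹ := by group
      _ = g * (c * (g⁻¹ * r * g)) * g⁻¹ := by rw [h1]
      _ = g * c * g⁻¹ * r := by group
  have hHC : H ≤ Subgroup.normalizer ((H ⊓ Subgroup.centralizer (R : Set G) : Subgroup G) : Set G) := by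
    apply le_normalizer_of_conj_mem
    intro h hh c hc
    exact ⟨hHn.conj_mem c hc.1 h, hNCR h (hHR hh) c hc.2⟩
  have hPC : P ≤ Subgroup.normalizer ((H ⊓ Subgroup.centralizer (R : Set G) : Subgroup G) : Set G) := by
    apply le_normalizer_of_conj_mem
    intro a ha c hc
    exact ⟨hHn.conj_mem c hc.1 a, hNCR a (hPR ha) c hc.2⟩
  have hCH : H ⊓ Subgroup.centralizer (R : Set G) ≤ H := inf_le_left
  have hCR : H ⊓ Subgroup.centralizer (R : Set G) ≤ Subgroup.centralizer (R : Set G) := inf_le_right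
  generalize hC : H ⊓ Subgroup.centralizer (R : Set G) = C at hHC hPC hCH hCR
  have hPsolv : Group.IsSolvable P := by
    haveI := hP.isNilpotent
    infer_instance
  have hcopPC : (Nat.card P).Coprime (Nat.card C) := by
    obtain ⟨n, hn⟩ := hP.exists_card_eq
    rw [hn]
    exact Nat.Coprime.pow_left n (Nat.Coprime.symm
      (Nat.Coprime.coprime_dvd_left (Subgroup.card_dvd_of_le hCH) hHp))
  have hCdec := commutator_sup_fixed P C hPC hcopPC (Or.inl hPsolv)
  have hVC : C ≤ Subgroup.normalizer ((Y ⊓ C : Subgroup G) : Set G) := by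
    refine le_trans (le_of_eq hCdec.symm) (sup_le ?_ ?_)
    · have h1 : ⁅C, P⁆ ≤ R := by
        intro x hx
        have hxC : x ∈ C := commutator_le_of_le_normalizer hPC hx
        have hxL : x ∈ L := by
          rw [← hL]; exact Subgroup.commutator_mono hCH le_rfl hx
        exact hCLR ⟨hxL, hCR hxC⟩
      apply le_normalizer_of_conj_mem
      intro a ha v hv
      have haR := h1 ha
      have hvC : v ∈ Subgroup.centralizer (R : Set G) := hCR hv.2
      have h2 := (Subgroup.mem_centralizer_iff.mp hvC) a haR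
      have e : a * v * a⁻¹ = v := by rw [h2]; group
      rw [e]; exact hv
    · apply le_normalizer_of_conj_mem
      intro c hc v hv
      have hcY : c ∈ Subgroup.normalizer (Y : Set G) := hYn ⟨hCH hc.1, hc.2⟩
      have hcC : c ∈ Subgroup.normalizer (C : Set G) := Subgroup.le_normalizer hc.1
      exact ⟨conj_mem_of_mem_normalizer hcY hv.1, conj_mem_of_mem_normalizer hcC hv.2⟩
  have hOC : (Cfsg.pPrimeCore q C).map C.subtype = ⊥ := by
    have hchar := pPrimeCore_characteristic q C
    exact hO _ ((Subgroup.map_subtype_le _).trans hCH) (hHC.trans (cc_char_map C _))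
      (by rw [Subgroup.card_map_of_injective C.subtype_injective]; exact pPrimeCore_coprime q C)
  have hVle : Y ⊓ C ≤ C := inf_le_right
  have hVn : ((Y ⊓ C).subgroupOf C).Normal :=
    (Subgroup.normal_subgroupOf_iff_le_normalizer hVle).mpr hVC
  have hVq : (Nat.card ((Y ⊓ C).subgroupOf C)).Coprime q := by
    rw [card_subgroupOf_of_le hVle]
    exact Nat.Coprime.coprime_dvd_left (Subgroup.card_dvd_of_le inf_le_left) hYq
  have hVcore : (Y ⊓ C).subgroupOf C ≤ Cfsg.pPrimeCore q C := le_pPrimeCore hVn hVq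
  have hVbot : Y ⊓ C = ⊥ := by
    rw [eq_bot_iff]
    intro v hv
    have h1 : v ∈ (Cfsg.pPrimeCore q C).map C.subtype :=
      ⟨⟨v, hVle hv⟩, hVcore (Subgroup.mem_subgroupOf.mpr hv), rfl⟩
    rw [hOC] at h1
    exact h1
  rw [eq_bot_iff, ← hVbot]
  intro x hx
  refine ⟨hx.2, ?_⟩
  rw [← hC]
  exact ⟨(hXle hx.1).1, hXCR hx.1⟩

/-- lifting fixed points of a coprime operator group modulo a normal subgroup `O ≤ H`. -/
theorem cc_lift [Finite G] (H A O : Subgroup G) [hOn : O.Normal] (hOH : O ≤ H)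
    (hcop : (Nat.card A).Coprime (Nat.card O)) (hsolv : Group.IsSolvable A)
    (c : G ⧸ O) (hc : c ∈ H.map (QuotientGroup.mk' O))
    (hcent : ∀ a ∈ A, QuotientGroup.mk' O a * c = c * QuotientGroup.mk' O a) :
    ∃ c' ∈ H ⊓ Subgroup.centralizer (A : Set G), QuotientGroup.mk' O c' = c := by
  obtain ⟨h, hh, rfl⟩ := hc
  have hAO : A ≤ Subgroup.normalizer (O : Set G) := by
    rw [Subgroup.normalizer_eq_top]; exact le_top
  obtain ⟨d, hd, hd2⟩ := coset_fix A O hAO hcop (Or.inl hsolv) h (by
    intro a ha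
    have h1 : QuotientGroup.mk' O (h⁻¹ * a * h * a⁻¹) = 1 := by
      rw [map_mul, map_mul, map_mul, map_inv, map_inv, mul_assoc _ (QuotientGroup.mk' O a),
        hcent a ha]
      group
    have h2 : h⁻¹ * a * h * a⁻¹ ∈ (QuotientGroup.mk' O).ker := h1
    rwa [QuotientGroup.ker_mk'] at h2)
  refine ⟨h * d, Subgroup.mem_inf.mpr ⟨H.mul_mem hh (hOH hd), ?_⟩, ?_⟩
  · rw [Subgroup.mem_centralizer_iff]
    intro a ha
    exact hd2 a ha
  · have hd1 : QuotientGroup.mk' O d = 1 := by
      have : d ∈ (QuotientGroup.mk' O).ker := by rw [QuotientGroup.ker_mk']; exact hd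
      exact this
    rw [map_mul, hd1, mul_one]

theorem cc_main [Finite G] {p q : ℕ} [Fact p.Prime] [Fact q.Prime]
    (H P X Y : Subgroup G) [hHn : H.Normal]
    (hHp : (Nat.card H).Coprime p) (hP : IsPGroup p P)
    (hsol : Group.IsSolvable ↥⁅H, P⁆)
    (z : G) (hzH : z ∈ H) (hz : ∃ k : ℕ, orderOf z = q ^ k)
    (hXle : X ≤ H ⊓ Subgroup.centralizer ({z} : Set G))
    (hXn : H ⊓ Subgroup.centralizer ({z} : Set G) ≤ Subgroup.normalizer (X : Set G))
    (hXP : P ≤ Subgroup.normalizer (X : Set G)) (hXq : (Nat.card X).Coprime q)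
    (hYle : Y ≤ H ⊓ Subgroup.centralizer (P : Set G))
    (hYn : H ⊓ Subgroup.centralizer (P : Set G) ≤ Subgroup.normalizer (Y : Set G))
    (hYq : (Nat.card Y).Coprime q) :
    (X ⊓ Y) ⊔ ⁅X, P⁆ ≤ (Cfsg.pPrimeCore q H).map H.subtype := by
  classical
  have hq : q.Prime := Fact.out
  have hOH : (Cfsg.pPrimeCore q H).map H.subtype ≤ H := Subgroup.map_subtype_le _
  have hOq : (Nat.card ((Cfsg.pPrimeCore q H).map H.subtype : Subgroup G)).Coprime q := by
    rw [Subgroup.card_map_of_injective H.subtype_injective]; exact pPrimeCore_coprime q H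
  have hOn : ((Cfsg.pPrimeCore q H).map H.subtype : Subgroup G).Normal := by
    have hchar := pPrimeCore_characteristic q H
    have h1 := cc_char_map H (Cfsg.pPrimeCore q H)
    rw [Subgroup.normalizer_eq_top] at h1
    exact Subgroup.normalizer_eq_top_iff.mp (top_le_iff.mp h1)
  have hOcore : ∀ N : Subgroup G, N ≤ H → H ≤ Subgroup.normalizer (N : Set G) →
      (Nat.card N).Coprime q → N ≤ (Cfsg.pPrimeCore q H).map H.subtype := by
    intro N hNH hNn hNq
    have hn : (N.subgroupOf H).Normal :=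
      (Subgroup.normal_subgroupOf_iff_le_normalizer hNH).mpr hNn
    have hc : (Nat.card (N.subgroupOf H)).Coprime q := by
      rw [card_subgroupOf_of_le hNH]; exact hNq
    have h1 := le_pPrimeCore hn hc
    intro x hx
    exact ⟨⟨x, hNH hx⟩, h1 (Subgroup.mem_subgroupOf.mpr hx), rfl⟩
  generalize hOdef : (Cfsg.pPrimeCore q H).map H.subtype = O at hOH hOq hOn hOcore ⊢
  have hπ : Function.Surjective (QuotientGroup.mk' O) := QuotientGroup.mk'_surjective O
  have hker : (QuotientGroup.mk' O).ker = O := QuotientGroup.ker_mk' O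
  have hHbn : (H.map (QuotientGroup.mk' O)).Normal := hHn.map _ hπ
  have hZq : IsPGroup q (Subgroup.zpowers z) := by
    obtain ⟨k, hk⟩ := hz
    exact IsPGroup.of_card (by rw [Nat.card_zpowers, hk])
  have hZsolv : Group.IsSolvable (Subgroup.zpowers z) := by
    haveI := hZq.isNilpotent
    infer_instance
  have hPsolv : Group.IsSolvable P := by
    haveI := hP.isNilpotent
    infer_instance
  have hcopZ : (Nat.card (Subgroup.zpowers z)).Coprime (Nat.card O) := by
    obtain ⟨n, hn⟩ := hZq.exists_card_eq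
    rw [hn]; exact Nat.Coprime.pow_left n hOq.symm
  have hcopP : (Nat.card P).Coprime (Nat.card O) := by
    obtain ⟨n, hn⟩ := hP.exists_card_eq
    rw [hn]
    exact Nat.Coprime.pow_left n (Nat.Coprime.symm
      (Nat.Coprime.coprime_dvd_left (Subgroup.card_dvd_of_le hOH) hHp))
  have key := cc_core (G := G ⧸ O) (p := p) (q := q) (H.map (QuotientGroup.mk' O))
    (P.map (QuotientGroup.mk' O)) (X.map (QuotientGroup.mk' O)) (Y.map (QuotientGroup.mk' O))
    (Nat.Coprime.coprime_dvd_left (Subgroup.card_map_dvd _ _) hHp) (hP.map _)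
    (by
      have h1 : Group.IsSolvable ↥(⁅H, P⁆.map (QuotientGroup.mk' O)) :=
        Group.isSolvable_of_surjective (f := (QuotientGroup.mk' O).subgroupMap ⁅H, P⁆)
          ((QuotientGroup.mk' O).subgroupMap_surjective ⁅H, P⁆)
      rw [Subgroup.map_commutator] at h1
      exact h1)
    (by
      intro Nb hNb hnorm hcop
      have hNH : Nb.comap (QuotientGroup.mk' O) ⊓ H ≤ H := inf_le_right
      have hNn : H ≤ Subgroup.normalizer
          ((Nb.comap (QuotientGroup.mk' O) ⊓ H : Subgroup G) : Set G) := by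
        apply le_normalizer_of_conj_mem
        intro h hh x hx
        refine ⟨?_, hHn.conj_mem x hx.2 h⟩
        show QuotientGroup.mk' O (h * x * h⁻¹) ∈ Nb
        rw [map_mul, map_mul, map_inv]
        exact conj_mem_of_mem_normalizer (hnorm ⟨h, hh, rfl⟩) hx.1
      have hNq : (Nat.card (Nb.comap (QuotientGroup.mk' O) ⊓ H : Subgroup G)).Coprime q := by
        rw [Nat.coprime_comm, Nat.Prime.coprime_iff_not_dvd hq]
        intro hdvd
        obtain ⟨x, hx⟩ := exists_prime_orderOf_dvd_card'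
          (G := (Nb.comap (QuotientGroup.mk' O) ⊓ H : Subgroup G)) q hdvd
        have hxG : orderOf (x : G) = q := by rw [Subgroup.orderOf_coe]; exact hx
        have hπx : QuotientGroup.mk' O (x : G) ∈ Nb := x.2.1
        have h1 : orderOf (QuotientGroup.mk' O (x : G)) ∣ q := by
          rw [← hxG]; exact orderOf_map_dvd _ (x : G)
        have h2 : orderOf (QuotientGroup.mk' O (x : G)) ∣ Nat.card Nb := by
          have h2' := orderOf_dvd_natCard (⟨QuotientGroup.mk' O (x : G), hπx⟩ : Nb)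
          rwa [← Subgroup.orderOf_coe] at h2'
        have h3 : orderOf (QuotientGroup.mk' O (x : G)) = 1 :=
          Nat.Coprime.eq_one_of_dvd (Nat.Coprime.coprime_dvd_left h2 hcop) h1
        have h4 : QuotientGroup.mk' O (x : G) = 1 := orderOf_eq_one_iff.mp h3
        have h5 : (x : G) ∈ O := by
          have : (x : G) ∈ (QuotientGroup.mk' O).ker := h4
          rwa [hker] at this
        have h6 : q ∣ Nat.card O := by
          have h6' := orderOf_dvd_natCard (⟨(x : G), h5⟩ : O)
          rw [← Subgroup.orderOf_coe] at h6'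
          rw [← hxG]; exact h6'
        exact (Nat.Prime.coprime_iff_not_dvd hq).mp hOq.symm h6
      have hNle := hOcore _ hNH hNn hNq
      rw [eq_bot_iff]
      intro y hy
      obtain ⟨h, hh, rfl⟩ := hNb hy
      have h1 : h ∈ (QuotientGroup.mk' O).ker := by
        rw [hker]; exact hNle ⟨hy, hh⟩
      exact Subgroup.mem_bot.mpr h1)
    (QuotientGroup.mk' O z) ⟨z, hzH, rfl⟩
    (by
      obtain ⟨k, hk⟩ := hz
      have h1 : orderOf (QuotientGroup.mk' O z) ∣ q ^ k := hk ▸ orderOf_map_dvd _ z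
      obtain ⟨j, -, hj⟩ := (Nat.dvd_prime_pow hq).mp h1
      exact ⟨j, hj⟩)
    (by
      rintro _ ⟨x, hx, rfl⟩
      refine Subgroup.mem_inf.mpr ⟨⟨x, (hXle hx).1, rfl⟩, ?_⟩
      rw [Subgroup.mem_centralizer_iff]
      intro y hy
      rw [Set.mem_singleton_iff] at hy
      subst hy
      have hxz : x ∈ Subgroup.centralizer ({z} : Set G) := (hXle hx).2
      have h1 := (Subgroup.mem_centralizer_iff.mp hxz) z (Set.mem_singleton z)
      rw [← map_mul, ← map_mul, h1])
    (by
      intro c hc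
      have hc2 : c ∈ Subgroup.centralizer ({QuotientGroup.mk' O z} : Set (G ⧸ O)) := hc.2
      obtain ⟨c', hc', rfl⟩ := cc_lift H (Subgroup.zpowers z) O hOH hcopZ hZsolv c hc.1 (by
        intro a ha
        obtain ⟨n, rfl⟩ := Subgroup.mem_zpowers_iff.mp ha
        have h1 := (Subgroup.mem_centralizer_iff.mp hc2) _ (Set.mem_singleton _)
        rw [map_zpow]
        exact ((Commute.zpow_left (show Commute (QuotientGroup.mk' O z) c from h1) n)).eq)
      have hc'z : c' ∈ Subgroup.centralizer ({z} : Set G) := by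
        have h2 : c' ∈ Subgroup.centralizer ((Subgroup.zpowers z : Subgroup G) : Set G) := hc'.2
        rw [Subgroup.mem_centralizer_iff] at h2 ⊢
        intro y hy
        rw [Set.mem_singleton_iff] at hy
        subst hy
        exact h2 y (Subgroup.mem_zpowers y)
      exact Subgroup.le_normalizer_map _ ⟨c', hXn ⟨hc'.1, hc'z⟩, rfl⟩)
    ((Subgroup.map_mono hXP).trans (Subgroup.le_normalizer_map _))
    (Nat.Coprime.coprime_dvd_left (Subgroup.card_map_dvd _ _) hXq)
    (by
      rintro _ ⟨y, hy, rfl⟩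
      refine Subgroup.mem_inf.mpr ⟨⟨y, (hYle hy).1, rfl⟩, ?_⟩
      rw [Subgroup.mem_centralizer_iff]
      rintro _ ⟨a, ha, rfl⟩
      have hyP : y ∈ Subgroup.centralizer (P : Set G) := (hYle hy).2
      have h1 := (Subgroup.mem_centralizer_iff.mp hyP) a ha
      show QuotientGroup.mk' O a * QuotientGroup.mk' O y
        = QuotientGroup.mk' O y * QuotientGroup.mk' O a
      rw [← map_mul, ← map_mul, h1])
    (by
      intro c hc
      have hc2 : c ∈ Subgroup.centralizer
          ((P.map (QuotientGroup.mk' O) : Subgroup (G ⧸ O)) : Set (G ⧸ O)) := hc.2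
      obtain ⟨c', hc', rfl⟩ := cc_lift H P O hOH hcopP hPsolv c hc.1 (by
        intro a ha
        exact (Subgroup.mem_centralizer_iff.mp hc2) _ ⟨a, ha, rfl⟩)
      exact Subgroup.le_normalizer_map _ ⟨c', hYn hc', rfl⟩)
    (Nat.Coprime.coprime_dvd_left (Subgroup.card_map_dvd _ _) hYq)
  apply sup_le
  · intro x hx
    have h1 : QuotientGroup.mk' O x ∈ X.map (QuotientGroup.mk' O) ⊓ Y.map (QuotientGroup.mk' O) :=
      ⟨⟨x, hx.1, rfl⟩, ⟨x, hx.2, rfl⟩⟩
    rw [key.1] at h1
    have h2 : x ∈ (QuotientGroup.mk' O).ker := h1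
    rwa [hker] at h2
  · intro x hx
    have h0 : ⁅X, P⁆.map (QuotientGroup.mk' O) = ⊥ := by
      rw [Subgroup.map_commutator]; exact key.2
    have h1 : QuotientGroup.mk' O x ∈ ⁅X, P⁆.map (QuotientGroup.mk' O) := ⟨x, hx, rfl⟩
    rw [h0] at h1
    have h2 : x ∈ (QuotientGroup.mk' O).ker := h1
    rwa [hker] at h2

end CoreControl

end Cfsg.Agent.Lib.helper5
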