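import Mathlib
import Cfsg.Agent.Lib.helper5.BlockRel
import Cfsg.Agent.S0966
import Cfsg.Agent.S0973
import Cfsg.Agent.S0917
import Cfsg.Agent.S4437
import Cfsg.Agent.S4434
import Cfsg.Agent.S0914

set_option autoImplicit false

/-!
# Tools for the theorem of Knörr on defect groups of covered blocks

Stabilizer subgroups, the elementwise form of the extended first main theorem, middle
constituents, reverse transitivity of block induction and covering by induced blocks.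
-/

namespace Cfsg.Agent.Lib.helper5

open Cfsg.Agent.Lib.helper23 Cfsg.Agent.Lib.helper24
open scoped ComplexConjugate

universe u

section stabsub

variable {G : Type u} [Group G] [Finite G] {M : Ideal Cfsg.AlgInt}

/-- the stabilizer of a block of a normal subgroup -/
def stabSub (N : Subgroup G) [hN : N.Normal] (hMp : M.IsPrime) (b : Set (Cfsg.IrrCharacter N))
    (hb : Cfsg.IsPBlock M b) : Subgroup G where
  carrier := {g | ∀ θ ∈ b, conjIrr N g θ ∈ b}
  mul_mem' := by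
    intro a c ha hc θ hθ
    rw [conjIrr_mul]
    exact hc _ (ha θ hθ)
  one_mem' := by
    intro θ hθ
    rw [conjIrr_one]
    exact hθ
  inv_mem' := by
    intro a ha
    exact conjIrr_mem_inv N hMp hb a ha

theorem mem_stabSub (N : Subgroup G) [hN : N.Normal] (hMp : M.IsPrime)
    (b : Set (Cfsg.IrrCharacter N)) (hb : Cfsg.IsPBlock M b) (g : G) :
    g ∈ stabSub N hMp b hb ↔ ∀ θ ∈ b, conjIrr N g θ ∈ b := Iff.rfl

theorem isStabOf_stabSub (N : Subgroup G) [hN : N.Normal] (hMp : M.IsPrime)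
    (b : Set (Cfsg.IrrCharacter N)) (hb : Cfsg.IsPBlock M b) :
    IsStabOf N (stabSub N hMp b hb) b := by
  intro g
  rw [mem_stabSub]
  constructor
  · intro h θ hθ θ' hθ'
    have : θ' = conjIrr N g θ := Subtype.ext (funext hθ')
    rw [this]
    exact h θ hθ
  · intro h θ hθ
    exact h θ hθ (conjIrr N g θ) (fun n => rfl)

theorem le_stabSub (N : Subgroup G) [hN : N.Normal] (hMp : M.IsPrime)
    (b : Set (Cfsg.IrrCharacter N)) (hb : Cfsg.IsPBlock M b) : N ≤ stabSub N hMp b hb := by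
  intro n hn θ hθ
  have : conjIrr N n θ = θ := by
    apply Subtype.ext
    funext m
    exact isClassFunction_irr θ m ⟨n, hn⟩
  rw [this]
  exact hθ

end stabsub

section grp

variable {G : Type u} [Group G]

theorem mem_sup_centralizer {P : Subgroup G} {x : G} :
    x ∈ P ⊔ Subgroup.centralizer (P : Set G) ↔
      ∃ u ∈ P, ∃ c ∈ Subgroup.centralizer (P : Set G), x = u * c := by
  constructor
  · intro hx
    rw [Subgroup.sup_eq_closure] at hx
    induction hx using Subgroup.closure_induction with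
    | mem y hy =>
      rcases hy with hy | hy
      · exact ⟨y, hy, 1, Subgroup.one_mem _, (mul_one y).symm⟩
      · exact ⟨1, Subgroup.one_mem _, y, hy, (one_mul y).symm⟩
    | one => exact ⟨1, Subgroup.one_mem _, 1, Subgroup.one_mem _, (mul_one 1).symm⟩
    | mul y z _ _ hy hz =>
      obtain ⟨u₁, hu₁, c₁, hc₁, rfl⟩ := hy
      obtain ⟨u₂, hu₂, c₂, hc₂, rfl⟩ := hz
      refine ⟨u₁ * u₂, Subgroup.mul_mem _ hu₁ hu₂, c₁ * c₂, Subgroup.mul_mem _ hc₁ hc₂, ?_⟩
      have h := Subgroup.mem_centralizer_iff.mp hc₁ u₂ hu₂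
      calc u₁ * c₁ * (u₂ * c₂) = u₁ * (c₁ * u₂) * c₂ := by group
        _ = u₁ * (u₂ * c₁) * c₂ := by rw [h]
        _ = u₁ * u₂ * (c₁ * c₂) := by group
    | inv y _ hy =>
      obtain ⟨u, hu, c, hc, rfl⟩ := hy
      refine ⟨u⁻¹, Subgroup.inv_mem _ hu, c⁻¹, Subgroup.inv_mem _ hc, ?_⟩
      have h := Subgroup.mem_centralizer_iff.mp (Subgroup.inv_mem _ hc) u⁻¹ (Subgroup.inv_mem _ hu)
      rw [mul_inv_rev, h]
  · rintro ⟨u, hu, c, hc, rfl⟩
    exact Subgroup.mul_mem _ (Subgroup.mem_sup_left hu) (Subgroup.mem_sup_right hc)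

variable [Finite G]

/-- Cauchy's theorem for a section `T / H` -/
theorem exists_pow_mem_of_dvd_relIndex {H T : Subgroup G} (hHT : H ≤ T)
    (hnorm : T ≤ Subgroup.normalizer (H : Set G)) {p : ℕ} (hp : p.Prime)
    (h : p ∣ H.relIndex T) : ∃ x ∈ T, x ∉ H ∧ x ^ p ∈ H := by
  haveI : Fact p.Prime := ⟨hp⟩
  have hn : (H.subgroupOf T).Normal := (Subgroup.normal_subgroupOf_iff_le_normalizer hHT).mpr hnorm
  have hcard : Nat.card (T ⧸ H.subgroupOf T) = H.relIndex T := rfl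
  rw [← hcard] at h
  obtain ⟨q, hq⟩ := exists_prime_orderOf_dvd_card' p h
  obtain ⟨x, rfl⟩ := QuotientGroup.mk_surjective q
  refine ⟨x, x.2, ?_, ?_⟩
  · intro hx
    have h1 : (QuotientGroup.mk x : T ⧸ H.subgroupOf T) = 1 := by
      rw [QuotientGroup.eq_one_iff]
      exact hx
    rw [h1, orderOf_one] at hq
    exact hp.one_lt.ne hq
  · have h1 : (QuotientGroup.mk x : T ⧸ H.subgroupOf T) ^ p = 1 := by
      rw [← hq]
      exact pow_orderOf_eq_one _
    rw [← QuotientGroup.mk_pow, QuotientGroup.eq_one_iff] at h1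
    exact h1

theorem dvd_relIndex_of_pow_mem {H T : Subgroup G} (hHT : H ≤ T)
    (hnorm : T ≤ Subgroup.normalizer (H : Set G)) {p : ℕ} (hp : p.Prime) {x : G} (hxT : x ∈ T)
    (hxH : x ∉ H) (hxp : x ^ p ∈ H) : p ∣ H.relIndex T := by
  haveI : Fact p.Prime := ⟨hp⟩
  have hn : (H.subgroupOf T).Normal := (Subgroup.normal_subgroupOf_iff_le_normalizer hHT).mpr hnorm
  have hcard : Nat.card (T ⧸ H.subgroupOf T) = H.relIndex T := rfl
  rw [← hcard]
  have h1 : (QuotientGroup.mk (⟨x, hxT⟩ : T) : T ⧸ H.subgroupOf T) ^ p = 1 := by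
    rw [← QuotientGroup.mk_pow, QuotientGroup.eq_one_iff]
    exact hxp
  have h2 : (QuotientGroup.mk (⟨x, hxT⟩ : T) : T ⧸ H.subgroupOf T) ≠ 1 := by
    rw [Ne, QuotientGroup.eq_one_iff]
    exact hxH
  have h3 := orderOf_eq_prime h1 h2
  rw [← h3]
  exact orderOf_dvd_natCard _

end grp

section extelem

variable {G : Type u} [Group G] [Fintype G]
variable {M : Ideal Cfsg.AlgInt} {p : ℕ} [Fact p.Prime]

omit [Fact p.Prime] in
/-- the stabilizer in `N_G(P)` of a block of a subgroup `H` normalized by `N_G(P)` -/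
theorem exists_stab_subgroup (hMp : M.IsPrime) (P H : Subgroup G)
    (hconj : ∀ n ∈ Subgroup.normalizer (P : Set G), ∀ x ∈ H, n * x * n⁻¹ ∈ H)
    (b : Set (Cfsg.IrrCharacter H)) (hb : Cfsg.IsPBlock M b) :
    ∃ T : Subgroup G, ∀ g : G, g ∈ T ↔ (g ∈ Subgroup.normalizer (P : Set G) ∧
      ∀ θ ∈ b, ∀ θ' : Cfsg.IrrCharacter H,
        (∀ h h' : H, (h' : G) = g * h * g⁻¹ → θ'.1 h' = θ.1 h) → θ' ∈ b) := by
  classical
  have hconj' : ∀ n ∈ Subgroup.normalizer (P : Set G), ∀ x ∈ H, n⁻¹ * x * n ∈ H := by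
    intro n hn x hx
    have := hconj n⁻¹ (Subgroup.inv_mem _ hn) x hx
    rwa [inv_inv] at this
  let e : ∀ g : G, g ∈ Subgroup.normalizer (P : Set G) → (H ≃* H) := fun g hg =>
    conjEquivOn H g (hconj g hg) (hconj' g hg)
  have he : ∀ (g : G) (hg : g ∈ Subgroup.normalizer (P : Set G)) (h : H),
      ((e g hg h : H) : G) = g * h * g⁻¹ := fun g hg h => rfl
  have hA : ∀ (g : G) (hg : g ∈ Subgroup.normalizer (P : Set G)),
      (∀ θ ∈ b, ∀ θ' : Cfsg.IrrCharacter H,
        (∀ h h' : H, (h' : G) = g * h * g⁻¹ → θ'.1 h' = θ.1 h) → θ' ∈ b) ↔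
      ∀ θ ∈ b, irrMap (e g⁻¹ (Subgroup.inv_mem _ hg)) θ ∈ b := by
    intro g hg
    constructor
    · intro h θ hθ
      apply h θ hθ
      intro x x' hx
      rw [irrMap_apply]
      refine congrArg θ.1 (Subtype.ext ?_)
      show g⁻¹ * (x' : G) * g⁻¹⁻¹ = x
      rw [hx]
      group
    · intro h θ hθ θ' hθ'
      have : θ' = irrMap (e g⁻¹ (Subgroup.inv_mem _ hg)) θ := by
        apply Subtype.ext
        funext x'
        rw [irrMap_apply]
        apply hθ'
        show (x' : G) = g * (g⁻¹ * (x' : G) * g⁻¹⁻¹) * g⁻¹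
        group
      rw [this]
      exact h θ hθ
  obtain ⟨θ₁, rfl⟩ := hb
  let T : Subgroup G :=
    { carrier := {g | ∃ hg : g ∈ Subgroup.normalizer (P : Set G),
        ∀ θ ∈ Cfsg.blockOf M θ₁.1, irrMap (e g⁻¹ (Subgroup.inv_mem _ hg)) θ ∈ Cfsg.blockOf M θ₁.1}
      mul_mem' := by
        rintro a c ⟨ha, ha'⟩ ⟨hc, hc'⟩
        refine ⟨Subgroup.mul_mem _ ha hc, ?_⟩
        intro θ hθ
        have h1 := ha' _ (hc' θ hθ)
        have : irrMap (e (a * c)⁻¹ (Subgroup.inv_mem _ (Subgroup.mul_mem _ ha hc))) θ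
            = irrMap (e a⁻¹ (Subgroup.inv_mem _ ha)) (irrMap (e c⁻¹ (Subgroup.inv_mem _ hc)) θ) := by
          apply Subtype.ext
          funext x
          rw [irrMap_apply, irrMap_apply, irrMap_apply]
          refine congrArg θ.1 (Subtype.ext ?_)
          show (a * c)⁻¹ * (x : G) * (a * c)⁻¹⁻¹ = c⁻¹ * (a⁻¹ * (x : G) * a⁻¹⁻¹) * c⁻¹⁻¹
          group
        rw [this]
        exact h1
      one_mem' := by
        refine ⟨Subgroup.one_mem _, ?_⟩
        intro θ hθ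
        have : irrMap (e (1 : G)⁻¹ (Subgroup.inv_mem _ (Subgroup.one_mem _))) θ = θ := by
          apply Subtype.ext
          funext x
          rw [irrMap_apply]
          refine congrArg θ.1 (Subtype.ext ?_)
          show (1 : G)⁻¹ * (x : G) * (1 : G)⁻¹⁻¹ = x
          group
        rw [this]
        exact hθ
      inv_mem' := by
        rintro a ⟨ha, ha'⟩
        refine ⟨Subgroup.inv_mem _ ha, ?_⟩
        intro θ hθ
        have h1 : Cfsg.SameBlock M θ₁.1 (irrMap (e a⁻¹ (Subgroup.inv_mem _ ha)) θ₁).1 :=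
          ha' θ₁ (mem_blockOf_self hMp.ne_top θ₁)
        have h2 := Cfsg.Agent.Lib.helper5.sameBlock_comp_equiv
          (e a⁻¹⁻¹ (Subgroup.inv_mem _ (Subgroup.inv_mem _ ha))) h1
        have h3 : (irrMap (e a⁻¹ (Subgroup.inv_mem _ ha)) θ₁).1
            ∘ (e a⁻¹⁻¹ (Subgroup.inv_mem _ (Subgroup.inv_mem _ ha))) = θ₁.1 := by
          funext x
          show θ₁.1 (e a⁻¹ (Subgroup.inv_mem _ ha)
            (e a⁻¹⁻¹ (Subgroup.inv_mem _ (Subgroup.inv_mem _ ha)) x)) = θ₁.1 x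
          refine congrArg θ₁.1 (Subtype.ext ?_)
          show a⁻¹ * (a⁻¹⁻¹ * (x : G) * a⁻¹⁻¹⁻¹) * a⁻¹⁻¹ = x
          group
        rw [h3] at h2
        have h4 : Cfsg.SameBlock M θ₁.1 θ.1 := hθ
        have h5 := Cfsg.Agent.Lib.helper5.sameBlock_comp_equiv
          (e a⁻¹⁻¹ (Subgroup.inv_mem _ (Subgroup.inv_mem _ ha))) h4
        exact sameBlock_trans hMp (sameBlock_symm h2) h5 }
  refine ⟨T, fun g => ⟨?_, ?_⟩⟩
  · intro hgT
    obtain ⟨hg, hg'⟩ : ∃ hg : g ∈ Subgroup.normalizer (P : Set G),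
        ∀ θ ∈ Cfsg.blockOf M θ₁.1,
          irrMap (e g⁻¹ (Subgroup.inv_mem _ hg)) θ ∈ Cfsg.blockOf M θ₁.1 := hgT
    exact ⟨hg, (hA g hg).mpr hg'⟩
  · rintro ⟨hg, hg'⟩
    exact ⟨hg, (hA g hg).mp hg'⟩

/-- **extended first main theorem**, elementwise form -/
theorem ext_fmt_elem (hM : Cfsg.IsPModular p M) (P : Subgroup G) (hP : IsPGroup p P)
    (H : Subgroup G) (hH : H = P ⊔ Subgroup.centralizer (P : Set G))
    (b : Set (Cfsg.IrrCharacter H)) (hb : Cfsg.IsPBlock M b)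
    (hbP : Cfsg.IsDefectGroup p M b (P.subgroupOf H)) (B : Set (Cfsg.IrrCharacter G))
    (hind : Cfsg.IsInducedBlock M H b B) :
    Cfsg.IsDefectGroup p M B P ↔ ∀ x ∈ Subgroup.normalizer (P : Set G), x ^ p ∈ H →
      (∀ θ ∈ b, ∀ θ' : Cfsg.IrrCharacter H,
        (∀ h h' : H, (h' : G) = x * h * x⁻¹ → θ'.1 h' = θ.1 h) → θ' ∈ b) → x ∈ H := by
  classical
  haveI : Fintype H := Fintype.ofFinite H
  have hMp := isPModular_isPrime hM
  have hp : p.Prime := Fact.out
  have hHN₀ : H ≤ Subgroup.normalizer (P : Set G) := by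
    rw [hH]
    exact sup_le Subgroup.le_normalizer (Subgroup.centralizer_le_normalizer _)
  have hconjH : ∀ n ∈ Subgroup.normalizer (P : Set G), ∀ x ∈ H, n * x * n⁻¹ ∈ H := by
    intro n hn x hx
    rw [hH] at hx ⊢
    exact conj_mem_sup_centralizer P hn hx
  obtain ⟨T, hT⟩ := exists_stab_subgroup hMp P H hconjH b hb
  have key := Cfsg.Agent.S4437.result p M hM P hP H hH b hb hbP B hind T hT
  rw [key]
  have hHT : H ≤ T := by
    intro h₀ hh₀
    rw [hT]
    refine ⟨hHN₀ hh₀, ?_⟩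
    intro θ hθ θ' hθ'
    have : θ' = θ := by
      apply Subtype.ext
      funext x'
      have h1 := hθ' ((⟨h₀, hh₀⟩ : H)⁻¹ * x' * (⟨h₀, hh₀⟩ : H)⁻¹⁻¹) x' (by
        show (x' : G) = h₀ * (h₀⁻¹ * (x' : G) * h₀⁻¹⁻¹) * h₀⁻¹
        group)
      rw [h1]
      exact isClassFunction_irr θ x' (⟨h₀, hh₀⟩ : H)⁻¹
    rw [this]
    exact hθ
  have hTN₀ : T ≤ Subgroup.normalizer (P : Set G) := fun g hg => ((hT g).mp hg).1
  have hnorm : T ≤ Subgroup.normalizer (H : Set G) := by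
    intro n hn
    have hn' := hTN₀ hn
    rw [Subgroup.mem_normalizer_iff]
    intro h
    constructor
    · exact hconjH n hn' h
    · intro hh
      have := hconjH n⁻¹ (Subgroup.inv_mem _ hn') _ hh
      have e : n⁻¹ * (n * h * n⁻¹) * n⁻¹⁻¹ = h := by group
      rwa [e] at this
  constructor
  · intro hnd x hxN hxp hstab
    by_contra hxH
    exact hnd (dvd_relIndex_of_pow_mem hHT hnorm hp ((hT x).mpr ⟨hxN, hstab⟩) hxH hxp)
  · intro h hdvd
    obtain ⟨x, hxT, hxH, hxp⟩ := exists_pow_mem_of_dvd_relIndex hHT hnorm hp hdvd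
    obtain ⟨hxN, hstab⟩ := (hT x).mp hxT
    exact hxH (h x hxN hxp hstab)

end extelem

section middle

variable {G : Type u} [Group G] [Fintype G]

/-- a constituent over `N` of `χ` lies under a constituent of `χ` over any intermediate `K` -/
theorem exists_middle_constituent (N K : Subgroup G) [Fintype N] [Fintype K] (hNK : N ≤ K)
    (χ : Cfsg.IrrCharacter G) (θ : Cfsg.IrrCharacter N)
    (h : Cfsg.classInner (fun n : N => χ.1 n) θ.1 ≠ 0) :
    ∃ ψ : Cfsg.IrrCharacter K, Cfsg.classInner (fun k : K => χ.1 k) ψ.1 ≠ 0 ∧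
      Cfsg.classInner (fun n : N => ψ.1 ⟨(n : G), hNK n.2⟩) θ.1 ≠ 0 := by
  classical
  haveI := Fintype.ofFinite (Cfsg.IrrCharacter K)
  have hF : Cfsg.IsClassFunction K (fun k : K => χ.1 k) := by
    intro k h'
    exact isClassFunction_irr χ k h'
  have hexp := classFunction_expansion hF
  have h1 : (fun n : N => χ.1 n) = ∑ ψ : Cfsg.IrrCharacter K,
      Cfsg.classInner (fun k : K => χ.1 k) ψ.1 • (fun n : N => ψ.1 ⟨(n : G), hNK n.2⟩) := by
    funext n
    have := congrFun hexp ⟨(n : G), hNK n.2⟩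
    simp only [Finset.sum_apply, Pi.smul_apply] at this ⊢
    exact this
  rw [h1, classInner_sum_left] at h
  obtain ⟨ψ, -, hψ⟩ := Finset.exists_ne_zero_of_sum_ne_zero h
  rw [classInner_smul_left] at hψ
  exact ⟨ψ, left_ne_zero_of_mul hψ, right_ne_zero_of_mul hψ⟩

end middle

section trans'

variable {G : Type u} [Group G] [Fintype G] [Fintype (Cfsg.IrrCharacter G)]
variable {M : Ideal Cfsg.AlgInt}

/-- reverse transitivity of block induction -/
theorem isInducedBlock_trans' (hMp : M.IsPrime) (H K : Subgroup G) (hKH : K ≤ H)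
    [Fintype H] [Fintype (Cfsg.IrrCharacter H)] [Fintype K] [Fintype (Cfsg.IrrCharacter K)]
    [Fintype (K.subgroupOf H)] [Fintype (Cfsg.IrrCharacter (K.subgroupOf H))]
    (ξ : Cfsg.IrrCharacter K) (ξ' : Cfsg.IrrCharacter (K.subgroupOf H))
    (hξ' : ξ'.1 = ξ.1 ∘ (Subgroup.subgroupOfEquivOfLe hKH))
    (χ₁ : Cfsg.IrrCharacter H) (χ : Cfsg.IrrCharacter G)
    (h1 : Cfsg.IsInducedBlock M (K.subgroupOf H) (Cfsg.blockOf M ξ'.1) (Cfsg.blockOf M χ₁.1))
    (h2 : Cfsg.IsInducedBlock M K (Cfsg.blockOf M ξ.1) (Cfsg.blockOf M χ.1)) :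
    Cfsg.IsInducedBlock M H (Cfsg.blockOf M χ₁.1) (Cfsg.blockOf M χ.1) := by
  classical
  have key : ∀ a ∈ osimaRing G M hMp, Cfsg.MemLocalIdeal M (brFun H ⊤ χ₁ a - a χ) := by
    intro a ha
    have hF : Cfsg.IsClassFunction H (brTrunc H ⊤ a) :=
      brTrunc_isClassFunction (fun _ _ _ _ => Subgroup.mem_top _) a
    have hR : ∀ h : H, Cfsg.MemLocalRing M (brTrunc H ⊤ a h) :=
      fun h => brTrunc_memLocalRing hMp H ⊤ ha h
    have haH := coord_mem_osimaRing hMp hF hR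
    have e1 : brFun (K.subgroupOf H) ⊤ ξ' (coord (brTrunc H ⊤ a)) = brFun K ⊤ ξ a := by
      rw [brFun_apply, brFun_apply]
      show (∑ k' : K.subgroupOf H,
          brTrunc (K.subgroupOf H) ⊤ (coord (brTrunc H ⊤ a)) k' * ξ'.1 k') / ξ'.1 1
        = (∑ k : K, brTrunc K ⊤ a k * ξ.1 k) / ξ.1 1
      have hone : ξ'.1 1 = ξ.1 1 := by
        rw [hξ']
        show ξ.1 (Subgroup.subgroupOfEquivOfLe hKH 1) = ξ.1 1
        rw [map_one]
      rw [hone]
      congr 1
      rw [← Equiv.sum_comp (Subgroup.subgroupOfEquivOfLe hKH).toEquiv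
        (fun k : K => brTrunc K ⊤ a k * ξ.1 k)]
      apply Finset.sum_congr rfl
      intro k' _
      rw [brTrunc_of_mem _ (Subgroup.mem_top _), coef_coord _ hF,
        brTrunc_of_mem _ (Subgroup.mem_top _), hξ']
      show coef a (((k' : H) : G)) * ξ.1 (Subgroup.subgroupOfEquivOfLe hKH k')
        = brTrunc K ⊤ a (Subgroup.subgroupOfEquivOfLe hKH k')
          * ξ.1 (Subgroup.subgroupOfEquivOfLe hKH k')
      rw [brTrunc_of_mem _ (Subgroup.mem_top _)]
      rfl
    have h3 := brFun_top_of_induced (K.subgroupOf H) hMp h1 (mem_blockOf_self hMp.ne_top ξ')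
      (mem_blockOf_self hMp.ne_top χ₁) haH
    have h4 := brFun_top_of_induced K hMp h2 (mem_blockOf_self hMp.ne_top ξ)
      (mem_blockOf_self hMp.ne_top χ) ha
    rw [e1] at h3
    have e2 : coord (brTrunc H ⊤ a) χ₁ = brFun H ⊤ χ₁ a := rfl
    rw [e2] at h3
    have h5 := memLocalIdeal_sub hMp h4 h3
    rwa [sub_sub_sub_cancel_left] at h5
  apply isInducedBlock_of_single hMp
  intro g
  have h6 := key _ (centralChar_mem_osimaRing hMp g)
  rwa [brFun_top] at h6

end trans'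

section relt

variable {G : Type u} [Group G] [Fintype G]
variable {M : Ideal Cfsg.AlgInt} {p : ℕ} [Fact p.Prime]

omit [Fact p.Prime] in
/-- transport of invariance to the subgroup `T` -/
theorem rel_hinv (N T : Subgroup G) [hN : N.Normal] (hNT : N ≤ T)
    (b : Set (Cfsg.IrrCharacter N)) (hinv : ∀ t ∈ T, ∀ θ ∈ b, conjIrr N t θ ∈ b) :
    haveI : (N.subgroupOf T).Normal := hN.subgroupOf T
    ∀ (t : T), ∀ ψ ∈ irrMap (Subgroup.subgroupOfEquivOfLe hNT) '' b,
      conjIrr (N.subgroupOf T) t ψ ∈ irrMap (Subgroup.subgroupOfEquivOfLe hNT) '' b := by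
  intro t ψ hψ
  obtain ⟨θ, hθ, rfl⟩ := hψ
  refine ⟨conjIrr N (t : G) θ, hinv t t.2 θ hθ, ?_⟩
  apply Subtype.ext
  funext n
  rfl

omit [Fact p.Prime] in
/-- transport of covering to the subgroup `T` -/
theorem rel_cov (N T : Subgroup G) [Fintype N] [Fintype (N.subgroupOf T)] (hNT : N ≤ T)
    (b : Set (Cfsg.IrrCharacter N)) (B' : Set (Cfsg.IrrCharacter T)) :
    CovRel N T hNT b B' ↔ ∃ χ ∈ B', ∃ θ ∈ irrMap (Subgroup.subgroupOfEquivOfLe hNT) '' b,
      Cfsg.classInner (fun n : N.subgroupOf T => (χ : T → ℂ) n)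
        (θ : N.subgroupOf T → ℂ) ≠ 0 := by
  constructor
  · rintro ⟨ψ, hψ, θ, hθ, hne⟩
    refine ⟨ψ, hψ, irrMap (Subgroup.subgroupOfEquivOfLe hNT) θ, ⟨θ, hθ, rfl⟩, ?_⟩
    have h3 := classInner_comp_equiv (Subgroup.subgroupOfEquivOfLe hNT)
      (fun n : N => ψ.1 ⟨(n : G), hNT n.2⟩) θ.1
    rw [← h3] at hne
    exact hne
  · rintro ⟨χ, hχ, _, ⟨θ, hθ, rfl⟩, hne⟩
    refine ⟨χ, hχ, θ, hθ, ?_⟩
    have h3 := classInner_comp_equiv (Subgroup.subgroupOfEquivOfLe hNT)
      (fun n : N => χ.1 ⟨(n : G), hNT n.2⟩) θ.1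
    rw [← h3]
    exact hne

/-- transport of a defect group of the block of `N` back from the subgroup `T` -/
theorem rel_defect (N T : Subgroup G) (hNT : N ≤ T)
    (b : Set (Cfsg.IrrCharacter N)) (D : Subgroup T)
    (h : Cfsg.IsDefectGroup p M (irrMap (Subgroup.subgroupOfEquivOfLe hNT) '' b)
      ((D ⊓ N.subgroupOf T).subgroupOf (N.subgroupOf T))) :
    Cfsg.IsDefectGroup p M b (((D.map T.subtype) ⊓ N).subgroupOf N) := by
  have h4 := isDefectGroup_irrMap (p := p) (M := M) (Subgroup.subgroupOfEquivOfLe hNT).symm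
    (irrMap (Subgroup.subgroupOfEquivOfLe hNT) '' b) _ h
  rw [image_irrMap_symm_image] at h4
  have heq : ((D ⊓ N.subgroupOf T).subgroupOf (N.subgroupOf T)).comap
      (Subgroup.subgroupOfEquivOfLe hNT).symm.toMonoidHom
      = ((D.map T.subtype) ⊓ N).subgroupOf N := by
    ext x
    rw [Subgroup.mem_comap, Subgroup.mem_subgroupOf, Subgroup.mem_subgroupOf,
      Subgroup.mem_inf, Subgroup.mem_inf, Subgroup.mem_subgroupOf]
    constructor
    · rintro ⟨h5, h6⟩
      exact ⟨⟨_, h5, rfl⟩, x.2⟩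
    · rintro ⟨⟨y, hy, hyx⟩, h6⟩
      refine ⟨?_, h6⟩
      have : (((Subgroup.subgroupOfEquivOfLe hNT).symm.toMonoidHom x : N.subgroupOf T) : T) = y :=
        Subtype.ext hyx.symm
      rw [this]
      exact hy
  rw [heq] at h4
  exact h4

/-- uniqueness of the covering block when the index is a power of `p`, relative version -/
theorem unique_cover_rel (hM : Cfsg.IsPModular p M) (N T : Subgroup G) [hN : N.Normal]
    [Fintype N] (hNT : N ≤ T) (hidx : ∃ k : ℕ, N.relIndex T = p ^ k)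
    (b : Set (Cfsg.IrrCharacter N)) (hb : Cfsg.IsPBlock M b)
    (B₁ B₂ : Set (Cfsg.IrrCharacter T)) (h₁ : Cfsg.IsPBlock M B₁) (h₂ : Cfsg.IsPBlock M B₂)
    (hc₁ : CovRel N T hNT b B₁) (hc₂ : CovRel N T hNT b B₂) : B₁ = B₂ := by
  classical
  haveI : Fintype T := Fintype.ofFinite T
  haveI : (N.subgroupOf T).Normal := hN.subgroupOf T
  haveI : Fintype (N.subgroupOf T) := Fintype.ofFinite _
  have hb' : Cfsg.IsPBlock M (irrMap (Subgroup.subgroupOfEquivOfLe hNT) '' b) :=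
    isPBlock_image_irrMap _ hb
  have hu := Cfsg.Agent.S0966.result p M hM (N.subgroupOf T) hidx
    (irrMap (Subgroup.subgroupOfEquivOfLe hNT) '' b) hb'
  exact hu.unique ⟨h₁, (rel_cov N T hNT b B₁).mp hc₁⟩ ⟨h₂, (rel_cov N T hNT b B₂).mp hc₂⟩

end relt

section covind

variable {G : Type u} [Group G] [Fintype G]
variable {M : Ideal Cfsg.AlgInt}

omit [Fintype G] in
theorem inv_iff_of_inv [Finite G] (N : Subgroup G) [hN : N.Normal] {b : Set (Cfsg.IrrCharacter N)}
    (hinv : ∀ g : G, ∀ θ ∈ b, conjIrr N g θ ∈ b) :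
    ∀ (g : G) (ψ : Cfsg.IrrCharacter N), conjIrr N g ψ ∈ b ↔ ψ ∈ b := by
  intro g ψ
  constructor
  · intro h
    have := hinv g⁻¹ _ h
    rwa [← conjIrr_mul, mul_inv_cancel, conjIrr_one] at this
  · exact hinv g ψ

/-- coefficients of the sum of the block idempotents covering an invariant block -/
theorem coef_cov_indicator (N : Subgroup G) [hN : N.Normal] [Fintype N]
    [Fintype (Cfsg.IrrCharacter G)] [Fintype (Cfsg.IrrCharacter N)]
    (b : Set (Cfsg.IrrCharacter N))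
    (hbc : ∀ (g : G) (ψ : Cfsg.IrrCharacter N), conjIrr N g ψ ∈ b ↔ ψ ∈ b) (g : G) :
    coef ((cov N b).indicator (fun _ => (1 : ℂ))) g
      = Cfsg.extendByZero N (coef (b.indicator (fun _ => (1 : ℂ)))) g := by
  rw [← coord_extend_indicator N b hbc]
  apply coef_coord
  apply isClassFunction_extend_coef
  intro g ψ
  by_cases h : ψ ∈ b
  · rw [Set.indicator_of_mem h, Set.indicator_of_mem ((hbc g ψ).mpr h)]
  · rw [Set.indicator_of_notMem h, Set.indicator_of_notMem (fun h' => h ((hbc g ψ).mp h'))]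

theorem cov_indicator_mem_osimaRing (hMp : M.IsPrime) (N : Subgroup G) [hN : N.Normal]
    [Fintype N] [Fintype (Cfsg.IrrCharacter G)] [Fintype (Cfsg.IrrCharacter N)]
    {b : Set (Cfsg.IrrCharacter N)} (hb : Cfsg.IsPBlock M b)
    (hbc : ∀ (g : G) (ψ : Cfsg.IrrCharacter N), conjIrr N g ψ ∈ b ↔ ψ ∈ b) :
    (cov N b).indicator (fun _ => (1 : ℂ)) ∈ osimaRing G M hMp := by
  rw [mem_osimaRing]
  intro g
  rw [coef_cov_indicator N b hbc g]
  by_cases hg : g ∈ N
  · rw [extendByZero_apply_mem N _ hg]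
    obtain ⟨θ₀, rfl⟩ := hb
    exact (mem_osimaRing hMp).mp (indicator_mem_osimaRing hMp θ₀) ⟨g, hg⟩
  · rw [extendByZero_apply_not_mem N _ hg]
    exact memLocalRing_zero hMp.ne_top

/-- a block of `K ≥ N` inducing a block that covers the invariant block `b` of `N` covers `b` -/
theorem cover_of_induced (hMp : M.IsPrime) (N : Subgroup G) [hN : N.Normal] [Fintype N]
    (K : Subgroup G) (hNK : N ≤ K) (b : Set (Cfsg.IrrCharacter N)) (hb : Cfsg.IsPBlock M b)
    (hinv : ∀ g : G, ∀ θ ∈ b, conjIrr N g θ ∈ b)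
    (B : Set (Cfsg.IrrCharacter G))
    (hcov : ∃ χ ∈ B, ∃ θ ∈ b, Cfsg.classInner (fun n : N => χ.1 n) θ.1 ≠ 0)
    (B₁ : Set (Cfsg.IrrCharacter K)) (hind : Cfsg.IsInducedBlock M K B₁ B) :
    CovRel N K hNK b B₁ := by
  classical
  haveI := Fintype.ofFinite (Cfsg.IrrCharacter G)
  haveI := Fintype.ofFinite (Cfsg.IrrCharacter N)
  haveI : Fintype K := Fintype.ofFinite K
  haveI := Fintype.ofFinite (Cfsg.IrrCharacter K)
  haveI hN' : (N.subgroupOf K).Normal := hN.subgroupOf K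
  haveI : Fintype (N.subgroupOf K) := Fintype.ofFinite _
  haveI := Fintype.ofFinite (Cfsg.IrrCharacter (N.subgroupOf K))
  have hbc := inv_iff_of_inv N hinv
  have ha : (cov N b).indicator (fun _ => (1 : ℂ)) ∈ osimaRing G M hMp :=
    cov_indicator_mem_osimaRing hMp N hb hbc
  obtain ⟨χ, hχ, θ, hθ, hne⟩ := hcov
  have haχ : (cov N b).indicator (fun _ => (1 : ℂ)) χ = 1 :=
    Set.indicator_of_mem (show χ ∈ cov N b from ⟨θ, hθ, hne⟩) _
  obtain ⟨ξ, hB₁⟩ := hind.1
  have hξ : ξ ∈ B₁ := by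
    rw [hB₁]
    exact mem_blockOf_self hMp.ne_top ξ
  have h := brFun_top_of_induced K hMp hind hξ hχ ha
  rw [haχ, brFun_apply] at h
  have hinv' := rel_hinv N K hNK b (fun t _ => hinv t)
  have hbc' := inv_iff_of_inv (N.subgroupOf K) hinv'
  have htr : brTrunc K ⊤ ((cov N b).indicator (fun _ => (1 : ℂ)))
      = Cfsg.extendByZero (N.subgroupOf K)
        (coef ((irrMap (Subgroup.subgroupOfEquivOfLe hNK) '' b).indicator
          (fun _ => (1 : ℂ)))) := by
    funext k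
    rw [brTrunc_of_mem _ (Subgroup.mem_top _), coef_cov_indicator N b hbc]
    by_cases hk : (k : G) ∈ N
    · rw [extendByZero_apply_mem N _ hk,
        extendByZero_apply_mem (N.subgroupOf K) _ (show k ∈ N.subgroupOf K from hk),
        coef_indicator, coef_indicator, blockCoeff_image_irrMap]
      rfl
    · rw [extendByZero_apply_not_mem N _ hk,
        extendByZero_apply_not_mem (N.subgroupOf K) _ (show k ∉ N.subgroupOf K from hk)]
  rw [htr, coord_extend_indicator (N.subgroupOf K) _ hbc'] at h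
  by_cases hξc : ξ ∈ cov (N.subgroupOf K) (irrMap (Subgroup.subgroupOfEquivOfLe hNK) '' b)
  · obtain ⟨θ', hθ', hne'⟩ := hξc
    exact (rel_cov N K hNK b B₁).mpr ⟨ξ, hξ, θ', hθ', hne'⟩
  · exfalso
    rw [Set.indicator_of_notMem hξc] at h
    have h0 := memLocalIdeal_neg h
    rw [zero_sub, neg_neg] at h0
    exact not_memLocalIdeal_one hMp h0

end covind

end Cfsg.Agent.Lib.helper5
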