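import Mathlib
import Cfsg.Agent.Lib.helper5.Knorr1
import Cfsg.Agent.Lib.helper24.GlaubAbove
import Cfsg.Agent.Lib.helper22.QuotDefect2
import Cfsg.Agent.Lib.helper23.BlockDefectZero

set_option autoImplicit false

/-!
# Character-theoretic lemmas for the theorem of Knörr

Kernels of constituents, twists by linear characters of an abelian quotient, characters fixed
by an automorphism that is trivial modulo a normal subgroup, and blocks of a group with a
normal `p`-subgroup centralized by all `p`-regular elements.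
-/

namespace Cfsg.Agent.Lib.helper5

open Cfsg.Agent.Lib.helper23 Cfsg.Agent.Lib.helper24
open scoped ComplexConjugate

universe u

section kernel

variable {G : Type u} [Group G] [Fintype G]

open ComplexOrder in
/-- an element of a subgroup `K` in the kernel of `χ` is in the kernel of every constituent of
the restriction of `χ` to `K` -/
theorem constituent_ker (K : Subgroup G) [Fintype K] (χ : Cfsg.IrrCharacter G)
    (θ : Cfsg.IrrCharacter K) (h : Cfsg.classInner (fun k : K => χ.1 k) θ.1 ≠ 0) (u : K)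
    (hu : χ.1 u = χ.1 1) : θ.1 u = θ.1 1 := by
  classical
  haveI := Fintype.ofFinite (Cfsg.IrrCharacter K)
  have hFc : Cfsg.IsCharacter K (fun k : K => χ.1 k) :=
    Cfsg.Agent.Lib.helper24.isCharacter_restrict K (isCharacter_irr χ)
  have hF : Cfsg.IsClassFunction K (fun k : K => χ.1 k) := isCharacter_conj_class hFc
  choose n hn using fun ψ : Cfsg.IrrCharacter K => isCharacter_inner_irr_nat hFc ψ
  have hexp := classFunction_expansion_apply hF
  have h1 := hexp u
  have h2 := hexp 1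
  have h3 : ∑ ψ : Cfsg.IrrCharacter K, (n ψ : ℝ) * ((ψ.1 1).re - (ψ.1 u).re) = 0 := by
    have h4 : χ.1 ((1 : K) : G) - χ.1 (u : G) = 0 := by
      rw [hu]
      simp
    rw [h1, h2, ← Finset.sum_sub_distrib] at h4
    have h5 := congrArg Complex.re h4
    rw [Complex.re_sum, Complex.zero_re] at h5
    rw [← h5]
    apply Finset.sum_congr rfl
    intro ψ _
    rw [hn ψ]
    simp
    ring
  have hnonneg : ∀ ψ ∈ (Finset.univ : Finset (Cfsg.IrrCharacter K)),
      0 ≤ (n ψ : ℝ) * ((ψ.1 1).re - (ψ.1 u).re) := by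
    intro ψ _
    apply mul_nonneg (Nat.cast_nonneg _)
    have h6 := isCharacter_norm_le (isCharacter_irr ψ) u
    have h7 := Complex.re_le_norm (ψ.1 u)
    linarith
  have h8 := (Finset.sum_eq_zero_iff_of_nonneg hnonneg).mp h3 θ (Finset.mem_univ _)
  have hnθ : (n θ : ℝ) ≠ 0 := by
    intro h0
    apply h
    rw [hn θ]
    have : n θ = 0 := by exact_mod_cast h0
    rw [this]
    simp
  have h9 : (θ.1 1).re = (θ.1 u).re := by
    rcases mul_eq_zero.mp h8 with h0 | h0
    · exact absurd h0 hnθ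
    · linarith
  have h10 := isCharacter_norm_le (isCharacter_irr θ) u
  rw [h9] at h10
  have h11 : (θ.1 u).re = ‖θ.1 u‖ := le_antisymm (Complex.re_le_norm _) h10
  have h12 : (0 : ℂ) ≤ θ.1 u := Complex.re_eq_norm.mp h11
  have h13 : (θ.1 u).im = 0 := (Complex.nonneg_iff.mp h12).2.symm
  have h14 : (θ.1 1).im = 0 := by
    rw [← charDegree_cast θ]
    simp
  exact Complex.ext h9.symm (by rw [h13, h14])

end kernel

section twist

variable {G : Type u} [Group G] [Fintype G]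

/-- twisting by linear characters of an abelian quotient is transitive on the irreducible
characters with a common constituent on the normal subgroup -/
theorem exists_twist_of_common (N : Subgroup G) [hN : N.Normal]
    [Fintype N] (hab : commutator G ≤ N) (θ : Cfsg.IrrCharacter N)
    (χ χ' : Cfsg.IrrCharacter G) (hχ : Cfsg.classInner (fun n : N => χ.1 n) θ.1 ≠ 0)
    (hχ' : Cfsg.classInner (fun n : N => χ'.1 n) θ.1 ≠ 0) :
    ∃ f : G ⧸ N →* ℂˣ, ∀ g : G, χ'.1 g = (f (QuotientGroup.mk g) : ℂ) * χ.1 g := by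
  classical
  haveI : Fintype (Cfsg.IrrCharacter G) := Fintype.ofFinite _
  have h1 : Cfsg.classInner (fun n : N => χ.1 n) (fun n : N => χ'.1 n) ≠ 0 :=
    inner_ne_zero_of_common (Cfsg.Agent.Lib.helper24.isCharacter_restrict N (isCharacter_irr χ))
      (Cfsg.Agent.Lib.helper24.isCharacter_restrict N (isCharacter_irr χ')) θ hχ hχ'
  have h2 : Cfsg.classInner (Cfsg.indFun N (fun n : N => χ.1 n)) χ'.1 ≠ 0 := by
    rw [frobenius_reciprocity N _ (isClassFunction_irr χ')]
    exact h1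
  have h3 : Cfsg.indFun N (fun n : N => χ.1 n) = Cfsg.indFun N (fun _ => (1 : ℂ)) * χ.1 := by
    have := indFun_mul_restrict N (fun _ => (1 : ℂ)) (isClassFunction_irr χ)
    rw [← this]
    congr 1
    funext n
    simp
  have h4 : Cfsg.indFun N (fun _ => (1 : ℂ))
      = ∑ β : Cfsg.IrrCharacter G, Cfsg.classInner (Cfsg.indFun N (fun _ => (1 : ℂ))) β.1 • β.1 :=
    classFunction_expansion (isCharacter_conj_class (isCharacter_indFun N isCharacter_trivial))
  have h5 : Cfsg.classInner (Cfsg.indFun N (fun n : N => χ.1 n)) χ'.1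
      = ∑ β : Cfsg.IrrCharacter G, Cfsg.classInner (Cfsg.indFun N (fun _ => (1 : ℂ))) β.1
          * Cfsg.classInner (β.1 * χ.1) χ'.1 := by
    rw [h3]
    conv_lhs => rw [h4]
    rw [Finset.sum_mul, classInner_sum_left]
    refine Finset.sum_congr rfl (fun β _ => ?_)
    rw [smul_mul_assoc, classInner_smul_left]
  rw [h5] at h2
  obtain ⟨β, -, hβ⟩ := Finset.exists_ne_zero_of_sum_ne_zero h2
  have hβ1 : Cfsg.classInner (Cfsg.indFun N (fun _ => (1 : ℂ))) β.1 ≠ 0 := left_ne_zero_of_mul hβ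
  have hβ2 : Cfsg.classInner (β.1 * χ.1) χ'.1 ≠ 0 := right_ne_zero_of_mul hβ
  have hker : ∀ n ∈ N, β.1 n = β.1 1 := (inner_indFun_one_ne_zero_iff N β).1 hβ1
  have hlin : β.1 1 = 1 := irr_linear_of_commutator_le_ker β.2 (fun k hk => hker k (hab hk))
  obtain ⟨f₀, hf₀⟩ := exists_hom_of_linear (isCharacter_irr β) hlin
  have hf₀N : N ≤ f₀.ker := by
    intro n hn
    rw [MonoidHom.mem_ker]
    apply Units.ext
    rw [← hf₀, hker n hn, hlin]; rfl
  refine ⟨QuotientGroup.lift N f₀ hf₀N, ?_⟩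
  have hirr : Cfsg.IsIrrCharacter G (fun g => (f₀ g : ℂ) * χ.1 g) := isIrrCharacter_hom_mul f₀ χ.2
  have heq : β.1 * χ.1 = fun g => (f₀ g : ℂ) * χ.1 g := by
    funext g
    rw [Pi.mul_apply, hf₀]
  rw [heq] at hβ2
  have h6 := irr_eq_of_inner_ne_zero (χ := ⟨_, hirr⟩) (ψ := χ') hβ2
  intro g
  rw [← h6]
  rfl

end twist

section ctrans

variable {G : Type u} [Group G] [Fintype G]

/-- transitivity of "lies over" -/
theorem constituent_trans (N K : Subgroup G) [Fintype N] [Fintype K] (hNK : N ≤ K)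
    (χ : Cfsg.IrrCharacter G) (ψ : Cfsg.IrrCharacter K) (θ : Cfsg.IrrCharacter N)
    (h1 : Cfsg.classInner (fun k : K => χ.1 k) ψ.1 ≠ 0)
    (h2 : Cfsg.classInner (fun n : N => ψ.1 ⟨(n : G), hNK n.2⟩) θ.1 ≠ 0) :
    Cfsg.classInner (fun n : N => χ.1 n) θ.1 ≠ 0 := by
  classical
  haveI := Fintype.ofFinite (Cfsg.IrrCharacter K)
  have hFc : Cfsg.IsCharacter K (fun k : K => χ.1 k) :=
    Cfsg.Agent.Lib.helper24.isCharacter_restrict K (isCharacter_irr χ)
  have hF : Cfsg.IsClassFunction K (fun k : K => χ.1 k) := isCharacter_conj_class hFc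
  have hres : ∀ ψ' : Cfsg.IrrCharacter K,
      Cfsg.IsCharacter N (fun n : N => ψ'.1 ⟨(n : G), hNK n.2⟩) := fun ψ' =>
    isCharacter_comp (Subgroup.inclusion hNK) (isCharacter_irr ψ')
  choose n hn using fun ψ' : Cfsg.IrrCharacter K => isCharacter_inner_irr_nat hFc ψ'
  choose m hm using fun ψ' : Cfsg.IrrCharacter K => isCharacter_inner_irr_nat (hres ψ') θ
  have hexp := classFunction_expansion hF
  have e1 : (fun n : N => χ.1 n) = ∑ ψ' : Cfsg.IrrCharacter K,
      Cfsg.classInner (fun k : K => χ.1 k) ψ'.1 • (fun n : N => ψ'.1 ⟨(n : G), hNK n.2⟩) := by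
    funext x
    have := congrFun hexp ⟨(x : G), hNK x.2⟩
    simp only [Finset.sum_apply, Pi.smul_apply] at this ⊢
    exact this
  rw [e1, classInner_sum_left]
  have e2 : ∑ ψ' : Cfsg.IrrCharacter K, Cfsg.classInner
      (Cfsg.classInner (fun k : K => χ.1 k) ψ'.1 • (fun n : N => ψ'.1 ⟨(n : G), hNK n.2⟩)) θ.1
      = ((∑ ψ' : Cfsg.IrrCharacter K, n ψ' * m ψ' : ℕ) : ℂ) := by
    push_cast
    apply Finset.sum_congr rfl
    intro ψ' _
    rw [classInner_smul_left, hn, hm]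
  rw [e2]
  have hnψ : n ψ ≠ 0 := by
    intro h0
    apply h1
    rw [hn, h0]
    simp
  have hmψ : m ψ ≠ 0 := by
    intro h0
    apply h2
    rw [hm, h0]
    simp
  have hle : n ψ * m ψ ≤ ∑ ψ' : Cfsg.IrrCharacter K, n ψ' * m ψ' :=
    Finset.single_le_sum (f := fun ψ' => n ψ' * m ψ') (fun _ _ => Nat.zero_le _)
      (Finset.mem_univ ψ)
  have hpos : 0 < n ψ * m ψ := Nat.mul_pos (Nat.pos_of_ne_zero hnψ) (Nat.pos_of_ne_zero hmψ)
  have : (∑ ψ' : Cfsg.IrrCharacter K, n ψ' * m ψ') ≠ 0 := by omega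
  exact_mod_cast this

end ctrans

section dz

variable {X : Type u} [Group X] [Fintype X]
variable {M : Ideal Cfsg.AlgInt} {p : ℕ} [Fact p.Prime]

/-- a normal `p`-subgroup `Q` centralized by all `p`-regular elements, and a character with `Q`
in its kernel of defect zero modulo `Q`: its block has defect group `Q` and it is the only
member of the block with `Q` in the kernel -/
theorem block_kernel_defect_zero (hM : Cfsg.IsPModular p M) (Q : Subgroup X) [hQn : Q.Normal]
    (hQ : IsPGroup p Q)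
    (hreg : ∀ x : X, ¬ p ∣ orderOf x → x ∈ Subgroup.centralizer (Q : Set X))
    (θ : Cfsg.IrrCharacter X) (hker : ∀ u ∈ Q, θ.1 u = θ.1 1)
    (hdeg : (Nat.card X).factorization p
      ≤ (Cfsg.charDegree θ.1).factorization p + (Nat.card Q).factorization p) :
    Cfsg.IsDefectGroup p M (Cfsg.blockOf M θ.1) Q ∧
      ∀ χ' ∈ Cfsg.blockOf M θ.1, (∀ u ∈ Q, χ'.1 u = χ'.1 1) → χ' = θ := by
  classical
  haveI := Fintype.ofFinite (Cfsg.IrrCharacter X)
  haveI : Fintype (X ⧸ Q) := Fintype.ofFinite _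
  haveI := Fintype.ofFinite (Cfsg.IrrCharacter (X ⧸ Q))
  have hMp := isPModular_isPrime hM
  have hp : p.Prime := Fact.out
  have hdefl : ∀ χ' : Cfsg.IrrCharacter X, (∀ u ∈ Q, χ'.1 u = χ'.1 1) →
      ∃ χb : Cfsg.IrrCharacter (X ⧸ Q), ∀ g : X, χb.1 (g : X ⧸ Q) = χ'.1 g := by
    intro χ' h
    obtain ⟨f, hf, hfg⟩ := isIrrCharacter_deflate Q χ'.2 h
    exact ⟨⟨f, hf⟩, hfg⟩
  obtain ⟨θb, hθb⟩ := hdefl θ hker
  have hdegb : Cfsg.charDegree θb.1 = Cfsg.charDegree θ.1 := by
    have h1 := charDegree_cast θb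
    have h2 := charDegree_cast θ
    have h3 : θb.1 1 = θ.1 1 := hθb 1
    have : (Cfsg.charDegree θb.1 : ℂ) = (Cfsg.charDegree θ.1 : ℂ) := by rw [h1, h2, h3]
    exact_mod_cast this
  have hcard : Nat.card X = Nat.card (X ⧸ Q) * Nat.card Q :=
    Subgroup.card_eq_card_quotient_mul_card_subgroup Q
  have hfac : (Nat.card X).factorization p
      = (Nat.card (X ⧸ Q)).factorization p + (Nat.card Q).factorization p := by
    rw [hcard, Nat.factorization_mul Nat.card_pos.ne' Nat.card_pos.ne']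
    rfl
  have hzero : (Nat.card (X ⧸ Q)).factorization p ≤ (Cfsg.charDegree θb.1).factorization p := by
    rw [hdegb]
    omega
  have hsing : Cfsg.blockOf M θb.1 = {θb} :=
    (Cfsg.Agent.S0914.result p M hM θb).mp ((not_dvd_div_iff_factorization_le p θb).mpr hzero)
  have huniq : ∀ χ' ∈ Cfsg.blockOf M θ.1, (∀ u ∈ Q, χ'.1 u = χ'.1 1) → χ' = θ := by
    intro χ' hχ' hk
    obtain ⟨χb, hχb⟩ := hdefl χ' hk
    have hsb : Cfsg.SameBlock M θb.1 χb.1 := by
      apply sameBlock_of_p_regular hM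
      intro q hq
      obtain ⟨x, rfl, hx⟩ := exists_regular_lift hp Q q hq
      have e1 := centralChar_comp_mk_of_regular hp Q hQ x (hreg x hx) hx θb.1
      have e2 := centralChar_comp_mk_of_regular hp Q hQ x (hreg x hx) hx χb.1
      have e3 : θb.1 ∘ (QuotientGroup.mk : X → X ⧸ Q) = θ.1 := funext hθb
      have e4 : χb.1 ∘ (QuotientGroup.mk : X → X ⧸ Q) = χ'.1 := funext hχb
      rw [← e1, ← e2, e3, e4]
      exact hχ' x
    have hmem : χb ∈ Cfsg.blockOf M θb.1 := hsb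
    rw [hsing] at hmem
    have hχbθb : χb = θb := hmem
    apply Subtype.ext
    funext g
    rw [← hχb g, ← hθb g, hχbθb]
  refine ⟨?_, huniq⟩
  obtain ⟨Bbar, hBbar, hinfl, hdef⟩ :=
    Cfsg.Agent.S4434.result p M hM Q hQ (Cfsg.blockOf M θ.1) ⟨θ, rfl⟩
  obtain ⟨χ₀, rfl⟩ := hBbar
  have h1 : Cfsg.Agent.Lib.helper22.inflIrr Q χ₀ ∈ Cfsg.blockOf M θ.1 :=
    hinfl χ₀ (mem_blockOf_self hMp.ne_top χ₀) (Cfsg.Agent.Lib.helper22.inflIrr Q χ₀) rfl
  have h2 : Cfsg.Agent.Lib.helper22.inflIrr Q χ₀ = θ := by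
    apply huniq _ h1
    intro u hu
    rw [Cfsg.Agent.Lib.helper22.inflIrr_apply, Cfsg.Agent.Lib.helper22.inflIrr_apply,
      (QuotientGroup.eq_one_iff u).mpr hu]
    rfl
  have h3 : χ₀ = θb := by
    apply Subtype.ext
    funext q
    obtain ⟨g, rfl⟩ := QuotientGroup.mk_surjective q
    rw [hθb g, ← h2]
    rfl
  rw [h3] at hdef
  have hd0 : Cfsg.blockDefect p (Cfsg.blockOf M θb.1) = 0 := by
    rw [blockDefect_eq_zero_iff p _ ⟨θb, mem_blockOf_self hMp.ne_top θb⟩, hsing]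
    intro χ hχ
    rw [Set.mem_singleton_iff.mp hχ]
    exact hzero
  obtain ⟨D, hD⟩ := exists_defectGroup (p := p) hMp θ
  have h4 : Cfsg.IsDefectGroup p M (Cfsg.blockOf M θb.1) (D.map (QuotientGroup.mk' Q)) :=
    (hdef _).mpr ⟨D, hD, rfl⟩
  have h5 := Cfsg.Agent.S0908.result p M hM _ ⟨θb, rfl⟩ _ h4
  rw [hd0, pow_zero] at h5
  have h6 : D.map (QuotientGroup.mk' Q) = ⊥ := Subgroup.eq_bot_of_card_eq _ h5
  have h7 : D ≤ Q := by
    rw [Subgroup.map_eq_bot_iff, QuotientGroup.ker_mk'] at h6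
    exact h6
  have h8 : Q ≤ D := normal_pgroup_le_defectGroup hM Q hQ ⟨θ, rfl⟩ hD
  have h9 : D = Q := le_antisymm h7 h8
  rw [h9] at hD
  exact hD

end dz

section aut

variable {Λ : Type u} [Group Λ] [Fintype Λ]

/-- an automorphism `σ` that is trivial modulo the normal subgroup `K`, whose `p`-th power is
inner by an element of `K`, and an irreducible character `φ` having a `σ`-fixed constituent on
`K`: then `φ (σ l) = φ l` whenever some power of `l` prime to `p` lies in `K` -/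
theorem char_fixed_of_aut (K : Subgroup Λ) [hK : K.Normal] [Fintype K] (σ : Λ ≃* Λ)
    (hσK : ∀ l : Λ, σ l * l⁻¹ ∈ K) (k₀ : Λ) (hk₀ : k₀ ∈ K) (p : ℕ) (hp : p.Prime)
    (hσp : ∀ l : Λ, (⇑σ)^[p] l = k₀ * l * k₀⁻¹)
    (φ : Cfsg.IrrCharacter Λ) (θ₀ : Cfsg.IrrCharacter K)
    (hcon : Cfsg.classInner (fun k : K => φ.1 k) θ₀.1 ≠ 0)
    (hθ₀ : ∀ k k' : K, (k' : Λ) = σ k → θ₀.1 k' = θ₀.1 k)
    (l : Λ) (m : ℕ) (hm : ¬ p ∣ m) (hl : l ^ m ∈ K) : φ.1 (σ l) = φ.1 l := by
  classical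
  haveI := Fintype.ofFinite (Cfsg.IrrCharacter K)
  have hσK' : ∀ l : Λ, σ.symm l * l⁻¹ ∈ K := by
    intro l
    have h := hσK (σ.symm l)
    rw [MulEquiv.apply_symm_apply] at h
    have h2 := K.inv_mem h
    rwa [mul_inv_rev, inv_inv] at h2
  -- every constituent of `φ` on `K` is `σ`-fixed
  have hfix : ∀ θ : Cfsg.IrrCharacter K, Cfsg.classInner (fun k : K => φ.1 k) θ.1 ≠ 0 →
      ∀ k k' : K, (k' : Λ) = σ k → θ.1 k' = θ.1 k := by
    intro θ hθ k k' hk
    obtain ⟨g, hg⟩ := constituent_mem_conjOrbit K φ.2 θ₀.2 θ.2 hcon hθ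
    rw [hg, conjFun_apply, conjFun_apply]
    have hc : σ.symm g * g⁻¹ ∈ K := hσK' g
    have e1 := hθ₀ ⟨σ.symm g * k * (σ.symm g)⁻¹, hK.conj_mem k k.2 (σ.symm g)⟩
      ⟨g * k' * g⁻¹, hK.conj_mem k' k'.2 g⟩ (by
        show g * (k' : Λ) * g⁻¹ = σ (σ.symm g * k * (σ.symm g)⁻¹)
        rw [map_mul, map_mul, map_inv, MulEquiv.apply_symm_apply, hk])
    rw [e1]
    have e2 := isClassFunction_irr θ₀ ⟨g * k * g⁻¹, hK.conj_mem k k.2 g⟩ ⟨σ.symm g * g⁻¹, hc⟩
    rw [← e2]
    refine congrArg θ₀.1 (Subtype.ext ?_)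
    show σ.symm g * (k : Λ) * (σ.symm g)⁻¹
      = (σ.symm g * g⁻¹) * (g * k * g⁻¹) * (σ.symm g * g⁻¹)⁻¹
    group
  -- the subgroup generated by `K` and `l`
  set Y : Subgroup Λ := K ⊔ Subgroup.zpowers l with hY
  haveI : Fintype Y := Fintype.ofFinite Y
  haveI := Fintype.ofFinite (Cfsg.IrrCharacter Y)
  have hKY : K ≤ Y := le_sup_left
  have hlY : l ∈ Y := Subgroup.mem_sup_right (Subgroup.mem_zpowers l)
  have hσY : ∀ y ∈ Y, σ y ∈ Y := by
    intro y hy
    have : σ y = (σ y * y⁻¹) * y := by group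
    rw [this]
    exact Y.mul_mem (hKY (hσK y)) hy
  have hσY' : ∀ y ∈ Y, σ.symm y ∈ Y := by
    intro y hy
    have : σ.symm y = (σ.symm y * y⁻¹) * y := by group
    rw [this]
    exact Y.mul_mem (hKY (hσK' y)) hy
  let σY : Y ≃* Y :=
    { toFun := fun y => ⟨σ y, hσY y y.2⟩
      invFun := fun y => ⟨σ.symm y, hσY' y y.2⟩
      left_inv := fun y => Subtype.ext (σ.symm_apply_apply y)
      right_inv := fun y => Subtype.ext (σ.apply_symm_apply y)
      map_mul' := fun y z => Subtype.ext (map_mul σ (y : Λ) (z : Λ)) }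
  have hσYc : ∀ y : Y, ((σY y : Y) : Λ) = σ y := fun y => rfl
  haveI hAn : (K.subgroupOf Y).Normal := hK.subgroupOf Y
  haveI : Fintype (K.subgroupOf Y) := Fintype.ofFinite _
  haveI := Fintype.ofFinite (Cfsg.IrrCharacter (K.subgroupOf Y))
  have hle : Y ≤ (Subgroup.zpowers ((QuotientGroup.mk' K) l)).comap (QuotientGroup.mk' K) := by
    apply sup_le
    · intro k hk
      rw [Subgroup.mem_comap]
      have : (QuotientGroup.mk' K) k = 1 := (QuotientGroup.eq_one_iff k).mpr hk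
      rw [this]
      exact Subgroup.one_mem _
    · rw [Subgroup.zpowers_le, Subgroup.mem_comap]
      exact Subgroup.mem_zpowers _
  have hlm : (QuotientGroup.mk l : Λ ⧸ K) ^ m = 1 := by
    rw [← QuotientGroup.mk_pow]
    exact (QuotientGroup.eq_one_iff _).mpr hl
  have hpow : ∀ y : Y, (y : Λ) ^ m ∈ K := by
    intro y
    obtain ⟨i, hi⟩ := Subgroup.mem_zpowers_iff.mp (hle y.2)
    have hi' : (QuotientGroup.mk (y : Λ) : Λ ⧸ K) = (QuotientGroup.mk l : Λ ⧸ K) ^ i := hi.symm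
    rw [← QuotientGroup.eq_one_iff, QuotientGroup.mk_pow, hi', ← zpow_natCast, ← zpow_mul,
      mul_comm, zpow_mul, zpow_natCast, hlm, one_zpow]
  have hab : commutator Y ≤ K.subgroupOf Y := by
    rw [commutator_def, Subgroup.commutator_le]
    intro y₁ _ y₂ _
    rw [Subgroup.mem_subgroupOf, commutatorElement_def]
    show (y₁ : Λ) * y₂ * (y₁ : Λ)⁻¹ * (y₂ : Λ)⁻¹ ∈ K
    rw [← QuotientGroup.eq_one_iff]
    obtain ⟨i, hi⟩ := Subgroup.mem_zpowers_iff.mp (hle y₁.2)
    obtain ⟨j, hj⟩ := Subgroup.mem_zpowers_iff.mp (hle y₂.2)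
    have h1 : (QuotientGroup.mk (y₁ : Λ) : Λ ⧸ K) = (QuotientGroup.mk l : Λ ⧸ K) ^ i := hi.symm
    have h2 : (QuotientGroup.mk (y₂ : Λ) : Λ ⧸ K) = (QuotientGroup.mk l : Λ ⧸ K) ^ j := hj.symm
    rw [QuotientGroup.mk_mul, QuotientGroup.mk_mul, QuotientGroup.mk_mul, QuotientGroup.mk_inv,
      QuotientGroup.mk_inv, h1, h2, (Commute.zpow_zpow_self (QuotientGroup.mk l : Λ ⧸ K) i j).eq]
    group
  have hFc : Cfsg.IsCharacter Y (fun y : Y => φ.1 y) :=
    Cfsg.Agent.Lib.helper24.isCharacter_restrict Y (isCharacter_irr φ)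
  have hF : Cfsg.IsClassFunction Y (fun y : Y => φ.1 y) := isCharacter_conj_class hFc
  have hexp := classFunction_expansion_apply hF
  -- each constituent of `φ` on `Y` is fixed
  have hkey : ∀ η : Cfsg.IrrCharacter Y, Cfsg.classInner (fun y : Y => φ.1 y) η.1 ≠ 0 →
      ∀ y : Y, η.1 (σY y) = η.1 y := by
    intro η hη
    obtain ⟨θ', hθ'⟩ := exists_constituent_restrict (K.subgroupOf Y) η
    -- the constituent `θ'` comes from a `σ`-fixed character of `K`
    have hθ'K : Cfsg.classInner (fun k : K => η.1 ⟨(k : Λ), hKY k.2⟩)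
        (irrMap (Subgroup.subgroupOfEquivOfLe hKY).symm θ').1 ≠ 0 := by
      have h3 := classInner_comp_equiv (Subgroup.subgroupOfEquivOfLe hKY)
        (fun k : K => η.1 ⟨(k : Λ), hKY k.2⟩)
        (irrMap (Subgroup.subgroupOfEquivOfLe hKY).symm θ').1
      rw [← h3]
      have e : (irrMap (Subgroup.subgroupOfEquivOfLe hKY).symm θ').1
          ∘ (Subgroup.subgroupOfEquivOfLe hKY) = θ'.1 := by
        funext a
        show θ'.1 ((Subgroup.subgroupOfEquivOfLe hKY).symm (Subgroup.subgroupOfEquivOfLe hKY a))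
          = θ'.1 a
        rw [MulEquiv.symm_apply_apply]
      rw [e]
      exact hθ'
    have hθ'fix := hfix _ (constituent_trans K Y hKY φ η _ hη hθ'K)
    have hσA : ∀ a : K.subgroupOf Y, σY a ∈ K.subgroupOf Y := by
      intro a
      show σ ((a : Y) : Λ) ∈ K
      have : σ ((a : Y) : Λ) = (σ ((a : Y) : Λ) * ((a : Y) : Λ)⁻¹) * ((a : Y) : Λ) := by group
      rw [this]
      exact K.mul_mem (hσK _) a.2
    have hσA' : ∀ a : K.subgroupOf Y, σY.symm a ∈ K.subgroupOf Y := by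
      intro a
      show σ.symm ((a : Y) : Λ) ∈ K
      have : σ.symm ((a : Y) : Λ)
          = (σ.symm ((a : Y) : Λ) * ((a : Y) : Λ)⁻¹) * ((a : Y) : Λ) := by group
      rw [this]
      exact K.mul_mem (hσK' _) a.2
    let σA : (K.subgroupOf Y) ≃* (K.subgroupOf Y) :=
      { toFun := fun a => ⟨σY a, hσA a⟩
        invFun := fun a => ⟨σY.symm a, hσA' a⟩
        left_inv := fun a => Subtype.ext (σY.symm_apply_apply a)
        right_inv := fun a => Subtype.ext (σY.apply_symm_apply a)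
        map_mul' := fun a c => Subtype.ext (map_mul σY (a : Y) (c : Y)) }
    have hθ'σ : θ'.1 ∘ σA = θ'.1 := by
      funext a
      have h4 := hθ'fix (Subgroup.subgroupOfEquivOfLe hKY a)
        (Subgroup.subgroupOfEquivOfLe hKY (σA a)) rfl
      rw [irrMap_apply, irrMap_apply, MulEquiv.symm_apply_apply, MulEquiv.symm_apply_apply] at h4
      exact h4
    have hθ'' : Cfsg.classInner (fun n : K.subgroupOf Y => (irrMap σY η).1 n) θ'.1 ≠ 0 := by
      have h5 := classInner_comp_equiv σA (fun n : K.subgroupOf Y => η.1 n) θ'.1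
      rw [hθ'σ] at h5
      have e : (fun n : K.subgroupOf Y => η.1 n) ∘ σA
          = fun n : K.subgroupOf Y => (irrMap σY η).1 n := rfl
      rw [e] at h5
      rw [h5]
      exact hθ'
    obtain ⟨f, hf⟩ := exists_twist_of_common (K.subgroupOf Y) hab θ' η (irrMap σY η) hθ' hθ''
    have hf' : ∀ y : Y, η.1 (σY y) = (f (QuotientGroup.mk y) : ℂ) * η.1 y := hf
    have hmk : ∀ y : Y, (QuotientGroup.mk (σY y) : Y ⧸ K.subgroupOf Y) = QuotientGroup.mk y := by
      intro y
      have h1 : (σY y * y⁻¹ : Y) ∈ K.subgroupOf Y := hσK (y : Λ)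
      have h2 : (QuotientGroup.mk (σY y * y⁻¹) : Y ⧸ K.subgroupOf Y) = 1 :=
        (QuotientGroup.eq_one_iff _).mpr h1
      calc (QuotientGroup.mk (σY y) : Y ⧸ K.subgroupOf Y)
          = QuotientGroup.mk (σY y * y⁻¹ * y) := by rw [inv_mul_cancel_right]
        _ = QuotientGroup.mk (σY y * y⁻¹) * QuotientGroup.mk y := QuotientGroup.mk_mul _ _ _
        _ = QuotientGroup.mk y := by rw [h2, one_mul]
    have hiter_mk : ∀ (j : ℕ) (y : Y),
        (QuotientGroup.mk ((⇑σY)^[j] y) : Y ⧸ K.subgroupOf Y) = QuotientGroup.mk y := by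
      intro j
      induction j with
      | zero => intro y; rfl
      | succ j ih =>
        intro y
        rw [Function.iterate_succ_apply', hmk, ih]
    have hiter : ∀ (j : ℕ) (y : Y),
        η.1 ((⇑σY)^[j] y) = ((f (QuotientGroup.mk y) : ℂ)) ^ j * η.1 y := by
      intro j
      induction j with
      | zero => intro y; simp
      | succ j ih =>
        intro y
        rw [Function.iterate_succ_apply', hf', hiter_mk, ih, pow_succ]
        ring
    have hiterc : ∀ (j : ℕ) (y : Y), (((⇑σY)^[j] y : Y) : Λ) = (⇑σ)^[j] (y : Λ) := by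
      intro j
      induction j with
      | zero => intro y; rfl
      | succ j ih =>
        intro y
        rw [Function.iterate_succ_apply', Function.iterate_succ_apply', hσYc, ih]
    have hpinner : ∀ y : Y, (⇑σY)^[p] y
        = (⟨k₀, hKY hk₀⟩ : Y) * y * (⟨k₀, hKY hk₀⟩ : Y)⁻¹ := by
      intro y
      apply Subtype.ext
      rw [hiterc, hσp]
      rfl
    have hfm : ∀ y : Y, (f (QuotientGroup.mk y)) ^ m = 1 := by
      intro y
      rw [← map_pow, ← QuotientGroup.mk_pow,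
        (QuotientGroup.eq_one_iff (y ^ m)).mpr (show ((y ^ m : Y) : Λ) ∈ K from hpow y), map_one]
    intro y
    by_cases hy : η.1 y = 0
    · rw [hf', hy, mul_zero]
    · have h6 := hiter p y
      rw [hpinner y, isClassFunction_irr η y ⟨k₀, hKY hk₀⟩] at h6
      have h7 : ((f (QuotientGroup.mk y) : ℂ)) ^ p = 1 := by
        have h8 : ((f (QuotientGroup.mk y) : ℂ)) ^ p * η.1 y = 1 * η.1 y := by
          rw [one_mul]
          exact h6.symm
        exact mul_right_cancel₀ hy h8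
      have h9 : (f (QuotientGroup.mk y)) ^ p = 1 := by
        apply Units.ext
        rw [Units.val_pow_eq_pow_val]
        exact h7
      have h10 := pow_gcd_eq_one.mpr ⟨h9, hfm y⟩
      have hcop : Nat.gcd p m = 1 := (Nat.Prime.coprime_iff_not_dvd hp).mpr hm
      rw [hcop, pow_one] at h10
      rw [hf', h10]
      simp
  have e1 : φ.1 l = ∑ η : Cfsg.IrrCharacter Y,
      Cfsg.classInner (fun y : Y => φ.1 y) η.1 * η.1 ⟨l, hlY⟩ := hexp ⟨l, hlY⟩
  have e2 := hexp (σY ⟨l, hlY⟩)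
  have e3 : φ.1 (σ l) = φ.1 ((σY ⟨l, hlY⟩ : Y) : Λ) := rfl
  rw [e3, e2, e1]
  apply Finset.sum_congr rfl
  intro η _
  by_cases hη : Cfsg.classInner (fun y : Y => φ.1 y) η.1 = 0
  · rw [hη]
    simp
  · rw [hkey η hη]

end aut

end Cfsg.Agent.Lib.helper5
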