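import Mathlib
import Cfsg.Agent.Lib.helper5.Knorr2

set_option autoImplicit false

/-!
# The theorem of Knörr: a defect group inside the normal subgroup

`knorr_PN`: if the block `B` of `G` covers the `G`-invariant block `b` of the normal subgroup
`N`, and a defect group `P` of `B` lies in `N`, then `P` is a defect group of `b`.
-/

namespace Cfsg.Agent.Lib.helper5

open Cfsg.Agent.Lib.helper23 Cfsg.Agent.Lib.helper24
open scoped ComplexConjugate

universe u

section pn

variable {G : Type u} [Group G] [Fintype G]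
variable {M : Ideal Cfsg.AlgInt} {p : ℕ} [Fact p.Prime]

omit [Fintype G] in
theorem isPGroup_of_isDefectGroup [Finite G] {B : Set (Cfsg.IrrCharacter G)} {P : Subgroup G}
    (hP : Cfsg.IsDefectGroup p M B P) : IsPGroup p P := by
  obtain ⟨g0, hg0, PD, hPD⟩ := hP
  rw [hPD]
  exact sylow_map_isPGroup _ PD

omit [Fintype G] in
/-- a `p`-regular element of `P C(P)` centralizes the `p`-group `P` -/
theorem mem_centralizer_of_regular_sup [Finite G] {P : Subgroup G}
    (hP : IsPGroup p P) {x : G} (hx : x ∈ P ⊔ Subgroup.centralizer (P : Set G))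
    (hreg : ¬ p ∣ orderOf x) : x ∈ Subgroup.centralizer (P : Set G) := by
  have hp : p.Prime := Fact.out
  obtain ⟨u, hu, c, hc, rfl⟩ := mem_sup_centralizer.mp hx
  obtain ⟨a, ha⟩ := IsPGroup.iff_card.mp hP
  have hcomm : Commute u c := (Subgroup.mem_centralizer_iff.mp hc u hu)
  have hua : u ^ (p ^ a) = 1 := by
    have h1 : (⟨u, hu⟩ : P) ^ (p ^ a) = 1 := by
      rw [← ha]
      exact pow_card_eq_one'
    exact congrArg Subtype.val h1
  have h2 : (u * c) ^ (p ^ a) = c ^ (p ^ a) := by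
    rw [hcomm.mul_pow, hua, one_mul]
  have hcop : Nat.Coprime (p ^ a) (orderOf (u * c)) :=
    Nat.Coprime.pow_left a ((Nat.Prime.coprime_iff_not_dvd hp).mpr hreg)
  obtain ⟨j, hj⟩ := exists_pow_eq_self_of_coprime hcop
  rw [← hj, h2]
  exact Subgroup.pow_mem _ (Subgroup.pow_mem _ hc _) _

/-- the Brauer image in `L` of the sum of the block idempotents covering an invariant block of
`N`, evaluated at a character of `L` lying over `θL` -/
theorem coord_brTrunc_cov (N : Subgroup G) [hN : N.Normal] [Fintype N]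
    [Fintype (Cfsg.IrrCharacter G)] [Fintype (Cfsg.IrrCharacter N)]
    (b : Set (Cfsg.IrrCharacter N))
    (hbc : ∀ (g : G) (ψ : Cfsg.IrrCharacter N), conjIrr N g ψ ∈ b ↔ ψ ∈ b)
    (L : Subgroup G) [Fintype L] [Fintype (Cfsg.IrrCharacter L)] [Fintype (N.subgroupOf L)]
    [Fintype (Cfsg.IrrCharacter (N.subgroupOf L))]
    (φ : Cfsg.IrrCharacter L) (θL : Cfsg.IrrCharacter (N.subgroupOf L))
    (hθL : Cfsg.classInner (fun k : N.subgroupOf L => φ.1 k) θL.1 ≠ 0) :
    coord (brTrunc L ⊤ ((cov N b).indicator (fun _ => (1 : ℂ)))) φ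
      = (∑ k : N.subgroupOf L,
          coef (b.indicator (fun _ => (1 : ℂ))) ⟨((k : L) : G), k.2⟩ * θL.1 k) / θL.1 1 := by
  classical
  haveI hKn : (N.subgroupOf L).Normal := hN.subgroupOf L
  set FK : N.subgroupOf L → ℂ :=
    fun k => coef (b.indicator (fun _ => (1 : ℂ))) ⟨((k : L) : G), k.2⟩ with hFK
  have hwb : ∀ (g : G) (ψ : Cfsg.IrrCharacter N),
      (b.indicator (fun _ => (1 : ℂ))) (conjIrr N g ψ) = (b.indicator (fun _ => (1 : ℂ))) ψ := by
    intro g ψ
    by_cases h : ψ ∈ b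
    · rw [Set.indicator_of_mem h, Set.indicator_of_mem ((hbc g ψ).mpr h)]
    · rw [Set.indicator_of_notMem h, Set.indicator_of_notMem (fun h' => h ((hbc g ψ).mp h'))]
  have hFKconj : ∀ (l : L) (k : N.subgroupOf L),
      FK ⟨l * k * l⁻¹, hKn.conj_mem k k.2 l⟩ = FK k := by
    intro l k
    exact coef_conjNormal N _ hwb (l : G) ⟨((k : L) : G), k.2⟩
  have hFKc : Cfsg.IsClassFunction (N.subgroupOf L) FK := by
    intro k h
    exact hFKconj (h : L) k
  have hw : ∀ (l : L) (ψ : Cfsg.IrrCharacter (N.subgroupOf L)),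
      coord FK (conjIrr (N.subgroupOf L) l ψ) = coord FK ψ := by
    intro l ψ
    unfold coord
    have h1 : (conjIrr (N.subgroupOf L) l ψ).1 1 = ψ.1 1 := by
      rw [conjIrr_val, conjFun_apply]
      refine congrArg ψ.1 (Subtype.ext ?_)
      show l * ((1 : N.subgroupOf L) : L) * l⁻¹ = ((1 : N.subgroupOf L) : L)
      simp
    rw [h1]
    congr 1
    rw [← Equiv.sum_comp (MulAut.conjNormal l : (N.subgroupOf L) ≃* (N.subgroupOf L)).toEquiv
      (fun k => FK k * ψ.1 k)]
    apply Finset.sum_congr rfl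
    intro k _
    have h2 : FK ((MulAut.conjNormal l : (N.subgroupOf L) ≃* (N.subgroupOf L)).toEquiv k)
        = FK k := hFKconj l k
    rw [h2]
    rfl
  have htr : brTrunc L ⊤ ((cov N b).indicator (fun _ => (1 : ℂ)))
      = Cfsg.extendByZero (N.subgroupOf L) (coef (coord FK)) := by
    funext l
    rw [brTrunc_of_mem _ (Subgroup.mem_top _), coef_cov_indicator N b hbc]
    by_cases hl : (l : G) ∈ N
    · rw [extendByZero_apply_mem N _ hl,
        extendByZero_apply_mem (N.subgroupOf L) _ (show l ∈ N.subgroupOf L from hl),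
        coef_coord FK hFKc]
    · rw [extendByZero_apply_not_mem N _ hl,
        extendByZero_apply_not_mem (N.subgroupOf L) _ (show l ∉ N.subgroupOf L from hl)]
  rw [htr, coord_extend_coef (N.subgroupOf L) (coord FK) hw φ θL hθL]
  rfl

/-- a block of a subgroup `H` of `N`, isomorphic to `N ∩ L` and carrying a constituent of a
character in a block of `L` inducing `B`, induces the invariant block `b` covered by `B` -/
theorem induced_eq_of_cover (hM : Cfsg.IsPModular p M) (N : Subgroup G) [hN : N.Normal]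
    [Fintype N] (b : Set (Cfsg.IrrCharacter N)) (hb : Cfsg.IsPBlock M b)
    (hinv : ∀ g : G, ∀ θ ∈ b, conjIrr N g θ ∈ b) (B : Set (Cfsg.IrrCharacter G))
    (hcov : ∃ χ ∈ B, ∃ θ ∈ b, Cfsg.classInner (fun n : N => χ.1 n) θ.1 ≠ 0)
    (L : Subgroup G) [Fintype L] (β : Set (Cfsg.IrrCharacter L))
    (hβ : Cfsg.IsInducedBlock M L β B) (φ : Cfsg.IrrCharacter L) (hφ : φ ∈ β)
    [Fintype (N.subgroupOf L)] (θL : Cfsg.IrrCharacter (N.subgroupOf L))
    (hθL : Cfsg.classInner (fun k : N.subgroupOf L => φ.1 k) θL.1 ≠ 0)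
    (H : Subgroup N) [Fintype H] (iso : H ≃* (N.subgroupOf L))
    (hiso : ∀ h : H, (((iso h : N.subgroupOf L) : L) : G) = ((h : N) : G))
    (b₂ : Set (Cfsg.IrrCharacter N))
    (hb₂ : Cfsg.IsInducedBlock M H (Cfsg.blockOf M (irrMap iso θL).1) b₂) : b₂ = b := by
  classical
  haveI := Fintype.ofFinite (Cfsg.IrrCharacter G)
  haveI := Fintype.ofFinite (Cfsg.IrrCharacter N)
  haveI := Fintype.ofFinite (Cfsg.IrrCharacter L)
  haveI := Fintype.ofFinite (Cfsg.IrrCharacter (N.subgroupOf L))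
  haveI := Fintype.ofFinite (Cfsg.IrrCharacter H)
  have hMp := isPModular_isPrime hM
  have hbc := inv_iff_of_inv N hinv
  have hA := cov_indicator_mem_osimaRing hMp N hb hbc
  obtain ⟨χ, hχ, θ, hθ, hne⟩ := hcov
  have hAχ : (cov N b).indicator (fun _ => (1 : ℂ)) χ = 1 :=
    Set.indicator_of_mem (show χ ∈ cov N b from ⟨θ, hθ, hne⟩) _
  have h4 := brFun_top_of_induced L hMp hβ hφ hχ hA
  rw [hAχ, brFun_apply, coord_brTrunc_cov N b hbc L φ θL hθL] at h4
  obtain ⟨χ₂, hχ₂⟩ := hb₂.2.1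
  have hχ₂mem : χ₂ ∈ b₂ := by
    rw [hχ₂]
    exact mem_blockOf_self hMp.ne_top χ₂
  obtain ⟨θ₀, hbθ₀⟩ := hb
  have ha : b.indicator (fun _ => (1 : ℂ)) ∈ osimaRing N M hMp := by
    rw [hbθ₀]
    exact indicator_mem_osimaRing hMp θ₀
  have h1 := brFun_top_of_induced H hMp hb₂ (mem_blockOf_self hMp.ne_top (irrMap iso θL))
    hχ₂mem ha
  have e : brFun H ⊤ (irrMap iso θL) (b.indicator (fun _ => (1 : ℂ)))
      = (∑ k : N.subgroupOf L,
          coef (b.indicator (fun _ => (1 : ℂ))) ⟨((k : L) : G), k.2⟩ * θL.1 k) / θL.1 1 := by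
    rw [brFun_apply]
    unfold coord
    have hone : (irrMap iso θL).1 1 = θL.1 1 := by rw [irrMap_apply, map_one]
    rw [hone]
    congr 1
    rw [← Equiv.sum_comp iso.toEquiv (fun k : N.subgroupOf L =>
      coef (b.indicator (fun _ => (1 : ℂ))) ⟨((k : L) : G), k.2⟩ * θL.1 k)]
    apply Finset.sum_congr rfl
    intro h _
    rw [brTrunc_of_mem _ (Subgroup.mem_top _)]
    show coef (b.indicator (fun _ => (1 : ℂ))) (h : N) * θL.1 (iso h)
      = coef (b.indicator (fun _ => (1 : ℂ)))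
          ⟨(((iso h : N.subgroupOf L) : L) : G), (iso h).2⟩ * θL.1 (iso h)
    congr 2
    exact Subtype.ext (hiso h).symm
  rw [e] at h1
  have h3 : χ₂ ∈ b := by
    by_contra hne'
    rw [Set.indicator_of_notMem hne'] at h1
    have := memLocalIdeal_sub hMp h1 h4
    rw [sub_sub_sub_cancel_left, sub_zero] at this
    exact not_memLocalIdeal_one hMp this
  rw [hχ₂, isPBlock_eq_blockOf hMp ⟨θ₀, hbθ₀⟩ h3]

/-- **Knörr's theorem, defect group inside `N`**: if `B` covers the `G`-invariant block `b` of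
the normal subgroup `N` and a defect group `P` of `B` lies in `N`, then `P` is a defect group
of `b`. -/
theorem knorr_PN (hM : Cfsg.IsPModular p M) (N : Subgroup G) [hN : N.Normal] [Fintype N]
    (b : Set (Cfsg.IrrCharacter N)) (hb : Cfsg.IsPBlock M b)
    (hinv : ∀ g : G, ∀ θ ∈ b, conjIrr N g θ ∈ b)
    (B : Set (Cfsg.IrrCharacter G)) (hB : Cfsg.IsPBlock M B)
    (hcov : ∃ χ ∈ B, ∃ θ ∈ b, Cfsg.classInner (fun n : N => χ.1 n) θ.1 ≠ 0)
    (P : Subgroup G) (hPN : P ≤ N) (hP : Cfsg.IsDefectGroup p M B P) :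
    Cfsg.IsDefectGroup p M b (P.subgroupOf N) := by
  classical
  haveI := Fintype.ofFinite (Cfsg.IrrCharacter G)
  haveI := Fintype.ofFinite (Cfsg.IrrCharacter N)
  have hMp := isPModular_isPrime hM
  have hp : p.Prime := Fact.out
  have hPp : IsPGroup p P := isPGroup_of_isDefectGroup hP
  -- the subgroup `L = P C_G(P)` and a root `β` of `B`
  set L : Subgroup G := P ⊔ Subgroup.centralizer (P : Set G) with hL
  haveI : Fintype L := Fintype.ofFinite L
  haveI := Fintype.ofFinite (Cfsg.IrrCharacter L)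
  have hPL : P ≤ L := le_sup_left
  have hLN₀ : L ≤ Subgroup.normalizer (P : Set G) :=
    sup_le Subgroup.le_normalizer (Subgroup.centralizer_le_normalizer _)
  obtain ⟨⟨β, hβP, hβind⟩, -⟩ := Cfsg.Agent.S0973.result p M hM B hB P hP
  obtain ⟨φ₀, rfl⟩ := hβind.1
  haveI hPLn : (P.subgroupOf L).Normal :=
    (Subgroup.normal_subgroupOf_iff_le_normalizer hPL).mpr hLN₀
  have hPLp : IsPGroup p (P.subgroupOf L) := hPp.comap_subtype
  obtain ⟨φ, hφβ, hφker⟩ := exists_mem_block_kernel hM (P.subgroupOf L) hPLp φ₀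
  -- a constituent of `φ` on `K = N ∩ L`
  haveI hKn : (N.subgroupOf L).Normal := hN.subgroupOf L
  haveI : Fintype (N.subgroupOf L) := Fintype.ofFinite _
  haveI := Fintype.ofFinite (Cfsg.IrrCharacter (N.subgroupOf L))
  obtain ⟨θL, hθL⟩ := exists_constituent_restrict (N.subgroupOf L) φ
  have hθLker : ∀ k : N.subgroupOf L, ((k : L) : G) ∈ P → θL.1 k = θL.1 1 := by
    intro k hk
    exact constituent_ker (N.subgroupOf L) φ θL hθL k (hφker (k : L) hk)
  -- degrees
  have hcardPL : Nat.card (P.subgroupOf L) = Nat.card P :=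
    Nat.card_congr (Subgroup.subgroupOfEquivOfLe hPL).toEquiv
  have hdβ : Cfsg.blockDefect p (Cfsg.blockOf M φ₀.1) = (Nat.card P).factorization p := by
    have h1 := Cfsg.Agent.S0908.result p M hM _ ⟨φ₀, rfl⟩ _ hβP
    rw [hcardPL] at h1
    rw [h1, Nat.Prime.factorization_pow hp]
    simp
  have hdegφ : (Nat.card L).factorization p
      ≤ (Cfsg.charDegree φ.1).factorization p + (Nat.card P).factorization p := by
    have h2 : sInf ((fun χ : Cfsg.IrrCharacter L => (Cfsg.charDegree χ.1).factorization p)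
        '' Cfsg.blockOf M φ₀.1) ≤ (Cfsg.charDegree φ.1).factorization p :=
      Nat.sInf_le ⟨φ, hφβ, rfl⟩
    have h3 : (Nat.card L).factorization p
        - sInf ((fun χ : Cfsg.IrrCharacter L => (Cfsg.charDegree χ.1).factorization p)
          '' Cfsg.blockOf M φ₀.1) = (Nat.card P).factorization p := hdβ
    omega
  have hdegθ : (Nat.card (N.subgroupOf L)).factorization p
      ≤ (Cfsg.charDegree θL.1).factorization p + (Nat.card P).factorization p := by
    obtain ⟨hdvd, hidx⟩ := degree_ratio_dvd_index (N.subgroupOf L) φ.1 φ.2 θL.1 θL.2 hθL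
      (Cfsg.charDegree φ.1) (Cfsg.charDegree θL.1) (charDegree_cast φ).symm
      (charDegree_cast θL).symm
    have hc0 : Cfsg.charDegree φ.1 ≠ 0 := charDegree_ne_zero' φ
    have hd0 : Cfsg.charDegree θL.1 ≠ 0 := charDegree_ne_zero' θL
    have hmul : Cfsg.charDegree φ.1
        = Cfsg.charDegree θL.1 * (Cfsg.charDegree φ.1 / Cfsg.charDegree θL.1) :=
      (Nat.mul_div_cancel' hdvd).symm
    have he0 : Cfsg.charDegree φ.1 / Cfsg.charDegree θL.1 ≠ 0 := by
      intro h0
      rw [h0, mul_zero] at hmul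
      exact hc0 hmul
    have hidx0 : (N.subgroupOf L).index ≠ 0 := Subgroup.index_ne_zero_of_finite
    have h3 : (Cfsg.charDegree φ.1).factorization p
        = (Cfsg.charDegree θL.1).factorization p
          + (Cfsg.charDegree φ.1 / Cfsg.charDegree θL.1).factorization p := by
      conv_lhs => rw [hmul]
      rw [Nat.factorization_mul hd0 he0]
      rfl
    have h4 : (Cfsg.charDegree φ.1 / Cfsg.charDegree θL.1).factorization p
        ≤ ((N.subgroupOf L).index).factorization p :=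
      (Nat.factorization_le_iff_dvd he0 hidx0).mpr hidx p
    have h5 : (Nat.card L).factorization p = (Nat.card (N.subgroupOf L)).factorization p
        + ((N.subgroupOf L).index).factorization p := by
      rw [← Subgroup.card_mul_index (N.subgroupOf L),
        Nat.factorization_mul Nat.card_pos.ne' hidx0]
      rfl
    omega
  -- the subgroup `H = P C_N(P)` of `N`
  set P' : Subgroup N := P.subgroupOf N with hP'
  set H : Subgroup N := P' ⊔ Subgroup.centralizer (P' : Set N) with hH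
  haveI : Fintype H := Fintype.ofFinite H
  haveI := Fintype.ofFinite (Cfsg.IrrCharacter H)
  have hP'p : IsPGroup p P' := hPp.comap_subtype
  have hHL : ∀ n : N, n ∈ H ↔ (n : G) ∈ L := by
    intro n
    rw [hH, hL, mem_sup_centralizer, mem_sup_centralizer]
    constructor
    · rintro ⟨u, hu, c, hc, rfl⟩
      refine ⟨(u : G), hu, (c : G), ?_, rfl⟩
      rw [Subgroup.mem_centralizer_iff] at hc ⊢
      intro x hx
      have := hc ⟨x, hPN hx⟩ hx
      exact congrArg Subtype.val this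
    · rintro ⟨u, hu, c, hc, hn⟩
      have hcN : c ∈ N := by
        have : c = u⁻¹ * (n : G) := by
          rw [hn]
          group
        rw [this]
        exact N.mul_mem (N.inv_mem (hPN hu)) n.2
      refine ⟨⟨u, hPN hu⟩, hu, ⟨c, hcN⟩, ?_, Subtype.ext hn⟩
      rw [Subgroup.mem_centralizer_iff] at hc ⊢
      intro x hx
      exact Subtype.ext (hc (x : G) hx)
  let iso : H ≃* (N.subgroupOf L) :=
    { toFun := fun h => ⟨⟨((h : N) : G), (hHL h).mp h.2⟩, (h : N).2⟩
      invFun := fun k => ⟨⟨((k : L) : G), k.2⟩, (hHL _).mpr (k : L).2⟩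
      left_inv := fun h => rfl
      right_inv := fun k => rfl
      map_mul' := fun h h' => rfl }
  have hiso : ∀ h : H, (((iso h : N.subgroupOf L) : L) : G) = ((h : N) : G) := fun h => rfl
  have hP'H : P' ≤ H := le_sup_left
  have hHN₀ : H ≤ Subgroup.normalizer (P' : Set N) :=
    sup_le Subgroup.le_normalizer (Subgroup.centralizer_le_normalizer _)
  haveI hQn : (P'.subgroupOf H).Normal :=
    (Subgroup.normal_subgroupOf_iff_le_normalizer hP'H).mpr hHN₀
  have hQp : IsPGroup p (P'.subgroupOf H) := hP'p.comap_subtype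
  have hreg : ∀ x : H, ¬ p ∣ orderOf x →
      x ∈ Subgroup.centralizer ((P'.subgroupOf H : Subgroup H) : Set H) := by
    intro x hx
    have hx' : ¬ p ∣ orderOf (x : N) := by
      rw [Subgroup.orderOf_coe]
      exact hx
    have h1 := mem_centralizer_of_regular_sup hP'p x.2 hx'
    rw [Subgroup.mem_centralizer_iff] at h1 ⊢
    intro y hy
    exact Subtype.ext (h1 (y : N) hy)
  have hθNker : ∀ u ∈ P'.subgroupOf H, (irrMap iso θL).1 u = (irrMap iso θL).1 1 := by
    intro u hu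
    rw [irrMap_apply, irrMap_apply, map_one]
    exact hθLker (iso u) hu
  have hθNdeg : (Nat.card H).factorization p
      ≤ (Cfsg.charDegree (irrMap iso θL).1).factorization p
        + (Nat.card (P'.subgroupOf H)).factorization p := by
    rw [Nat.card_congr iso.toEquiv, charDegree_irrMap,
      Nat.card_congr (Subgroup.subgroupOfEquivOfLe hP'H).toEquiv,
      Nat.card_congr (Subgroup.subgroupOfEquivOfLe hPN).toEquiv]
    exact hdegθ
  obtain ⟨hβ'def, hβ'uniq⟩ := block_kernel_defect_zero hM (P'.subgroupOf H) hQp hreg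
    (irrMap iso θL) hθNker hθNdeg
  -- the block of `θN` induces `b`
  obtain ⟨b₂, hb₂⟩ := exists_induced_of_le_normalizer hM P' hP'p H hP'H le_sup_right hHN₀
    (b := Cfsg.blockOf M (irrMap iso θL).1) ⟨irrMap iso θL, rfl⟩
  have hb₂b : b₂ = b := induced_eq_of_cover hM N b hb hinv B hcov L _ hβind φ hφβ θL hθL H iso
    hiso b₂ hb₂
  rw [hb₂b] at hb₂
  -- the extended first main theorem in `N`
  rw [ext_fmt_elem hM P' hP'p H hH (Cfsg.blockOf M (irrMap iso θL).1) ⟨irrMap iso θL, rfl⟩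
    hβ'def b hb₂]
  intro x hxN hxp hstab
  -- `x` normalizes `P` in `G`
  have hxN' : (x : G) ∈ Subgroup.normalizer (P : Set G) := by
    rw [Subgroup.mem_normalizer_iff] at hxN ⊢
    intro u
    constructor
    · intro hu
      exact (hxN ⟨u, hPN hu⟩).mp hu
    · intro hu
      have huN : u ∈ N := by
        have : u = (x : G)⁻¹ * ((x : G) * u * (x : G)⁻¹) * (x : G) := by group
        rw [this]
        exact N.mul_mem (N.mul_mem (N.inv_mem x.2) (hPN hu)) x.2
      exact (hxN ⟨u, huN⟩).mpr hu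
  have hxinvN : x⁻¹ ∈ Subgroup.normalizer (P' : Set N) := Subgroup.inv_mem _ hxN
  have hxinvN' : (x : G)⁻¹ ∈ Subgroup.normalizer (P : Set G) := Subgroup.inv_mem _ hxN'
  -- conjugation by `x⁻¹` on `H`
  have hcH1 : ∀ y ∈ H, x⁻¹ * y * x⁻¹⁻¹ ∈ H := fun y hy => conj_mem_sup_centralizer P' hxinvN hy
  have hcH2 : ∀ y ∈ H, x⁻¹⁻¹ * y * x⁻¹ ∈ H := by
    intro y hy
    have := conj_mem_sup_centralizer P' hxN hy
    rwa [inv_inv]
  have hθfix : ∀ h : H, (irrMap iso θL).1 (conjEquivOn H x⁻¹ hcH1 hcH2 h)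
      = (irrMap iso θL).1 h := by
    have hmem : irrMap (conjEquivOn H x⁻¹ hcH1 hcH2) (irrMap iso θL)
        ∈ Cfsg.blockOf M (irrMap iso θL).1 := by
      apply hstab _ (mem_blockOf_self hMp.ne_top _)
      intro h h' hh'
      rw [irrMap_apply]
      refine congrArg (irrMap iso θL).1 (Subtype.ext ?_)
      show x⁻¹ * (h' : N) * x⁻¹⁻¹ = h
      rw [hh']
      group
    have hker' : ∀ u ∈ P'.subgroupOf H,
        (irrMap (conjEquivOn H x⁻¹ hcH1 hcH2) (irrMap iso θL)).1 u
          = (irrMap (conjEquivOn H x⁻¹ hcH1 hcH2) (irrMap iso θL)).1 1 := by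
      intro u hu
      rw [irrMap_apply (conjEquivOn H x⁻¹ hcH1 hcH2), irrMap_apply (conjEquivOn H x⁻¹ hcH1 hcH2),
        map_one]
      apply hθNker
      show x⁻¹ * (u : N) * x⁻¹⁻¹ ∈ P'
      exact (Subgroup.mem_normalizer_iff.mp hxinvN (u : N)).mp hu
    have heq := hβ'uniq _ hmem hker'
    intro h
    have := congrArg (fun ψ : Cfsg.IrrCharacter H => ψ.1 h) heq
    exact this
  -- conjugation by `x⁻¹` on `L`
  have hcL1 : ∀ y ∈ L, (x : G)⁻¹ * y * (x : G)⁻¹⁻¹ ∈ L :=
    fun y hy => conj_mem_sup_centralizer P hxinvN' hy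
  have hcL2 : ∀ y ∈ L, (x : G)⁻¹⁻¹ * y * (x : G)⁻¹ ∈ L := by
    intro y hy
    have := conj_mem_sup_centralizer P hxN' hy
    rwa [inv_inv]
  have hσc : ∀ l : L, ((conjEquivOn L (x : G)⁻¹ hcL1 hcL2 l : L) : G)
      = (x : G)⁻¹ * l * (x : G)⁻¹⁻¹ := fun l => rfl
  have hxpL : (x : G) ^ p ∈ L := (hHL (x ^ p)).mp hxp
  have hk₀L : ((x : G)⁻¹) ^ p ∈ L := by
    rw [inv_pow]
    exact L.inv_mem hxpL
  have hσK : ∀ l : L, conjEquivOn L (x : G)⁻¹ hcL1 hcL2 l * l⁻¹ ∈ N.subgroupOf L := by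
    intro l
    show (x : G)⁻¹ * (l : G) * (x : G)⁻¹⁻¹ * (l : G)⁻¹ ∈ N
    have : (x : G)⁻¹ * (l : G) * (x : G)⁻¹⁻¹ * (l : G)⁻¹
        = (x : G)⁻¹ * ((l : G) * (x : G) * (l : G)⁻¹) := by group
    rw [this]
    exact N.mul_mem (N.inv_mem x.2) (hN.conj_mem _ x.2 _)
  have hiterσ : ∀ (j : ℕ) (l : L),
      (((⇑(conjEquivOn L (x : G)⁻¹ hcL1 hcL2))^[j] l : L) : G)
        = ((x : G)⁻¹) ^ j * l * (((x : G)⁻¹) ^ j)⁻¹ := by
    intro j
    induction j with
    | zero => intro l; simp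
    | succ j ih =>
      intro l
      rw [Function.iterate_succ_apply', hσc, ih, pow_succ' (x : G)⁻¹ j, mul_inv_rev]
      simp only [mul_assoc]
  have hσp : ∀ l : L, (⇑(conjEquivOn L (x : G)⁻¹ hcL1 hcL2))^[p] l
      = (⟨((x : G)⁻¹) ^ p, hk₀L⟩ : L) * l * (⟨((x : G)⁻¹) ^ p, hk₀L⟩ : L)⁻¹ := by
    intro l
    apply Subtype.ext
    rw [hiterσ]
    rfl
  have hk₀K : (⟨((x : G)⁻¹) ^ p, hk₀L⟩ : L) ∈ N.subgroupOf L := by
    show ((x : G)⁻¹) ^ p ∈ N
    exact N.pow_mem (N.inv_mem x.2) p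
  have hθ₀ : ∀ k k' : N.subgroupOf L,
      (k' : L) = conjEquivOn L (x : G)⁻¹ hcL1 hcL2 k → θL.1 k' = θL.1 k := by
    intro k k' hk
    have h1 := hθfix (iso.symm k)
    rw [irrMap_apply, irrMap_apply, MulEquiv.apply_symm_apply] at h1
    rw [← h1]
    refine congrArg θL.1 (Subtype.ext ?_)
    rw [hk]
    rfl
  have haut := char_fixed_of_aut (N.subgroupOf L) (conjEquivOn L (x : G)⁻¹ hcL1 hcL2) hσK
    ⟨((x : G)⁻¹) ^ p, hk₀L⟩ hk₀K p hp hσp φ θL hθL hθ₀
  have hsb : Cfsg.SameBlock M (irrMap (conjEquivOn L (x : G)⁻¹ hcL1 hcL2) φ).1 φ.1 := by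
    apply sameBlock_of_p_regular hM
    intro l hl
    have h1 : Cfsg.centralChar (irrMap (conjEquivOn L (x : G)⁻¹ hcL1 hcL2) φ).1 l
        = Cfsg.centralChar φ.1 l := by
      have h2 := centralChar_comp_equiv (conjEquivOn L (x : G)⁻¹ hcL1 hcL2) φ.1 l
      have h3 : (irrMap (conjEquivOn L (x : G)⁻¹ hcL1 hcL2) φ).1
          = φ.1 ∘ (conjEquivOn L (x : G)⁻¹ hcL1 hcL2) := rfl
      rw [h3, h2]
      unfold Cfsg.centralChar
      rw [index_centralizer_equiv, haut l (orderOf l) hl (by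
        rw [pow_orderOf_eq_one]
        exact Subgroup.one_mem _)]
    rw [h1, sub_self]
    exact memLocalIdeal_zero hMp.ne_top
  -- the extended first main theorem in `G`
  have hG := (ext_fmt_elem hM P hPp L hL (Cfsg.blockOf M φ₀.1) ⟨φ₀, rfl⟩ hβP B hβind).mp hP
    (x : G) hxN' hxpL (by
      intro θ hθ θ' hθ'
      have hθ'eq : θ' = irrMap (conjEquivOn L (x : G)⁻¹ hcL1 hcL2) θ := by
        apply Subtype.ext
        funext h'
        rw [irrMap_apply]
        apply hθ'
        rw [hσc]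
        group
      rw [hθ'eq]
      have h1 : Cfsg.SameBlock M φ₀.1 θ.1 := hθ
      have h2 : Cfsg.SameBlock M φ₀.1 φ.1 := hφβ
      have h3 : Cfsg.SameBlock M φ.1 θ.1 := sameBlock_trans hMp (sameBlock_symm h2) h1
      have h4 := Cfsg.Agent.Lib.helper5.sameBlock_comp_equiv
        (conjEquivOn L (x : G)⁻¹ hcL1 hcL2) h3
      exact sameBlock_trans hMp h2 (sameBlock_trans hMp (sameBlock_symm hsb) h4))
  exact (hHL x).mpr hG

end pn

end Cfsg.Agent.Lib.helper5
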