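import Mathlib
import Cfsg.Agent.Lib.helper5.Knorr3

set_option autoImplicit false

/-!
# The theorem of Knörr

`knorr_inv`: if the block `B` of `G` covers the `G`-invariant block `b` of the normal subgroup
`N`, then `P ∩ N` is a defect group of `b` for every defect group `P` of `B`.
`knorr_exists`: in general some defect group `P` of `B`, inside the stabilizer of `b`, has
`P ∩ N` a defect group of `b`.
-/

namespace Cfsg.Agent.Lib.helper5

open Cfsg.Agent.Lib.helper23 Cfsg.Agent.Lib.helper24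
open scoped ComplexConjugate

universe u

section top

variable {G : Type u} [Group G] [Fintype G]
variable {M : Ideal Cfsg.AlgInt} {p : ℕ} [Fact p.Prime]

/-- the case where `N P` is normal -/
theorem knorr_top (hM : Cfsg.IsPModular p M) (N : Subgroup G) [hN : N.Normal] [Fintype N]
    (b : Set (Cfsg.IrrCharacter N)) (hb : Cfsg.IsPBlock M b)
    (hinv : ∀ g : G, ∀ θ ∈ b, conjIrr N g θ ∈ b)
    (B : Set (Cfsg.IrrCharacter G)) (hB : Cfsg.IsPBlock M B)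
    (hcov : ∃ χ ∈ B, ∃ θ ∈ b, Cfsg.classInner (fun n : N => χ.1 n) θ.1 ≠ 0)
    (P : Subgroup G) (hP : Cfsg.IsDefectGroup p M B P) (hR : (N ⊔ P).Normal) :
    Cfsg.IsDefectGroup p M b ((P ⊓ N).subgroupOf N) := by
  classical
  haveI := Fintype.ofFinite (Cfsg.IrrCharacter G)
  haveI := Fintype.ofFinite (Cfsg.IrrCharacter N)
  have hMp := isPModular_isPrime hM
  have hp : p.Prime := Fact.out
  have hPp : IsPGroup p P := isPGroup_of_isDefectGroup hP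
  haveI : (N ⊔ P).Normal := hR
  haveI : Fintype (N ⊔ P : Subgroup G) := Fintype.ofFinite _
  haveI := Fintype.ofFinite (Cfsg.IrrCharacter (N ⊔ P : Subgroup G))
  have hNR : N ≤ N ⊔ P := le_sup_left
  have hPR : P ≤ N ⊔ P := le_sup_right
  obtain ⟨χ, hχ, θ, hθ, hne⟩ := hcov
  obtain ⟨ψ, hψ1, hψ2⟩ := exists_middle_constituent N (N ⊔ P) hNR χ θ hne
  have hidx : ∃ k : ℕ, N.relIndex (N ⊔ P) = p ^ k := by
    rw [Subgroup.relIndex_sup_left]
    exact IsPGroup.index hPp (N.subgroupOf P)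
  have hcovψ : CovRel N (N ⊔ P) hNR b (Cfsg.blockOf M ψ.1) :=
    ⟨ψ, mem_blockOf_self hMp.ne_top ψ, θ, hθ, hψ2⟩
  have huniq : ∀ B'' : Set (Cfsg.IrrCharacter (N ⊔ P : Subgroup G)), Cfsg.IsPBlock M B'' →
      CovRel N (N ⊔ P) hNR b B'' → B'' = Cfsg.blockOf M ψ.1 := fun B'' h1 h2 =>
    unique_cover_rel hM N (N ⊔ P) hNR hidx b hb B'' _ h1 ⟨ψ, rfl⟩ h2 hcovψ
  have hinvR : ∀ g : G, ∀ ψ' ∈ Cfsg.blockOf M ψ.1,
      conjIrr (N ⊔ P) g ψ' ∈ Cfsg.blockOf M ψ.1 := by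
    intro g ψ' hψ'
    have h1 : Cfsg.classInner (fun n : N => (conjIrr (N ⊔ P) g ψ).1 ⟨(n : G), hNR n.2⟩)
        (conjIrr N g θ).1 ≠ 0 := by
      have h2 := classInner_comp_equiv (MulAut.conjNormal g : N ≃* N)
        (fun n : N => ψ.1 ⟨(n : G), hNR n.2⟩) θ.1
      rw [← h2] at hψ2
      exact hψ2
    have h3 : Cfsg.blockOf M (conjIrr (N ⊔ P) g ψ).1 = Cfsg.blockOf M ψ.1 :=
      huniq _ ⟨_, rfl⟩ ⟨conjIrr (N ⊔ P) g ψ, mem_blockOf_self hMp.ne_top _, conjIrr N g θ,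
        hinv g θ hθ, h1⟩
    have h4 : Cfsg.SameBlock M ψ.1 (conjIrr (N ⊔ P) g ψ).1 := by
      have : conjIrr (N ⊔ P) g ψ ∈ Cfsg.blockOf M ψ.1 := by
        rw [← h3]
        exact mem_blockOf_self hMp.ne_top _
      exact this
    have h5 : Cfsg.SameBlock M ψ.1 ψ'.1 := hψ'
    have h6 : Cfsg.SameBlock M (conjIrr (N ⊔ P) g ψ).1 (conjIrr (N ⊔ P) g ψ').1 :=
      sameBlock_conjFun (N ⊔ P) g h5
    exact sameBlock_trans hMp h4 h6
  have hcovB : ∃ χ ∈ B, ∃ ψ' ∈ Cfsg.blockOf M ψ.1,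
      Cfsg.classInner (fun r : (N ⊔ P : Subgroup G) => χ.1 r) ψ'.1 ≠ 0 :=
    ⟨χ, hχ, ψ, mem_blockOf_self hMp.ne_top ψ, hψ1⟩
  have hPN := knorr_PN hM (N ⊔ P) (Cfsg.blockOf M ψ.1) ⟨ψ, rfl⟩ hinvR B hB hcovB P hPR hP
  have hnorm : N ⊔ P ≤ Subgroup.normalizer (N : Set G) := by
    rw [Subgroup.normalizer_eq_top]
    exact le_top
  have hinv' : ∀ t ∈ N ⊔ P, Cfsg.StabilizesBlock N b t :=
    fun t _ => (stabilizesBlock_iff N b t).mpr (hinv t⁻¹)
  have hmax : ∀ B'' : Set (Cfsg.IrrCharacter (N ⊔ P : Subgroup G)), Cfsg.IsPBlock M B'' →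
      CovRel N (N ⊔ P) hNR b B'' →
      Cfsg.blockDefect p B'' ≤ Cfsg.blockDefect p (Cfsg.blockOf M ψ.1) := by
    intro B'' h1 h2
    rw [huniq B'' h1 h2]
  obtain ⟨-, hdef, -⟩ := fong_rel hM N (N ⊔ P) hNR hnorm b hb hinv' (Cfsg.blockOf M ψ.1)
    ⟨ψ, rfl⟩ hcovψ hmax (P.subgroupOf (N ⊔ P)) hPN
  rw [Subgroup.map_subgroupOf_eq_of_le hPR] at hdef
  exact hdef

/-- reduction to a subgroup `G₁ ⊇ N P C_G(P)`: the block induced by a root of `B` covers `b`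
and has defect group `P` -/
theorem knorr_red (hM : Cfsg.IsPModular p M) (N : Subgroup G) [hN : N.Normal] [Fintype N]
    (b : Set (Cfsg.IrrCharacter N)) (hb : Cfsg.IsPBlock M b)
    (hinv : ∀ g : G, ∀ θ ∈ b, conjIrr N g θ ∈ b)
    (B : Set (Cfsg.IrrCharacter G)) (hB : Cfsg.IsPBlock M B)
    (hcov : ∃ χ ∈ B, ∃ θ ∈ b, Cfsg.classInner (fun n : N => χ.1 n) θ.1 ≠ 0)
    (P : Subgroup G) (hP : Cfsg.IsDefectGroup p M B P)
    (G₁ : Subgroup G) (hNG₁ : N ≤ G₁) (hPG₁ : P ≤ G₁)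
    (hCG₁ : Subgroup.centralizer (P : Set G) ≤ G₁) :
    ∃ B₁ : Set (Cfsg.IrrCharacter G₁), Cfsg.IsPBlock M B₁ ∧ CovRel N G₁ hNG₁ b B₁ ∧
      Cfsg.IsDefectGroup p M B₁ (P.subgroupOf G₁) := by
  classical
  haveI := Fintype.ofFinite (Cfsg.IrrCharacter G)
  haveI := Fintype.ofFinite (Cfsg.IrrCharacter N)
  haveI : Fintype G₁ := Fintype.ofFinite G₁
  haveI := Fintype.ofFinite (Cfsg.IrrCharacter G₁)
  have hMp := isPModular_isPrime hM
  have hp : p.Prime := Fact.out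
  have hPp : IsPGroup p P := isPGroup_of_isDefectGroup hP
  set L : Subgroup G := P ⊔ Subgroup.centralizer (P : Set G) with hL
  haveI : Fintype L := Fintype.ofFinite L
  haveI := Fintype.ofFinite (Cfsg.IrrCharacter L)
  haveI : Fintype (L.subgroupOf G₁) := Fintype.ofFinite _
  haveI := Fintype.ofFinite (Cfsg.IrrCharacter (L.subgroupOf G₁))
  have hPL : P ≤ L := le_sup_left
  have hCL : Subgroup.centralizer (P : Set G) ≤ L := le_sup_right
  have hLN₀ : L ≤ Subgroup.normalizer (P : Set G) :=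
    sup_le Subgroup.le_normalizer (Subgroup.centralizer_le_normalizer _)
  have hLG₁ : L ≤ G₁ := sup_le hPG₁ hCG₁
  obtain ⟨⟨β, hβP, hβind⟩, -⟩ := Cfsg.Agent.S0973.result p M hM B hB P hP
  obtain ⟨φ₀, rfl⟩ := hβind.1
  obtain ⟨χ₀, rfl⟩ := hB
  -- the induced block in `G₁`
  have hP₁p : IsPGroup p (P.subgroupOf G₁) := hPp.comap_subtype
  have hP₁L₁ : P.subgroupOf G₁ ≤ L.subgroupOf G₁ := fun x hx => hPL hx
  have hC₁ : Subgroup.centralizer ((P.subgroupOf G₁ : Subgroup G₁) : Set G₁)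
      ≤ L.subgroupOf G₁ := by
    intro x hx
    show (x : G) ∈ L
    apply hCL
    rw [Subgroup.mem_centralizer_iff]
    intro y hy
    have := Subgroup.mem_centralizer_iff.mp hx ⟨y, hPG₁ hy⟩ hy
    exact congrArg Subtype.val this
  have hL₁N : L.subgroupOf G₁
      ≤ Subgroup.normalizer ((P.subgroupOf G₁ : Subgroup G₁) : Set G₁) := by
    intro x hx
    have h1 := hLN₀ hx
    rw [Subgroup.mem_normalizer_iff] at h1 ⊢
    intro u
    exact h1 (u : G)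
  obtain ⟨B₁, hB₁⟩ := exists_induced_of_le_normalizer hM (P.subgroupOf G₁) hP₁p
    (L.subgroupOf G₁) hP₁L₁ hC₁ hL₁N
    (b := Cfsg.blockOf M (irrMap (Subgroup.subgroupOfEquivOfLe hLG₁) φ₀).1) ⟨_, rfl⟩
  obtain ⟨χ₁, rfl⟩ := hB₁.2.1
  have hindG₁ : Cfsg.IsInducedBlock M G₁ (Cfsg.blockOf M χ₁.1) (Cfsg.blockOf M χ₀.1) :=
    isInducedBlock_trans' hMp G₁ L hLG₁ φ₀ (irrMap (Subgroup.subgroupOfEquivOfLe hLG₁) φ₀) rfl
      χ₁ χ₀ hB₁ hβind
  refine ⟨Cfsg.blockOf M χ₁.1, ⟨χ₁, rfl⟩, ?_, ?_⟩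
  · exact cover_of_induced hMp N G₁ hNG₁ b hb hinv _ hcov _ hindG₁
  · -- the defect group
    have hD₁ := isDefectGroup_irrMap (p := p) (M := M) (Subgroup.subgroupOfEquivOfLe hLG₁)
      (Cfsg.blockOf M φ₀.1) _ hβP
    rw [irrMap_image_blockOf] at hD₁
    obtain ⟨E₁, hE₁, hle₁⟩ := Cfsg.Agent.S0917.result p M hM (L.subgroupOf G₁) _ ⟨_, rfl⟩
      (Cfsg.blockOf M χ₁.1) ⟨χ₁, rfl⟩ hB₁ _ hD₁
    obtain ⟨E, hE, hle⟩ := Cfsg.Agent.S0917.result p M hM G₁ _ ⟨χ₁, rfl⟩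
      (Cfsg.blockOf M χ₀.1) ⟨χ₀, rfl⟩ hindG₁ E₁ hE₁
    have hPE₁ : P.subgroupOf G₁ ≤ E₁ := by
      intro y hy
      apply hle₁
      exact ⟨⟨y, hPL hy⟩, hy, rfl⟩
    have hPE : P ≤ E := by
      intro y hy
      apply hle
      exact ⟨⟨y, hPG₁ hy⟩, hPE₁ hy, rfl⟩
    have hcard : Nat.card E ≤ Nat.card P := by
      rw [Cfsg.Agent.S0908.result p M hM _ ⟨χ₀, rfl⟩ E hE,
        Cfsg.Agent.S0908.result p M hM _ ⟨χ₀, rfl⟩ P hP]
    have hPEeq : P = E := Subgroup.eq_of_le_of_card_ge hPE hcard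
    have hE₁P : E₁ = P.subgroupOf G₁ := by
      apply le_antisymm
      · intro y hy
        show (y : G) ∈ P
        rw [hPEeq]
        apply hle
        exact ⟨y, hy, rfl⟩
      · exact hPE₁
    rw [← hE₁P]
    exact hE₁

omit [Fintype G] in
theorem le_normalizer_sup_of_centralizer (N P : Subgroup G) [hN : N.Normal] :
    N ⊔ (P ⊔ Subgroup.centralizer (P : Set G))
      ≤ Subgroup.normalizer ((N ⊔ P : Subgroup G) : Set G) := by
  have hconj : ∀ c ∈ Subgroup.centralizer (P : Set G), ∀ x ∈ N ⊔ P, c * x * c⁻¹ ∈ N ⊔ P := by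
    intro c hc x hx
    have hx' : x ∈ ((N ⊔ P : Subgroup G) : Set G) := hx
    rw [Subgroup.normal_mul] at hx'
    obtain ⟨n, hn, u, hu, rfl⟩ := Set.mem_mul.mp hx'
    have h0 := Subgroup.mem_centralizer_iff.mp hc u hu
    have h2 : c * u * c⁻¹ = u := by
      rw [← h0]
      group
    have h1 : c * (n * u) * c⁻¹ = (c * n * c⁻¹) * (c * u * c⁻¹) := by group
    rw [h1, h2]
    exact Subgroup.mul_mem _ (Subgroup.mem_sup_left (hN.conj_mem n hn c))
      (Subgroup.mem_sup_right hu)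
  apply sup_le
  · exact le_sup_left.trans Subgroup.le_normalizer
  · apply sup_le
    · exact le_sup_right.trans Subgroup.le_normalizer
    · intro c hc
      rw [Subgroup.mem_normalizer_iff]
      intro h
      constructor
      · exact hconj c hc h
      · intro hh
        have := hconj c⁻¹ (Subgroup.inv_mem _ hc) _ hh
        have e : c⁻¹ * (c * h * c⁻¹) * c⁻¹⁻¹ = h := by group
        rwa [e] at this

/-- **Knörr's theorem for an invariant block**: `P ∩ N` is a defect group of `b` for every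
defect group `P` of a block `B` covering the `G`-invariant block `b` -/
theorem knorr_inv (hM : Cfsg.IsPModular p M) (N : Subgroup G) [hN : N.Normal] [Fintype N]
    (b : Set (Cfsg.IrrCharacter N)) (hb : Cfsg.IsPBlock M b)
    (hinv : ∀ g : G, ∀ θ ∈ b, conjIrr N g θ ∈ b)
    (B : Set (Cfsg.IrrCharacter G)) (hB : Cfsg.IsPBlock M B)
    (hcov : ∃ χ ∈ B, ∃ θ ∈ b, Cfsg.classInner (fun n : N => χ.1 n) θ.1 ≠ 0)
    (P : Subgroup G) (hP : Cfsg.IsDefectGroup p M B P) :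
    Cfsg.IsDefectGroup p M b ((P ⊓ N).subgroupOf N) := by
  classical
  have hNG₁ : N ≤ N ⊔ (P ⊔ Subgroup.centralizer (P : Set G)) := le_sup_left
  have hPG₁ : P ≤ N ⊔ (P ⊔ Subgroup.centralizer (P : Set G)) := le_sup_left.trans le_sup_right
  have hCG₁ : Subgroup.centralizer (P : Set G) ≤ N ⊔ (P ⊔ Subgroup.centralizer (P : Set G)) :=
    le_sup_right.trans le_sup_right
  obtain ⟨B₁, hB₁, hcov₁, hP₁⟩ := knorr_red hM N b hb hinv B hB hcov P hP
    (N ⊔ (P ⊔ Subgroup.centralizer (P : Set G))) hNG₁ hPG₁ hCG₁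
  haveI : Fintype (N ⊔ (P ⊔ Subgroup.centralizer (P : Set G)) : Subgroup G) := Fintype.ofFinite _
  haveI hN₁ : (N.subgroupOf (N ⊔ (P ⊔ Subgroup.centralizer (P : Set G)))).Normal :=
    hN.subgroupOf _
  haveI : Fintype (N.subgroupOf (N ⊔ (P ⊔ Subgroup.centralizer (P : Set G)))) :=
    Fintype.ofFinite _
  have hb₁ : Cfsg.IsPBlock M (irrMap (Subgroup.subgroupOfEquivOfLe hNG₁) '' b) :=
    isPBlock_image_irrMap _ hb
  have hinv₁ := rel_hinv N _ hNG₁ b (fun t _ => hinv t)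
  have hcovr := (rel_cov N _ hNG₁ b B₁).mp hcov₁
  have hR₁ : (N.subgroupOf (N ⊔ (P ⊔ Subgroup.centralizer (P : Set G)))
      ⊔ P.subgroupOf (N ⊔ (P ⊔ Subgroup.centralizer (P : Set G)))).Normal := by
    rw [← Subgroup.subgroupOf_sup hNG₁ hPG₁]
    exact (Subgroup.normal_subgroupOf_iff_le_normalizer (sup_le hNG₁ hPG₁)).mpr
      (le_normalizer_sup_of_centralizer N P)
  have h := knorr_top hM (N.subgroupOf (N ⊔ (P ⊔ Subgroup.centralizer (P : Set G)))) _ hb₁ hinv₁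
    B₁ hB₁ hcovr (P.subgroupOf (N ⊔ (P ⊔ Subgroup.centralizer (P : Set G)))) hP₁ hR₁
  have h2 := rel_defect N _ hNG₁ b (P.subgroupOf (N ⊔ (P ⊔ Subgroup.centralizer (P : Set G)))) h
  rw [Subgroup.map_subgroupOf_eq_of_le hPG₁] at h2
  exact h2

/-- Knörr's theorem for an invariant block, relative version -/
theorem knorr_inv_rel (hM : Cfsg.IsPModular p M) (N T : Subgroup G) [hN : N.Normal]
    [Fintype N] (hNT : N ≤ T) (b : Set (Cfsg.IrrCharacter N)) (hb : Cfsg.IsPBlock M b)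
    (hinv : ∀ t ∈ T, ∀ θ ∈ b, conjIrr N t θ ∈ b)
    (B' : Set (Cfsg.IrrCharacter T)) (hB' : Cfsg.IsPBlock M B') (hcov : CovRel N T hNT b B')
    (D : Subgroup T) (hD : Cfsg.IsDefectGroup p M B' D) :
    Cfsg.IsDefectGroup p M b (((D.map T.subtype) ⊓ N).subgroupOf N) := by
  classical
  haveI : Fintype T := Fintype.ofFinite T
  haveI hN₁ : (N.subgroupOf T).Normal := hN.subgroupOf T
  haveI : Fintype (N.subgroupOf T) := Fintype.ofFinite _
  have hb₁ : Cfsg.IsPBlock M (irrMap (Subgroup.subgroupOfEquivOfLe hNT) '' b) :=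
    isPBlock_image_irrMap _ hb
  have hinv₁ := rel_hinv N T hNT b hinv
  have hcovr := (rel_cov N T hNT b B').mp hcov
  exact rel_defect N T hNT b D (knorr_inv hM (N.subgroupOf T) _ hb₁ hinv₁ B' hB' hcovr D hD)

/-- **Knörr's theorem**: a block `B` covering `b` has a defect group `P₁`, contained in the
stabilizer of `b`, such that `P₁ ∩ N` is a defect group of `b` -/
theorem knorr_exists (hM : Cfsg.IsPModular p M) (N : Subgroup G) [hN : N.Normal] [Fintype N]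
    (b : Set (Cfsg.IrrCharacter N)) (hb : Cfsg.IsPBlock M b)
    (B : Set (Cfsg.IrrCharacter G)) (hB : Cfsg.IsPBlock M B)
    (hcov : ∃ χ ∈ B, ∃ θ ∈ b, Cfsg.classInner (fun n : N => χ.1 n) θ.1 ≠ 0) :
    ∃ P₁ : Subgroup G, Cfsg.IsDefectGroup p M B P₁ ∧
      P₁ ≤ stabSub N (isPModular_isPrime hM) b hb ∧
      Cfsg.IsDefectGroup p M b ((P₁ ⊓ N).subgroupOf N) := by
  classical
  have hMp := isPModular_isPrime hM
  haveI : Fintype (stabSub N hMp b hb) := Fintype.ofFinite _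
  have hT : IsStabOf N (stabSub N hMp b hb) b := isStabOf_stabSub N hMp b hb
  have hNT : N ≤ stabSub N hMp b hb := le_stabSub N hMp b hb
  have FR := Cfsg.Agent.S4435.result p M hM N b hb (stabSub N hMp b hb) hT hNT
  obtain ⟨B', hB', hcovB', hindB'⟩ := FR.2.2 B hB hcov
  have defmap := (Cfsg.Agent.S4436.result p M hM N b hb (stabSub N hMp b hb) hT hNT B' hB'
    hcovB' B hindB').1
  obtain ⟨D', hD'⟩ := exists_defectGroup_of_isPBlock (p := p) hMp hB'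
  refine ⟨D'.map (stabSub N hMp b hb).subtype, defmap D' hD', Subgroup.map_subtype_le D', ?_⟩
  exact knorr_inv_rel hM N (stabSub N hMp b hb) hNT b hb (fun t ht => ht) B' hB' hcovB' D' hD'

/-- if `N ≤ L` are normal with `L / N` a `p`-group, `B` covers the invariant block `c` of `N`
and a defect group of `B` lies in `N`, then `L = N` -/
theorem knorr_index (hM : Cfsg.IsPModular p M) (N L : Subgroup G) [hN : N.Normal]
    [hL : L.Normal] [Fintype N] (hNL : N ≤ L) (hidx : ∃ k : ℕ, N.relIndex L = p ^ k)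
    (c : Set (Cfsg.IrrCharacter N)) (hc : Cfsg.IsPBlock M c)
    (hinv : ∀ g : G, ∀ θ ∈ c, conjIrr N g θ ∈ c)
    (B : Set (Cfsg.IrrCharacter G)) (hB : Cfsg.IsPBlock M B)
    (hcov : ∃ χ ∈ B, ∃ θ ∈ c, Cfsg.classInner (fun n : N => χ.1 n) θ.1 ≠ 0)
    (D : Subgroup G) (hD : Cfsg.IsDefectGroup p M B D) (hDN : D ≤ N) : L ≤ N := by
  classical
  haveI : Fintype L := Fintype.ofFinite L
  haveI := Fintype.ofFinite (Cfsg.IrrCharacter L)
  have hMp := isPModular_isPrime hM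
  have hp : p.Prime := Fact.out
  have h1 := knorr_inv hM N c hc hinv B hB hcov D hD
  have hcardc : Nat.card D = p ^ Cfsg.blockDefect p c := by
    rw [← Cfsg.Agent.S0908.result p M hM c hc _ h1, inf_eq_left.mpr hDN]
    exact (Nat.card_congr (Subgroup.subgroupOfEquivOfLe hDN).toEquiv).symm
  obtain ⟨χ, hχ, θ, hθ, hne⟩ := hcov
  obtain ⟨ψ, hψ1, hψ2⟩ := exists_middle_constituent N L hNL χ θ hne
  have hcovψ : CovRel N L hNL c (Cfsg.blockOf M ψ.1) :=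
    ⟨ψ, mem_blockOf_self hMp.ne_top ψ, θ, hθ, hψ2⟩
  have huniq : ∀ B'' : Set (Cfsg.IrrCharacter L), Cfsg.IsPBlock M B'' →
      CovRel N L hNL c B'' → B'' = Cfsg.blockOf M ψ.1 := fun B'' h1 h2 =>
    unique_cover_rel hM N L hNL hidx c hc B'' _ h1 ⟨ψ, rfl⟩ h2 hcovψ
  have hcovB : ∃ χ ∈ B, ∃ ψ' ∈ Cfsg.blockOf M ψ.1,
      Cfsg.classInner (fun r : L => χ.1 r) ψ'.1 ≠ 0 :=
    ⟨χ, hχ, ψ, mem_blockOf_self hMp.ne_top ψ, hψ1⟩
  obtain ⟨P₁, hP₁, -, hP₁def⟩ := knorr_exists hM L (Cfsg.blockOf M ψ.1) ⟨ψ, rfl⟩ B hB hcovB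
  obtain ⟨χ₀, rfl⟩ := hB
  obtain ⟨y, hy⟩ := Cfsg.Agent.Lib.helper22.defectGroup_conj_of hM χ₀ hD hP₁
  have hP₁N : P₁ ≤ N := by
    rw [hy]
    intro a ha
    rw [mem_map_conj] at ha
    have h2 := hDN ha
    have : a = y * (y⁻¹ * a * y) * y⁻¹ := by group
    rw [this]
    exact hN.conj_mem _ h2 y
  have hP₁L : P₁ ≤ L := hP₁N.trans hNL
  have hcardc' : Nat.card P₁ = p ^ Cfsg.blockDefect p (Cfsg.blockOf M ψ.1) := by
    rw [← Cfsg.Agent.S0908.result p M hM _ ⟨ψ, rfl⟩ _ hP₁def, inf_eq_left.mpr hP₁L]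
    exact (Nat.card_congr (Subgroup.subgroupOfEquivOfLe hP₁L).toEquiv).symm
  have hcardeq : Nat.card P₁ = Nat.card D := by rw [hy, card_map_conj]
  have hdeq : Cfsg.blockDefect p (Cfsg.blockOf M ψ.1) = Cfsg.blockDefect p c :=
    Nat.pow_right_injective hp.two_le (by
      show p ^ Cfsg.blockDefect p (Cfsg.blockOf M ψ.1) = p ^ Cfsg.blockDefect p c
      rw [← hcardc', ← hcardc, hcardeq])
  have hnorm : L ≤ Subgroup.normalizer (N : Set G) := by
    rw [Subgroup.normalizer_eq_top]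
    exact le_top
  have hinv' : ∀ t ∈ L, Cfsg.StabilizesBlock N c t :=
    fun t _ => (stabilizesBlock_iff N c t).mpr (hinv t⁻¹)
  have hmax : ∀ B'' : Set (Cfsg.IrrCharacter L), Cfsg.IsPBlock M B'' →
      CovRel N L hNL c B'' →
      Cfsg.blockDefect p B'' ≤ Cfsg.blockDefect p (Cfsg.blockOf M ψ.1) := by
    intro B'' h1 h2
    rw [huniq B'' h1 h2]
  obtain ⟨D₂, hD₂⟩ := exists_defectGroup_of_isPBlock (p := p) hMp
    (⟨ψ, rfl⟩ : Cfsg.IsPBlock M (Cfsg.blockOf M ψ.1))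
  obtain ⟨-, -, h3⟩ := fong_rel hM N L hNL hnorm c hc hinv' (Cfsg.blockOf M ψ.1) ⟨ψ, rfl⟩
    hcovψ hmax D₂ hD₂
  obtain ⟨k, hk⟩ := hidx
  have hk0 : k = 0 := by
    rw [hk, Nat.Prime.factorization_pow hp] at h3
    simp at h3
    omega
  rw [← Subgroup.relIndex_eq_one, hk, hk0, pow_zero]

end top

end Cfsg.Agent.Lib.helper5
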