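import Mathlib
import Cfsg.Agent.Lib.helper5.Knorr4
import Cfsg.Agent.S4438
import Cfsg.Agent.S0970
import Cfsg.Agent.Lib.helper16.PSolv
import Cfsg.Agent.Lib.helper9.PPrimeCore
import Cfsg.Agent.Lib.helper3.Basic
import Cfsg.Agent.Lib.helper23.BPExt1
import Cfsg.Agent.Lib.helper23.BrauerFeit

set_option autoImplicit false

/-!
# Blocks of `p`-solvable groups over an invariant character of `O_{p'}(G)`

`sameBlock_of_cover_centralizer`: if `b` is a block of the normal subgroup `L` with a defect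
group `D` such that `C_G(D) ≤ L`, then all irreducible characters of `G` lying over members of
`b` are in one block.
-/

namespace Cfsg.Agent.Lib.helper5

open Cfsg.Agent.Lib.helper23 Cfsg.Agent.Lib.helper24
open scoped ComplexConjugate

universe u

section fongtheta

variable {G : Type u} [Group G] [Fintype G]
variable {M : Ideal Cfsg.AlgInt} {p : ℕ} [Fact p.Prime]

/-- off the normal subgroup `L ⊇ C_G(D)`, the central characters of the characters over the
block `b` with defect group `D` vanish modulo `M` -/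
theorem memLocalIdeal_centralChar_of_not_mem (hM : Cfsg.IsPModular p M) (L : Subgroup G)
    [hL : L.Normal] [Fintype L] (b : Set (Cfsg.IrrCharacter L)) (hb : Cfsg.IsPBlock M b)
    (D : Subgroup L) (hD : Cfsg.IsDefectGroup p M b D)
    (hC : Subgroup.centralizer ((D.map L.subtype : Subgroup G) : Set G) ≤ L)
    (χ : Cfsg.IrrCharacter G) (ψ : Cfsg.IrrCharacter L) (hψ : ψ ∈ b)
    (hc : Cfsg.classInner (fun n : L => χ.1 n) ψ.1 ≠ 0) (g : G) (hg : g ∉ L) :
    Cfsg.MemLocalIdeal M (Cfsg.centralChar χ.1 g) := by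
  classical
  haveI := Fintype.ofFinite (Cfsg.IrrCharacter G)
  haveI := Fintype.ofFinite (Cfsg.IrrCharacter L)
  have hMp := isPModular_isPrime hM
  by_contra hcon
  have hQ : Cfsg.IsDefectGroup p M b ((D.map L.subtype).subgroupOf L) := by
    have : (D.map L.subtype).subgroupOf L = D := by
      ext x
      rw [Subgroup.mem_subgroupOf]
      constructor
      · rintro ⟨y, hy, hyx⟩
        have : y = x := Subtype.ext hyx
        rw [← this]; exact hy
      · intro hx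
        exact ⟨x, hx, rfl⟩
    rw [this]
    exact hD
  obtain ⟨P, hP, hPL⟩ := Cfsg.Agent.S4438.result p M hM L b hb (D.map L.subtype)
    (Subgroup.map_subtype_le _) hQ (Cfsg.blockOf M χ.1) ⟨χ, rfl⟩
    ⟨χ, mem_blockOf_self hMp.ne_top χ, ψ, hψ, hc⟩
  obtain ⟨v, hv, PE, rfl⟩ := hP
  obtain ⟨Du⟩ : Nonempty (Sylow p (Subgroup.centralizer ({g} : Set G))) := inferInstance
  have hQle : D.map L.subtype ≤ Subgroup.centralizer ({v} : Set G) := by
    rw [← hPL]
    exact inf_le_left.trans (sylow_map_le _ PE)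
  have hQp : IsPGroup p (D.map L.subtype) := (isPGroup_of_isDefectGroup hD).map _
  obtain ⟨x, hx⟩ := key_conj hM χ g v hcon hv.2.1 Du (D.map L.subtype) hQp hQle
  have h1 : x⁻¹ * g * x ∈ Subgroup.centralizer ((D.map L.subtype : Subgroup G) : Set G) := by
    rw [Subgroup.mem_centralizer_iff]
    intro d hd
    have h2 : x * d * x⁻¹ ∈ Subgroup.centralizer ({g} : Set G) := by
      have h3 : x * d * x⁻¹ ∈ (D.map L.subtype).map (MulAut.conj x).toMonoidHom :=
        ⟨d, hd, rfl⟩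
      exact (sylow_map_le _ Du) (hx h3)
    rw [Subgroup.mem_centralizer_iff] at h2
    have h3 := h2 g (Set.mem_singleton g)
    have h4 : d * (x⁻¹ * g * x) = x⁻¹ * ((x * d * x⁻¹) * g) * x := by group
    have h5 : x⁻¹ * g * x * d = x⁻¹ * (g * (x * d * x⁻¹)) * x := by group
    rw [h4, h5, h3]
  have h4 := hC h1
  have h5 : g ∈ L := by
    have := hL.conj_mem _ h4 x
    have h6 : x * (x⁻¹ * g * x) * x⁻¹ = g := by group
    rwa [h6] at this
  exact hg h5

/-- **uniqueness of the covering block**: if the block `b` of the normal subgroup `L` has a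
defect group `D` with `C_G(D) ≤ L`, then all characters of `G` over members of `b` lie in the
same block -/
theorem sameBlock_of_cover_centralizer (hM : Cfsg.IsPModular p M) (L : Subgroup G)
    [hL : L.Normal] [Fintype L] (b : Set (Cfsg.IrrCharacter L)) (hb : Cfsg.IsPBlock M b)
    (D : Subgroup L) (hD : Cfsg.IsDefectGroup p M b D)
    (hC : Subgroup.centralizer ((D.map L.subtype : Subgroup G) : Set G) ≤ L)
    (χ₁ χ₂ : Cfsg.IrrCharacter G) (ψ₁ ψ₂ : Cfsg.IrrCharacter L) (h₁ : ψ₁ ∈ b) (h₂ : ψ₂ ∈ b)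
    (hc₁ : Cfsg.classInner (fun n : L => χ₁.1 n) ψ₁.1 ≠ 0)
    (hc₂ : Cfsg.classInner (fun n : L => χ₂.1 n) ψ₂.1 ≠ 0) :
    Cfsg.SameBlock M χ₁.1 χ₂.1 := by
  classical
  haveI := Fintype.ofFinite (Cfsg.IrrCharacter G)
  haveI := Fintype.ofFinite (Cfsg.IrrCharacter L)
  have hMp := isPModular_isPrime hM
  have hsb : Cfsg.SameBlock M ψ₁.1 ψ₂.1 := by
    obtain ⟨ψ₀, rfl⟩ := hb
    exact sameBlock_trans hMp (sameBlock_symm h₁) h₂
  intro g
  by_cases hg : g ∈ L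
  · have e1 := centralChar_eq_induced_of_constituent L χ₁ ψ₁ hc₁ ⟨g, hg⟩
    have e2 := centralChar_eq_induced_of_constituent L χ₂ ψ₂ hc₂ ⟨g, hg⟩
    simp only [] at e1 e2
    rw [e1, e2]
    exact memLocalIdeal_inducedCentralChar_sub hMp L ψ₁.1 ψ₂.1 (isClassFunction_irr ψ₁)
      (isClassFunction_irr ψ₂) hsb g
  · exact memLocalIdeal_sub hMp
      (memLocalIdeal_centralChar_of_not_mem hM L b hb D hD hC χ₁ ψ₁ h₁ hc₁ g hg)
      (memLocalIdeal_centralChar_of_not_mem hM L b hb D hD hC χ₂ ψ₂ h₂ hc₂ g hg)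


omit [Fintype G] in
/-- the subgroup `L = O_{p',p}(G)` of a `p`-solvable group: it is normal, of `p`-power index
over `N = O_{p'}(G)`, and contains the centralizer of every `R` with `R N = L` (Hall–Higman) -/
theorem exists_pPrimeP [Finite G] (hsolv : Cfsg.IsPSolvable p G) (N : Subgroup G) [hN : N.Normal]
    (hNdef : N = Cfsg.pPrimeCore p G) :
    ∃ L : Subgroup G, L.Normal ∧ N ≤ L ∧ (∃ k : ℕ, N.relIndex L = p ^ k) ∧
      ∀ R : Subgroup G, R ⊔ N = L → Subgroup.centralizer (R : Set G) ≤ L := by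
  have hcore : Cfsg.pPrimeCore p (G ⧸ N) = ⊥ := by
    subst hNdef
    exact Cfsg.Agent.Lib.helper9.pPrimeCore_quotient_eq_bot p G
  have hsolv' : Cfsg.IsPSolvable p (G ⧸ N) :=
    Cfsg.Agent.Lib.helper16.isPSolvable_of_surjective (QuotientGroup.mk' N)
      (QuotientGroup.mk'_surjective N) hsolv
  have hHH := Cfsg.Agent.Lib.helper16.centralizer_pCore_le_of_pSolvable hsolv' hcore
  have hOn : (Cfsg.pCore p (G ⧸ N)).Normal := Subgroup.sSup_normal _ (fun _ h => h.1)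
  have hOp : IsPGroup p (Cfsg.pCore p (G ⧸ N)) :=
    Sylow.sSup_of_normal _ (fun _ h => h.2) (fun _ h => h.1)
  refine ⟨(Cfsg.pCore p (G ⧸ N)).comap (QuotientGroup.mk' N), hOn.comap _, ?_, ?_, ?_⟩
  · intro n hn
    rw [Subgroup.mem_comap]
    have : (QuotientGroup.mk' N) n = 1 := (QuotientGroup.eq_one_iff n).mpr hn
    rw [this]
    exact one_mem _
  · obtain ⟨k, hk⟩ := IsPGroup.iff_card.mp hOp
    refine ⟨k, ?_⟩
    have h2 := Subgroup.relIndex_comap (⊥ : Subgroup (G ⧸ N)) (QuotientGroup.mk' N)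
      ((Cfsg.pCore p (G ⧸ N)).comap (QuotientGroup.mk' N))
    rw [Subgroup.map_comap_eq_self_of_surjective (QuotientGroup.mk'_surjective N),
      Subgroup.relIndex_bot_left, MonoidHom.comap_bot, QuotientGroup.ker_mk'] at h2
    rw [h2, hk]
  · intro R hR x hx
    rw [Subgroup.mem_comap]
    apply hHH
    rw [Subgroup.mem_centralizer_iff]
    intro y hy
    obtain ⟨l, rfl⟩ := QuotientGroup.mk'_surjective N y
    have hl : l ∈ R ⊔ N := by
      rw [hR]
      exact hy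
    obtain ⟨r, hr, n, hn, rfl⟩ := Subgroup.mem_sup_of_normal_right.mp hl
    have h1 : (QuotientGroup.mk' N) (r * n) = (QuotientGroup.mk' N) r := by
      have h0 : (QuotientGroup.mk' N) n = 1 := (QuotientGroup.eq_one_iff n).mpr hn
      rw [map_mul, h0, mul_one]
    rw [h1, ← map_mul, ← map_mul, Subgroup.mem_centralizer_iff.mp hx r hr]

/-- **Fong**: in a `p`-solvable group the characters over an invariant character `θ` of
`N = O_{p'}(G)` form one block, whose defect groups are the Sylow `p`-subgroups -/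
theorem fong_theta (hM : Cfsg.IsPModular p M) (hsolv : Cfsg.IsPSolvable p G)
    (N : Subgroup G) [hN : N.Normal] [Fintype N] (hNdef : N = Cfsg.pPrimeCore p G)
    (θ : Cfsg.IrrCharacter N)
    (hinv : ∀ (g : G) (n : N), θ.1 ⟨g * n * g⁻¹, hN.conj_mem n n.2 g⟩ = θ.1 n) :
    ∃ B : Set (Cfsg.IrrCharacter G), Cfsg.IsPBlock M B ∧
      (∀ χ : Cfsg.IrrCharacter G, χ ∈ B ↔ Cfsg.classInner (fun n : N => χ.1 n) θ.1 ≠ 0) ∧
      (∀ P : Sylow p G, Cfsg.IsDefectGroup p M B (P : Subgroup G)) ∧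
      ∀ D : Subgroup G, Cfsg.IsDefectGroup p M B D → ∃ P : Sylow p G, D = (P : Subgroup G) := by
  classical
  haveI := Fintype.ofFinite (Cfsg.IrrCharacter G)
  haveI := Fintype.ofFinite (Cfsg.IrrCharacter N)
  have hMp := isPModular_isPrime hM
  have hp : p.Prime := Fact.out
  have hcop : (Nat.card N).Coprime p := by
    subst hNdef
    exact Cfsg.Agent.Lib.helper9.pPrimeCore_coprime p G
  have hpN : ¬ p ∣ Nat.card N := by
    intro h
    have := Nat.Coprime.eq_one_of_dvd hcop.symm h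
    exact hp.one_lt.ne' this
  obtain ⟨L, hLn, hNL, ⟨k, hk⟩, hcent⟩ := exists_pPrimeP (p := p) hsolv N hNdef
  haveI := hLn
  haveI : Fintype L := Fintype.ofFinite L
  haveI := Fintype.ofFinite (Cfsg.IrrCharacter L)
  -- the characters
  obtain ⟨χ₀, hχ₀⟩ := exists_irr_over N θ
  obtain ⟨ψ₀, hψ₀χ, hψ₀θ⟩ := exists_middle_constituent N L hNL χ₀ θ hχ₀
  have hb₀ : Cfsg.IsPBlock M (Cfsg.blockOf M θ.1) := ⟨θ, rfl⟩
  have hb : Cfsg.IsPBlock M (Cfsg.blockOf M ψ₀.1) := ⟨ψ₀, rfl⟩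
  have hB : Cfsg.IsPBlock M (Cfsg.blockOf M χ₀.1) := ⟨χ₀, rfl⟩
  have hcov₀ : CovRel N L hNL (Cfsg.blockOf M θ.1) (Cfsg.blockOf M ψ₀.1) :=
    ⟨ψ₀, mem_blockOf_self hMp.ne_top ψ₀, θ, mem_blockOf_self hMp.ne_top θ, hψ₀θ⟩
  -- uniqueness at the level of `L`
  have hLuniq' : ∀ b' : Set (Cfsg.IrrCharacter L), Cfsg.IsPBlock M b' →
      CovRel N L hNL (Cfsg.blockOf M θ.1) b' → b' = Cfsg.blockOf M ψ₀.1 := by
    intro b' hb' hc
    exact unique_cover_rel hM N L hNL ⟨k, hk⟩ (Cfsg.blockOf M θ.1) hb₀ b'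
      (Cfsg.blockOf M ψ₀.1) hb' hb hc hcov₀
  have hLuniq : ∀ ψ : Cfsg.IrrCharacter L,
      Cfsg.classInner (fun n : N => ψ.1 ⟨(n : G), hNL n.2⟩) θ.1 ≠ 0 →
      ψ ∈ Cfsg.blockOf M ψ₀.1 := by
    intro ψ hψ
    have := hLuniq' (Cfsg.blockOf M ψ.1) ⟨ψ, rfl⟩
      ⟨ψ, mem_blockOf_self hMp.ne_top ψ, θ, mem_blockOf_self hMp.ne_top θ, hψ⟩
    rw [← this]
    exact mem_blockOf_self hMp.ne_top ψ
  -- a defect group of `b`
  obtain ⟨D, hD⟩ := exists_defectGroup_of_isPBlock (p := p) hMp hb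
  have hnorm : L ≤ Subgroup.normalizer (N : Set G) := by
    rw [Subgroup.normalizer_eq_top]
    exact le_top
  have hinv' : ∀ t ∈ L, Cfsg.StabilizesBlock N (Cfsg.blockOf M θ.1) t := by
    intro t _
    rw [stabilizesBlock_iff]
    intro θ' hθ'
    have h1 : Cfsg.SameBlock M (helper24.conjFun N θ.1 t⁻¹) (helper24.conjFun N θ'.1 t⁻¹) :=
      sameBlock_conjFun N t⁻¹ hθ'
    have h2 : helper24.conjFun N θ.1 t⁻¹ = θ.1 := by
      funext n
      exact hinv t⁻¹ n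
    rw [h2] at h1
    exact h1
  have hmax₀ : ∀ B'' : Set (Cfsg.IrrCharacter L), Cfsg.IsPBlock M B'' →
      CovRel N L hNL (Cfsg.blockOf M θ.1) B'' →
      Cfsg.blockDefect p B'' ≤ Cfsg.blockDefect p (Cfsg.blockOf M ψ₀.1) := by
    intro B'' hB'' hc
    rw [hLuniq' B'' hB'' hc]
  obtain ⟨hfr1, -, hfr3⟩ := fong_rel hM N L hNL hnorm (Cfsg.blockOf M θ.1) hb₀ hinv'
    (Cfsg.blockOf M ψ₀.1) hb hcov₀ hmax₀ D hD
  have hRN : (D.map L.subtype) ⊔ N = L := by
    have hle : (D.map L.subtype) ⊔ N ≤ L := sup_le (Subgroup.map_subtype_le _) hNL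
    apply le_antisymm hle
    have h1 := Subgroup.relIndex_mul_relIndex N ((D.map L.subtype) ⊔ N) L le_sup_right hle
    rw [hk] at h1
    have h2 : ((D.map L.subtype) ⊔ N).relIndex L ∣ p ^ k := Dvd.intro_left _ h1
    obtain ⟨j, -, hj⟩ := (Nat.dvd_prime_pow hp).mp h2
    have hj0 : j = 0 := by
      by_contra hne
      apply hfr1
      rw [hj]
      exact dvd_pow_self p hne
    rw [hj0, pow_zero] at hj
    exact Subgroup.relIndex_eq_one.mp hj
  have hC : Subgroup.centralizer ((D.map L.subtype : Subgroup G) : Set G) ≤ L := hcent _ hRN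
  have hU := sameBlock_of_cover_centralizer hM L (Cfsg.blockOf M ψ₀.1) hb D hD hC
  -- membership
  have hmem : ∀ χ : Cfsg.IrrCharacter G, χ ∈ Cfsg.blockOf M χ₀.1 ↔
      Cfsg.classInner (fun n : N => χ.1 n) θ.1 ≠ 0 := by
    intro χ
    constructor
    · intro h
      exact constituent_of_sameBlock_pPrime N hM hpN h θ hχ₀
    · intro h
      obtain ⟨ψ, hψχ, hψθ⟩ := exists_middle_constituent N L hNL χ θ h
      exact hU χ₀ χ ψ₀ ψ (mem_blockOf_self hMp.ne_top ψ₀) (hLuniq ψ hψθ) hψ₀χ hψχ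
  -- invariance of `b`
  have hconjθ : ∀ (g : G) (ψ : Cfsg.IrrCharacter L),
      Cfsg.classInner (fun n : N => (conjIrr L g ψ).1 ⟨(n : G), hNL n.2⟩) θ.1 =
      Cfsg.classInner (fun n : N => ψ.1 ⟨(n : G), hNL n.2⟩) θ.1 := by
    intro g ψ
    unfold Cfsg.classInner
    congr 1
    rw [← Equiv.sum_comp (MulAut.conjNormal g : N ≃* N).toEquiv
      (fun n : N => ψ.1 ⟨(n : G), hNL n.2⟩ * conj (θ.1 n))]
    apply Finset.sum_congr rfl
    intro n _
    have h1 : θ.1 (MulAut.conjNormal g n) = θ.1 n := hinv g n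
    show (conjIrr L g ψ).1 ⟨(n : G), hNL n.2⟩ * conj (θ.1 n) =
      ψ.1 ⟨((MulAut.conjNormal g n : N) : G), hNL (MulAut.conjNormal g n).2⟩ *
        conj (θ.1 (MulAut.conjNormal g n))
    rw [h1, conjIrr_val]
    rfl
  have hinvb : ∀ g : G, ∀ ψ ∈ Cfsg.blockOf M ψ₀.1, ∀ ψ' : Cfsg.IrrCharacter L,
      (∀ n : L, ψ'.1 n = ψ.1 ⟨g * n * g⁻¹, hLn.conj_mem n n.2 g⟩) →
      ψ' ∈ Cfsg.blockOf M ψ₀.1 := by
    intro g ψ hψ ψ' hψ'
    have h1 : conjIrr L g ψ₀ ∈ Cfsg.blockOf M ψ₀.1 := by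
      apply hLuniq
      rw [hconjθ]
      exact hψ₀θ
    have h2 : Cfsg.SameBlock M (helper24.conjFun L ψ₀.1 g) (helper24.conjFun L ψ.1 g) :=
      sameBlock_conjFun L g hψ
    have h3 : helper24.conjFun L ψ.1 g = ψ'.1 := by
      funext n
      exact (hψ' n).symm
    rw [h3] at h2
    have h4 : Cfsg.SameBlock M ψ₀.1 (conjIrr L g ψ₀).1 := h1
    rw [conjIrr_val] at h4
    exact sameBlock_trans hMp h4 h2
  have hcovB : ∃ χ ∈ Cfsg.blockOf M χ₀.1, ∃ ψ ∈ Cfsg.blockOf M ψ₀.1,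
      Cfsg.classInner (fun n : L => χ.1 n) ψ.1 ≠ 0 :=
    ⟨χ₀, mem_blockOf_self hMp.ne_top χ₀, ψ₀, mem_blockOf_self hMp.ne_top ψ₀, hψ₀χ⟩
  have hmaxB : ∀ B' : Set (Cfsg.IrrCharacter G), Cfsg.IsPBlock M B' →
      (∃ χ ∈ B', ∃ ψ ∈ Cfsg.blockOf M ψ₀.1, Cfsg.classInner (fun n : L => χ.1 n) ψ.1 ≠ 0) →
      Cfsg.blockDefect p B' ≤ Cfsg.blockDefect p (Cfsg.blockOf M χ₀.1) := by
    rintro B' hB' ⟨χ, hχ, ψ, hψ, hc⟩
    have h1 : χ ∈ Cfsg.blockOf M χ₀.1 :=
      hU χ₀ χ ψ₀ ψ (mem_blockOf_self hMp.ne_top ψ₀) hψ hψ₀χ hc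
    rw [isPBlock_eq_blockOf hMp hB' hχ, blockOf_eq_of_mem hMp h1]
  obtain ⟨P₁, hP₁⟩ := exists_defectGroup_of_isPBlock (p := p) hMp hB
  obtain ⟨-, -, hS3⟩ := Cfsg.Agent.S0970.result p M hM L (Cfsg.blockOf M ψ₀.1) hb hinvb
    (Cfsg.blockOf M χ₀.1) hB hcovB hmaxB P₁ hP₁
  have hdef₀ : Cfsg.blockDefect p (Cfsg.blockOf M θ.1) = 0 := by
    unfold Cfsg.blockDefect
    rw [Nat.factorization_eq_zero_of_not_dvd hpN, Nat.zero_sub]
  have hdefB : Cfsg.blockDefect p (Cfsg.blockOf M χ₀.1) = (Nat.card G).factorization p := by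
    rw [hS3, hfr3, hdef₀, zero_add]
    have h1 : Nat.card N * N.relIndex L = Nat.card L :=
      Cfsg.Agent.Lib.helper3.card_mul_relIndex_of_le hNL
    have h2 : Nat.card L * L.index = Nat.card G := Subgroup.card_mul_index L
    have hN0 : Nat.card N ≠ 0 := Nat.card_pos.ne'
    have hr0 : N.relIndex L ≠ 0 := by
      rw [hk]
      exact (pow_pos hp.pos k).ne'
    have hi0 : L.index ≠ 0 := Subgroup.index_ne_zero_of_finite
    rw [← h2, ← h1, Nat.factorization_mul (mul_ne_zero hN0 hr0) hi0,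
      Nat.factorization_mul hN0 hr0, Finsupp.add_apply, Finsupp.add_apply,
      Nat.factorization_eq_zero_of_not_dvd hpN, zero_add]
  have hcard : ∀ D' : Subgroup G, Cfsg.IsDefectGroup p M (Cfsg.blockOf M χ₀.1) D' →
      Nat.card D' = p ^ (Nat.card G).factorization p := by
    intro D' hD'
    rw [card_defectGroup p hM _ hB D' hD', hdefB]
  refine ⟨Cfsg.blockOf M χ₀.1, hB, hmem, ?_, ?_⟩
  · intro P
    obtain ⟨x, hx⟩ := MulAction.exists_smul_eq G (Sylow.ofCard P₁ (hcard P₁ hP₁)) P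
    have h1 := isDefectGroup_conj hP₁ x
    have h2 : P₁.map (MulAut.conj x).toMonoidHom = (P : Subgroup G) := by
      rw [← hx, Sylow.coe_subgroup_smul, Sylow.coe_ofCard]
      rfl
    rw [← h2]
    exact h1
  · intro D' hD'
    exact ⟨Sylow.ofCard D' (hcard D' hD'), (Sylow.coe_ofCard D' _).symm⟩

end fongtheta

end Cfsg.Agent.Lib.helper5
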