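import Mathlib
import Cfsg.Agent.Lib.helper5.FongTheta
import Cfsg.Agent.Lib.helper24.CycPow
import Cfsg.Agent.Lib.helper24.CharProj2
import Cfsg.Agent.Lib.helper24.CharGallagher2
import Cfsg.Agent.Lib.helper24.CharChief
import Cfsg.Agent.Lib.helper22.QuotDefect2
import Cfsg.Agent.Lib.helper3.PLocal
import Cfsg.Agent.Lib.helper3.PSolvQuad
import Cfsg.Agent.S4435
import Cfsg.Agent.S4436

set_option autoImplicit false

/-!
# Fong's theorem on heights in `p`-solvable groups

`fong_height`: in a `p`-solvable group the height of every character of a block with defect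
group `P` is at most the exponent of `p` in `|P : Z(P)|`.
-/

namespace Cfsg.Agent.Lib.helper5

open Cfsg.Agent.Lib.helper23 Cfsg.Agent.Lib.helper24
open scoped ComplexConjugate

universe u

section fongheight

variable {M : Ideal Cfsg.AlgInt} {p : ℕ} [Fact p.Prime]

/-- the blocks of a group of order prime to `p` are singletons -/
theorem eq_of_sameBlock_pPrime {H : Type u} [Group H] [Fintype H] (hM : Cfsg.IsPModular p M)
    (hpH : ¬ p ∣ Nat.card H) {θ θ' : Cfsg.IrrCharacter H}
    (h : Cfsg.SameBlock M θ.1 θ'.1) : θ = θ' := by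
  classical
  haveI : Fintype (⊤ : Subgroup H) := Fintype.ofFinite _
  haveI := Fintype.ofFinite (Cfsg.IrrCharacter H)
  haveI := Fintype.ofFinite (Cfsg.IrrCharacter (⊤ : Subgroup H))
  have hcard : ¬ p ∣ Nat.card (⊤ : Subgroup H) := by
    rw [Nat.card_congr (Subgroup.topEquiv : (⊤ : Subgroup H) ≃* H).toEquiv]
    exact hpH
  have h0 : Cfsg.classInner (fun n : (⊤ : Subgroup H) => θ.1 n)
      (irrMap (Subgroup.topEquiv : (⊤ : Subgroup H) ≃* H) θ).1 ≠ 0 := by
    have : (fun n : (⊤ : Subgroup H) => θ.1 n)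
        = (irrMap (Subgroup.topEquiv : (⊤ : Subgroup H) ≃* H) θ).1 := rfl
    rw [this, irr_inner_self]
    exact one_ne_zero
  have h1 := constituent_of_sameBlock_pPrime (⊤ : Subgroup H) hM hcard h
    (irrMap (Subgroup.topEquiv : (⊤ : Subgroup H) ≃* H) θ) h0
  by_contra hne
  apply h1
  have : (fun n : (⊤ : Subgroup H) => θ'.1 n)
      = (irrMap (Subgroup.topEquiv : (⊤ : Subgroup H) ≃* H) θ').1 := rfl
  rw [this]
  exact irr_inner_ne (fun h' => hne (irrMap_injective _ h').symm)

/-- the index of the centre is invariant under isomorphism -/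
theorem center_index_congr {A B : Type*} [Group A] [Group B] (e : A ≃* B) :
    (Subgroup.center A).index = (Subgroup.center B).index := by
  have h1 : (Subgroup.center B).comap e.toMonoidHom = Subgroup.center A := by
    ext x
    rw [Subgroup.mem_comap, Subgroup.mem_center_iff, Subgroup.mem_center_iff]
    constructor
    · intro h a
      apply e.injective
      have := h (e a)
      rw [map_mul, map_mul]
      exact this
    · intro h b
      obtain ⟨a, rfl⟩ := e.surjective b
      have := congrArg e (h a)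
      rw [map_mul, map_mul] at this
      exact this
  rw [← h1, Subgroup.index_comap_of_surjective _ e.surjective]


/-- the invariant case: a character over an invariant character of `O_{p'}(G)` has `p`-part of
its degree at most `|P : Z(P)|` -/
theorem degree_bound_invariant {G : Type u} [Group G] [Fintype G]
    (hsolv : Cfsg.IsPSolvable p G) (N : Subgroup G) [hN : N.Normal] [Fintype N]
    (hNdef : N = Cfsg.pPrimeCore p G) (θ : Cfsg.IrrCharacter N)
    (hinv : ∀ (g : G) (n : N), θ.1 ⟨g * n * g⁻¹, hN.conj_mem n n.2 g⟩ = θ.1 n)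
    (χ : Cfsg.IrrCharacter G) (hχ : Cfsg.classInner (fun n : N => χ.1 n) θ.1 ≠ 0)
    (P : Sylow p G) :
    (Cfsg.charDegree χ.1).factorization p ≤
      ((Subgroup.center (P : Subgroup G)).index).factorization p := by
  classical
  have hp : p.Prime := Fact.out
  have hcop : (Nat.card N).Coprime p := by
    subst hNdef
    exact Cfsg.Agent.Lib.helper9.pPrimeCore_coprime p G
  have hpN : ¬ p ∣ Nat.card N := by
    intro h
    have := Nat.Coprime.eq_one_of_dvd hcop.symm h
    exact hp.one_lt.ne' this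
  obtain ⟨L, hLn, hNL, ⟨k, hk⟩, hcent⟩ := exists_pPrimeP (p := p) hsolv N hNdef
  haveI := hLn
  -- a Sylow subgroup of `L` supplements `N`
  have hQN : ((P : Subgroup G) ⊓ L) ⊔ N = L := by
    have hle : ((P : Subgroup G) ⊓ L) ⊔ N ≤ L := sup_le inf_le_right hNL
    apply le_antisymm hle
    rw [← Subgroup.relIndex_eq_one]
    have h1 : (((P : Subgroup G) ⊓ L) ⊔ N).relIndex L ∣ p ^ k := by
      rw [← hk]
      exact Subgroup.relIndex_dvd_of_le_left L le_sup_right
    have h2 : (((P : Subgroup G) ⊓ L) ⊔ N).relIndex L ∣ (P : Subgroup G).index := by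
      have h3 : (((P : Subgroup G) ⊓ L) ⊔ N).relIndex L ∣ ((P : Subgroup G) ⊓ L).relIndex L :=
        Subgroup.relIndex_dvd_of_le_left L le_sup_left
      rw [Subgroup.inf_relIndex_right] at h3
      exact h3.trans
        (Cfsg.Agent.Lib.helper3.relIndex_dvd_index_of_normal_right (P : Subgroup G) L)
    obtain ⟨j, -, hj⟩ := (Nat.dvd_prime_pow hp).mp h1
    have hj0 : j = 0 := by
      by_contra hne
      apply P.not_dvd_index
      have h4 : p ∣ (((P : Subgroup G) ⊓ L) ⊔ N).relIndex L := by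
        rw [hj]
        exact dvd_pow_self p hne
      exact h4.trans h2
    rw [hj, hj0, pow_zero]
  -- the preimage `K` of the centre of `L / N`
  obtain ⟨K, hKdef⟩ : ∃ K : Subgroup G, K = L ⊓ (Subgroup.centralizer
      ((L.map (QuotientGroup.mk' N) : Subgroup (G ⧸ N)) : Set (G ⧸ N))).comap
        (QuotientGroup.mk' N) := ⟨_, rfl⟩
  have hmemK : ∀ x : G, x ∈ K ↔ x ∈ L ∧ ∀ l ∈ L,
      (QuotientGroup.mk' N) l * (QuotientGroup.mk' N) x =
        (QuotientGroup.mk' N) x * (QuotientGroup.mk' N) l := by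
    intro x
    rw [hKdef, Subgroup.mem_inf, Subgroup.mem_comap, Subgroup.mem_centralizer_iff]
    constructor
    · rintro ⟨h1, h2⟩
      exact ⟨h1, fun l hl => h2 _ (Subgroup.mem_map_of_mem _ hl)⟩
    · rintro ⟨h1, h2⟩
      refine ⟨h1, ?_⟩
      rintro _ ⟨l, hl, rfl⟩
      exact h2 l hl
  haveI hKn : K.Normal := by
    rw [hKdef]
    haveI : (L.map (QuotientGroup.mk' N)).Normal :=
      hLn.map _ (QuotientGroup.mk'_surjective N)
    infer_instance
  have hNK : N ≤ K := by
    intro n hn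
    rw [hmemK]
    refine ⟨hNL hn, fun l _ => ?_⟩
    have h0 : (QuotientGroup.mk' N) n = 1 := (QuotientGroup.eq_one_iff n).mpr hn
    rw [h0, mul_one, one_mul]
  have hKL : K ≤ L := fun x hx => ((hmemK x).mp hx).1
  have hZK : ∀ z ∈ (P : Subgroup G), (∀ y ∈ (P : Subgroup G), z * y = y * z) → z ∈ K := by
    intro z hz hzc
    rw [hmemK]
    have hzL : z ∈ L := by
      apply hcent _ hQN
      rw [Subgroup.mem_centralizer_iff]
      intro q hq
      exact (hzc q hq.1).symm
    refine ⟨hzL, fun l hl => ?_⟩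
    rw [← hQN] at hl
    obtain ⟨q, hq, n, hn, rfl⟩ := Subgroup.mem_sup_of_normal_right.mp hl
    have h0 : (QuotientGroup.mk' N) n = 1 := (QuotientGroup.eq_one_iff n).mpr hn
    rw [map_mul, h0, mul_one, ← map_mul, ← map_mul, hzc q hq.1]
  have hKcomm : ∀ a ∈ K, ∀ c ∈ K, a * c * a⁻¹ * c⁻¹ ∈ N := by
    intro a ha c hc
    have h1 := ((hmemK a).mp ha).2 c (hKL hc)
    rw [← QuotientGroup.eq_one_iff]
    have h2 : ((a * c * a⁻¹ * c⁻¹ : G) : G ⧸ N) =
        (QuotientGroup.mk' N) a * (QuotientGroup.mk' N) c * ((QuotientGroup.mk' N) a)⁻¹ *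
          ((QuotientGroup.mk' N) c)⁻¹ := by
      simp
    rw [h2, ← h1]
    group
  obtain ⟨j, hj⟩ : ∃ j : ℕ, N.relIndex K = p ^ j := by
    have h1 := Subgroup.relIndex_mul_relIndex N K L hNK hKL
    rw [hk] at h1
    obtain ⟨j, -, hj⟩ := (Nat.dvd_prime_pow hp).mp (Dvd.intro _ h1)
    exact ⟨j, hj⟩
  -- the extension of `θ` to `K`
  haveI : Fintype K := Fintype.ofFinite K
  haveI hN'n : (N.subgroupOf K).Normal := hN.subgroupOf K
  haveI : Fintype (N.subgroupOf K) := Fintype.ofFinite _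
  obtain ⟨e, he⟩ : ∃ e : N.subgroupOf K ≃* N, e = Subgroup.subgroupOfEquivOfLe hNK := ⟨_, rfl⟩
  have hecoe : ∀ n : N.subgroupOf K, ((e n : N) : G) = ((n : K) : G) := by
    intro n
    rw [he]
    rfl
  obtain ⟨d, hd1, hdN⟩ := irr_degree_dvd_card θ
  have hinv' : ∀ (g : K) (n : N.subgroupOf K),
      (irrMap e θ).1 ⟨g * n * g⁻¹, hN'n.conj_mem n n.2 g⟩ = (irrMap e θ).1 n := by
    intro g n
    rw [irrMap_apply, irrMap_apply]
    have h1 := hinv (g : G) (e n)
    rw [← h1]
    refine congrArg θ.1 (Subtype.ext ?_)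
    rw [hecoe]
    show (g : G) * ((n : K) : G) * (g : G)⁻¹ = (g : G) * ((e n : N) : G) * (g : G)⁻¹
    rw [hecoe]
  have hd' : (irrMap e θ).1 1 = (d : ℂ) := by
    rw [irrMap_apply, map_one, hd1]
  have hcop' : Nat.Coprime (N.subgroupOf K).index (Cfsg.detOrder (irrMap e θ).1 * d) := by
    have h1 : (N.subgroupOf K).index = p ^ j := hj
    rw [h1]
    apply Nat.Coprime.pow_left
    rw [Nat.Prime.coprime_iff_not_dvd hp]
    intro hdvd
    rcases (Nat.Prime.dvd_mul hp).mp hdvd with h | h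
    · apply hpN
      have h2 := detOrder_dvd_card (χ := (irrMap e θ).1)
        (isCharacter_of_isIrrCharacter (irrMap e θ).2)
      rw [Nat.card_congr e.toEquiv] at h2
      exact h.trans h2
    · exact hpN (h.trans hdN)
  obtain ⟨η, ⟨hη, hηN, -⟩, -⟩ := ext_coprime_unique (N.subgroupOf K) (irrMap e θ).1
    (irrMap e θ).2 hinv' d hd' hcop'
  -- a constituent of `χ` on `K` over `θ`
  obtain ⟨ψ, hψχ, hψθ⟩ := exists_middle_constituent N K hNK χ θ hχ
  have hηN' : (fun n : N.subgroupOf K => η n) = (irrMap e θ).1 := funext hηN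
  have hηirr : Cfsg.IsIrrCharacter (N.subgroupOf K) (fun n : N.subgroupOf K => η n) := by
    rw [hηN']
    exact (irrMap e θ).2
  have hgal := gallagher_quotient (N.subgroupOf K) η hη hηirr
  have hψmem : ψ.1 ∈ {ψ' : K → ℂ | Cfsg.IsIrrCharacter K ψ' ∧
      Cfsg.classInner (fun n : N.subgroupOf K => ψ' n) (fun n : N.subgroupOf K => η n) ≠ 0} := by
    refine ⟨ψ.2, ?_⟩
    rw [hηN']
    have h3 := classInner_comp_equiv e (fun n : N => ψ.1 ⟨(n : G), hNK n.2⟩) θ.1
    have h4 : ((fun n : N => ψ.1 ⟨(n : G), hNK n.2⟩) ∘ e) =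
        (fun n : N.subgroupOf K => ψ.1 n) := by
      funext n
      show ψ.1 ⟨((e n : N) : G), _⟩ = ψ.1 n
      exact congrArg ψ.1 (Subtype.ext (hecoe n))
    rw [h4] at h3
    have h5 : (θ.1 ∘ e) = (irrMap e θ).1 := rfl
    rw [h5] at h3
    rw [h3]
    exact hψθ
  obtain ⟨β, ⟨hβ, hβN⟩, hβψ⟩ := hgal.surjOn hψmem
  have hβ1 : β 1 = 1 := by
    apply irr_linear_of_commutator_le_ker hβ
    intro c hc
    apply hβN
    have hle : commutator K ≤ N.subgroupOf K := by
      rw [commutator_def, Subgroup.commutator_le]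
      intro a _ c' _
      rw [Subgroup.mem_subgroupOf]
      have := hKcomm a a.2 c' c'.2
      rw [commutatorElement_def]
      exact this
    exact hle hc
  have hψ1 : ψ.1 1 = (d : ℂ) := by
    have h1 : ψ.1 1 = β 1 * η 1 := by
      rw [← hβψ]
      rfl
    rw [h1, hβ1, one_mul]
    have h2 := hηN 1
    rw [hd'] at h2
    exact h2
  -- Isaacs 11.29
  obtain ⟨hdc, hcd⟩ := degree_ratio_dvd_index K χ.1 χ.2 ψ.1 ψ.2 hψχ (Cfsg.charDegree χ.1) d
    (charDegree_cast χ).symm hψ1
  have hc0 : Cfsg.charDegree χ.1 ≠ 0 := (charDegree_pos χ).ne'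
  have hd0 : d ≠ 0 := by
    rintro rfl
    rw [zero_dvd_iff] at hdc
    exact hc0 hdc
  have hq0 : Cfsg.charDegree χ.1 / d ≠ 0 := by
    intro h0
    have := Nat.div_mul_cancel hdc
    rw [h0, zero_mul] at this
    exact hc0 this.symm
  have hdp : d.factorization p = 0 :=
    Nat.factorization_eq_zero_of_not_dvd (fun h => hpN (h.trans hdN))
  have hstep1 : (Cfsg.charDegree χ.1).factorization p ≤ K.index.factorization p := by
    have h1 : Cfsg.charDegree χ.1 = Cfsg.charDegree χ.1 / d * d := (Nat.div_mul_cancel hdc).symm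
    rw [h1, Nat.factorization_mul hq0 hd0, Finsupp.add_apply, hdp, add_zero]
    exact (Nat.factorization_le_iff_dvd hq0 Subgroup.index_ne_zero_of_finite).mpr hcd p
  -- compare the indices
  have hstep2 : K.index.factorization p ≤ (K.relIndex (P : Subgroup G)).factorization p := by
    have h1 := Subgroup.relIndex_mul_index (inf_le_left : K ⊓ (P : Subgroup G) ≤ K)
    have h2 := Subgroup.relIndex_mul_index (inf_le_right : K ⊓ (P : Subgroup G) ≤ (P : Subgroup G))
    rw [Subgroup.inf_relIndex_right] at h2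
    have h3 : K.index ∣ K.relIndex (P : Subgroup G) * (P : Subgroup G).index := by
      rw [h2, ← h1]
      exact Dvd.intro_left _ rfl
    have hr0 : K.relIndex (P : Subgroup G) ≠ 0 :=
      (Subgroup.index_ne_zero_of_finite : (K.subgroupOf (P : Subgroup G)).index ≠ 0)
    have hP0 : (P : Subgroup G).index ≠ 0 := Subgroup.index_ne_zero_of_finite
    have h4 := (Nat.factorization_le_iff_dvd Subgroup.index_ne_zero_of_finite
      (mul_ne_zero hr0 hP0)).mpr h3 p
    rw [Nat.factorization_mul hr0 hP0, Finsupp.add_apply,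
      Nat.factorization_eq_zero_of_not_dvd P.not_dvd_index, add_zero] at h4
    exact h4
  have hstep3 : (K.relIndex (P : Subgroup G)).factorization p ≤
      ((Subgroup.center (P : Subgroup G)).index).factorization p := by
    have hle : Subgroup.center (P : Subgroup G) ≤ K.subgroupOf (P : Subgroup G) := by
      intro z hz
      rw [Subgroup.mem_subgroupOf]
      apply hZK (z : G) z.2
      intro y hy
      have := Subgroup.mem_center_iff.mp hz ⟨y, hy⟩
      have h2 := congrArg (Subtype.val) this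
      exact h2.symm
    have h1 : (K.subgroupOf (P : Subgroup G)).index ∣ (Subgroup.center (P : Subgroup G)).index :=
      Subgroup.index_dvd_of_le hle
    exact (Nat.factorization_le_iff_dvd
      (Subgroup.index_ne_zero_of_finite : (K.subgroupOf (P : Subgroup G)).index ≠ 0)
      Subgroup.index_ne_zero_of_finite).mpr h1 p
  exact hstep1.trans (hstep2.trans hstep3)


/-- **Fong**: heights in blocks of `p`-solvable groups are bounded by `|P : Z(P)|` -/
theorem fong_height (hM : Cfsg.IsPModular p M) : ∀ n : ℕ, ∀ (G : Type u) [Group G] [Finite G],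
    Nat.card G = n → Cfsg.IsPSolvable p G → ∀ B : Set (Cfsg.IrrCharacter G),
    Cfsg.IsPBlock M B → ∀ P : Subgroup G, Cfsg.IsDefectGroup p M B P →
    ∀ χ : Cfsg.IrrCharacter G, χ ∈ B →
    Cfsg.blockHeight p B χ.1 ≤ ((Subgroup.center P).index).factorization p := by
  intro n
  induction n using Nat.strong_induction_on with
  | _ n ih =>
  intro G _ _ hn hsolv B hB P hP χ hχ
  classical
  haveI : Fintype G := Fintype.ofFinite G
  haveI := Fintype.ofFinite (Cfsg.IrrCharacter G)
  have hMp := isPModular_isPrime hM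
  have hp : p.Prime := Fact.out
  obtain ⟨N, hNdef⟩ : ∃ N : Subgroup G, N = Cfsg.pPrimeCore p G := ⟨_, rfl⟩
  haveI hN : N.Normal := by
    rw [hNdef]
    exact Cfsg.Agent.Lib.helper9.ppc_normal p G
  haveI : Fintype N := Fintype.ofFinite N
  haveI := Fintype.ofFinite (Cfsg.IrrCharacter N)
  have hcop : (Nat.card N).Coprime p := by
    rw [hNdef]
    exact Cfsg.Agent.Lib.helper9.pPrimeCore_coprime p G
  have hpN : ¬ p ∣ Nat.card N := by
    intro h
    have := Nat.Coprime.eq_one_of_dvd hcop.symm h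
    exact hp.one_lt.ne' this
  obtain ⟨θ, hθ⟩ := exists_constituent_restrict N χ
  have hb : Cfsg.IsPBlock M (Cfsg.blockOf M θ.1) := ⟨θ, rfl⟩
  obtain ⟨T, hTdef⟩ : ∃ T : Subgroup G, T = stabSub N hMp (Cfsg.blockOf M θ.1) hb := ⟨_, rfl⟩
  have hT : IsStabOf N T (Cfsg.blockOf M θ.1) := by
    rw [hTdef]
    exact isStabOf_stabSub N hMp _ hb
  have hNT : N ≤ T := by
    rw [hTdef]
    exact le_stabSub N hMp _ hb
  by_cases hTtop : T = ⊤
  · have hinv : ∀ (g : G) (n : N), θ.1 ⟨g * n * g⁻¹, hN.conj_mem n n.2 g⟩ = θ.1 n := by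
      intro g n
      have hg : g ∈ stabSub N hMp (Cfsg.blockOf M θ.1) hb := by
        rw [← hTdef, hTtop]
        exact Subgroup.mem_top g
      have h1 : conjIrr N g θ ∈ Cfsg.blockOf M θ.1 := hg θ (mem_blockOf_self hMp.ne_top θ)
      have h2 : θ = conjIrr N g θ := eq_of_sameBlock_pPrime hM hpN h1
      have h3 : (conjIrr N g θ).1 n = θ.1 ⟨g * n * g⁻¹, hN.conj_mem n n.2 g⟩ := rfl
      rw [← h3, ← h2]
    obtain ⟨B₀, hB₀, hmem, -, hdefsyl⟩ := fong_theta hM hsolv N hNdef θ hinv
    have hχB₀ : χ ∈ B₀ := (hmem χ).mpr hθ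
    have hBB₀ : B = B₀ := by
      rw [isPBlock_eq_blockOf hMp hB hχ, isPBlock_eq_blockOf hMp hB₀ hχB₀]
    rw [hBB₀] at hP
    obtain ⟨P', rfl⟩ := hdefsyl P hP
    have h1 := degree_bound_invariant hsolv N hNdef θ hinv χ hθ P'
    exact (Nat.sub_le _ _).trans h1
  · haveI : Fintype T := Fintype.ofFinite T
    haveI := Fintype.ofFinite (Cfsg.IrrCharacter T)
    obtain ⟨h1, -, h3⟩ := Cfsg.Agent.S4435.result p M hM N (Cfsg.blockOf M θ.1) hb T hT hNT
    obtain ⟨B', hB', hcov', hind⟩ := h3 B hB ⟨χ, hχ, θ, mem_blockOf_self hMp.ne_top θ, hθ⟩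
    obtain ⟨B₂, hind₂, -, -, hmemB₂⟩ := h1 B' hB' hcov'
    have hB₂ : B₂ = B := induced_unique hMp hind₂ hind
    rw [hB₂] at hmemB₂
    obtain ⟨ψ, hψ, hχψ⟩ := (hmemB₂ χ).mp hχ
    obtain ⟨hdef, hht⟩ := Cfsg.Agent.S4436.result p M hM N (Cfsg.blockOf M θ.1) hb T hT hNT
      B' hB' hcov' B hind
    obtain ⟨χ', hχ', hχ'ψ, hheight⟩ := hht ψ hψ
    have hχχ' : χ' = χ := Subtype.ext (hχ'ψ.trans hχψ.symm)
    rw [hχχ'] at hheight
    obtain ⟨D, hD⟩ := exists_defectGroup_of_isPBlock (p := p) hMp hB'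
    have hDG := hdef D hD
    have hlt : Nat.card T < n := by
      rw [← hn]
      by_contra hge
      push Not at hge
      exact hTtop (T.eq_top_of_card_eq
        (le_antisymm (Subgroup.card_le_card_group T) hge))
    have hIH := ih (Nat.card T) hlt T rfl
      (Cfsg.Agent.Lib.helper3.isPSolvable_subgroup T hsolv) B' hB' D hD ψ hψ
    rw [hheight]
    have hBeq := isPBlock_eq_blockOf hMp hB hχ
    rw [hBeq] at hDG hP
    obtain ⟨y, hy⟩ := Cfsg.Agent.Lib.helper22.defectGroup_conj_of hM χ hDG hP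
    subst hy
    have e1 : D ≃* D.map T.subtype :=
      Subgroup.equivMapOfInjective D T.subtype T.subtype_injective
    have e2 : D.map T.subtype ≃* (D.map T.subtype).map (MulAut.conj y).toMonoidHom :=
      Subgroup.equivMapOfInjective _ _ (MulAut.conj y).injective
    rw [← center_index_congr (e1.trans e2)]
    exact hIH

end fongheight

end Cfsg.Agent.Lib.helper5
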