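import Mathlib
import Cfsg.Agent.Lib.helper5.FongTheta
import Cfsg.Agent.Lib.helper16.PConstr
import Cfsg.Agent.Lib.helper15.PCore
import Cfsg.Agent.Lib.helper24.GlaubP2

set_option autoImplicit false

/-!
# Fong's theorem for `p`-constrained groups

* `fong_theta_core`: the abstract form of `fong_theta`.
* `fong_pc`: in a `p`-constrained group the characters over an invariant character of
  `O_{p'}(G)` form one block with Sylow defect groups.
* `isPConstrained_of_sylow`: `p`-constraint from one Sylow `p`-subgroup of `O_{p',p}(G)`.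
* `coord_extend_eq`: central characters at invariant central elements of a normal subgroup.
-/

namespace Cfsg.Agent.Lib.helper5

open Cfsg.Agent.Lib.helper23 Cfsg.Agent.Lib.helper24
open scoped ComplexConjugate

universe u

section fongpc

variable {G : Type u} [Group G] [Fintype G]
variable {M : Ideal Cfsg.AlgInt} {p : ℕ} [Fact p.Prime]

/-- **Fong**, abstract form: `N` a normal `p'`-subgroup, `L/N` a normal `p`-subgroup of `G/N`
such that every `p`-subgroup `R` with `R N = L` has `C_G(R) ≤ L`; then the characters over an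
invariant `θ ∈ Irr(N)` form one block, with the Sylow `p`-subgroups as defect groups -/
theorem fong_theta_core (hM : Cfsg.IsPModular p M)
    (N : Subgroup G) [hN : N.Normal] [Fintype N] (hcop : (Nat.card N).Coprime p)
    (L : Subgroup G) (hLn : L.Normal) (hNL : N ≤ L) (hk' : ∃ k : ℕ, N.relIndex L = p ^ k)
    (hcent : ∀ R : Subgroup G, IsPGroup p R → R ⊔ N = L →
      Subgroup.centralizer (R : Set G) ≤ L)
    (θ : Cfsg.IrrCharacter N)
    (hinv : ∀ (g : G) (n : N), θ.1 ⟨g * n * g⁻¹, hN.conj_mem n n.2 g⟩ = θ.1 n) :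
    ∃ B : Set (Cfsg.IrrCharacter G), Cfsg.IsPBlock M B ∧
      (∀ χ : Cfsg.IrrCharacter G, χ ∈ B ↔ Cfsg.classInner (fun n : N => χ.1 n) θ.1 ≠ 0) ∧
      (∀ P : Sylow p G, Cfsg.IsDefectGroup p M B (P : Subgroup G)) ∧
      ∀ D : Subgroup G, Cfsg.IsDefectGroup p M B D → ∃ P : Sylow p G, D = (P : Subgroup G) := by
  classical
  haveI := Fintype.ofFinite (Cfsg.IrrCharacter G)
  haveI := Fintype.ofFinite (Cfsg.IrrCharacter N)
  have hMp := isPModular_isPrime hM
  have hp : p.Prime := Fact.out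
  have hpN : ¬ p ∣ Nat.card N := by
    intro h
    have := Nat.Coprime.eq_one_of_dvd hcop.symm h
    exact hp.one_lt.ne' this
  obtain ⟨k, hk⟩ := hk'
  haveI := hLn
  haveI : Fintype L := Fintype.ofFinite L
  haveI := Fintype.ofFinite (Cfsg.IrrCharacter L)
  -- the characters
  obtain ⟨χ₀, hχ₀⟩ := exists_irr_over N θ
  obtain ⟨ψ₀, hψ₀χ, hψ₀θ⟩ := exists_middle_constituent N L hNL χ₀ θ hχ₀
  have hb₀ : Cfsg.IsPBlock M (Cfsg.blockOf M θ.1) := ⟨θ, rfl⟩
  have hb : Cfsg.IsPBlock M (Cfsg.blockOf M ψ₀.1) := ⟨ψ₀, rfl⟩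
  have hB : Cfsg.IsPBlock M (Cfsg.blockOf M χ₀.1) := ⟨χ₀, rfl⟩
  have hcov₀ : CovRel N L hNL (Cfsg.blockOf M θ.1) (Cfsg.blockOf M ψ₀.1) :=
    ⟨ψ₀, mem_blockOf_self hMp.ne_top ψ₀, θ, mem_blockOf_self hMp.ne_top θ, hψ₀θ⟩
  -- uniqueness at the level of `L`
  have hLuniq' : ∀ b' : Set (Cfsg.IrrCharacter L), Cfsg.IsPBlock M b' →
      CovRel N L hNL (Cfsg.blockOf M θ.1) b' → b' = Cfsg.blockOf M ψ₀.1 := by
    intro b' hb' hc
    exact unique_cover_rel hM N L hNL ⟨k, hk⟩ (Cfsg.blockOf M θ.1) hb₀ b'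
      (Cfsg.blockOf M ψ₀.1) hb' hb hc hcov₀
  have hLuniq : ∀ ψ : Cfsg.IrrCharacter L,
      Cfsg.classInner (fun n : N => ψ.1 ⟨(n : G), hNL n.2⟩) θ.1 ≠ 0 →
      ψ ∈ Cfsg.blockOf M ψ₀.1 := by
    intro ψ hψ
    have := hLuniq' (Cfsg.blockOf M ψ.1) ⟨ψ, rfl⟩
      ⟨ψ, mem_blockOf_self hMp.ne_top ψ, θ, mem_blockOf_self hMp.ne_top θ, hψ⟩
    rw [← this]
    exact mem_blockOf_self hMp.ne_top ψ
  -- a defect group of `b`
  obtain ⟨D, hD⟩ := exists_defectGroup_of_isPBlock (p := p) hMp hb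
  have hnorm : L ≤ Subgroup.normalizer (N : Set G) := by
    rw [Subgroup.normalizer_eq_top]
    exact le_top
  have hinv' : ∀ t ∈ L, Cfsg.StabilizesBlock N (Cfsg.blockOf M θ.1) t := by
    intro t _
    rw [stabilizesBlock_iff]
    intro θ' hθ'
    have h1 : Cfsg.SameBlock M (helper24.conjFun N θ.1 t⁻¹) (helper24.conjFun N θ'.1 t⁻¹) :=
      sameBlock_conjFun N t⁻¹ hθ'
    have h2 : helper24.conjFun N θ.1 t⁻¹ = θ.1 := by
      funext n
      exact hinv t⁻¹ n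
    rw [h2] at h1
    exact h1
  have hmax₀ : ∀ B'' : Set (Cfsg.IrrCharacter L), Cfsg.IsPBlock M B'' →
      CovRel N L hNL (Cfsg.blockOf M θ.1) B'' →
      Cfsg.blockDefect p B'' ≤ Cfsg.blockDefect p (Cfsg.blockOf M ψ₀.1) := by
    intro B'' hB'' hc
    rw [hLuniq' B'' hB'' hc]
  obtain ⟨hfr1, -, hfr3⟩ := fong_rel hM N L hNL hnorm (Cfsg.blockOf M θ.1) hb₀ hinv'
    (Cfsg.blockOf M ψ₀.1) hb hcov₀ hmax₀ D hD
  have hRN : (D.map L.subtype) ⊔ N = L := by
    have hle : (D.map L.subtype) ⊔ N ≤ L := sup_le (Subgroup.map_subtype_le _) hNL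
    apply le_antisymm hle
    have h1 := Subgroup.relIndex_mul_relIndex N ((D.map L.subtype) ⊔ N) L le_sup_right hle
    rw [hk] at h1
    have h2 : ((D.map L.subtype) ⊔ N).relIndex L ∣ p ^ k := Dvd.intro_left _ h1
    obtain ⟨j, -, hj⟩ := (Nat.dvd_prime_pow hp).mp h2
    have hj0 : j = 0 := by
      by_contra hne
      apply hfr1
      rw [hj]
      exact dvd_pow_self p hne
    rw [hj0, pow_zero] at hj
    exact Subgroup.relIndex_eq_one.mp hj
  have hC : Subgroup.centralizer ((D.map L.subtype : Subgroup G) : Set G) ≤ L := hcent _ ((isPGroup_of_isDefectGroup hD).map _) hRN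
  have hU := sameBlock_of_cover_centralizer hM L (Cfsg.blockOf M ψ₀.1) hb D hD hC
  -- membership
  have hmem : ∀ χ : Cfsg.IrrCharacter G, χ ∈ Cfsg.blockOf M χ₀.1 ↔
      Cfsg.classInner (fun n : N => χ.1 n) θ.1 ≠ 0 := by
    intro χ
    constructor
    · intro h
      exact constituent_of_sameBlock_pPrime N hM hpN h θ hχ₀
    · intro h
      obtain ⟨ψ, hψχ, hψθ⟩ := exists_middle_constituent N L hNL χ θ h
      exact hU χ₀ χ ψ₀ ψ (mem_blockOf_self hMp.ne_top ψ₀) (hLuniq ψ hψθ) hψ₀χ hψχ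
  -- invariance of `b`
  have hconjθ : ∀ (g : G) (ψ : Cfsg.IrrCharacter L),
      Cfsg.classInner (fun n : N => (conjIrr L g ψ).1 ⟨(n : G), hNL n.2⟩) θ.1 =
      Cfsg.classInner (fun n : N => ψ.1 ⟨(n : G), hNL n.2⟩) θ.1 := by
    intro g ψ
    unfold Cfsg.classInner
    congr 1
    rw [← Equiv.sum_comp (MulAut.conjNormal g : N ≃* N).toEquiv
      (fun n : N => ψ.1 ⟨(n : G), hNL n.2⟩ * conj (θ.1 n))]
    apply Finset.sum_congr rfl
    intro n _
    have h1 : θ.1 (MulAut.conjNormal g n) = θ.1 n := hinv g n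
    show (conjIrr L g ψ).1 ⟨(n : G), hNL n.2⟩ * conj (θ.1 n) =
      ψ.1 ⟨((MulAut.conjNormal g n : N) : G), hNL (MulAut.conjNormal g n).2⟩ *
        conj (θ.1 (MulAut.conjNormal g n))
    rw [h1, conjIrr_val]
    rfl
  have hinvb : ∀ g : G, ∀ ψ ∈ Cfsg.blockOf M ψ₀.1, ∀ ψ' : Cfsg.IrrCharacter L,
      (∀ n : L, ψ'.1 n = ψ.1 ⟨g * n * g⁻¹, hLn.conj_mem n n.2 g⟩) →
      ψ' ∈ Cfsg.blockOf M ψ₀.1 := by
    intro g ψ hψ ψ' hψ'
    have h1 : conjIrr L g ψ₀ ∈ Cfsg.blockOf M ψ₀.1 := by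
      apply hLuniq
      rw [hconjθ]
      exact hψ₀θ
    have h2 : Cfsg.SameBlock M (helper24.conjFun L ψ₀.1 g) (helper24.conjFun L ψ.1 g) :=
      sameBlock_conjFun L g hψ
    have h3 : helper24.conjFun L ψ.1 g = ψ'.1 := by
      funext n
      exact (hψ' n).symm
    rw [h3] at h2
    have h4 : Cfsg.SameBlock M ψ₀.1 (conjIrr L g ψ₀).1 := h1
    rw [conjIrr_val] at h4
    exact sameBlock_trans hMp h4 h2
  have hcovB : ∃ χ ∈ Cfsg.blockOf M χ₀.1, ∃ ψ ∈ Cfsg.blockOf M ψ₀.1,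
      Cfsg.classInner (fun n : L => χ.1 n) ψ.1 ≠ 0 :=
    ⟨χ₀, mem_blockOf_self hMp.ne_top χ₀, ψ₀, mem_blockOf_self hMp.ne_top ψ₀, hψ₀χ⟩
  have hmaxB : ∀ B' : Set (Cfsg.IrrCharacter G), Cfsg.IsPBlock M B' →
      (∃ χ ∈ B', ∃ ψ ∈ Cfsg.blockOf M ψ₀.1, Cfsg.classInner (fun n : L => χ.1 n) ψ.1 ≠ 0) →
      Cfsg.blockDefect p B' ≤ Cfsg.blockDefect p (Cfsg.blockOf M χ₀.1) := by
    rintro B' hB' ⟨χ, hχ, ψ, hψ, hc⟩
    have h1 : χ ∈ Cfsg.blockOf M χ₀.1 :=
      hU χ₀ χ ψ₀ ψ (mem_blockOf_self hMp.ne_top ψ₀) hψ hψ₀χ hc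
    rw [isPBlock_eq_blockOf hMp hB' hχ, blockOf_eq_of_mem hMp h1]
  obtain ⟨P₁, hP₁⟩ := exists_defectGroup_of_isPBlock (p := p) hMp hB
  obtain ⟨-, -, hS3⟩ := Cfsg.Agent.S0970.result p M hM L (Cfsg.blockOf M ψ₀.1) hb hinvb
    (Cfsg.blockOf M χ₀.1) hB hcovB hmaxB P₁ hP₁
  have hdef₀ : Cfsg.blockDefect p (Cfsg.blockOf M θ.1) = 0 := by
    unfold Cfsg.blockDefect
    rw [Nat.factorization_eq_zero_of_not_dvd hpN, Nat.zero_sub]
  have hdefB : Cfsg.blockDefect p (Cfsg.blockOf M χ₀.1) = (Nat.card G).factorization p := by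
    rw [hS3, hfr3, hdef₀, zero_add]
    have h1 : Nat.card N * N.relIndex L = Nat.card L :=
      Cfsg.Agent.Lib.helper3.card_mul_relIndex_of_le hNL
    have h2 : Nat.card L * L.index = Nat.card G := Subgroup.card_mul_index L
    have hN0 : Nat.card N ≠ 0 := Nat.card_pos.ne'
    have hr0 : N.relIndex L ≠ 0 := by
      rw [hk]
      exact (pow_pos hp.pos k).ne'
    have hi0 : L.index ≠ 0 := Subgroup.index_ne_zero_of_finite
    rw [← h2, ← h1, Nat.factorization_mul (mul_ne_zero hN0 hr0) hi0,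
      Nat.factorization_mul hN0 hr0, Finsupp.add_apply, Finsupp.add_apply,
      Nat.factorization_eq_zero_of_not_dvd hpN, zero_add]
  have hcard : ∀ D' : Subgroup G, Cfsg.IsDefectGroup p M (Cfsg.blockOf M χ₀.1) D' →
      Nat.card D' = p ^ (Nat.card G).factorization p := by
    intro D' hD'
    rw [card_defectGroup p hM _ hB D' hD', hdefB]
  refine ⟨Cfsg.blockOf M χ₀.1, hB, hmem, ?_, ?_⟩
  · intro P
    obtain ⟨x, hx⟩ := MulAction.exists_smul_eq G (Sylow.ofCard P₁ (hcard P₁ hP₁)) P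
    have h1 := isDefectGroup_conj hP₁ x
    have h2 : P₁.map (MulAut.conj x).toMonoidHom = (P : Subgroup G) := by
      rw [← hx, Sylow.coe_subgroup_smul, Sylow.coe_ofCard]
      rfl
    rw [← h2]
    exact h1
  · intro D' hD'
    exact ⟨Sylow.ofCard D' (hcard D' hD'), (Sylow.coe_ofCard D' _).symm⟩

omit [Fintype G] in
/-- a subgroup `R` with `R N = L`, `N` a normal `p'`-subgroup, has index prime to `p` in `L` -/
theorem not_dvd_relIndex_of_sup_eq [Finite G] (N : Subgroup G) [N.Normal]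
    (hcop : (Nat.card N).Coprime p) (L R : Subgroup G) (hRN : R ⊔ N = L) :
    ¬ p ∣ R.relIndex L := by
  have hRL : R ≤ L := hRN ▸ le_sup_left
  have h1 := Cfsg.Agent.Lib.helper3.card_mul_relIndex_of_le hRL
  have h2 := Cfsg.Agent.Lib.helper3.card_sup_mul_card_inf_of_normal R N
  rw [hRN, ← h1] at h2
  have h3 : R.relIndex L * Nat.card (R ⊓ N : Subgroup G) = Nat.card N := by
    have hR0 : 0 < Nat.card R := Nat.card_pos
    apply Nat.eq_of_mul_eq_mul_left hR0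
    rw [← mul_assoc]
    exact h2
  intro hdvd
  have h4 : p ∣ Nat.card N := h3 ▸ Dvd.dvd.mul_right hdvd _
  have := Nat.Coprime.eq_one_of_dvd hcop.symm h4
  exact (Fact.out : p.Prime).one_lt.ne' this

/-- **Fong** for `p`-constrained groups -/
theorem fong_pc (hM : Cfsg.IsPModular p M) (hpc : Cfsg.IsPConstrained p G)
    (N : Subgroup G) [hN : N.Normal] [Fintype N] (hNdef : N = Cfsg.pPrimeCore p G)
    (θ : Cfsg.IrrCharacter N)
    (hinv : ∀ (g : G) (n : N), θ.1 ⟨g * n * g⁻¹, hN.conj_mem n n.2 g⟩ = θ.1 n) :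
    ∃ B : Set (Cfsg.IrrCharacter G), Cfsg.IsPBlock M B ∧
      (∀ χ : Cfsg.IrrCharacter G, χ ∈ B ↔ Cfsg.classInner (fun n : N => χ.1 n) θ.1 ≠ 0) ∧
      (∀ P : Sylow p G, Cfsg.IsDefectGroup p M B (P : Subgroup G)) ∧
      ∀ D : Subgroup G, Cfsg.IsDefectGroup p M B D → ∃ P : Sylow p G, D = (P : Subgroup G) := by
  have hcop : (Nat.card N).Coprime p := by
    subst hNdef
    exact Cfsg.Agent.Lib.helper9.pPrimeCore_coprime p G
  have hLn : (Cfsg.pPrimePCore p G).Normal := Cfsg.Agent.Lib.helper16.pPrimePCore_normal p G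
  have hNL : N ≤ Cfsg.pPrimePCore p G := by
    subst hNdef
    exact Cfsg.Agent.Lib.helper16.pPrimeCore_le_pPrimePCore
  have hk : ∃ k : ℕ, N.relIndex (Cfsg.pPrimePCore p G) = p ^ k := by
    subst hNdef
    have hOp : IsPGroup p (Cfsg.pCore p (G ⧸ Cfsg.pPrimeCore p G)) :=
      Cfsg.Agent.Lib.helper15.pCore_isPGroup p _
    obtain ⟨k, hk⟩ := IsPGroup.iff_card.mp hOp
    refine ⟨k, ?_⟩
    have h2 := Subgroup.relIndex_comap (⊥ : Subgroup (G ⧸ Cfsg.pPrimeCore p G))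
      (QuotientGroup.mk' (Cfsg.pPrimeCore p G))
      ((Cfsg.pCore p (G ⧸ Cfsg.pPrimeCore p G)).comap (QuotientGroup.mk' (Cfsg.pPrimeCore p G)))
    rw [Subgroup.map_comap_eq_self_of_surjective (QuotientGroup.mk'_surjective _),
      Subgroup.relIndex_bot_left, MonoidHom.comap_bot, QuotientGroup.ker_mk'] at h2
    rw [← hk]
    exact h2
  refine fong_theta_core hM N hcop _ hLn hNL hk ?_ θ hinv
  intro R hR hRN
  have hnd : ¬ p ∣ (R.subgroupOf (Cfsg.pPrimePCore p G)).index :=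
    not_dvd_relIndex_of_sup_eq N hcop _ R hRN
  have hRL : R ≤ Cfsg.pPrimePCore p G := hRN ▸ le_sup_left
  have hR' : IsPGroup p (R.subgroupOf (Cfsg.pPrimePCore p G)) := hR.comap_subtype
  have h1 := hpc (hR'.toSylow hnd)
  have e : ((hR'.toSylow hnd : Sylow p (Cfsg.pPrimePCore p G)) :
      Subgroup (Cfsg.pPrimePCore p G)) = R.subgroupOf (Cfsg.pPrimePCore p G) :=
    IsPGroup.toSylow_coe hR' hnd
  rw [e, Subgroup.map_subgroupOf_eq_of_le hRL] at h1
  exact h1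

omit [Fintype G] in
/-- `p`-constraint can be checked on one Sylow `p`-subgroup of `O_{p',p}(G)` -/
theorem isPConstrained_of_sylow [Finite G] (Q : Subgroup G)
    (hQL : Q ≤ Cfsg.pPrimePCore p G) (hQp : IsPGroup p Q)
    (hQS : ¬ p ∣ Q.relIndex (Cfsg.pPrimePCore p G))
    (hCQ : Subgroup.centralizer (Q : Set G) ≤ Cfsg.pPrimePCore p G) :
    Cfsg.IsPConstrained p G := by
  intro P
  have hLn : (Cfsg.pPrimePCore p G).Normal := Cfsg.Agent.Lib.helper16.pPrimePCore_normal p G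
  have hQ' : IsPGroup p (Q.subgroupOf (Cfsg.pPrimePCore p G)) := hQp.comap_subtype
  have hQS' : ¬ p ∣ (Q.subgroupOf (Cfsg.pPrimePCore p G)).index := hQS
  obtain ⟨l, hl⟩ := MulAction.exists_smul_eq (Cfsg.pPrimePCore p G) (hQ'.toSylow hQS') P
  have e0 : ((hQ'.toSylow hQS' : Sylow p (Cfsg.pPrimePCore p G)) :
      Subgroup (Cfsg.pPrimePCore p G)) = Q.subgroupOf (Cfsg.pPrimePCore p G) :=
    IsPGroup.toSylow_coe hQ' hQS'
  have e : (P : Subgroup (Cfsg.pPrimePCore p G))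
      = (Q.subgroupOf (Cfsg.pPrimePCore p G)).map (MulAut.conj l).toMonoidHom := by
    rw [← hl, Sylow.coe_subgroup_smul, e0]
    rfl
  intro x hx
  have h1 : (l : G)⁻¹ * x * l ∈ Subgroup.centralizer (Q : Set G) := by
    rw [Subgroup.mem_centralizer_iff]
    intro q hq
    have hq' : (l : G) * q * (l : G)⁻¹ ∈
        (P : Subgroup (Cfsg.pPrimePCore p G)).map (Cfsg.pPrimePCore p G).subtype := by
      rw [e]
      exact ⟨l * ⟨q, hQL hq⟩ * l⁻¹, ⟨⟨q, hQL hq⟩, Subgroup.mem_subgroupOf.mpr hq, rfl⟩, rfl⟩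
    have h2 := Subgroup.mem_centralizer_iff.mp hx _ hq'
    calc q * ((l : G)⁻¹ * x * l)
        = (l : G)⁻¹ * (((l : G) * q * (l : G)⁻¹) * x) * l := by group
      _ = (l : G)⁻¹ * (x * ((l : G) * q * (l : G)⁻¹)) * l := by rw [h2]
      _ = (l : G)⁻¹ * x * l * q := by group
  have h3 := hCQ h1
  have h4 := hLn.conj_mem _ h3 (l : G)
  have e2 : (l : G) * ((l : G)⁻¹ * x * l) * (l : G)⁻¹ = x := by group
  rwa [e2] at h4

end fongpc

section coordext

variable {G : Type u} [Group G] [Fintype G] [Fintype (Cfsg.IrrCharacter G)]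
variable (N : Subgroup G) [hN : N.Normal] [Fintype N] [Fintype (Cfsg.IrrCharacter N)]

omit [Fintype G] [Fintype (Cfsg.IrrCharacter G)] in
theorem extend_coef_isClassFunction (w : Cfsg.IrrCharacter N → ℂ)
    (hw : ∀ (g : G) (ψ : Cfsg.IrrCharacter N), w (conjIrr N g ψ) = w ψ) :
    Cfsg.IsClassFunction G (Cfsg.extendByZero N (coef w)) := by
  intro g x
  by_cases hg : g ∈ N
  · rw [extendByZero_apply_mem N _ hg, extendByZero_apply_mem N _ (hN.conj_mem g hg x)]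
    exact coef_conjNormal N w hw x ⟨g, hg⟩
  · have hx : x * g * x⁻¹ ∉ N := by
      intro h
      apply hg
      have h' := hN.conj_mem _ h x⁻¹
      have e : x⁻¹ * (x * g * x⁻¹) * x⁻¹⁻¹ = g := by group
      rwa [e] at h'
    rw [extendByZero_apply_not_mem N _ hg, extendByZero_apply_not_mem N _ hx]

/-- the central character of `χ` at a `G`-invariant central element of the group algebra of
the normal subgroup `N` is the coordinate at any constituent of `χ_N` -/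
theorem coord_extend_eq (w : Cfsg.IrrCharacter N → ℂ)
    (hw : ∀ (g : G) (ψ : Cfsg.IrrCharacter N), w (conjIrr N g ψ) = w ψ)
    (χ : Cfsg.IrrCharacter G) (θ : Cfsg.IrrCharacter N)
    (hc : Cfsg.classInner (fun n : N => χ.1 n) θ.1 ≠ 0) :
    coord (Cfsg.extendByZero N (coef w)) χ = w θ := by
  classical
  have hF := extend_coef_isClassFunction N w hw
  rw [coord_eq_sum_conjClasses' _ hF χ, coord_eq_sum_induced N w hw θ]
  apply Finset.sum_congr rfl
  intro c _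
  by_cases hcN : Quotient.out c ∈ N
  · have h1 : Cfsg.centralChar χ.1 (Quotient.out c)
        = Cfsg.inducedCentralChar N θ.1 (Quotient.out c) :=
      centralChar_eq_induced_of_constituent N χ θ hc ⟨_, hcN⟩
    rw [h1]
  · rw [extendByZero_apply_not_mem N _ hcN, zero_mul, zero_mul]

end coordext

end Cfsg.Agent.Lib.helper5
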