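import Mathlib
import Cfsg.Agent.Lib.helper5.FongPC
import Cfsg.Agent.Lib.helper5.BlockInduce
import Cfsg.Agent.Lib.helper5.BlockExt
import Cfsg.Agent.Lib.helper24.CharChief

set_option autoImplicit false

/-!
# Blocks of principal type in `p`-constrained groups

`fong_pc_centralizer`: in a `p`-constrained group `G`, the block `B = Irr(G | θ)` over an
invariant character `θ` of `O_{p'}(G)` is induced from exactly one block of `C_G(R)`, for every
`p`-subgroup `R`.
-/

namespace Cfsg.Agent.Lib.helper5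

open Cfsg.Agent.Lib.helper23 Cfsg.Agent.Lib.helper24
open scoped ComplexConjugate

universe u

section pieces

/-- `K ∩ C` as a subgroup of `C` and as a subgroup of `G` -/
def subgroupOfInfEquiv {G : Type u} [Group G] (K C KC : Subgroup G) (hKC : KC = K ⊓ C) :
    ↥(K.subgroupOf C) ≃* ↥KC where
  toFun n := ⟨((n : C) : G), by
    rw [hKC]
    exact ⟨Subgroup.mem_subgroupOf.mp n.2, (n : C).2⟩⟩
  invFun x := ⟨⟨(x : G), by
    have h0 : ∀ g : G, g ∈ KC → g ∈ K ⊓ C := fun g hg => by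
      rw [hKC] at hg
      exact hg
    exact (h0 x x.2).2⟩, by
    have h0 : ∀ g : G, g ∈ KC → g ∈ K ⊓ C := fun g hg => by
      rw [hKC] at hg
      exact hg
    exact Subgroup.mem_subgroupOf.mpr (h0 x x.2).1⟩
  left_inv n := rfl
  right_inv x := rfl
  map_mul' a b := rfl

/-- restriction to `K ∩ C` (as a subgroup of `C`) of a function on `K` -/
def resSub {G : Type u} [Group G] (K C : Subgroup G) (f : K → ℂ) : ↥(K.subgroupOf C) → ℂ :=
  fun n => f ⟨((n : C) : G), Subgroup.mem_subgroupOf.mp n.2⟩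

/-- the Glauberman correspondent of an invariant character `θ` of the normal `p'`-subgroup `K`
with respect to the `p`-subgroup `R`, as a character of `K ∩ C_G(R)` inside `C_G(R)` -/
theorem glauberman_subgroupOf {G : Type u} [Group G] [Fintype G] (p : ℕ) [Fact p.Prime]
    (K : Subgroup G) [hKn : K.Normal] [Fintype K] (hcop : (Nat.card K).Coprime p)
    (R : Subgroup G) (hR : IsPGroup p R) (C : Subgroup G)
    (hC : C = Subgroup.centralizer (R : Set G)) [Fintype (K.subgroupOf C)]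
    (θ : Cfsg.IrrCharacter K)
    (hinv : ∀ (g : G) (n : K), θ.1 ⟨g * n * g⁻¹, hKn.conj_mem n n.2 g⟩ = θ.1 n) :
    (∀ β : Cfsg.IrrCharacter (K.subgroupOf C), ∃ m : ℕ,
      Cfsg.classInner (resSub K C θ.1) β.1 = m) ∧
    ∃ θC : Cfsg.IrrCharacter (K.subgroupOf C),
      (∃ m : ℕ, Cfsg.classInner (resSub K C θ.1) θC.1 = m ∧ ¬ p ∣ m) ∧
      ∀ (β : Cfsg.IrrCharacter (K.subgroupOf C)) (m : ℕ),
        Cfsg.classInner (resSub K C θ.1) β.1 = m → ¬ p ∣ m → β = θC := by
  classical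
  have hp : p.Prime := Fact.out
  obtain ⟨KC, hKC⟩ : ∃ KC : Subgroup G, KC = K ⊓ C := ⟨_, rfl⟩
  have hKCle : KC ≤ K := hKC ▸ inf_le_left
  haveI : Fintype KC := Fintype.ofFinite KC
  have hKC' : KC = K ⊓ Subgroup.centralizer (R : Set G) := by rw [hKC, hC]
  have hnorm : ∀ s ∈ R, ∀ g ∈ K, s * g * s⁻¹ ∈ K := fun s _ g hg => hKn.conj_mem g hg s
  have hcop' : (Nat.card K).Coprime (Nat.card R) := by
    obtain ⟨j, hj⟩ := IsPGroup.iff_card.mp hR
    rw [hj]
    exact Nat.Coprime.pow_right j hcop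
  obtain ⟨a1, -, -, -⟩ := glauberman_p_subgroups K R hnorm hcop' p hp hR KC hKC' hKCle
  have hθR : ∀ s ∈ R, ∀ g g' : K, (g' : G) = s * g * s⁻¹ → θ.1 g' = θ.1 g := by
    intro s _ g g' hg'
    have : g' = ⟨s * g * s⁻¹, hKn.conj_mem g g.2 s⟩ := Subtype.ext hg'
    rw [this]
    exact hinv s g
  obtain ⟨β₀, ⟨m₀, hm₀, hpm₀⟩, huniq⟩ := a1 θ hθR
  obtain ⟨e, he⟩ : ∃ e : ↥(K.subgroupOf C) ≃* ↥KC, e = subgroupOfInfEquiv K C KC hKC := ⟨_, rfl⟩
  obtain ⟨T, hT⟩ : ∃ T : Cfsg.IrrCharacter (K.subgroupOf C) → Cfsg.IrrCharacter KC,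
      T = fun β => ⟨β.1 ∘ e.symm, isIrrCharacter_comp_equiv e.symm β.2⟩ := ⟨_, rfl⟩
  obtain ⟨T', hT'⟩ : ∃ T' : Cfsg.IrrCharacter KC → Cfsg.IrrCharacter (K.subgroupOf C),
      T' = fun β => ⟨β.1 ∘ e, isIrrCharacter_comp_equiv e β.2⟩ := ⟨_, rfl⟩
  have hTT' : ∀ β, T (T' β) = β := by
    intro β
    rw [hT, hT']
    apply Subtype.ext
    funext x
    show β.1 (e (e.symm x)) = β.1 x
    rw [MulEquiv.apply_symm_apply]
  have hT'T : ∀ β, T' (T β) = β := by
    intro β
    rw [hT, hT']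
    apply Subtype.ext
    funext x
    show β.1 (e.symm (e x)) = β.1 x
    rw [MulEquiv.symm_apply_apply]
  have key : ∀ β : Cfsg.IrrCharacter (K.subgroupOf C),
      Cfsg.classInner (resSub K C θ.1) β.1
        = Cfsg.classInner (fun c : KC => θ.1 ⟨c, hKCle c.2⟩) (T β).1 := by
    intro β
    have h1 := classInner_comp_equiv e (fun c : KC => θ.1 ⟨c, hKCle c.2⟩) (T β).1
    have h2 : (T β).1 ∘ e = β.1 := by
      rw [hT]
      funext n
      show β.1 (e.symm (e n)) = β.1 n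
      rw [MulEquiv.symm_apply_apply]
    have h3 : (fun c : KC => θ.1 ⟨c, hKCle c.2⟩) ∘ e = resSub K C θ.1 := by
      rw [he]
      rfl
    rw [h2, h3] at h1
    exact h1
  refine ⟨?_, T' β₀, ⟨m₀, ?_, hpm₀⟩, ?_⟩
  · intro β
    rw [key]
    have hch : Cfsg.IsCharacter KC (fun c : KC => θ.1 ⟨c, hKCle c.2⟩) :=
      Cfsg.Agent.Lib.helper24.isCharacter_comp (Subgroup.inclusion hKCle)
        (Cfsg.Agent.Lib.helper24.isCharacter_irr θ)
    exact isCharacter_inner_irr_nat hch (T β)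
  · rw [key, hTT']
    exact hm₀
  · intro β m hm hpm
    have := huniq (T β) ⟨m, by rw [← key]; exact hm, hpm⟩
    rw [← this, hT'T]

variable {H : Type u} [Group H] [Fintype H] [Fintype (Cfsg.IrrCharacter H)]
variable {M : Ideal Cfsg.AlgInt} {p : ℕ}

theorem coord_idem_eq (f : H → ℂ) (c : ℂ) (β : Cfsg.IrrCharacter H) (m : ℕ)
    (hm : Cfsg.classInner f β.1 = m) :
    coord (fun h => c * conj (f h)) β = c * (Nat.card H : ℂ) * m / β.1 1 := by
  unfold coord
  have h1 := classInner_conj_eq f β.1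
  rw [hm, Complex.conj_natCast] at h1
  have h2 : ∑ h : H, c * conj (f h) * β.1 h = c * ∑ h : H, conj (f h) * β.1 h := by
    rw [Finset.mul_sum]
    apply Finset.sum_congr rfl
    intro h _
    ring
  rw [h2, h1]
  ring

theorem coord_idem_mem_iff (hM : Cfsg.IsPModular p M) (f : H → ℂ) (k d : ℕ)
    (hk : ¬ p ∣ k) (hd : ¬ p ∣ d) (hpH : ¬ p ∣ Nat.card H)
    (β : Cfsg.IrrCharacter H) (m : ℕ) (hm : Cfsg.classInner f β.1 = m) :
    Cfsg.MemLocalIdeal M (coord (fun h => (k : ℂ)⁻¹ * (d : ℂ) * conj (f h)) β) ↔ p ∣ m := by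
  have hMp := isPModular_isPrime hM
  obtain ⟨e, he, heC⟩ := irr_degree_dvd_card β
  have hpe : ¬ p ∣ e := fun h => hpH (h.trans heC)
  have he0 : (e : ℂ) ≠ 0 := by
    intro h0
    apply hpe
    have : e = 0 := by exact_mod_cast h0
    rw [this]
    exact dvd_zero p
  have hk0 : (k : ℂ) ≠ 0 := by
    intro h0
    apply hk
    have : k = 0 := by exact_mod_cast h0
    rw [this]
    exact dvd_zero p
  rw [coord_idem_eq f _ β m hm, he]
  constructor
  · intro h
    have h1 := memLocalIdeal_mul_left hMp (memLocalRing_natCast hMp.ne_top (k * e)) h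
    have h2 : ((k * e : ℕ) : ℂ) * ((k : ℂ)⁻¹ * d * (Nat.card H) * m / e)
        = ((d * Nat.card H * m : ℕ) : ℂ) := by
      push_cast
      field_simp
    rw [h2] at h1
    have h3 := (memLocalIdeal_natCast_iff hM _).1 h1
    rcases (Nat.Prime.dvd_mul hM.1).1 h3 with h4 | h4
    · rcases (Nat.Prime.dvd_mul hM.1).1 h4 with h5 | h5
      · exact absurd h5 hd
      · exact absurd h5 hpH
    · exact h4
  · intro h
    have h1 := (memLocalIdeal_natCast_iff hM m).2 h
    have e1 : (k : ℂ)⁻¹ * d * (Nat.card H) * m / e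
        = ((k : ℂ)⁻¹ * d * (Nat.card H) * ((e : ℕ) : ℂ)⁻¹) * m := by ring
    rw [e1]
    apply memLocalIdeal_mul_left hMp _ h1
    exact memLocalRing_mul hMp (memLocalRing_mul hMp (memLocalRing_mul hMp
      (memLocalRing_inv_natCast hM _ hk) (memLocalRing_natCast hMp.ne_top d))
      (memLocalRing_natCast hMp.ne_top _)) (memLocalRing_inv_natCast hM _ hpe)

end pieces

section conjinv

variable {G : Type u} [Group G] [Fintype G] [Fintype (Cfsg.IrrCharacter G)]
variable (N : Subgroup G) [hN : N.Normal] [Fintype N] [Fintype (Cfsg.IrrCharacter N)]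

omit [Fintype G] [Fintype (Cfsg.IrrCharacter G)] in
theorem coord_conjIrr_of_invariant (F : N → ℂ) (g : G)
    (hF : Cfsg.Agent.Lib.helper24.conjFun N F g = F) (β : Cfsg.IrrCharacter N) :
    coord F (conjIrr N g β) = coord F β := by
  unfold coord
  have e1 : (conjIrr N g β).1 1 = β.1 1 := by
    show β.1 ⟨g * ((1 : N) : G) * g⁻¹, _⟩ = β.1 1
    exact congrArg β.1 (Subtype.ext (by simp))
  rw [e1]
  congr 1
  refine Fintype.sum_equiv (MulAut.conjNormal g : N ≃* N).toEquiv _ _ (fun n => ?_)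
  have h1 : F (MulAut.conjNormal g n) = F n := congrFun hF n
  show F n * β.1 (MulAut.conjNormal g n)
    = F (MulAut.conjNormal g n) * β.1 (MulAut.conjNormal g n)
  rw [h1]

end conjinv

end Cfsg.Agent.Lib.helper5
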