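import Mathlib
import Cfsg.Agent.Lib.helper5.FongPC2

set_option autoImplicit false

/-!
# Blocks of principal type in `p`-constrained groups, main theorem
-/

namespace Cfsg.Agent.Lib.helper5

open Cfsg.Agent.Lib.helper23 Cfsg.Agent.Lib.helper24
open scoped ComplexConjugate

universe u

set_option maxHeartbeats 1600000 in
/-- in a `p`-constrained group, the block over an invariant character of `O_{p'}(G)` is induced
from exactly one block of the centralizer of any `p`-subgroup -/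
theorem fong_pc_centralizer {G : Type u} [Group G] [Fintype G] {M : Ideal Cfsg.AlgInt} {p : ℕ}
    [Fact p.Prime] (hM : Cfsg.IsPModular p M) (hpc : Cfsg.IsPConstrained p G)
    (K : Subgroup G) [hKn : K.Normal] [Fintype K] (hK : K = Cfsg.pPrimeCore p G)
    (θ : Cfsg.IrrCharacter K)
    (hinv : ∀ (g : G) (n : K), θ.1 ⟨g * n * g⁻¹, hKn.conj_mem n n.2 g⟩ = θ.1 n)
    (B : Set (Cfsg.IrrCharacter G)) (hB : Cfsg.IsPBlock M B)
    (hBmem : ∀ χ : Cfsg.IrrCharacter G, χ ∈ B ↔ Cfsg.classInner (fun n : K => χ.1 n) θ.1 ≠ 0)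
    (R : Subgroup G) (hR : IsPGroup p R) :
    ∃! f : Set (Cfsg.IrrCharacter (Subgroup.centralizer (R : Set G))),
      Cfsg.IsInducedBlock M (Subgroup.centralizer (R : Set G)) f B := by
  classical
  have hMp := isPModular_isPrime hM
  have hp : p.Prime := Fact.out
  haveI := Fintype.ofFinite (Cfsg.IrrCharacter G)
  haveI := Fintype.ofFinite (Cfsg.IrrCharacter K)
  have hcopK : (Nat.card K).Coprime p := by
    have h := Cfsg.Agent.Lib.helper9.pPrimeCore_coprime p G
    rw [← hK] at h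
    exact h
  have hpK : ¬ p ∣ Nat.card K := by
    intro h
    have := Nat.Coprime.eq_one_of_dvd hcopK.symm h
    exact hp.one_lt.ne' this
  generalize hCdef : Subgroup.centralizer (R : Set G) = C
  haveI : Fintype C := Fintype.ofFinite C
  haveI := Fintype.ofFinite (Cfsg.IrrCharacter C)
  haveI : Fintype (K.subgroupOf C) := Fintype.ofFinite _
  haveI := Fintype.ofFinite (Cfsg.IrrCharacter (K.subgroupOf C))
  have hNCn : (K.subgroupOf C).Normal := inferInstance
  -- embedding facts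
  have hr1 : Subgroup.centralizer (R : Set G) ≤ C.subtype.range := by
    rw [Subgroup.range_subtype, hCdef]
  have hr2 : C.subtype.range ≤ Subgroup.normalizer (R : Set G) := by
    rw [Subgroup.range_subtype, ← hCdef]
    exact Subgroup.centralizer_le_normalizer _
  have hr3 : C.subtype.range ≤ Subgroup.centralizer (R : Set G) := by
    rw [Subgroup.range_subtype, hCdef]
  have hpcC : Cfsg.IsPConstrained p C :=
    Cfsg.Agent.Lib.helper16.pc_of_embedding hpc C.subtype Subtype.coe_injective R hR hr1 hr2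
      (Or.inr hr3)
  have hNCdef : K.subgroupOf C = Cfsg.pPrimeCore p C := by
    apply le_antisymm
    · have h1 := Cfsg.Agent.Lib.helper16.comap_pPrimeCore_le (p := p) C.subtype
        Subtype.coe_injective
      rw [← hK] at h1
      exact h1
    · intro x hx
      rw [Subgroup.mem_subgroupOf, hK]
      have hc := Cfsg.Agent.Lib.helper16.pc_iff_quot.mp hpc
      have hxo : (orderOf x).Coprime p :=
        Nat.Coprime.coprime_dvd_left (Subgroup.orderOf_dvd_natCard _ hx)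
          (Cfsg.Agent.Lib.helper9.pPrimeCore_coprime p C)
      have hxc : QuotientGroup.mk' (Cfsg.pPrimeCore p C) x ∈ Subgroup.centralizer
          ((Cfsg.pCore p (C ⧸ Cfsg.pPrimeCore p C) : Subgroup (C ⧸ Cfsg.pPrimeCore p C)) :
            Set (C ⧸ Cfsg.pPrimeCore p C)) := by
        have h1 : QuotientGroup.mk' (Cfsg.pPrimeCore p C) x = 1 :=
          (QuotientGroup.eq_one_iff x).mpr hx
        rw [h1]
        exact one_mem _
      exact Cfsg.Agent.Lib.helper16.mem_pPrimeCore_of_embedding hc C.subtype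
        Subtype.coe_injective R hR hr1 hr2 (Or.inr hr3) x hxo hxc
  have hpNC : ¬ p ∣ Nat.card (K.subgroupOf C) := by
    rw [hNCdef]
    intro h
    have := Nat.Coprime.eq_one_of_dvd (Cfsg.Agent.Lib.helper9.pPrimeCore_coprime p C).symm h
    exact hp.one_lt.ne' this
  -- Glauberman
  obtain ⟨hnat, θC, ⟨m₀, hm₀, hpm₀⟩, hGuniq⟩ :=
    glauberman_subgroupOf p K hcopK R hR C hCdef.symm θ hinv
  have hresinv : ∀ c : C,
      Cfsg.Agent.Lib.helper24.conjFun (K.subgroupOf C) (resSub K C θ.1) c = resSub K C θ.1 := by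
    intro c
    funext n
    exact hinv (c : G) ⟨((n : C) : G), Subgroup.mem_subgroupOf.mp n.2⟩
  -- the idempotent
  obtain ⟨w, hwdef⟩ : ∃ w : Cfsg.IrrCharacter K → ℂ, w = Pi.single θ (1 : ℂ) := ⟨_, rfl⟩
  have hfix : ∀ g : G, conjIrr K g θ = θ := by
    intro g
    apply Subtype.ext
    funext n
    exact hinv g n
  have hw : ∀ (g : G) (ψ : Cfsg.IrrCharacter K), w (conjIrr K g ψ) = w ψ := by
    intro g ψ
    by_cases hψ : ψ = θ
    · rw [hψ, hfix]
    · have hne : conjIrr K g ψ ≠ θ := by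
        intro h
        apply hψ
        have h2 := congrArg (conjIrr K g⁻¹) h
        rw [← conjIrr_mul, mul_inv_cancel, conjIrr_one, hfix] at h2
        exact h2
      rw [hwdef, Pi.single_eq_of_ne hψ, Pi.single_eq_of_ne hne]
  have hwK : w ∈ osimaRing K M hMp := by
    apply mem_osimaRing_of_pPrime K hM hpK
    intro ψ
    by_cases hψ : ψ = θ
    · rw [hwdef, hψ, Pi.single_eq_same]
      exact memLocalRing_one hMp.ne_top
    · rw [hwdef, Pi.single_eq_of_ne hψ]
      exact memLocalRing_zero hMp.ne_top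
  have hcoefw : ∀ k : K, coef w k = (Nat.card K : ℂ)⁻¹ * θ.1 1 * conj (θ.1 k) := by
    intro k
    rw [hwdef, Cfsg.Agent.Lib.helper24.coef_single]
    unfold Cfsg.Agent.Lib.helper24.idemFun
    ring
  have hF := extend_coef_isClassFunction K w hw
  obtain ⟨a, hadef⟩ : ∃ a : Cfsg.IrrCharacter G → ℂ,
      a = coord (Cfsg.extendByZero K (coef w)) := ⟨_, rfl⟩
  have ha : a ∈ osimaRing G M hMp := by
    rw [hadef]
    apply coord_mem_osimaRing hMp hF
    intro g
    by_cases hg : g ∈ K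
    · rw [extendByZero_apply_mem K _ hg]
      exact hwK _
    · rw [extendByZero_apply_not_mem K _ hg]
      exact memLocalRing_zero hMp.ne_top
  have haB : ∀ χ : Cfsg.IrrCharacter G, χ ∈ B → a χ = 1 := by
    intro χ hχ
    rw [hadef, coord_extend_eq K w hw χ θ ((hBmem χ).mp hχ), hwdef, Pi.single_eq_same]
  have haB' : ∀ χ : Cfsg.IrrCharacter G, χ ∉ B → a χ = 0 := by
    intro χ hχ
    obtain ⟨θ₁, hθ₁⟩ := exists_constituent_restrict K χ
    have hne : θ₁ ≠ θ := by
      rintro rfl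
      exact hχ ((hBmem χ).mpr hθ₁)
    rw [hadef, coord_extend_eq K w hw χ θ₁ hθ₁, hwdef, Pi.single_eq_of_ne hne]
  -- the `C`-side
  obtain ⟨FC, hFCdef⟩ : ∃ FC : K.subgroupOf C → ℂ,
      FC = fun n => (Nat.card K : ℂ)⁻¹ * θ.1 1 * conj (resSub K C θ.1 n) := ⟨_, rfl⟩
  have hFCinv : ∀ c : C, Cfsg.Agent.Lib.helper24.conjFun (K.subgroupOf C) FC c = FC := by
    intro c
    funext n
    rw [hFCdef]
    show (Nat.card K : ℂ)⁻¹ * θ.1 1 * conj (resSub K C θ.1 (MulAut.conjNormal c n))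
      = (Nat.card K : ℂ)⁻¹ * θ.1 1 * conj (resSub K C θ.1 n)
    have h1 : resSub K C θ.1 (MulAut.conjNormal c n) = resSub K C θ.1 n :=
      congrFun (hresinv c) n
    rw [h1]
  have hFCclass : Cfsg.IsClassFunction (K.subgroupOf C) FC := by
    intro n x
    exact congrFun (hFCinv (x : C)) n
  obtain ⟨wC, hwCdef⟩ : ∃ wC : Cfsg.IrrCharacter (K.subgroupOf C) → ℂ, wC = coord FC :=
    ⟨_, rfl⟩
  have hwC : ∀ (c : C) (β : Cfsg.IrrCharacter (K.subgroupOf C)),
      wC (conjIrr (K.subgroupOf C) c β) = wC β := by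
    intro c β
    rw [hwCdef]
    exact coord_conjIrr_of_invariant (K.subgroupOf C) FC c (hFCinv c) β
  have hcoefwC : ∀ n, coef wC n = FC n := by
    intro n
    rw [hwCdef]
    exact coef_coord FC hFCclass n
  have hbr : brTrunc C ⊤ a = Cfsg.extendByZero (K.subgroupOf C) (coef wC) := by
    funext c
    rw [brTrunc_of_mem _ (Subgroup.mem_top _), hadef, coef_coord _ hF]
    by_cases hc : (c : G) ∈ K
    · have hc' : c ∈ K.subgroupOf C := Subgroup.mem_subgroupOf.mpr hc
      rw [extendByZero_apply_mem K _ hc, extendByZero_apply_mem (K.subgroupOf C) _ hc',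
        hcoefwC, hcoefw, hFCdef]
      rfl
    · have hc' : c ∉ K.subgroupOf C := fun h => hc (Subgroup.mem_subgroupOf.mp h)
      rw [extendByZero_apply_not_mem K _ hc,
        extendByZero_apply_not_mem (K.subgroupOf C) _ hc']
  have hbrval : ∀ (ξ : Cfsg.IrrCharacter C) (β : Cfsg.IrrCharacter (K.subgroupOf C)),
      Cfsg.classInner (fun n : K.subgroupOf C => ξ.1 n) β.1 ≠ 0 → brFun C ⊤ ξ a = wC β := by
    intro ξ β hc
    rw [brFun_apply, hbr]
    exact coord_extend_eq (K.subgroupOf C) wC hwC ξ β hc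
  have hwCiff : ∀ (β : Cfsg.IrrCharacter (K.subgroupOf C)) (m : ℕ),
      Cfsg.classInner (resSub K C θ.1) β.1 = m → (Cfsg.MemLocalIdeal M (wC β) ↔ p ∣ m) := by
    intro β m hm
    obtain ⟨d, hd, hdK⟩ := irr_degree_dvd_card θ
    have hpd : ¬ p ∣ d := fun h => hpK (h.trans hdK)
    rw [hwCdef, hFCdef, hd]
    exact coord_idem_mem_iff hM (resSub K C θ.1) (Nat.card K) d hpK hpd hpNC β m hm
  -- Fong for `C`
  have hinvC : ∀ (c : C) (n : K.subgroupOf C),
      θC.1 ⟨c * n * c⁻¹, hNCn.conj_mem n n.2 c⟩ = θC.1 n := by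
    intro c n
    have h1 : conjIrr (K.subgroupOf C) c θC = θC := by
      apply hGuniq _ m₀ _ hpm₀
      rw [conjIrr_val, Cfsg.Agent.Lib.helper24.classInner_conjFun_of_invariant (K.subgroupOf C)
        (resSub K C θ.1) θC.1 c (hresinv c)]
      exact hm₀
    have h2 := congrArg (fun ψ : Cfsg.IrrCharacter (K.subgroupOf C) => ψ.1 n) h1
    exact h2
  obtain ⟨BC, hBC, hBCmem, -, -⟩ := fong_pc hM hpcC (K.subgroupOf C) hNCdef θC hinvC
  -- existence
  obtain ⟨ξ₀, hξ₀⟩ := Cfsg.Agent.Lib.helper23.exists_irr_over (K.subgroupOf C) θC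
  have hCH : Subgroup.centralizer (R : Set G) ≤ C := hCdef.le
  have hHN : C ≤ Subgroup.normalizer (R : Set G) := by
    rw [← hCdef]
    exact Subgroup.centralizer_le_normalizer _
  have hbrS : ∀ a' : Cfsg.IrrCharacter G → ℂ,
      brTrunc C (Subgroup.centralizer (R : Set G)) a' = brTrunc C ⊤ a' := by
    intro a'
    funext c
    rw [brTrunc_of_mem _ (Subgroup.mem_top _),
      brTrunc_of_mem _ (show (c : G) ∈ Subgroup.centralizer (R : Set G) by
        rw [hCdef]
        exact c.2)]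
  have hbrFS : ∀ (ξ : Cfsg.IrrCharacter C) (a' : Cfsg.IrrCharacter G → ℂ),
      brFun C (Subgroup.centralizer (R : Set G)) ξ a' = brFun C ⊤ ξ a' := by
    intro ξ a'
    rw [brFun_apply, brFun_apply, hbrS]
  obtain ⟨χ', hχ'⟩ := exists_brFun_block C hM R hR hCH hHN ξ₀
  have hwθC : ¬ Cfsg.MemLocalIdeal M (wC θC) := fun h => hpm₀ ((hwCiff θC m₀ hm₀).mp h)
  have hχ'B : χ' ∈ B := by
    by_contra hn
    have h1 := hχ' a ha
    rw [hbrFS, hbrval ξ₀ θC hξ₀, haB' χ' hn, sub_zero] at h1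
    exact hwθC h1
  have hξ₀BC : ξ₀ ∈ BC := (hBCmem ξ₀).mpr hξ₀
  have hind₀ : Cfsg.IsInducedBlock M C (Cfsg.blockOf M ξ₀.1) B := by
    rw [isPBlock_eq_blockOf hMp hB hχ'B]
    apply isInducedBlock_of_single hMp C ξ₀ χ'
    intro g
    have h1 := hχ' _ (centralChar_mem_osimaRing hMp g)
    rw [hbrFS, brFun_top] at h1
    exact h1
  refine ⟨Cfsg.blockOf M ξ₀.1, hind₀, ?_⟩
  intro f hf
  obtain ⟨ξ₁, hfξ₁⟩ := hf.1
  have hξ₁ : ξ₁ ∈ f := by
    rw [hfξ₁]
    exact mem_blockOf_self hMp.ne_top ξ₁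
  have hB' := hB
  obtain ⟨χ₀, hBχ₀⟩ := hB'
  have hχ₀ : χ₀ ∈ B := by
    rw [hBχ₀]
    exact mem_blockOf_self hMp.ne_top χ₀
  have h2 := brFun_top_of_induced C hMp hf hξ₁ hχ₀ ha
  obtain ⟨β₁, hβ₁⟩ := exists_constituent_restrict (K.subgroupOf C) ξ₁
  rw [hbrval ξ₁ β₁ hβ₁, haB χ₀ hχ₀] at h2
  have hnot : ¬ Cfsg.MemLocalIdeal M (wC β₁) := by
    intro h
    have h3 := memLocalIdeal_sub hMp h h2
    rw [sub_sub_cancel] at h3
    exact not_memLocalIdeal_one hMp h3
  obtain ⟨m₁, hm₁⟩ := hnat β₁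
  have hpm₁ : ¬ p ∣ m₁ := fun h => hnot ((hwCiff β₁ m₁ hm₁).mpr h)
  have hβ₁θ : β₁ = θC := hGuniq β₁ m₁ hm₁ hpm₁
  have hξ₁BC : ξ₁ ∈ BC := (hBCmem ξ₁).mpr (hβ₁θ ▸ hβ₁)
  rw [hfξ₁, ← isPBlock_eq_blockOf hMp hBC hξ₁BC, isPBlock_eq_blockOf hMp hBC hξ₀BC]

end Cfsg.Agent.Lib.helper5
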