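import Mathlib
import Cfsg.Agent.Lib.helper24.CharOps
import Cfsg.Agent.Lib.helper24.CharComplete
import Cfsg.Agent.Lib.helper24.CharReg
import Cfsg.Agent.Lib.helper24.CharClifford
import Cfsg.Agent.Lib.helper24.CharLin
import Cfsg.Agent.Lib.helper24.CharMisc
import Cfsg.Agent.Lib.helper23.GalConj

set_option autoImplicit false

namespace Cfsg.Agent.Lib.helper5

open Cfsg Cfsg.Agent.Lib.helper24 Cfsg.Agent.Lib.helper23
open scoped ComplexConjugate commutatorElement

universe u

variable {G : Type u} [Group G]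

/-- two characters with two distinct common irreducible constituents have inner product `≠ 1` -/
theorem two_common_constituents [Fintype G] {α β : G → ℂ} (hα : IsCharacter G α)
    (hβ : IsCharacter G β) (ξ₁ ξ₂ : IrrCharacter G) (hne : ξ₁ ≠ ξ₂)
    (h1 : classInner α ξ₁.1 ≠ 0) (h2 : classInner β ξ₁.1 ≠ 0)
    (h3 : classInner α ξ₂.1 ≠ 0) (h4 : classInner β ξ₂.1 ≠ 0) :
    classInner α β ≠ 1 := by
  classical
  haveI := Fintype.ofFinite (IrrCharacter G)
  choose a ha using fun ξ => isCharacter_inner_irr_nat hα ξ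
  choose b hb using fun ξ => isCharacter_inner_irr_nat hβ ξ
  have hexp := classFunction_expansion (f := β) (isCharacter_conj_class hβ)
  have key : classInner α β = ((∑ ξ : IrrCharacter G, a ξ * b ξ : ℕ) : ℂ) := by
    conv_lhs => rw [hexp]
    rw [classInner_sum_right]
    push_cast
    refine Finset.sum_congr rfl ?_
    intro ξ _
    rw [classInner_smul_right, ha, hb]
    simp [mul_comm]
  rw [key]
  intro h
  have h5 : (∑ ξ : IrrCharacter G, a ξ * b ξ) = 1 := by exact_mod_cast h
  have h6 : ∑ ξ ∈ ({ξ₁, ξ₂} : Finset (IrrCharacter G)), a ξ * b ξ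
      ≤ ∑ ξ : IrrCharacter G, a ξ * b ξ :=
    Finset.sum_le_sum_of_subset (Finset.subset_univ _)
  rw [Finset.sum_pair hne, h5] at h6
  have p1 : a ξ₁ ≠ 0 := by
    intro h0; apply h1; rw [ha, h0]; simp
  have p2 : b ξ₁ ≠ 0 := by
    intro h0; apply h2; rw [hb, h0]; simp
  have p3 : a ξ₂ ≠ 0 := by
    intro h0; apply h3; rw [ha, h0]; simp
  have p4 : b ξ₂ ≠ 0 := by
    intro h0; apply h4; rw [hb, h0]; simp
  have q1 : 1 ≤ a ξ₁ * b ξ₁ := Nat.one_le_iff_ne_zero.mpr (Nat.mul_ne_zero p1 p2)
  have q2 : 1 ≤ a ξ₂ * b ξ₂ := Nat.one_le_iff_ne_zero.mpr (Nat.mul_ne_zero p3 p4)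
  omega

/-- the sum of a nontrivial linear character vanishes -/
theorem sum_hom_units_eq_zero {T : Type*} [Group T] [Fintype T] (ν : T →* ℂˣ)
    (h : ∃ t, ν t ≠ 1) : ∑ t : T, (ν t : ℂ) = 0 := by
  obtain ⟨s, hs⟩ := h
  have e : ∑ t : T, (ν t : ℂ) = (ν s : ℂ) * ∑ t : T, (ν t : ℂ) := by
    rw [Finset.mul_sum, ← Equiv.sum_comp (Equiv.mulLeft s)]
    refine Finset.sum_congr rfl ?_
    intro t _
    simp [map_mul]
  have hs' : (ν s : ℂ) ≠ 1 := by
    intro h1; apply hs; exact Units.ext h1
  have h2 : (1 - (ν s : ℂ)) * ∑ t : T, (ν t : ℂ) = 0 := by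
    rw [sub_mul, one_mul, ← e, sub_self]
  rcases mul_eq_zero.mp h2 with h0 | h0
  · exact absurd (sub_eq_zero.mp h0).symm hs'
  · exact h0

/-- If `χ` vanishes wherever a linear character `ν` of a subgroup `T` is nontrivial, and
`ν` induces irreducibly to `G`, then `χ · χ^(k)` is reducible. -/
theorem galprod_of_twist [Fintype G] (χ : IrrCharacter G) (k : ℕ) (hk : k.Coprime (Nat.card G))
    (T : Subgroup G) (ν : T →* ℂˣ)
    (hirr : IsIrrCharacter G (indFun T (fun t => (ν t : ℂ))))
    (hvan : ∀ t : T, ν t ≠ 1 → χ.1 t = 0)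
    (hnt : ∃ t : T, ν t ≠ 1) :
    ¬ IsIrrCharacter G (fun g => χ.1 g * χ.1 (g ^ k)) := by
  classical
  haveI : Fintype T := Fintype.ofFinite T
  intro hω
  have hωω := isIrrCharacter_inner_self hω
  have hχ' : IsIrrCharacter G (fun g => χ.1 (g ^ k)) := isIrrCharacter_pow_coprime χ.2 k hk
  have hρ : IsCharacter G (fun g => χ.1 g * conj (χ.1 g)) :=
    isCharacter_mul (isCharacter_irr χ) (isCharacter_conj (isCharacter_irr χ))
  have hρ' : IsCharacter G (fun g => χ.1 (g ^ k) * conj (χ.1 (g ^ k))) :=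
    isCharacter_mul (isCharacter_of_isIrrCharacter hχ')
      (isCharacter_conj (isCharacter_of_isIrrCharacter hχ'))
  have hρρ' : classInner (fun g => χ.1 g * conj (χ.1 g))
      (fun g => χ.1 (g ^ k) * conj (χ.1 (g ^ k))) = 1 := by
    rw [← hωω]
    unfold classInner
    congr 1
    refine Finset.sum_congr rfl ?_
    intro g _
    simp only [map_mul, Complex.conj_conj]
    ring
  let Θ : IrrCharacter G := ⟨indFun T (fun t => (ν t : ℂ)), hirr⟩
  have hvan' : ∀ t : T, ν t ≠ 1 → χ.1 ((t : G) ^ k) = 0 := by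
    intro t ht
    have h1 : ν (t ^ k) ≠ 1 := by
      intro h1
      apply ht
      rw [map_pow] at h1
      have h2 : (ν t) ^ (Nat.card T) = 1 := by
        rw [← map_pow, pow_card_eq_one', map_one]
      have hcop : k.Coprime (Nat.card T) :=
        Nat.Coprime.coprime_dvd_right (Subgroup.card_subgroup_dvd_card T) hk
      have d1 := orderOf_dvd_of_pow_eq_one h1
      have d2 := orderOf_dvd_of_pow_eq_one h2
      exact orderOf_eq_one_iff.mp (Nat.eq_one_of_dvd_coprimes hcop d1 d2)
    have h3 := hvan (t ^ k) h1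
    simpa using h3
  have hΘ : ∀ (φ : G → ℂ), IsClassFunction G φ → (∀ t : T, ν t ≠ 1 → φ t = 0) → φ 1 ≠ 0 →
      classInner (fun g => φ g * conj (φ g)) Θ.1 ≠ 0 := by
    intro φ hφ hv h1
    rw [classInner_conj_symm]
    intro h0
    have h0' : classInner Θ.1 (fun g => φ g * conj (φ g)) = 0 := by
      have h00 := congrArg conj h0
      simpa using h00
    have hcf : IsClassFunction G (fun g => φ g * conj (φ g)) :=
      isClassFunction_mul hφ (isClassFunction_conj hφ)
    rw [show Θ.1 = indFun T (fun t => (ν t : ℂ)) from rfl, frobenius_reciprocity T _ hcf] at h0'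
    unfold classInner at h0'
    have hsum : ∑ t : T, (ν t : ℂ) * conj (φ t * conj (φ t))
        = ∑ t : T, ((Complex.normSq (φ t) : ℝ) : ℂ) := by
      refine Finset.sum_congr rfl ?_
      intro t _
      by_cases ht : ν t = 1
      · rw [ht]
        simp [Complex.mul_conj, mul_comm]
      · rw [hv t ht]
        simp
    rw [hsum] at h0'
    have hT0 : (Nat.card T : ℂ)⁻¹ ≠ 0 := inv_ne_zero (NeZero.ne _)
    have h3 := (mul_eq_zero.mp h0').resolve_left hT0
    have h4 : ∑ t : T, Complex.normSq (φ t) = 0 := by exact_mod_cast h3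
    have h5 := (Finset.sum_eq_zero_iff_of_nonneg
      (fun t _ => Complex.normSq_nonneg _)).mp h4 1 (Finset.mem_univ _)
    exact h1 (Complex.normSq_eq_zero.mp h5)
  have a1 : classInner (fun g => χ.1 g * conj (χ.1 g)) (trivIrr G).1 ≠ 0 := by
    have e : classInner (fun g => χ.1 g * conj (χ.1 g)) (trivIrr G).1 = classInner χ.1 χ.1 := by
      unfold classInner
      congr 1
      refine Finset.sum_congr rfl ?_
      intro g _
      rw [trivIrr_apply]
      simp
    rw [e, irr_inner_self]
    exact one_ne_zero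
  have a2 : classInner (fun g => χ.1 (g ^ k) * conj (χ.1 (g ^ k))) (trivIrr G).1 ≠ 0 := by
    have e : classInner (fun g => χ.1 (g ^ k) * conj (χ.1 (g ^ k))) (trivIrr G).1
        = classInner (fun g => χ.1 (g ^ k)) (fun g => χ.1 (g ^ k)) := by
      unfold classInner
      congr 1
      refine Finset.sum_congr rfl ?_
      intro g _
      rw [trivIrr_apply]
      simp
    rw [e, isIrrCharacter_inner_self hχ']
    exact one_ne_zero
  have a3 := hΘ χ.1 (isClassFunction_irr χ) hvan (irr_one_ne_zero χ)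
  have a4 := hΘ (fun g => χ.1 (g ^ k))
    (isCharacter_conj_class (isCharacter_of_isIrrCharacter hχ')) hvan'
    (by simpa using irr_one_ne_zero χ)
  have hne : trivIrr G ≠ Θ := by
    intro h
    have h6 : classInner Θ.1 (trivIrr G).1 = 1 := by
      rw [← h]
      exact irr_inner_self _
    rw [show Θ.1 = indFun T (fun t => (ν t : ℂ)) from rfl,
      frobenius_reciprocity T _ (isClassFunction_irr (trivIrr G))] at h6
    unfold classInner at h6
    simp only [trivIrr_apply, map_one, mul_one] at h6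
    rw [sum_hom_units_eq_zero ν hnt, mul_zero] at h6
    exact zero_ne_one h6
  exact two_common_constituents hρ hρ' (trivIrr G) Θ hne a1 a2 a3 a4 hρρ'

/-- If `χ` is induced from a proper subgroup, then `χ · χ^(k)` is reducible. -/
theorem galprod_of_induced [Fintype G] (χ : IrrCharacter G) (k : ℕ)
    (hk : k.Coprime (Nat.card G)) (T : Subgroup G) (hT : T ≠ ⊤) (ψ : T → ℂ)
    (hψ : IsIrrCharacter T ψ) (hind : indFun T ψ = χ.1) :
    ¬ IsIrrCharacter G (fun g => χ.1 g * χ.1 (g ^ k)) := by
  classical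
  haveI : Fintype T := Fintype.ofFinite T
  haveI : Fintype (IrrCharacter T) := Fintype.ofFinite _
  intro hω
  have hωω := isIrrCharacter_inner_self hω
  have hχ' : IsIrrCharacter G (fun g => χ.1 (g ^ k)) := isIrrCharacter_pow_coprime χ.2 k hk
  have hρ' : IsCharacter G (fun g => χ.1 (g ^ k) * conj (χ.1 (g ^ k))) :=
    isCharacter_mul (isCharacter_of_isIrrCharacter hχ')
      (isCharacter_conj (isCharacter_of_isIrrCharacter hχ'))
  let ρT : T → ℂ := fun t => χ.1 ((t : G) ^ k) * conj (χ.1 ((t : G) ^ k))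
  have hρT : IsCharacter T ρT := isCharacter_restrict T hρ'
  let χT : T → ℂ := fun t => χ.1 t
  have hχT : IsCharacter T χT := isCharacter_restrict T (isCharacter_irr χ)
  have hψc : IsCharacter T ψ := isCharacter_of_isIrrCharacter hψ
  let ψi : IrrCharacter T := ⟨ψ, hψ⟩
  -- Frobenius: [ψ, χ_T] = 1
  have hψχ : classInner ψ χT = 1 := by
    have h1 := frobenius_reciprocity T ψ (isClassFunction_irr χ)
    rw [hind, irr_inner_self] at h1
    exact h1.symm
  have hχψ : classInner χT ψ = 1 := by
    rw [classInner_conj_symm, hψχ, map_one]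
  -- (s1)
  have s1 : classInner (fun g => χ.1 g * χ.1 (g ^ k)) (fun g => χ.1 g * χ.1 (g ^ k))
      = classInner (fun t : T => ψ t * ρT t) χT := by
    have e1 : classInner (fun g => χ.1 g * χ.1 (g ^ k)) (fun g => χ.1 g * χ.1 (g ^ k))
        = classInner χ.1 (fun g => χ.1 g * (χ.1 (g ^ k) * conj (χ.1 (g ^ k)))) := by
      unfold classInner
      congr 1
      refine Finset.sum_congr rfl ?_
      intro g _
      simp only [map_mul, Complex.conj_conj]
      ring
    have hcf : IsClassFunction G (fun g => χ.1 g * (χ.1 (g ^ k) * conj (χ.1 (g ^ k)))) :=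
      isClassFunction_mul (isClassFunction_irr χ) (isCharacter_conj_class hρ')
    have e0 : classInner χ.1 (fun g => χ.1 g * (χ.1 (g ^ k) * conj (χ.1 (g ^ k))))
        = classInner (indFun T ψ) (fun g => χ.1 g * (χ.1 (g ^ k) * conj (χ.1 (g ^ k)))) := by
      rw [hind]
    rw [e1, e0, frobenius_reciprocity T ψ hcf]
    unfold classInner
    congr 1
    refine Finset.sum_congr rfl ?_
    intro t _
    simp only [ρT, χT, map_mul, Complex.conj_conj]
    ring
  -- (s2)
  obtain ⟨m, hm⟩ := isCharacter_inner_nat hρT (isCharacter_irr (trivIrr T))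
  have hm' : classInner χT χT = m := by
    rw [← hm]
    unfold classInner
    congr 1
    have hcop : (Nat.card T).Coprime k :=
      (Nat.Coprime.coprime_dvd_right (Subgroup.card_subgroup_dvd_card T) hk).symm
    rw [← Equiv.sum_comp (powCoprime hcop)]
    refine Finset.sum_congr rfl ?_
    intro t _
    simp [ρT, χT, trivIrr_apply, powCoprime]
  -- (s3)
  have hΔ' : IsCharacter T (ρT - (m : ℂ) • (trivIrr T).1) := by
    apply isCharacter_of_nat_inner
    · exact isClassFunction_sub (isCharacter_conj_class hρT)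
        (isClassFunction_smul _ (isClassFunction_irr _))
    · intro ξ
      rw [classInner_sub_left, classInner_smul_left]
      by_cases hξ : trivIrr T = ξ
      · refine ⟨0, ?_⟩
        rw [← hξ, hm, irr_inner_self]
        simp
      · obtain ⟨n, hn⟩ := isCharacter_inner_irr_nat hρT ξ
        refine ⟨n, ?_⟩
        rw [irr_inner_ne hξ, hn]
        simp
  -- (s4)
  obtain ⟨n, hn⟩ := isCharacter_inner_nat (isCharacter_mul hψc hΔ') hχT
  have s4 : classInner (fun t : T => ψ t * ρT t) χT = (m : ℂ) + n := by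
    have e2 : (fun t : T => ψ t * ρT t)
        = (m : ℂ) • ψ + ψ * (ρT - (m : ℂ) • (trivIrr T).1) := by
      funext t
      simp only [Pi.add_apply, Pi.smul_apply, Pi.sub_apply, Pi.mul_apply, smul_eq_mul,
        trivIrr_apply]
      ring
    rw [e2, classInner_add_left, classInner_smul_left, hψχ, hn]
    ring
  -- (s5)
  have hΔ : IsCharacter T (χT - ψ) := by
    apply isCharacter_of_nat_inner
    · exact isClassFunction_sub (isCharacter_conj_class hχT) (isCharacter_conj_class hψc)
    · intro ξ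
      rw [classInner_sub_left]
      by_cases hξ : ψi = ξ
      · refine ⟨0, ?_⟩
        rw [← hξ]
        show classInner χT ψ - classInner ψ ψ = _
        rw [hχψ, isIrrCharacter_inner_self hψ]
        simp
      · obtain ⟨n', hn'⟩ := isCharacter_inner_irr_nat hχT ξ
        refine ⟨n', ?_⟩
        have h0 : classInner ψ ξ.1 = 0 := irr_inner_ne (χ := ψi) hξ
        rw [h0, hn']
        simp
  have hΔ1 : (χT - ψ) 1 ≠ 0 := by
    show χ.1 ((1 : T) : G) - ψ 1 ≠ 0
    have h1 : χ.1 ((1 : T) : G) = (T.index : ℂ) * ψ 1 := by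
      rw [← hind]
      exact indFun_one T ψ
    rw [h1]
    have hψ1 : ψ 1 ≠ 0 := irr_one_ne_zero ψi
    have hidx : (T.index : ℂ) ≠ 1 := by
      intro h
      have h2 : T.index = 1 := by exact_mod_cast h
      exact hT (Subgroup.index_eq_one.mp h2)
    intro h
    have h3 : ((T.index : ℂ) - 1) * ψ 1 = 0 := by rw [sub_mul, one_mul]; exact h
    rcases mul_eq_zero.mp h3 with h4 | h4
    · exact hidx (sub_eq_zero.mp h4)
    · exact hψ1 h4
  obtain ⟨n', hn'pos, hn'⟩ := isCharacter_inner_self_pos hΔ hΔ1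
  have s5 : classInner χT χT = 1 + (n' : ℂ) := by
    have e3 : χT = ψ + (χT - ψ) := by
      funext t
      simp
    have hΔψ : classInner (χT - ψ) ψ = 0 := by
      rw [classInner_sub_left, hχψ, isIrrCharacter_inner_self hψ, sub_self]
    have hψΔ : classInner ψ (χT - ψ) = 0 := by
      rw [classInner_conj_symm, hΔψ, map_zero]
    conv_lhs => rw [e3]
    rw [classInner_add_left, classInner_add_right, classInner_add_right,
      isIrrCharacter_inner_self hψ, hψΔ, hΔψ, hn']
    ring
  rw [s1, s4] at hωω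
  rw [hm'] at s5
  have t1 : m + n = 1 := by exact_mod_cast hωω
  have t2 : m = 1 + n' := by exact_mod_cast s5
  omega

theorem gp_central_mul [Finite G] (χ : IrrCharacter G) {t : G} (hcen : t ∈ Subgroup.center G)
    (g : G) : χ.1 (t * g) = (χ.1 1)⁻¹ * χ.1 t * χ.1 g := by
  classical
  haveI : Fintype G := Fintype.ofFinite G
  have hcen' : ∀ x : G, x * t = t * x := fun x => Subgroup.mem_center_iff.mp hcen x
  have hf : IsClassFunction G (fun x : G => if x = t then (1 : ℂ) else 0) := by
    intro x h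
    have e : h * x * h⁻¹ = t ↔ x = t := by
      constructor
      · intro e
        have e1 : x = h⁻¹ * (h * x * h⁻¹) * h := by group
        rw [e1, e, hcen' h⁻¹]
        group
      · intro e
        rw [e, hcen' h]
        group
    simp only [e]
  have h := irr_classFn_convolution χ hf g
  simp only [ite_mul, one_mul, zero_mul, Finset.sum_ite_eq', Finset.mem_univ, if_true] at h
  exact h

theorem gp_vanish_of_central_comm [Finite G] (χ : IrrCharacter G) (g x : G)
    (hc : ⁅x, g⁆ ∈ Subgroup.center G) (hne : χ.1 ⁅x, g⁆ ≠ χ.1 1) : χ.1 g = 0 := by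
  have h1 := irr_one_ne_zero χ
  have hcl := isClassFunction_irr χ
  have e : x * g * x⁻¹ = ⁅x, g⁆ * g := by rw [commutatorElement_def]; group
  have h2 : χ.1 g = (χ.1 1)⁻¹ * χ.1 ⁅x, g⁆ * χ.1 g := by
    rw [← gp_central_mul χ hc g, ← e]; exact (hcl g x).symm
  by_contra h0
  apply hne
  have h3 : (1 : ℂ) * χ.1 g = ((χ.1 1)⁻¹ * χ.1 ⁅x, g⁆) * χ.1 g := by rw [one_mul]; exact h2
  have h4 := mul_right_cancel₀ h0 h3
  field_simp at h4
  exact h4.symm

end Cfsg.Agent.Lib.helper5
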