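import Mathlib
import Cfsg.Agent.Lib.helper5.GalProdA

set_option autoImplicit false

namespace Cfsg.Agent.Lib.helper5

open Cfsg Cfsg.Agent.Lib.helper24 Cfsg.Agent.Lib.helper23
open scoped ComplexConjugate commutatorElement

universe u

variable {G : Type u} [Group G]

set_option maxHeartbeats 800000 in
/-- Case II: a normal subgroup `N` with central commutators and `Z(N) ≤ Z(G)` which is
not central. -/
theorem galprod_case2 [Fintype G] (χ : IrrCharacter G)
    (hfaith : ∀ g : G, χ.1 g = χ.1 1 → g = 1) (k : ℕ) (hk : k.Coprime (Nat.card G))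
    (N : Subgroup G) [hN : N.Normal]
    (hNN : ∀ x ∈ N, ∀ y ∈ N, x * y * x⁻¹ * y⁻¹ ∈ Subgroup.center G)
    (hcen : ∀ x ∈ N, (∀ y ∈ N, x * y = y * x) → x ∈ Subgroup.center G)
    (f : G) (hf : f ∈ N) (hfc : f ∉ Subgroup.center G) :
    ¬ IsIrrCharacter G (fun g => χ.1 g * χ.1 (g ^ k)) := by
  classical
  haveI : Fintype N := Fintype.ofFinite N
  have hZ : ∀ z ∈ Subgroup.center G, ∀ g : G, g * z = z * g :=
    fun z hz g => Subgroup.mem_center_iff.mp hz g
  have hmul : ∀ a b : G, f⁻¹ * b * f * b⁻¹ ∈ Subgroup.center G →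
      f⁻¹ * (a * b) * f * (a * b)⁻¹ = (f⁻¹ * a * f * a⁻¹) * (f⁻¹ * b * f * b⁻¹) := by
    intro a b hb
    have h1 := hZ _ hb a⁻¹
    calc f⁻¹ * (a * b) * f * (a * b)⁻¹ = f⁻¹ * a * f * ((f⁻¹ * b * f * b⁻¹) * a⁻¹) := by group
      _ = f⁻¹ * a * f * (a⁻¹ * (f⁻¹ * b * f * b⁻¹)) := by rw [h1]
      _ = _ := by group
  let T : Subgroup G :=
    { carrier := {g | f⁻¹ * g * f * g⁻¹ ∈ Subgroup.center G}
      mul_mem' := by
        intro a b ha hb
        show f⁻¹ * (a * b) * f * (a * b)⁻¹ ∈ Subgroup.center G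
        rw [hmul a b hb]
        exact mul_mem ha hb
      one_mem' := by
        show f⁻¹ * 1 * f * 1⁻¹ ∈ Subgroup.center G
        simp
      inv_mem' := by
        intro a ha
        show f⁻¹ * a⁻¹ * f * a⁻¹⁻¹ ∈ Subgroup.center G
        have hc : (f⁻¹ * a * f * a⁻¹)⁻¹ ∈ Subgroup.center G := inv_mem ha
        have e : f⁻¹ * a⁻¹ * f * a⁻¹⁻¹ = a⁻¹ * (f⁻¹ * a * f * a⁻¹)⁻¹ * a := by group
        rw [e, hZ _ hc a⁻¹, mul_assoc, inv_mul_cancel, mul_one]
        exact hc }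
  haveI : Fintype T := Fintype.ofFinite T
  haveI : Fintype (IrrCharacter T) := Fintype.ofFinite _
  have hTmem : ∀ g : G, g ∈ T ↔ f⁻¹ * g * f * g⁻¹ ∈ Subgroup.center G := fun g => Iff.rfl
  have hNT : N ≤ T := by
    intro y hy
    rw [hTmem]
    have h1 := hNN f⁻¹ (inv_mem hf) y hy
    rw [inv_inv] at h1
    exact h1
  let c : T →* Subgroup.center G :=
    { toFun := fun t => ⟨f⁻¹ * t * f * (t : G)⁻¹, t.2⟩
      map_one' := Subtype.ext (by simp)
      map_mul' := fun a b => Subtype.ext (hmul a b b.2) }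
  let φ : Subgroup.center G →* ℂ :=
    { toFun := fun z => (χ.1 1)⁻¹ * χ.1 z
      map_one' := by
        show (χ.1 1)⁻¹ * χ.1 ((1 : Subgroup.center G) : G) = 1
        rw [OneMemClass.coe_one, inv_mul_cancel₀ (irr_one_ne_zero χ)]
      map_mul' := by
        intro z w
        show (χ.1 1)⁻¹ * χ.1 ((z : G) * w) = (χ.1 1)⁻¹ * χ.1 z * ((χ.1 1)⁻¹ * χ.1 w)
        rw [gp_central_mul χ z.2 w]
        ring }
  let ν : T →* ℂˣ := (MonoidHom.toHomUnits φ).comp c
  have hνval : ∀ t : T, (ν t : ℂ) = (χ.1 1)⁻¹ * χ.1 (f⁻¹ * t * f * (t : G)⁻¹) := fun t => rfl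
  have hνeq : ∀ t : T, ν t = 1 ↔ f⁻¹ * (t : G) * f * (t : G)⁻¹ = 1 := by
    intro t
    constructor
    · intro h
      have h1 : (ν t : ℂ) = 1 := by rw [h]; rfl
      rw [hνval] at h1
      apply hfaith
      have h2 := irr_one_ne_zero χ
      field_simp at h1
      exact h1
    · intro h
      apply Units.ext
      rw [hνval, h, inv_mul_cancel₀ (irr_one_ne_zero χ)]
      rfl
  have hvan : ∀ t : T, ν t ≠ 1 → χ.1 t = 0 := by
    intro t ht
    have e : ⁅f⁻¹, (t : G)⁆ = f⁻¹ * t * f * (t : G)⁻¹ := by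
      rw [commutatorElement_def, inv_inv]
    apply gp_vanish_of_central_comm χ (t : G) f⁻¹
    · rw [e]; exact t.2
    · rw [e]
      intro h
      exact ht ((hνeq t).mpr (hfaith _ h))
  have hnt : ∃ t : T, ν t ≠ 1 := by
    by_contra h
    push Not at h
    apply hfc
    apply hcen f hf
    intro y hy
    have h1 := (hνeq ⟨y, hNT hy⟩).mp (h ⟨y, hNT hy⟩)
    have h2 : f⁻¹ * y * f * y⁻¹ = 1 := h1
    calc f * y = f * (f⁻¹ * y * f * y⁻¹) * y := by rw [h2]; group
      _ = y * f := by group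
  -- Clifford
  let νN : N →* ℂˣ := ν.comp (Subgroup.inclusion hNT)
  have hϑ : IsIrrCharacter N (fun n => (νN n : ℂ)) := isIrrCharacter_of_hom νN
  have hφinj : ∀ a ∈ Subgroup.center G, ∀ b ∈ Subgroup.center G, χ.1 a = χ.1 b → a = b := by
    intro a ha b hb hab
    have h1 := gp_central_mul χ (inv_mem hb) a
    have h2 := gp_central_mul χ (inv_mem hb) b
    rw [inv_mul_cancel] at h2
    have h3 : χ.1 (b⁻¹ * a) = χ.1 1 := by rw [h1, hab, ← h2]
    have h4 := hfaith _ h3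
    exact (inv_mul_eq_one.mp h4).symm
  have hTiff : ∀ g : G, g ∈ T ↔
      ∀ n : N, (νN ⟨g * n * g⁻¹, hN.conj_mem (n : G) n.2 g⟩ : ℂ) = (νN n : ℂ) := by
    intro g
    constructor
    · intro hg n
      have e : (⟨g * n * g⁻¹, hNT (hN.conj_mem (n : G) n.2 g)⟩ : T)
          = ⟨g, hg⟩ * ⟨n, hNT n.2⟩ * ⟨g, hg⟩⁻¹ := rfl
      show (ν ⟨g * n * g⁻¹, hNT (hN.conj_mem (n : G) n.2 g)⟩ : ℂ) = (ν ⟨n, hNT n.2⟩ : ℂ)
      rw [e, map_mul, map_mul, map_inv, mul_comm, inv_mul_cancel_left]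
    · intro h
      have h1 : ∀ n ∈ N, f⁻¹ * (g * n * g⁻¹) * f * (g * n * g⁻¹)⁻¹ = f⁻¹ * n * f * n⁻¹ := by
        intro n hn
        have h0 := h ⟨n, hn⟩
        have h0' : (χ.1 1)⁻¹ * χ.1 (f⁻¹ * (g * n * g⁻¹) * f * (g * n * g⁻¹)⁻¹)
            = (χ.1 1)⁻¹ * χ.1 (f⁻¹ * n * f * n⁻¹) := h0
        have h00 := mul_left_cancel₀ (inv_ne_zero (irr_one_ne_zero χ)) h0'
        exact hφinj _ ((hTmem _).mp (hNT (hN.conj_mem n hn g))) _ ((hTmem _).mp (hNT hn)) h00
      have hf' : g⁻¹ * f * g ∈ N := by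
        have h2 := hN.conj_mem f hf g⁻¹
        rw [inv_inv] at h2
        exact h2
      have h2 : ∀ n ∈ N, (g⁻¹ * f * g)⁻¹ * n * (g⁻¹ * f * g) * n⁻¹ = f⁻¹ * n * f * n⁻¹ := by
        intro n hn
        rw [← h1 n hn]
        have hz := hNN (g⁻¹ * f * g)⁻¹ (inv_mem hf') n hn
        rw [inv_inv] at hz
        have e : f⁻¹ * (g * n * g⁻¹) * f * (g * n * g⁻¹)⁻¹
            = g * ((g⁻¹ * f * g)⁻¹ * n * (g⁻¹ * f * g) * n⁻¹) * g⁻¹ := by group
        rw [e, hZ _ hz g, mul_inv_cancel_right]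
      have h3 : ∀ n ∈ N, (f * (g⁻¹ * f * g)⁻¹) * n = n * (f * (g⁻¹ * f * g)⁻¹) := by
        intro n hn
        have h4 := h2 n hn
        calc f * (g⁻¹ * f * g)⁻¹ * n
            = f * ((g⁻¹ * f * g)⁻¹ * n * (g⁻¹ * f * g) * n⁻¹) * n * (g⁻¹ * f * g)⁻¹ := by group
          _ = f * (f⁻¹ * n * f * n⁻¹) * n * (g⁻¹ * f * g)⁻¹ := by rw [h4]
          _ = n * (f * (g⁻¹ * f * g)⁻¹) := by group
      have hw : f * (g⁻¹ * f * g)⁻¹ ∈ Subgroup.center G :=
        hcen _ (mul_mem hf (inv_mem hf')) h3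
      rw [hTmem]
      have e : f⁻¹ * g * f * g⁻¹ = f⁻¹ * (g * (f * (g⁻¹ * f * g)⁻¹) * g⁻¹) * f := by group
      rw [e, hZ _ hw g, mul_inv_cancel_right, hZ _ hw f⁻¹, inv_mul_cancel_right]
      exact hw
  obtain ⟨cc, hfib, -, hirrT, -⟩ :=
    clifford_correspondence N (fun n => (νN n : ℂ)) hϑ T hTiff hNT
  let ψ0 : IrrCharacter T := ⟨fun t => (ν t : ℂ), isIrrCharacter_of_hom ν⟩
  have hcc : cc ψ0 ≠ 0 := by
    intro h0
    have h5 := hfib ψ0
    rw [h0] at h5
    have h6 : classInner (fun n : N => (νN n : ℂ)) (fun n : N => (νN n : ℂ)) = 1 :=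
      isIrrCharacter_inner_self hϑ
    have h7 : (fun n : N => ψ0.1 ⟨(n : G), hNT n.2⟩) = (fun n : N => (νN n : ℂ)) := rfl
    rw [h7, h6] at h5
    simp at h5
  exact galprod_of_twist χ k hk T ν (hirrT ψ0 hcc) hvan hnt

/-- Case I: an abelian normal subgroup which is not central. -/
theorem galprod_case1 [Fintype G] (χ : IrrCharacter G)
    (hfaith : ∀ g : G, χ.1 g = χ.1 1 → g = 1) (k : ℕ) (hk : k.Coprime (Nat.card G))
    (A : Subgroup G) [hA : A.Normal] (hab : ∀ x ∈ A, ∀ y ∈ A, x * y = y * x)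
    (a : G) (ha : a ∈ A) (hac : a ∉ Subgroup.center G) :
    ¬ IsIrrCharacter G (fun g => χ.1 g * χ.1 (g ^ k)) := by
  classical
  haveI : Fintype A := Fintype.ofFinite A
  haveI : Fintype (IrrCharacter A) := Fintype.ofFinite _
  haveI hcomm : IsMulCommutative A := ⟨⟨fun x y => Subtype.ext (hab x x.2 y y.2)⟩⟩
  obtain ⟨g, hg⟩ : ∃ g : G, g * a ≠ a * g := by
    by_contra h
    push Not at h
    exact hac (Subgroup.mem_center_iff.mpr h)
  have hgag : g * a * g⁻¹ ∈ A := hA.conj_mem a ha g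
  let u : A := ⟨a, ha⟩⁻¹ * ⟨g * a * g⁻¹, hgag⟩
  have hu : (u : G) ≠ 1 := by
    intro h
    apply hg
    have h1 : a⁻¹ * (g * a * g⁻¹) = 1 := h
    calc g * a = a * (a⁻¹ * (g * a * g⁻¹)) * g := by group
      _ = a * g := by rw [h1]; group
  have hχu : χ.1 (u : G) ≠ χ.1 1 := fun h => hu (hfaith _ h)
  let χA : A → ℂ := fun x => χ.1 x
  have hχA : IsCharacter A χA := isCharacter_restrict A (isCharacter_irr χ)
  have hex : ∃ ξ : IrrCharacter A, classInner χA ξ.1 ≠ 0 ∧ ξ.1 u ≠ 1 := by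
    by_contra h
    push Not at h
    apply hχu
    have e1 := classFunction_expansion_apply (isCharacter_conj_class hχA) u
    have e2 := classFunction_expansion_apply (isCharacter_conj_class hχA) 1
    show χA u = χA 1
    rw [e1, e2]
    refine Finset.sum_congr rfl ?_
    intro ξ _
    by_cases h0 : classInner χA ξ.1 = 0
    · rw [h0, zero_mul, zero_mul]
    · rw [h ξ h0, irr_one_of_comm ξ]
  obtain ⟨ξ, hξ0, hξu⟩ := hex
  let T : Subgroup G :=
    { carrier := {x | ∀ n : A, ξ.1 ⟨x * n * x⁻¹, hA.conj_mem n n.2 x⟩ = ξ.1 n}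
      mul_mem' := by
        intro x y hx hy n
        have e : (⟨x * y * n * (x * y)⁻¹, hA.conj_mem n n.2 (x * y)⟩ : A)
            = ⟨x * ((⟨y * n * y⁻¹, hA.conj_mem n n.2 y⟩ : A) : G) * x⁻¹,
                hA.conj_mem _ (hA.conj_mem n n.2 y) x⟩ :=
          Subtype.ext (by simp [mul_assoc])
        rw [e, hx ⟨y * n * y⁻¹, hA.conj_mem n n.2 y⟩, hy n]
      one_mem' := by
        intro n
        have e : (⟨1 * (n : G) * 1⁻¹, hA.conj_mem n n.2 1⟩ : A) = n :=
          Subtype.ext (by show 1 * (n : G) * 1⁻¹ = n; group)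
        rw [e]
      inv_mem' := by
        intro x hx n
        have h1 := hx ⟨x⁻¹ * n * x⁻¹⁻¹, hA.conj_mem n n.2 x⁻¹⟩
        have e : (⟨x * ((⟨x⁻¹ * n * x⁻¹⁻¹, hA.conj_mem n n.2 x⁻¹⟩ : A) : G) * x⁻¹,
            hA.conj_mem _ (hA.conj_mem n n.2 x⁻¹) x⟩ : A) = n :=
          Subtype.ext (by show x * (x⁻¹ * (n : G) * x⁻¹⁻¹) * x⁻¹ = n; group)
        rw [e] at h1
        exact h1.symm }
  haveI : Fintype T := Fintype.ofFinite T
  have hT : ∀ x : G, x ∈ T ↔ ∀ n : A, ξ.1 ⟨x * n * x⁻¹, hA.conj_mem n n.2 x⟩ = ξ.1 n :=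
    fun x => Iff.rfl
  have hAT : A ≤ T := by
    intro y hy
    rw [hT]
    intro n
    have e : (⟨y * (n : G) * y⁻¹, hA.conj_mem n n.2 y⟩ : A) = n :=
      Subtype.ext (by show y * (n : G) * y⁻¹ = n; rw [hab y hy n n.2, mul_inv_cancel_right])
    rw [e]
  have hTne : T ≠ ⊤ := by
    intro h
    have hgT : g ∈ T := by rw [h]; exact Subgroup.mem_top g
    have h1 := (hT g).mp hgT ⟨a, ha⟩
    apply hξu
    show ξ.1 (⟨a, ha⟩⁻¹ * ⟨g * a * g⁻¹, hgag⟩) = 1
    rw [irr_mul_of_comm, h1, ← irr_mul_of_comm, inv_mul_cancel, irr_one_of_comm]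
  obtain ⟨ψ, hψ, hind, -⟩ := clifford_correspondence_surj A ξ.1 ξ.2 T hT hAT χ.1 χ.2 hξ0
  exact galprod_of_induced χ k hk T hTne ψ hψ hind

/-- A normal subgroup all of whose commutators are central is central. -/
theorem galprod_central_of_comm {G : Type u} [Group G] [Fintype G] (χ : IrrCharacter G)
    (hfaith : ∀ g, χ.1 g = χ.1 1 → g = 1) (k : ℕ) (hk : Nat.Coprime k (Nat.card G))
    (hirr : IsIrrCharacter G (fun g => χ.1 g * χ.1 (g ^ k)))
    (N : Subgroup G) [hN : N.Normal]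
    (hNN : ∀ x ∈ N, ∀ y ∈ N, x * y * x⁻¹ * y⁻¹ ∈ Subgroup.center G) :
    N ≤ Subgroup.center G := by
  intro f hf
  by_contra hfc
  by_cases hcen : ∀ x ∈ N, (∀ y ∈ N, x * y = y * x) → x ∈ Subgroup.center G
  · exact galprod_case2 χ hfaith k hk N hNN hcen f hf hfc hirr
  · push Not at hcen
    obtain ⟨x, hxN, hxc, hxcen⟩ := hcen
    let A : Subgroup G := N ⊓ Subgroup.centralizer (N : Set G)
    haveI hA : A.Normal := Subgroup.normal_inf_normal N (Subgroup.centralizer (N : Set G))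
    have hab : ∀ x ∈ A, ∀ y ∈ A, x * y = y * x := by
      intro x hx y hy
      exact (Subgroup.mem_centralizer_iff.mp hx.2 y hy.1).symm
    exact galprod_case1 χ hfaith k hk A hab x
      ⟨hxN, Subgroup.mem_centralizer_iff.mpr (fun y hy => (hxc y hy).symm)⟩ hxcen hirr

theorem galprod_lcs_normal {G : Type u} [Group G] (N : Subgroup G) [hN : N.Normal] (n : ℕ) :
    (N.lowerCentralSeries n).Normal := by
  induction n with
  | zero => exact hN
  | succ d ih =>
    rw [Subgroup.lowerCentralSeries_succ]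
    haveI := ih
    exact Subgroup.commutator_normal _ _

/-- Under the hypotheses, every nilpotent normal subgroup is central. -/
theorem galprod_nilpotent_le_center {G : Type u} [Group G] [Fintype G] (χ : IrrCharacter G)
    (hfaith : ∀ g, χ.1 g = χ.1 1 → g = 1) (k : ℕ) (hk : Nat.Coprime k (Nat.card G))
    (hirr : IsIrrCharacter G (fun g => χ.1 g * χ.1 (g ^ k)))
    (N : Subgroup G) [hN : N.Normal] (hnil : Group.IsNilpotent N) :
    N ≤ Subgroup.center G := by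
  obtain ⟨c, hc⟩ := (Subgroup.isNilpotent_iff_lowerCentralSeries N).mp hnil
  have key : ∀ j i, i + j = c → N.lowerCentralSeries i ≤ Subgroup.center G := by
    intro j
    induction j with
    | zero =>
      intro i hi
      have hic : i = c := by omega
      rw [hic, hc]
      exact bot_le
    | succ j ih =>
      intro i hi
      have h1 := ih (i + 1) (by omega)
      haveI := galprod_lcs_normal N i
      apply galprod_central_of_comm χ hfaith k hk hirr
      intro x hx y hy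
      apply h1
      rw [Subgroup.lowerCentralSeries_succ]
      have hyN : y ∈ N := Subgroup.lowerCentralSeries_le_self N i hy
      have := Subgroup.commutator_mem_commutator hx hyN
      rwa [commutatorElement_def] at this
  exact key c 0 (by omega)

end Cfsg.Agent.Lib.helper5
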