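import Mathlib
import Cfsg.Agent.Lib.helper5.Knorr4

set_option autoImplicit false

/-!
# Block induction and covering (towards the Harris–Knörr correspondence)

`sum_classFn_constituent`: Clifford-type evaluation of central characters on class functions
supported on (the image of) a normal subgroup.
`cover_induced_in`: if the block of `ψ ∈ Irr H` covers the block of `ξ ∈ Irr (H ∩ N)`, induces
the block of `χ` of `G`, and the block of `ξ` induces (inside `N`) the block of `θd`, then the
blocks of `N` covered by the block of `χ` are the `G`-conjugates of the block of `θd`.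
-/

namespace Cfsg.Agent.Lib.helper5

open Cfsg.Agent.Lib.helper23 Cfsg.Agent.Lib.helper24
open scoped ComplexConjugate

universe u v

section clifford

variable {H : Type u} [Group H] [Fintype H] [Fintype (Cfsg.IrrCharacter H)]
variable {L : Type v} [Group L] [Fintype L] [Fintype (Cfsg.IrrCharacter L)]

/-- a constituent `ξ` of `ψ ∘ ι` determines the values of the central character of `ψ` on the
class functions supported on the range of `ι` -/
theorem sum_classFn_constituent (ι : L →* H) (hι : Function.Injective ι) (f : H → ℂ)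
    (hfc : Cfsg.IsClassFunction H f) (hf0 : ∀ x, x ∉ Set.range ι → f x = 0)
    (ψ : Cfsg.IrrCharacter H) (ξ : Cfsg.IrrCharacter L)
    (h : Cfsg.classInner (fun l : L => ψ.1 (ι l)) ξ.1 ≠ 0) :
    (∑ x : H, f x * ψ.1 x) / ψ.1 1 = ∑ l : L, f (ι l) * (ξ.1 l / ξ.1 1) := by
  classical
  have hLne : (Nat.card L : ℂ) ≠ 0 := NeZero.ne _
  have hξ1 := irr_one_ne_zero ξ
  have hψ1 := irr_one_ne_zero ψ
  obtain ⟨c, hc⟩ : ∃ c : ℂ, c = (∑ x : H, f x * ψ.1 x) / ψ.1 1 := ⟨_, rfl⟩
  rw [← hc]
  have h2 : ∀ k : L, ∑ m : L, f (ι m) * ψ.1 (ι m * ι k) = c * ψ.1 (ι k) := by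
    intro k
    have e1 : ∑ m : L, f (ι m) * ψ.1 (ι m * ι k) = ∑ x : H, f x * ψ.1 (x * ι k) :=
      Fintype.sum_of_injective ι hι _ _ (fun x hx => by rw [hf0 x hx, zero_mul]) (fun _ => rfl)
    rw [e1, irr_classFn_convolution ψ hfc (ι k), hc]
    field_simp
  have h1 : ∀ m : L, ∑ k : L, conj (ξ.1 k) * ψ.1 (ι k * ι m)
      = Cfsg.classInner (fun l : L => ψ.1 (ι l)) ξ.1 * (Nat.card L : ℂ) * (ξ.1 m / ξ.1 1) := by
    intro m
    have hres : Cfsg.IsClassFunction L (fun l : L => ψ.1 (ι l)) := by
      intro g x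
      show ψ.1 (ι (x * g * x⁻¹)) = ψ.1 (ι g)
      rw [map_mul, map_mul, map_inv]
      exact isClassFunction_irr ψ (ι g) (ι x)
    have hexp : ∀ k : L, ψ.1 (ι k * ι m)
        = ∑ φ : Cfsg.IrrCharacter L,
            Cfsg.classInner (fun l : L => ψ.1 (ι l)) φ.1 * φ.1 (k * m) := by
      intro k
      rw [← map_mul]
      exact classFunction_expansion_apply hres (k * m)
    simp only [hexp, Finset.mul_sum]
    rw [Finset.sum_comm]
    have h5 : ∀ φ : Cfsg.IrrCharacter L,
        ∑ k : L, conj (ξ.1 k) * (Cfsg.classInner (fun l : L => ψ.1 (ι l)) φ.1 * φ.1 (k * m))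
        = Cfsg.classInner (fun l : L => ψ.1 (ι l)) φ.1
            * (if φ = ξ then (Nat.card L : ℂ) * φ.1 m / φ.1 1 else 0) := by
      intro φ
      rw [← irr_convolution_conj φ ξ m, Finset.mul_sum]
      apply Finset.sum_congr rfl
      intro k _
      ring
    simp only [h5]
    rw [Finset.sum_eq_single ξ]
    · rw [if_pos rfl]
      ring
    · intro φ _ hφ
      rw [if_neg hφ, mul_zero]
    · intro h'
      exact absurd (Finset.mem_univ ξ) h'
  have hD1 : ∑ k : L, conj (ξ.1 k) * ∑ m : L, f (ι m) * ψ.1 (ι m * ι k)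
      = c * ((Nat.card L : ℂ) * Cfsg.classInner (fun l : L => ψ.1 (ι l)) ξ.1) := by
    simp only [h2]
    rw [← sum_mul_conj_eq_classInner, Finset.mul_sum]
    apply Finset.sum_congr rfl
    intro k _
    ring
  have hD2 : ∑ k : L, conj (ξ.1 k) * ∑ m : L, f (ι m) * ψ.1 (ι m * ι k)
      = Cfsg.classInner (fun l : L => ψ.1 (ι l)) ξ.1 * (Nat.card L : ℂ)
          * ∑ l : L, f (ι l) * (ξ.1 l / ξ.1 1) := by
    simp only [Finset.mul_sum]
    rw [Finset.sum_comm]
    apply Finset.sum_congr rfl
    intro m _
    have hcomm : ∀ k : L, ψ.1 (ι m * ι k) = ψ.1 (ι k * ι m) := by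
      intro k
      have := isClassFunction_irr ψ (ι m * ι k) (ι m)⁻¹
      rw [← this]
      congr 1
      group
    calc ∑ k : L, conj (ξ.1 k) * (f (ι m) * ψ.1 (ι m * ι k))
        = f (ι m) * ∑ k : L, conj (ξ.1 k) * ψ.1 (ι k * ι m) := by
          rw [Finset.mul_sum]
          apply Finset.sum_congr rfl
          intro k _
          rw [hcomm k]
          ring
      _ = _ := by rw [h1 m]; ring
  have hfin := hD1.symm.trans hD2
  have hcanc : Cfsg.classInner (fun l : L => ψ.1 (ι l)) ξ.1 * (Nat.card L : ℂ) * c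
      = Cfsg.classInner (fun l : L => ψ.1 (ι l)) ξ.1 * (Nat.card L : ℂ)
        * ∑ l : L, f (ι l) * (ξ.1 l / ξ.1 1) := by
    rw [← hfin]
    ring
  exact mul_left_cancel₀ (mul_ne_zero h hLne) hcanc

end clifford

section partition

/-- regrouping, by conjugacy classes, a sum over the elements mapping into a
conjugation-invariant set -/
theorem sum_fiber_conjClasses {N : Type u} [Group N] [Fintype N] [DecidableEq N] {X : Type v}
    [Fintype X]
    (j : X → N) (S : Set N) (hS : ∀ m m' : N, IsConj m m' → m ∈ S → m' ∈ S) (F : X → ℂ) :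
    ∑ x : X, S.indicator (fun _ => (1:ℂ)) (j x) * F x
      = ∑ C : ConjClasses N, S.indicator (fun _ => (1:ℂ)) (Quotient.out C)
          * ∑ x : X, ({m : N | IsConj (Quotient.out C) m}).indicator (fun _ => (1:ℂ)) (j x)
            * F x := by
  have h1 : ∀ x : X, S.indicator (fun _ => (1:ℂ)) (j x) * F x
      = ∑ C : ConjClasses N, if C = ConjClasses.mk (j x)
          then S.indicator (fun _ => (1:ℂ)) (j x) * F x else 0 := by
    intro x
    rw [Finset.sum_ite_eq' Finset.univ (ConjClasses.mk (j x))]
    rw [if_pos (Finset.mem_univ _)]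
  rw [Finset.sum_congr rfl (fun x _ => h1 x), Finset.sum_comm]
  apply Finset.sum_congr rfl
  intro C _
  rw [Finset.mul_sum]
  apply Finset.sum_congr rfl
  intro x _
  have hout : ConjClasses.mk (Quotient.out C) = C := Quotient.out_eq C
  have hiff : C = ConjClasses.mk (j x) ↔ IsConj (Quotient.out C) (j x) := by
    rw [← ConjClasses.mk_eq_mk_iff_isConj, hout]
  by_cases hx : IsConj (Quotient.out C) (j x)
  · rw [if_pos (hiff.mpr hx),
      Set.indicator_of_mem (show j x ∈ {m : N | IsConj (Quotient.out C) m} from hx), one_mul]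
    by_cases hC : Quotient.out C ∈ S
    · rw [Set.indicator_of_mem hC, Set.indicator_of_mem (hS _ _ hx hC), one_mul]
    · have hjx : j x ∉ S := fun h' => hC (hS _ _ hx.symm h')
      rw [Set.indicator_of_notMem hC, Set.indicator_of_notMem hjx, zero_mul]
  · rw [if_neg (fun h' => hx (hiff.mp h')),
      Set.indicator_of_notMem (show j x ∉ {m : N | IsConj (Quotient.out C) m} from hx),
      zero_mul, mul_zero]

end partition

section coverA

variable {G : Type u} [Group G] [Fintype G] [Fintype (Cfsg.IrrCharacter G)]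
variable {M : Ideal Cfsg.AlgInt}

omit [Fintype G] [Fintype (Cfsg.IrrCharacter G)] in
/-- the induced central character as a finite sum -/
theorem inducedCentralChar_eq_sum (H : Subgroup G) [Fintype H] (ξ : H → ℂ) (g : G) :
    Cfsg.inducedCentralChar H ξ g
      = ∑ h : H, ({x : G | IsConj g x}).indicator (fun _ => (1:ℂ)) (h : G) * (ξ h / ξ 1) := by
  unfold Cfsg.inducedCentralChar
  rw [finsum_mem_def, finsum_eq_sum_of_fintype]
  apply Finset.sum_congr rfl
  intro h _
  by_cases hc : IsConj g (h : G)
  · rw [Set.indicator_of_mem (show h ∈ {h : H | IsConj g (h : G)} from hc),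
      Set.indicator_of_mem (show (h : G) ∈ {x : G | IsConj g x} from hc), one_mul]
  · rw [Set.indicator_of_notMem (show h ∉ {h : H | IsConj g (h : G)} from hc),
      Set.indicator_of_notMem (show (h : G) ∉ {x : G | IsConj g x} from hc), zero_mul]

/-- **covering and induction**: if the block of `ψ ∈ Irr H` covers the block of
`ξ ∈ Irr (H ∩ N)` and induces the block of `χ ∈ Irr G`, and the block of `ξ` induces, inside
`N`, the block of `θd`, then every constituent of `χ_N` lies in a `G`-conjugate of the block of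
`θd`. -/
theorem cover_induced_in (hMp : M.IsPrime) (N : Subgroup G) [hN : N.Normal] [Fintype N]
    [Fintype (Cfsg.IrrCharacter N)]
    (H : Subgroup G) [Fintype H] [Fintype (Cfsg.IrrCharacter H)] [Fintype ↥(H ⊓ N)]
    [Fintype (Cfsg.IrrCharacter ↥(H ⊓ N))]
    (ψ : Cfsg.IrrCharacter H) (ξ : Cfsg.IrrCharacter ↥(H ⊓ N))
    (hcon : Cfsg.classInner (fun l : ↥(H ⊓ N) => ψ.1 (Subgroup.inclusion inf_le_left l)) ξ.1
      ≠ 0)
    (χ : Cfsg.IrrCharacter G)
    (hind : Cfsg.IsInducedBlock M H (Cfsg.blockOf M ψ.1) (Cfsg.blockOf M χ.1))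
    (θd : Cfsg.IrrCharacter N)
    (hin : Cfsg.IsInducedBlockIn M N (H ⊓ N) (Cfsg.blockOf M ξ.1) (Cfsg.blockOf M θd.1))
    (θ : Cfsg.IrrCharacter N) (hθ : Cfsg.classInner (fun n : N => χ.1 n) θ.1 ≠ 0) :
    ∃ g : G, Cfsg.SameBlock M θ.1 (helper24.conjFun N θd.1 g) := by
  classical
  apply exists_conj_sameBlock N hMp
  intro n
  rw [← centralChar_eq_induced_of_constituent N χ θ hθ n]
  have h1 := hind.2.2 ψ (mem_blockOf_self hMp.ne_top ψ) χ (mem_blockOf_self hMp.ne_top χ) (n : G)
  have hS : ∀ m m' : N, IsConj m m' → m ∈ {m : N | IsConj (n : G) (m : G)} →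
      m' ∈ {m : N | IsConj (n : G) (m : G)} := by
    intro m m' hmm hm
    obtain ⟨t, ht⟩ := isConj_iff.mp hmm
    have h' : IsConj (m : G) (m' : G) := isConj_iff.mpr ⟨(t : G), by rw [← ht]; rfl⟩
    exact (show IsConj (n : G) (m : G) from hm).trans h'
  -- the induced central character of `ψ` through `ξ`
  have h2 : Cfsg.inducedCentralChar H ψ.1 (n : G)
      = ∑ l : ↥(H ⊓ N), ({m : N | IsConj (n : G) (m : G)}).indicator (fun _ => (1:ℂ))
          (Subgroup.inclusion inf_le_right l) * (ξ.1 l / ξ.1 1) := by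
    rw [inducedCentralChar_eq_sum]
    obtain ⟨f, hf⟩ : ∃ f : H → ℂ, f = fun h : H =>
        ({x : G | IsConj (n : G) x}).indicator (fun _ => (1:ℂ)) (h : G) := ⟨_, rfl⟩
    have hfc : Cfsg.IsClassFunction H f := by
      intro g x
      rw [hf]
      show ({x : G | IsConj (n : G) x}).indicator (fun _ => (1:ℂ))
          ((x : G) * (g : G) * (x : G)⁻¹)
        = ({x : G | IsConj (n : G) x}).indicator (fun _ => (1:ℂ)) (g : G)
      by_cases hc : IsConj (n : G) (g : G)
      · have hc' : IsConj (n : G) ((x : G) * (g : G) * (x : G)⁻¹) :=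
          hc.trans (isConj_iff.mpr ⟨x, rfl⟩)
        rw [Set.indicator_of_mem (show (g : G) ∈ {x : G | IsConj (n : G) x} from hc),
          Set.indicator_of_mem (show _ ∈ {x : G | IsConj (n : G) x} from hc')]
      · have hc' : ¬ IsConj (n : G) ((x : G) * (g : G) * (x : G)⁻¹) :=
          fun h' => hc (h'.trans (isConj_iff.mpr ⟨(x : G)⁻¹, by group⟩))
        rw [Set.indicator_of_notMem (show (g : G) ∉ {x : G | IsConj (n : G) x} from hc),
          Set.indicator_of_notMem (show _ ∉ {x : G | IsConj (n : G) x} from hc')]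
    have hf0 : ∀ x : H, x ∉ Set.range (Subgroup.inclusion (inf_le_left : H ⊓ N ≤ H)) →
        f x = 0 := by
      intro x hx
      rw [hf]
      apply Set.indicator_of_notMem
      intro hc
      apply hx
      have hc' : IsConj (n : G) (x : G) := hc
      obtain ⟨t, ht⟩ := isConj_iff.mp hc'
      have hxN : (x : G) ∈ N := by
        rw [← ht]
        exact hN.conj_mem n n.2 t
      exact ⟨⟨(x : G), ⟨x.2, hxN⟩⟩, rfl⟩
    have key := sum_classFn_constituent (Subgroup.inclusion (inf_le_left : H ⊓ N ≤ H))
      (Subgroup.inclusion_injective _) f hfc hf0 ψ ξ hcon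
    have e1 : ∑ h : H, ({x : G | IsConj (n : G) x}).indicator (fun _ => (1:ℂ)) (h : G)
          * (ψ.1 h / ψ.1 1) = (∑ x : H, f x * ψ.1 x) / ψ.1 1 := by
      rw [Finset.sum_div, hf]
      apply Finset.sum_congr rfl
      intro h _
      ring
    rw [e1, key, hf]
    apply Finset.sum_congr rfl
    intro l _
    rfl
  have h3 : Cfsg.inducedCentralChar N θd.1 (n : G)
      = ∑ m : N, ({m : N | IsConj (n : G) (m : G)}).indicator (fun _ => (1:ℂ))
          ((fun m : N => m) m) * (θd.1 m / θd.1 1) := by
    rw [inducedCentralChar_eq_sum]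
    apply Finset.sum_congr rfl
    intro m _
    rfl
  rw [sum_fiber_conjClasses (Subgroup.inclusion (inf_le_right : H ⊓ N ≤ N))
    {m : N | IsConj (n : G) (m : G)} hS] at h2
  rw [sum_fiber_conjClasses (fun m : N => m) {m : N | IsConj (n : G) (m : G)} hS] at h3
  have h4 : Cfsg.MemLocalIdeal M (Cfsg.inducedCentralChar H ψ.1 (n : G)
      - Cfsg.inducedCentralChar N θd.1 (n : G)) := by
    rw [h2, h3, ← Finset.sum_sub_distrib]
    apply memLocalIdeal_sum hMp
    intro C _
    rw [← mul_sub]
    by_cases hC : Quotient.out C ∈ {m : N | IsConj (n : G) (m : G)}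
    · rw [Set.indicator_of_mem hC, one_mul]
      have h5 := hin.2.2 ξ (mem_blockOf_self hMp.ne_top ξ) θd (mem_blockOf_self hMp.ne_top θd)
        (Quotient.out C)
      have e5 : Cfsg.inducedCentralCharIn N (H ⊓ N) ξ.1 ((Quotient.out C : N) : G)
          = ∑ x : ↥(H ⊓ N), ({m : N | IsConj (Quotient.out C) m}).indicator (fun _ => (1:ℂ))
              (Subgroup.inclusion (inf_le_right : H ⊓ N ≤ N) x) * (ξ.1 x / ξ.1 1) := by
        unfold Cfsg.inducedCentralCharIn
        rw [finsum_mem_def, finsum_eq_sum_of_fintype]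
        apply Finset.sum_congr rfl
        intro k _
        have hiff : (∃ x : N, (x : G) * (k : G) * (x : G)⁻¹ = ((Quotient.out C : N) : G))
            ↔ IsConj (Quotient.out C) (Subgroup.inclusion (inf_le_right : H ⊓ N ≤ N) k) := by
          rw [isConj_iff]
          constructor
          · rintro ⟨x, hx⟩
            refine ⟨x⁻¹, Subtype.ext ?_⟩
            show ((x⁻¹ : N) : G) * ((Quotient.out C : N) : G) * (((x⁻¹ : N)⁻¹ : N) : G) = (k : G)
            rw [← hx]
            push_cast
            group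
          · rintro ⟨c, hc⟩
            refine ⟨c⁻¹, ?_⟩
            have h' : (c : G) * ((Quotient.out C : N) : G) * (c : G)⁻¹ = (k : G) :=
              congrArg Subtype.val hc
            rw [← h']
            push_cast
            group
        by_cases hc : IsConj (Quotient.out C) (Subgroup.inclusion (inf_le_right : H ⊓ N ≤ N) k)
        · rw [Set.indicator_of_mem (show k ∈ {k : ↥(H ⊓ N) | ∃ x : N,
              (x : G) * (k : G) * (x : G)⁻¹ = ((Quotient.out C : N) : G)} from hiff.mpr hc),
            Set.indicator_of_mem (show Subgroup.inclusion (inf_le_right : H ⊓ N ≤ N) k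
              ∈ {m : N | IsConj (Quotient.out C) m} from hc), one_mul]
        · rw [Set.indicator_of_notMem (show k ∉ {k : ↥(H ⊓ N) | ∃ x : N,
              (x : G) * (k : G) * (x : G)⁻¹ = ((Quotient.out C : N) : G)}
              from fun h' => hc (hiff.mp h')),
            Set.indicator_of_notMem (show Subgroup.inclusion (inf_le_right : H ⊓ N ≤ N) k
              ∉ {m : N | IsConj (Quotient.out C) m} from hc), zero_mul]
      have e6 : Cfsg.centralChar θd.1 (Quotient.out C)
          = ∑ x : N, ({m : N | IsConj (Quotient.out C) m}).indicator (fun _ => (1:ℂ))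
              ((fun m : N => m) x) * (θd.1 x / θd.1 1) := by
        unfold Cfsg.centralChar
        have h7 : ∀ x : N, ({m : N | IsConj (Quotient.out C) m}).indicator (fun _ => (1:ℂ))
              ((fun m : N => m) x) * (θd.1 x / θd.1 1)
            = if IsConj (Quotient.out C) x then θd.1 (Quotient.out C) / θd.1 1 else 0 := by
          intro x
          by_cases hc : IsConj (Quotient.out C) x
          · rw [Set.indicator_of_mem (show x ∈ {m : N | IsConj (Quotient.out C) m} from hc),
              if_pos hc, one_mul, isClassFunction_of_isConj (isClassFunction_irr θd) hc]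
          · rw [Set.indicator_of_notMem (show x ∉ {m : N | IsConj (Quotient.out C) m} from hc),
              if_neg hc, zero_mul]
        rw [Finset.sum_congr rfl (fun x _ => h7 x), ← Finset.sum_filter, Finset.sum_const,
          card_isConj_eq_index, nsmul_eq_mul]
        ring
      rw [← e5, ← e6]
      exact h5
    · rw [Set.indicator_of_notMem hC, zero_mul]
      exact memLocalIdeal_zero hMp.ne_top
  have h6 := memLocalIdeal_sub hMp h4 h1
  rwa [sub_sub_sub_cancel_left] at h6

end coverA

end Cfsg.Agent.Lib.helper5
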