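import Mathlib
import Cfsg.Agent.Lib.helper5.HK1

set_option autoImplicit false

/-!
# Block induction inside a subgroup

`isInducedBlockIn_iff`: the relation `IsInducedBlockIn M N K e d` (`K ≤ N`) is block induction
from `K` (as a subgroup of the group `N`) to `N`.
`exists_inducedIn`, `inducedIn_unique`: the first main theorem inside `N` for the normalizer
`N_N(Q)` of a `p`-subgroup `Q` of `N`.
-/

namespace Cfsg.Agent.Lib.helper5

open Cfsg.Agent.Lib.helper23 Cfsg.Agent.Lib.helper24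
open scoped ComplexConjugate

universe u

section conv

variable {G : Type u} [Group G]
variable {M : Ideal Cfsg.AlgInt}

/-- `IsInducedBlockIn` is block induction inside the group `N` -/
theorem isInducedBlockIn_iff (N K : Subgroup G) (hKN : K ≤ N)
    (e : Set (Cfsg.IrrCharacter K)) (d : Set (Cfsg.IrrCharacter N)) :
    Cfsg.IsInducedBlockIn M N K e d ↔
      Cfsg.IsInducedBlock M (K.subgroupOf N)
        (irrMap (Subgroup.subgroupOfEquivOfLe hKN) '' e) d := by
  have key : ∀ (ξ : Cfsg.IrrCharacter K) (h : N),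
      Cfsg.inducedCentralCharIn N K ξ.1 (h : G)
        = Cfsg.inducedCentralChar (K.subgroupOf N)
            (irrMap (Subgroup.subgroupOfEquivOfLe hKN) ξ).1 h := by
    intro ξ h
    unfold Cfsg.inducedCentralCharIn Cfsg.inducedCentralChar
    rw [finsum_mem_def, finsum_mem_def,
      ← finsum_comp_equiv (Subgroup.subgroupOfEquivOfLe hKN).toEquiv]
    apply finsum_congr
    intro k'
    have hiff : (∃ x : N, (x : G) * ((Subgroup.subgroupOfEquivOfLe hKN k' : K) : G) * (x : G)⁻¹
        = (h : G)) ↔ IsConj h (k' : N) := by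
      rw [isConj_iff]
      constructor
      · rintro ⟨x, hx⟩
        refine ⟨x⁻¹, Subtype.ext ?_⟩
        have hx' : (x : G) * ((k' : N) : G) * (x : G)⁻¹ = (h : G) := hx
        show ((x⁻¹ : N) : G) * (h : G) * (((x⁻¹ : N)⁻¹ : N) : G) = ((k' : N) : G)
        rw [← hx']
        push_cast
        group
      · rintro ⟨c, hc⟩
        refine ⟨c⁻¹, ?_⟩
        have h' : (c : G) * (h : G) * (c : G)⁻¹ = ((k' : N) : G) := congrArg Subtype.val hc
        show ((c⁻¹ : N) : G) * ((k' : N) : G) * ((c⁻¹ : N) : G)⁻¹ = (h : G)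
        rw [← h']
        push_cast
        group
    by_cases hc : IsConj h (k' : N)
    · rw [Set.indicator_of_mem (show k' ∈ {h' : K.subgroupOf N | IsConj h (h' : N)} from hc),
        Set.indicator_of_mem (show (Subgroup.subgroupOfEquivOfLe hKN).toEquiv k'
          ∈ {k : K | ∃ x : N, (x : G) * (k : G) * (x : G)⁻¹ = (h : G)} from hiff.mpr hc)]
      show ξ.1 (Subgroup.subgroupOfEquivOfLe hKN k') / ξ.1 1
        = ξ.1 (Subgroup.subgroupOfEquivOfLe hKN k') / ξ.1 (Subgroup.subgroupOfEquivOfLe hKN 1)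
      rw [map_one]
    · rw [Set.indicator_of_notMem (show k' ∉ {h' : K.subgroupOf N | IsConj h (h' : N)} from hc),
        Set.indicator_of_notMem (show (Subgroup.subgroupOfEquivOfLe hKN).toEquiv k'
          ∉ {k : K | ∃ x : N, (x : G) * (k : G) * (x : G)⁻¹ = (h : G)}
          from fun h' => hc (hiff.mp h'))]
  constructor
  · rintro ⟨he, hd, h⟩
    refine ⟨isPBlock_image_irrMap _ he, hd, ?_⟩
    rintro _ ⟨ξ, hξ, rfl⟩ χ hχ g
    rw [← key]
    exact h ξ hξ χ hχ g
  · rintro ⟨he, hd, h⟩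
    refine ⟨?_, hd, ?_⟩
    · have := isPBlock_image_irrMap (Subgroup.subgroupOfEquivOfLe hKN).symm he
      rwa [image_irrMap_symm_image] at this
    · intro ξ hξ χ hχ g
      rw [key]
      exact h _ ⟨ξ, hξ, rfl⟩ χ hχ g

/-- the normalizer of `Q` in `N`, as a subgroup of the group `N` -/
theorem normalizer_subgroupOf_eq (N Q : Subgroup G) (hQN : Q ≤ N) :
    (Subgroup.normalizer (Q : Set G) ⊓ N).subgroupOf N
      = Subgroup.normalizer ((Q.subgroupOf N : Subgroup N) : Set N) := by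
  ext m
  rw [Subgroup.mem_subgroupOf, Subgroup.mem_inf, Subgroup.mem_normalizer_iff,
    Subgroup.mem_normalizer_iff]
  constructor
  · rintro ⟨hm, -⟩ x
    rw [Subgroup.mem_subgroupOf, Subgroup.mem_subgroupOf]
    exact hm (x : G)
  · intro hh
    refine ⟨fun g => ?_, m.2⟩
    by_cases hg : g ∈ N
    · have := hh ⟨g, hg⟩
      rw [Subgroup.mem_subgroupOf, Subgroup.mem_subgroupOf] at this
      exact this
    · constructor
      · intro hgQ
        exact absurd (hQN hgQ) hg
      · intro hgQ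
        exfalso
        apply hg
        have h1 : (m : G) * g * (m : G)⁻¹ ∈ N := hQN hgQ
        have h2 := N.mul_mem (N.mul_mem (N.inv_mem m.2) h1) m.2
        have e : (m : G)⁻¹ * ((m : G) * g * (m : G)⁻¹) * (m : G) = g := by group
        rwa [e] at h2

end conv

section fmtin

variable {G : Type u} [Group G] [Fintype G]
variable {M : Ideal Cfsg.AlgInt} {p : ℕ} [Fact p.Prime]

/-- every block of `N_N(Q)` induces a block of `N`, which has a defect group containing `Q` -/
theorem exists_inducedIn (hM : Cfsg.IsPModular p M) (N Q : Subgroup G) (hQ : IsPGroup p Q)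
    (hQN : Q ≤ N) (e : Set (Cfsg.IrrCharacter ↥(Subgroup.normalizer (Q : Set G) ⊓ N)))
    (he : Cfsg.IsPBlock M e) :
    ∃ d : Set (Cfsg.IrrCharacter N),
      Cfsg.IsInducedBlockIn M N (Subgroup.normalizer (Q : Set G) ⊓ N) e d ∧
      ∃ E : Subgroup N, Cfsg.IsDefectGroup p M d E ∧ Q.subgroupOf N ≤ E := by
  classical
  haveI : Fintype N := Fintype.ofFinite N
  haveI := Fintype.ofFinite (Cfsg.IrrCharacter N)
  haveI : Fintype ((Subgroup.normalizer (Q : Set G) ⊓ N).subgroupOf N) := Fintype.ofFinite _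
  haveI := Fintype.ofFinite
    (Cfsg.IrrCharacter ((Subgroup.normalizer (Q : Set G) ⊓ N).subgroupOf N))
  have hLN : Subgroup.normalizer (Q : Set G) ⊓ N ≤ N := inf_le_right
  have hnorm := normalizer_subgroupOf_eq N Q hQN
  have hQ' : IsPGroup p (Q.subgroupOf N) := hQ.comap_subtype
  have hPK : Q.subgroupOf N ≤ (Subgroup.normalizer (Q : Set G) ⊓ N).subgroupOf N := by
    rw [hnorm]
    exact Subgroup.le_normalizer
  have hCK : Subgroup.centralizer ((Q.subgroupOf N : Subgroup N) : Set N)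
      ≤ (Subgroup.normalizer (Q : Set G) ⊓ N).subgroupOf N := by
    rw [hnorm]
    exact Subgroup.centralizer_le_normalizer _
  have hKN : (Subgroup.normalizer (Q : Set G) ⊓ N).subgroupOf N
      ≤ Subgroup.normalizer ((Q.subgroupOf N : Subgroup N) : Set N) := hnorm.le
  have he' := isPBlock_image_irrMap (M := M) (Subgroup.subgroupOfEquivOfLe hLN) he
  obtain ⟨d, hd⟩ := exists_induced_of_le_normalizer hM (Q.subgroupOf N) hQ'
    ((Subgroup.normalizer (Q : Set G) ⊓ N).subgroupOf N) hPK hCK hKN he'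
  refine ⟨d, (isInducedBlockIn_iff N _ hLN e d).mpr hd, ?_⟩
  obtain ⟨ξ₀, hξ₀⟩ := he'
  obtain ⟨χ₀, hχ₀⟩ := hd.2.1
  rw [hξ₀, hχ₀] at hd
  rw [hχ₀]
  exact exists_defectGroup_ge_of_induced ((Subgroup.normalizer (Q : Set G) ⊓ N).subgroupOf N)
    hM (Q.subgroupOf N) hQ' hPK hKN ξ₀ χ₀ hd

/-- a block of `N_N(Q)` with defect group `Q` is determined by the block of `N` it induces -/
theorem inducedIn_unique (hM : Cfsg.IsPModular p M) (N Q : Subgroup G) (hQ : IsPGroup p Q)
    (hQN : Q ≤ N) (e₁ e₂ : Set (Cfsg.IrrCharacter ↥(Subgroup.normalizer (Q : Set G) ⊓ N)))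
    (d : Set (Cfsg.IrrCharacter N))
    (hdef : Cfsg.IsDefectGroup p M e₁ (Q.subgroupOf (Subgroup.normalizer (Q : Set G) ⊓ N)))
    (h₁ : Cfsg.IsInducedBlockIn M N (Subgroup.normalizer (Q : Set G) ⊓ N) e₁ d)
    (h₂ : Cfsg.IsInducedBlockIn M N (Subgroup.normalizer (Q : Set G) ⊓ N) e₂ d) : e₁ = e₂ := by
  classical
  haveI : Fintype N := Fintype.ofFinite N
  haveI := Fintype.ofFinite (Cfsg.IrrCharacter N)
  haveI : Fintype ((Subgroup.normalizer (Q : Set G) ⊓ N).subgroupOf N) := Fintype.ofFinite _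
  haveI := Fintype.ofFinite
    (Cfsg.IrrCharacter ((Subgroup.normalizer (Q : Set G) ⊓ N).subgroupOf N))
  have hMp := isPModular_isPrime hM
  have hLN : Subgroup.normalizer (Q : Set G) ⊓ N ≤ N := inf_le_right
  have hnorm := normalizer_subgroupOf_eq N Q hQN
  have hQ' : IsPGroup p (Q.subgroupOf N) := hQ.comap_subtype
  obtain ⟨ξ₁, rfl⟩ := h₁.1
  obtain ⟨ξ₂, rfl⟩ := h₂.1
  obtain ⟨χ₀, rfl⟩ := h₁.2.1
  have h₁' := (isInducedBlockIn_iff N _ hLN _ _).mp h₁
  have h₂' := (isInducedBlockIn_iff N _ hLN _ _).mp h₂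
  rw [irrMap_image_blockOf] at h₁' h₂'
  have hdef' : Cfsg.IsDefectGroup p M
      (Cfsg.blockOf M (irrMap (Subgroup.subgroupOfEquivOfLe hLN) ξ₁).1)
      ((Q.subgroupOf N).subgroupOf ((Subgroup.normalizer (Q : Set G) ⊓ N).subgroupOf N)) := by
    have h := isDefectGroup_irrMap (p := p) (M := M) (Subgroup.subgroupOfEquivOfLe hLN) _ _ hdef
    rw [irrMap_image_blockOf] at h
    exact h
  have hsb := fmt_unique (Q.subgroupOf N) ((Subgroup.normalizer (Q : Set G) ⊓ N).subgroupOf N)
    hnorm hM hQ' χ₀ _ _ hdef' h₁' h₂'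
  have hsb' := irrMap_sameBlock (Subgroup.subgroupOfEquivOfLe hLN).symm hsb
  rw [irrMap_symm_irrMap, irrMap_symm_irrMap] at hsb'
  exact (blockOf_eq_of_mem hMp hsb').symm

end fmtin

end Cfsg.Agent.Lib.helper5
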