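import Mathlib
import Cfsg.Agent.Lib.helper5.HK2

set_option autoImplicit false

/-!
# Conjugation inside `H ∩ N`, Knörr's theorem with a prescribed intersection, and the extended
first main theorem for subgroups containing the normalizer of the defect group
-/

namespace Cfsg.Agent.Lib.helper5

open Cfsg.Agent.Lib.helper23 Cfsg.Agent.Lib.helper24
open scoped ComplexConjugate

universe u

section conjinf

variable {G : Type u} [Group G]
variable {M : Ideal Cfsg.AlgInt}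

/-- conjugation by `h ∈ H` on `H ⊓ N` (`N` normal) -/
def conjInf (H N : Subgroup G) [hN : N.Normal] (h : H) : ↥(H ⊓ N) ≃* ↥(H ⊓ N) where
  toFun l := ⟨(h : G) * (l : G) * (h : G)⁻¹,
    Subgroup.mem_inf.mpr ⟨H.mul_mem (H.mul_mem h.2 (Subgroup.mem_inf.mp l.2).1) (H.inv_mem h.2),
      hN.conj_mem _ (Subgroup.mem_inf.mp l.2).2 _⟩⟩
  invFun l := ⟨(h : G)⁻¹ * (l : G) * (h : G),
    Subgroup.mem_inf.mpr ⟨H.mul_mem (H.mul_mem (H.inv_mem h.2) (Subgroup.mem_inf.mp l.2).1) h.2,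
      by
        have := hN.conj_mem _ (Subgroup.mem_inf.mp l.2).2 (h : G)⁻¹
        rwa [inv_inv] at this⟩⟩
  left_inv l := Subtype.ext (by
    show (h : G)⁻¹ * ((h : G) * (l : G) * (h : G)⁻¹) * (h : G) = (l : G)
    group)
  right_inv l := Subtype.ext (by
    show (h : G) * ((h : G)⁻¹ * (l : G) * (h : G)) * (h : G)⁻¹ = (l : G)
    group)
  map_mul' l l' := Subtype.ext (by
    show (h : G) * ((l : G) * (l' : G)) * (h : G)⁻¹
      = ((h : G) * (l : G) * (h : G)⁻¹) * ((h : G) * (l' : G) * (h : G)⁻¹)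
    group)

theorem conjInf_coe (H N : Subgroup G) [hN : N.Normal] (h : H) (l : ↥(H ⊓ N)) :
    ((conjInf H N h l : ↥(H ⊓ N)) : G) = (h : G) * (l : G) * (h : G)⁻¹ := rfl

/-- conjugating both blocks by `h ∈ H` preserves block induction inside `N` -/
theorem isInducedBlockIn_conj (H N : Subgroup G) [hN : N.Normal] (h : H)
    (e : Set (Cfsg.IrrCharacter ↥(H ⊓ N))) (d : Set (Cfsg.IrrCharacter N))
    (hed : Cfsg.IsInducedBlockIn M N (H ⊓ N) e d) :
    Cfsg.IsInducedBlockIn M N (H ⊓ N) (irrMap (conjInf H N h) '' e)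
      (irrMap (MulAut.conjNormal (h : G) : N ≃* N) '' d) := by
  obtain ⟨he, hd, hc⟩ := hed
  refine ⟨isPBlock_image_irrMap _ he, isPBlock_image_irrMap _ hd, ?_⟩
  rintro _ ⟨ξ, hξ, rfl⟩ _ ⟨χ, hχ, rfl⟩ m
  have e1 : Cfsg.inducedCentralCharIn N (H ⊓ N) (irrMap (conjInf H N h) ξ).1 (m : G)
      = Cfsg.inducedCentralCharIn N (H ⊓ N) ξ.1
          (((MulAut.conjNormal (h : G) : N ≃* N) m : N) : G) := by
    unfold Cfsg.inducedCentralCharIn
    rw [finsum_mem_def, finsum_mem_def]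
    refine Eq.trans ?_ (finsum_comp_equiv (conjInf H N h).toEquiv)
    apply finsum_congr
    intro k
    have hiff : (∃ x : N, (x : G) * (k : G) * (x : G)⁻¹ = (m : G))
        ↔ (∃ x : N, (x : G) * ((conjInf H N h k : ↥(H ⊓ N)) : G) * (x : G)⁻¹
            = (h : G) * (m : G) * (h : G)⁻¹) := by
      constructor
      · rintro ⟨x, hx⟩
        refine ⟨⟨(h : G) * (x : G) * (h : G)⁻¹, hN.conj_mem _ x.2 _⟩, ?_⟩
        show (h : G) * (x : G) * (h : G)⁻¹ * ((h : G) * (k : G) * (h : G)⁻¹)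
            * ((h : G) * (x : G) * (h : G)⁻¹)⁻¹ = (h : G) * (m : G) * (h : G)⁻¹
        rw [← hx]
        group
      · rintro ⟨y, hy⟩
        have hy' : (y : G) * ((h : G) * (k : G) * (h : G)⁻¹) * (y : G)⁻¹
            = (h : G) * (m : G) * (h : G)⁻¹ := hy
        have hyN : (h : G)⁻¹ * (y : G) * (h : G) ∈ N := by
          have := hN.conj_mem _ y.2 (h : G)⁻¹
          rwa [inv_inv] at this
        refine ⟨⟨(h : G)⁻¹ * (y : G) * (h : G), hyN⟩, ?_⟩
        show (h : G)⁻¹ * (y : G) * (h : G) * (k : G) * ((h : G)⁻¹ * (y : G) * (h : G))⁻¹ = (m : G)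
        have hm : (m : G) = (h : G)⁻¹ * ((y : G) * ((h : G) * (k : G) * (h : G)⁻¹) * (y : G)⁻¹)
            * (h : G) := by
          rw [hy']
          group
        rw [hm]
        group
    by_cases hc : ∃ x : N, (x : G) * (k : G) * (x : G)⁻¹ = (m : G)
    · rw [Set.indicator_of_mem (show k ∈ {k : ↥(H ⊓ N) | ∃ x : N,
          (x : G) * (k : G) * (x : G)⁻¹ = (m : G)} from hc),
        Set.indicator_of_mem (show (conjInf H N h).toEquiv k ∈ {k : ↥(H ⊓ N) | ∃ x : N,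
          (x : G) * (k : G) * (x : G)⁻¹ = (((MulAut.conjNormal (h : G) : N ≃* N) m : N) : G)}
          from hiff.mp hc)]
      show ξ.1 (conjInf H N h k) / ξ.1 (conjInf H N h 1) = ξ.1 (conjInf H N h k) / ξ.1 1
      rw [map_one]
    · rw [Set.indicator_of_notMem (show k ∉ {k : ↥(H ⊓ N) | ∃ x : N,
          (x : G) * (k : G) * (x : G)⁻¹ = (m : G)} from hc),
        Set.indicator_of_notMem (show (conjInf H N h).toEquiv k ∉ {k : ↥(H ⊓ N) | ∃ x : N,
          (x : G) * (k : G) * (x : G)⁻¹ = (((MulAut.conjNormal (h : G) : N ≃* N) m : N) : G)}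
          from fun h' => hc (hiff.mpr h'))]
  have e2 : Cfsg.centralChar (irrMap (MulAut.conjNormal (h : G) : N ≃* N) χ).1 m
      = Cfsg.centralChar χ.1 ((MulAut.conjNormal (h : G) : N ≃* N) m) :=
    centralChar_comp_equiv _ χ.1 m
  rw [e1, e2]
  exact hc ξ hξ χ hχ _

/-- the multiplicity of a constituent of the restriction to `H ⊓ N` of a character of `H` is
invariant under conjugation by `H` -/
theorem classInner_conjInf (H N : Subgroup G) [hN : N.Normal] [Fintype ↥(H ⊓ N)] (h : H)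
    (ψ : Cfsg.IrrCharacter H) (ξ : Cfsg.IrrCharacter ↥(H ⊓ N)) :
    Cfsg.classInner (fun l : ↥(H ⊓ N) => ψ.1 (Subgroup.inclusion inf_le_left l))
        (irrMap (conjInf H N h) ξ).1
      = Cfsg.classInner (fun l : ↥(H ⊓ N) => ψ.1 (Subgroup.inclusion inf_le_left l)) ξ.1 := by
  have e : (fun l : ↥(H ⊓ N) => ψ.1 (Subgroup.inclusion inf_le_left l))
      = (fun l : ↥(H ⊓ N) => ψ.1 (Subgroup.inclusion inf_le_left l)) ∘ (conjInf H N h) := by
    funext l
    show ψ.1 (Subgroup.inclusion inf_le_left l)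
      = ψ.1 (Subgroup.inclusion inf_le_left (conjInf H N h l))
    have := isClassFunction_irr ψ (Subgroup.inclusion inf_le_left l) h
    rw [← this]
    exact congrArg ψ.1 (Subtype.ext rfl)
  conv_lhs => rw [e]
  exact classInner_comp_equiv (conjInf H N h) _ ξ.1

end conjinf

section knorrmeet

variable {G : Type u} [Group G] [Fintype G]
variable {M : Ideal Cfsg.AlgInt} {p : ℕ} [Fact p.Prime]

/-- **Knörr's theorem with a prescribed intersection**: if `B` covers the block `d` of the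
normal subgroup `N` and `Q ≤ N` is a defect group of `d`, then some defect group `P` of `B` has
`P ∩ N = Q` -/
theorem knorr_meet (hM : Cfsg.IsPModular p M) (N : Subgroup G) [hN : N.Normal] [Fintype N]
    (Q : Subgroup G) (hQN : Q ≤ N)
    (d : Set (Cfsg.IrrCharacter N)) (hd : Cfsg.IsPBlock M d)
    (hdQ : Cfsg.IsDefectGroup p M d (Q.subgroupOf N))
    (B : Set (Cfsg.IrrCharacter G)) (hB : Cfsg.IsPBlock M B)
    (hcov : ∃ χ ∈ B, ∃ θ ∈ d, Cfsg.classInner (fun n : N => χ.1 n) θ.1 ≠ 0) :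
    ∃ P : Subgroup G, Cfsg.IsDefectGroup p M B P ∧ P ⊓ N = Q := by
  classical
  haveI := Fintype.ofFinite (Cfsg.IrrCharacter G)
  obtain ⟨P₁, hP₁, -, hd₁⟩ := knorr_exists hM N d hd B hB hcov
  obtain ⟨θ₀, rfl⟩ := hd
  obtain ⟨y, hy⟩ := Cfsg.Agent.Lib.helper22.defectGroup_conj_of hM θ₀ hd₁ hdQ
  refine ⟨P₁.map (MulAut.conj (y : G)).toMonoidHom, isDefectGroup_conj hP₁ (y : G), ?_⟩
  ext x
  rw [Subgroup.mem_inf, mem_map_conj]
  constructor
  · rintro ⟨hx1, hxN⟩
    have h1 : (⟨x, hxN⟩ : N) ∈ ((P₁ ⊓ N).subgroupOf N).map (MulAut.conj y).toMonoidHom := by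
      rw [mem_map_conj, Subgroup.mem_subgroupOf, Subgroup.mem_inf]
      exact ⟨hx1, (y⁻¹ * ⟨x, hxN⟩ * y : N).2⟩
    rw [← hy] at h1
    exact h1
  · intro hxQ
    have hxN := hQN hxQ
    have h1 : (⟨x, hxN⟩ : N) ∈ Q.subgroupOf N := hxQ
    rw [hy, mem_map_conj, Subgroup.mem_subgroupOf, Subgroup.mem_inf] at h1
    exact ⟨h1.1, hxN⟩

end knorrmeet

end Cfsg.Agent.Lib.helper5
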