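import Mathlib
import Cfsg.Agent.Lib.helper5.HK3

set_option autoImplicit false

/-!
# The extended first main theorem over a subgroup containing the normalizer of the defect group

For `N_G(P) ≤ H` and a block `c` of `H` with defect group `P`: if `c` induces the block `B` of
`G` then `B` has defect group `P` (`extfmt`), and `c` is determined by `B` (`extfmt_inj`).
-/

namespace Cfsg.Agent.Lib.helper5

open Cfsg.Agent.Lib.helper23 Cfsg.Agent.Lib.helper24
open scoped ComplexConjugate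

universe u

section subst

variable {G : Type u} [Group G]
variable {M : Ideal Cfsg.AlgInt} {p : ℕ}

/-- transport of a character, with its induction and defect group properties, along an
equality of subgroups -/
theorem transport_subgroup_eq {K₁ K₂ : Subgroup G} (h : K₁ = K₂) (ξ : Cfsg.IrrCharacter K₁) :
    ∃ ξ₂ : Cfsg.IrrCharacter K₂,
      (∀ (x : G) (hx₁ : x ∈ K₁) (hx₂ : x ∈ K₂), ξ₂.1 ⟨x, hx₂⟩ = ξ.1 ⟨x, hx₁⟩) ∧
      (∀ B : Set (Cfsg.IrrCharacter G), Cfsg.IsInducedBlock M K₁ (Cfsg.blockOf M ξ.1) B →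
        Cfsg.IsInducedBlock M K₂ (Cfsg.blockOf M ξ₂.1) B) ∧
      (∀ D : Subgroup G, Cfsg.IsDefectGroup p M (Cfsg.blockOf M ξ.1) (D.subgroupOf K₁) →
        Cfsg.IsDefectGroup p M (Cfsg.blockOf M ξ₂.1) (D.subgroupOf K₂)) := by
  subst h
  exact ⟨ξ, fun _ _ _ => rfl, fun _ h => h, fun _ h => h⟩

end subst

section extfmt

variable {G : Type u} [Group G] [Fintype G]
variable {M : Ideal Cfsg.AlgInt} {p : ℕ} [Fact p.Prime]

/-- extended first main theorem: a block of `H ≥ N_G(P)` with defect group `P` inducing the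
block of `χ` is induced from a block of `N_G(P)` with defect group `P`, which induces the block
of `χ`; the latter has defect group `P` -/
theorem extfmt (hM : Cfsg.IsPModular p M) (P H : Subgroup G) (hP : IsPGroup p P)
    (hH : Subgroup.normalizer (P : Set G) ≤ H) (ψ : Cfsg.IrrCharacter H)
    (hdef : Cfsg.IsDefectGroup p M (Cfsg.blockOf M ψ.1) (P.subgroupOf H))
    (χ : Cfsg.IrrCharacter G)
    (hind : Cfsg.IsInducedBlock M H (Cfsg.blockOf M ψ.1) (Cfsg.blockOf M χ.1)) :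
    Cfsg.IsDefectGroup p M (Cfsg.blockOf M χ.1) P ∧
    ∃ ξ : Cfsg.IrrCharacter (Subgroup.normalizer (P : Set G)),
      Cfsg.IsDefectGroup p M (Cfsg.blockOf M ξ.1)
        (P.subgroupOf (Subgroup.normalizer (P : Set G))) ∧
      Cfsg.IsInducedBlock M (Subgroup.normalizer (P : Set G)) (Cfsg.blockOf M ξ.1)
        (Cfsg.blockOf M χ.1) ∧
      Cfsg.IsInducedBlock M ((Subgroup.normalizer (P : Set G)).subgroupOf H)
        (Cfsg.blockOf M (irrMap (Subgroup.subgroupOfEquivOfLe hH) ξ).1)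
        (Cfsg.blockOf M ψ.1) := by
  classical
  haveI := Fintype.ofFinite (Cfsg.IrrCharacter G)
  haveI : Fintype H := Fintype.ofFinite H
  haveI := Fintype.ofFinite (Cfsg.IrrCharacter H)
  haveI : Fintype (Subgroup.normalizer (P : Set G)) := Fintype.ofFinite _
  haveI := Fintype.ofFinite (Cfsg.IrrCharacter (Subgroup.normalizer (P : Set G)))
  haveI : Fintype ((Subgroup.normalizer (P : Set G)).subgroupOf H) := Fintype.ofFinite _
  haveI := Fintype.ofFinite
    (Cfsg.IrrCharacter ((Subgroup.normalizer (P : Set G)).subgroupOf H))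
  haveI : Fintype (Subgroup.normalizer ((P.subgroupOf H : Subgroup H) : Set H)) :=
    Fintype.ofFinite _
  haveI := Fintype.ofFinite
    (Cfsg.IrrCharacter (Subgroup.normalizer ((P.subgroupOf H : Subgroup H) : Set H)))
  have hMp := isPModular_isPrime hM
  have hPH : P ≤ H := Subgroup.le_normalizer.trans hH
  have hPHp : IsPGroup p (P.subgroupOf H) := hP.comap_subtype
  obtain ⟨ξ₁, hξ₁def, hξ₁ind⟩ := fmt_exists (P.subgroupOf H) hM hPHp ψ hdef
  have hnormH : Subgroup.normalizer ((P.subgroupOf H : Subgroup H) : Set H)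
      = (Subgroup.normalizer (P : Set G)).subgroupOf H := by
    rw [← normalizer_subgroupOf_eq H P hPH, inf_of_le_left hH]
  obtain ⟨ξ', -, hi', hd'⟩ := transport_subgroup_eq (M := M) (p := p) hnormH ξ₁
  have hξ'ind := hi' _ hξ₁ind
  have hξ'def := hd' _ hξ₁def
  obtain ⟨ξ, hξ⟩ : ∃ ξ : Cfsg.IrrCharacter (Subgroup.normalizer (P : Set G)),
      ξ = irrMap (Subgroup.subgroupOfEquivOfLe hH).symm ξ' := ⟨_, rfl⟩
  have hξ' : irrMap (Subgroup.subgroupOfEquivOfLe hH) ξ = ξ' := by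
    rw [hξ]
    exact irrMap_irrMap_symm _ ξ'
  have hξdef : Cfsg.IsDefectGroup p M (Cfsg.blockOf M ξ.1)
      (P.subgroupOf (Subgroup.normalizer (P : Set G))) := by
    have h := isDefectGroup_irrMap (p := p) (M := M) (Subgroup.subgroupOfEquivOfLe hH).symm
      _ _ hξ'def
    rw [irrMap_image_blockOf, ← hξ] at h
    exact h
  obtain ⟨χ₁, hχ₁ind, hχ₁def⟩ := fmt_induce P hM hP ξ hξdef
  have htr := isInducedBlock_trans' hMp H (Subgroup.normalizer (P : Set G)) hH ξ ξ'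
    (by rw [← hξ']; rfl) ψ χ₁ hξ'ind hχ₁ind
  have heq : Cfsg.blockOf M χ₁.1 = Cfsg.blockOf M χ.1 := induced_unique hMp htr hind
  rw [heq] at hχ₁ind hχ₁def
  refine ⟨hχ₁def, ξ, hξdef, hχ₁ind, ?_⟩
  rw [hξ']
  exact hξ'ind

/-- injectivity of block induction from `H ≥ N_G(P)` on blocks with defect group `P` -/
theorem extfmt_inj (hM : Cfsg.IsPModular p M) (P H : Subgroup G) (hP : IsPGroup p P)
    (hH : Subgroup.normalizer (P : Set G) ≤ H) (ψ₁ ψ₂ : Cfsg.IrrCharacter H)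
    (hdef₁ : Cfsg.IsDefectGroup p M (Cfsg.blockOf M ψ₁.1) (P.subgroupOf H))
    (hdef₂ : Cfsg.IsDefectGroup p M (Cfsg.blockOf M ψ₂.1) (P.subgroupOf H))
    (χ : Cfsg.IrrCharacter G)
    (hind₁ : Cfsg.IsInducedBlock M H (Cfsg.blockOf M ψ₁.1) (Cfsg.blockOf M χ.1))
    (hind₂ : Cfsg.IsInducedBlock M H (Cfsg.blockOf M ψ₂.1) (Cfsg.blockOf M χ.1)) :
    Cfsg.blockOf M ψ₁.1 = Cfsg.blockOf M ψ₂.1 := by
  classical
  haveI := Fintype.ofFinite (Cfsg.IrrCharacter G)
  haveI : Fintype (Subgroup.normalizer (P : Set G)) := Fintype.ofFinite _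
  haveI := Fintype.ofFinite (Cfsg.IrrCharacter (Subgroup.normalizer (P : Set G)))
  have hMp := isPModular_isPrime hM
  obtain ⟨-, ξ₁, hξ₁def, hξ₁ind, hξ₁H⟩ := extfmt hM P H hP hH ψ₁ hdef₁ χ hind₁
  obtain ⟨-, ξ₂, hξ₂def, hξ₂ind, hξ₂H⟩ := extfmt hM P H hP hH ψ₂ hdef₂ χ hind₂
  have hsb := fmt_unique P (Subgroup.normalizer (P : Set G)) rfl hM hP χ ξ₁ ξ₂ hξ₁def hξ₁ind
    hξ₂ind
  have hsb' := irrMap_sameBlock (Subgroup.subgroupOfEquivOfLe hH) hsb
  have heq : Cfsg.blockOf M (irrMap (Subgroup.subgroupOfEquivOfLe hH) ξ₂).1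
      = Cfsg.blockOf M (irrMap (Subgroup.subgroupOfEquivOfLe hH) ξ₁).1 :=
    blockOf_eq_of_mem hMp hsb'
  rw [heq] at hξ₂H
  exact induced_unique hMp hξ₁H hξ₂H

end extfmt

end Cfsg.Agent.Lib.helper5
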