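import Mathlib
import Cfsg.Agent.Lib.helper5.HK4

set_option autoImplicit false

/-!
# The Harris–Knörr correspondence

`N ⊴ G`, `Q ≤ N` a `p`-subgroup, `H = N_G(Q)`, `d` a block of `N` with defect group `Q` and `e`
its Brauer correspondent in `N_N(Q) = H ∩ N`.  Block induction is a bijection from the blocks of
`H` covering `e` onto the blocks of `G` covering `d`:
`hk_cover` (well defined), `hk_exists` (surjective), `hk_unique` (injective).
-/

namespace Cfsg.Agent.Lib.helper5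

open Cfsg.Agent.Lib.helper23 Cfsg.Agent.Lib.helper24
open scoped ComplexConjugate

universe u

section hk

variable {G : Type u} [Group G] [Fintype G]
variable {M : Ideal Cfsg.AlgInt} {p : ℕ} [Fact p.Prime]

/-- `N ∩ H` as a subgroup of the group `H`, and as a subgroup of `G` -/
def hkInfEquiv (H N : Subgroup G) : ↥(N.subgroupOf H) ≃* ↥(H ⊓ N) where
  toFun x := ⟨((x : H) : G), Subgroup.mem_inf.mpr ⟨(x : H).2, x.2⟩⟩
  invFun l := ⟨⟨(l : G), (Subgroup.mem_inf.mp l.2).1⟩, (Subgroup.mem_inf.mp l.2).2⟩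
  left_inv _ := rfl
  right_inv _ := rfl
  map_mul' _ _ := rfl

/-- Knörr's theorem inside `H` for the normal subgroup `H ∩ N` -/
theorem knorr_meet_sub (hM : Cfsg.IsPModular p M) (N : Subgroup G) [hN : N.Normal]
    (H Q : Subgroup G) (hQH : Q ≤ H) (hQN : Q ≤ N) [Fintype ↥(H ⊓ N)]
    (e : Set (Cfsg.IrrCharacter ↥(H ⊓ N))) (he : Cfsg.IsPBlock M e)
    (heQ : Cfsg.IsDefectGroup p M e (Q.subgroupOf (H ⊓ N)))
    (c : Set (Cfsg.IrrCharacter H)) (hc : Cfsg.IsPBlock M c)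
    (hcov : ∃ ψ ∈ c, ∃ ξ ∈ e, Cfsg.classInner
      (fun l : ↥(H ⊓ N) => ψ.1 (Subgroup.inclusion inf_le_left l)) ξ.1 ≠ 0) :
    ∃ D : Subgroup H, Cfsg.IsDefectGroup p M c D ∧ (D.map H.subtype) ⊓ N = Q := by
  classical
  haveI : Fintype H := Fintype.ofFinite H
  haveI : (N.subgroupOf H).Normal := hN.subgroupOf H
  haveI : Fintype (N.subgroupOf H) := Fintype.ofFinite _
  obtain ⟨ψ, hψ, ξ, hξ, hcon⟩ := hcov
  have he' : Cfsg.IsPBlock M (irrMap (hkInfEquiv H N) '' e) :=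
    isPBlock_image_irrMap _ he
  have heQ' : Cfsg.IsDefectGroup p M (irrMap (hkInfEquiv H N) '' e)
      ((Q.subgroupOf H).subgroupOf (N.subgroupOf H)) :=
    isDefectGroup_irrMap (hkInfEquiv H N) e _ heQ
  have hQN' : Q.subgroupOf H ≤ N.subgroupOf H := fun x hx => hQN hx
  have hcov' : ∃ χ ∈ c, ∃ θ ∈ irrMap (hkInfEquiv H N) '' e,
      Cfsg.classInner (fun n : N.subgroupOf H => χ.1 n) θ.1 ≠ 0 := by
    refine ⟨ψ, hψ, irrMap (hkInfEquiv H N) ξ, ⟨ξ, hξ, rfl⟩, ?_⟩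
    have h1 := classInner_comp_equiv (hkInfEquiv H N)
      (fun l : ↥(H ⊓ N) => ψ.1 (Subgroup.inclusion inf_le_left l)) ξ.1
    intro h0
    apply hcon
    rw [← h1]
    exact h0
  obtain ⟨D, hD, hDN⟩ := knorr_meet hM (N.subgroupOf H) (Q.subgroupOf H) hQN'
    (irrMap (hkInfEquiv H N) '' e) he' heQ' c hc hcov'
  refine ⟨D, hD, ?_⟩
  ext x
  rw [Subgroup.mem_inf]
  constructor
  · rintro ⟨⟨d', hd', rfl⟩, hxN⟩
    have h1 : d' ∈ D ⊓ N.subgroupOf H := Subgroup.mem_inf.mpr ⟨hd', hxN⟩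
    rw [hDN] at h1
    exact h1
  · intro hxQ
    have hxH : x ∈ H := hQH hxQ
    have h1 : (⟨x, hxH⟩ : H) ∈ Q.subgroupOf H := hxQ
    rw [← hDN] at h1
    obtain ⟨h2, h3⟩ := Subgroup.mem_inf.mp h1
    exact ⟨⟨⟨x, hxH⟩, h2, rfl⟩, h3⟩

/-- the block induced by a block of `H` covering `e` covers the block `d` induced by `e` -/
theorem hk_cover (hMp : M.IsPrime) (N : Subgroup G) [hN : N.Normal] [Fintype N]
    (H : Subgroup G) [Fintype ↥(H ⊓ N)]
    (d : Set (Cfsg.IrrCharacter N)) (e : Set (Cfsg.IrrCharacter ↥(H ⊓ N)))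
    (hed : Cfsg.IsInducedBlockIn M N (H ⊓ N) e d)
    (c : Set (Cfsg.IrrCharacter H))
    (hcov : ∃ ψ ∈ c, ∃ ξ ∈ e, Cfsg.classInner
      (fun l : ↥(H ⊓ N) => ψ.1 (Subgroup.inclusion inf_le_left l)) ξ.1 ≠ 0)
    (B : Set (Cfsg.IrrCharacter G)) (hind : Cfsg.IsInducedBlock M H c B) :
    ∃ χ ∈ B, ∃ θ ∈ d, Cfsg.classInner (fun n : N => χ.1 n) θ.1 ≠ 0 := by
  classical
  haveI := Fintype.ofFinite (Cfsg.IrrCharacter G)
  haveI := Fintype.ofFinite (Cfsg.IrrCharacter N)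
  haveI : Fintype H := Fintype.ofFinite H
  haveI := Fintype.ofFinite (Cfsg.IrrCharacter H)
  haveI := Fintype.ofFinite (Cfsg.IrrCharacter ↥(H ⊓ N))
  obtain ⟨ψ, hψ, ξ, hξ, hcon⟩ := hcov
  obtain ⟨χ, hBχ⟩ := hind.2.1
  obtain ⟨θ, hθ⟩ := exists_constituent_restrict N χ
  obtain ⟨θd, hθd⟩ : ∃ θd, θd ∈ d := by
    obtain ⟨θ₀, h0⟩ := hed.2.1
    exact ⟨θ₀, by rw [h0]; exact mem_blockOf_self hMp.ne_top θ₀⟩
  have hc_eq := isPBlock_eq_blockOf hMp hind.1 hψ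
  have he_eq := isPBlock_eq_blockOf hMp hed.1 hξ
  have hd_eq := isPBlock_eq_blockOf hMp hed.2.1 hθd
  have hind' : Cfsg.IsInducedBlock M H (Cfsg.blockOf M ψ.1) (Cfsg.blockOf M χ.1) := by
    rw [← hc_eq, ← hBχ]
    exact hind
  have hed' : Cfsg.IsInducedBlockIn M N (H ⊓ N) (Cfsg.blockOf M ξ.1) (Cfsg.blockOf M θd.1) := by
    rw [← he_eq, ← hd_eq]
    exact hed
  obtain ⟨g, hg⟩ := cover_induced_in hMp N H ψ ξ hcon χ hind' θd hed' θ hθ
  refine ⟨χ, by rw [hBχ]; exact mem_blockOf_self hMp.ne_top χ, conjIrr N g⁻¹ θ, ?_, ?_⟩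
  · rw [hd_eq]
    have h1 := sameBlock_conjFun N g⁻¹ hg
    rw [← conjFun_mul, mul_inv_cancel, conjFun_one] at h1
    exact sameBlock_symm h1
  · rw [constituent_conjIrr N χ θ g⁻¹]
    exact hθ

/-- every block of `G` covering `d` is induced by a block of `N_G(Q)` covering `e` -/
theorem hk_exists (hM : Cfsg.IsPModular p M) (N : Subgroup G) [hN : N.Normal] [Fintype N]
    (Q : Subgroup G) (hQ : IsPGroup p Q) (hQN : Q ≤ N)
    [Fintype ↥(Subgroup.normalizer (Q : Set G) ⊓ N)]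
    (d : Set (Cfsg.IrrCharacter N)) (hd : Cfsg.IsPBlock M d)
    (hdQ : Cfsg.IsDefectGroup p M d (Q.subgroupOf N))
    (e : Set (Cfsg.IrrCharacter ↥(Subgroup.normalizer (Q : Set G) ⊓ N)))
    (heQ : Cfsg.IsDefectGroup p M e (Q.subgroupOf (Subgroup.normalizer (Q : Set G) ⊓ N)))
    (hed : Cfsg.IsInducedBlockIn M N (Subgroup.normalizer (Q : Set G) ⊓ N) e d)
    (B : Set (Cfsg.IrrCharacter G)) (hB : Cfsg.IsPBlock M B)
    (hcovB : ∃ χ ∈ B, ∃ θ ∈ d, Cfsg.classInner (fun n : N => χ.1 n) θ.1 ≠ 0) :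
    ∃ c : Set (Cfsg.IrrCharacter ↥(Subgroup.normalizer (Q : Set G))),
      Cfsg.IsPBlock M c ∧
      (∃ ψ ∈ c, ∃ ξ ∈ e, Cfsg.classInner
        (fun l : ↥(Subgroup.normalizer (Q : Set G) ⊓ N) =>
          ψ.1 (Subgroup.inclusion inf_le_left l)) ξ.1 ≠ 0) ∧
      Cfsg.IsInducedBlock M (Subgroup.normalizer (Q : Set G)) c B := by
  classical
  haveI := Fintype.ofFinite (Cfsg.IrrCharacter G)
  haveI := Fintype.ofFinite (Cfsg.IrrCharacter N)
  haveI : Fintype (Subgroup.normalizer (Q : Set G)) := Fintype.ofFinite _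
  haveI := Fintype.ofFinite (Cfsg.IrrCharacter (Subgroup.normalizer (Q : Set G)))
  haveI := Fintype.ofFinite (Cfsg.IrrCharacter ↥(Subgroup.normalizer (Q : Set G) ⊓ N))
  have hMp := isPModular_isPrime hM
  have hQH : Q ≤ Subgroup.normalizer (Q : Set G) := Subgroup.le_normalizer
  have hCH : Subgroup.centralizer (Q : Set G) ≤ Subgroup.normalizer (Q : Set G) :=
    Subgroup.centralizer_le_normalizer _
  obtain ⟨P, hP, hPN⟩ := knorr_meet hM N Q hQN d hd hdQ B hB hcovB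
  obtain ⟨χ₀, rfl⟩ := hB
  obtain ⟨g₀, hg₀, S, hPS⟩ := hP
  have hQP : Q ≤ P := by
    rw [← hPN]
    exact inf_le_left
  have hg₀C : g₀ ∈ Subgroup.centralizer (Q : Set G) := by
    have hPle : P ≤ Subgroup.centralizer ({g₀} : Set G) := by
      rw [hPS]
      exact sylow_map_le _ S
    exact le_centralizer_singleton_iff.mp (hQP.trans hPle)
  obtain ⟨ψ₀, hψ₀⟩ := exists_isInducedBlock_of_coef (Subgroup.normalizer (Q : Set G)) hM Q hQ
    hQH hCH le_rfl χ₀ g₀ hg₀C hg₀.2.1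
  -- a block of `N_N(Q)` covered by the block of `ψ₀`
  obtain ⟨ξ'', hξ''⟩ : ∃ ξ'' : Cfsg.IrrCharacter ↥(Subgroup.normalizer (Q : Set G) ⊓ N),
      Cfsg.classInner (fun l : ↥(Subgroup.normalizer (Q : Set G) ⊓ N) =>
        ψ₀.1 (Subgroup.inclusion inf_le_left l)) ξ''.1 ≠ 0 := by
    apply exists_constituent (Cfsg.Agent.Lib.helper23.isCharacter_comp
      (isCharacter_of_isIrrCharacter ψ₀.2) (Subgroup.inclusion inf_le_left))
    show ψ₀.1 (Subgroup.inclusion inf_le_left 1) ≠ 0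
    rw [map_one]
    exact irr_one_ne_zero ψ₀
  obtain ⟨d'', hd''ind, E, hE, hQE⟩ := exists_inducedIn hM N Q hQ hQN (Cfsg.blockOf M ξ''.1)
    ⟨ξ'', rfl⟩
  obtain ⟨θ'', hd''eq⟩ := hd''ind.2.1
  obtain ⟨χ, hχB, θ, hθd, hθ⟩ := hcovB
  have hind' : Cfsg.IsInducedBlock M (Subgroup.normalizer (Q : Set G)) (Cfsg.blockOf M ψ₀.1)
      (Cfsg.blockOf M χ.1) := by
    rw [blockOf_eq_of_mem hMp hχB]
    exact hψ₀
  have hin' : Cfsg.IsInducedBlockIn M N (Subgroup.normalizer (Q : Set G) ⊓ N)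
      (Cfsg.blockOf M ξ''.1) (Cfsg.blockOf M θ''.1) := by
    rw [← hd''eq]
    exact hd''ind
  obtain ⟨g, hg⟩ := cover_induced_in hMp N (Subgroup.normalizer (Q : Set G)) ψ₀ ξ'' hξ'' χ
    hind' θ'' hin' θ hθ
  have hd_eq : d = Cfsg.blockOf M θ.1 := isPBlock_eq_blockOf hMp hd hθd
  have hdg : d = irrMap (MulAut.conjNormal g : N ≃* N) '' d'' := by
    rw [hd''eq, irrMap_image_blockOf, hd_eq]
    exact (blockOf_eq_of_mem hMp
      (show irrMap (MulAut.conjNormal g : N ≃* N) θ'' ∈ Cfsg.blockOf M θ.1 from hg)).symm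
  have hEg : Cfsg.IsDefectGroup p M d (E.comap (MulAut.conjNormal g : N ≃* N).toMonoidHom) := by
    rw [hdg]
    exact isDefectGroup_irrMap (MulAut.conjNormal g : N ≃* N) d'' E hE
  rw [hd_eq] at hEg hdQ
  obtain ⟨y, hy⟩ := Cfsg.Agent.Lib.helper22.defectGroup_conj_of hM θ hdQ hEg
  have hcard : Nat.card E = Nat.card (Q.subgroupOf N) := by
    have h1 : Nat.card (E.comap (MulAut.conjNormal g : N ≃* N).toMonoidHom) = Nat.card E := by
      rw [Subgroup.comap_equiv_eq_map_symm']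
      exact Subgroup.card_map_of_injective (MulEquiv.injective _)
    rw [hy, card_map_conj] at h1
    exact h1.symm
  have hEQ : E = Q.subgroupOf N :=
    (Subgroup.eq_of_le_of_card_ge hQE (le_of_eq hcard)).symm
  rw [hEQ] at hy
  have key : ∀ m : N, (g * (m : G) * g⁻¹ ∈ Q) ↔ ((y : G)⁻¹ * (m : G) * (y : G) ∈ Q) := by
    intro m
    have h1 : m ∈ (Q.subgroupOf N).comap (MulAut.conjNormal g : N ≃* N).toMonoidHom
        ↔ m ∈ (Q.subgroupOf N).map (MulAut.conj y).toMonoidHom := by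
      rw [hy]
    rw [mem_map_conj] at h1
    exact h1
  have hh : g * (y : G) ∈ Subgroup.normalizer (Q : Set G) := by
    rw [Subgroup.mem_normalizer_iff]
    intro x
    have e1 : g * (y : G) * x * (g * (y : G))⁻¹ = g * ((y : G) * x * (y : G)⁻¹) * g⁻¹ := by
      group
    have e2 : (y : G)⁻¹ * ((y : G) * x * (y : G)⁻¹) * (y : G) = x := by group
    constructor
    · intro hx
      have hxN : x ∈ N := hQN hx
      have h2 := (key ⟨(y : G) * x * (y : G)⁻¹, hN.conj_mem x hxN y⟩).mpr (by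
        show (y : G)⁻¹ * ((y : G) * x * (y : G)⁻¹) * (y : G) ∈ Q
        rw [e2]
        exact hx)
      rw [e1]
      exact h2
    · intro hx
      have hxN : x ∈ N := by
        have h1 := hQN hx
        have h2 := hN.conj_mem _ h1 (g * (y : G))⁻¹
        have e3 : (g * (y : G))⁻¹ * (g * (y : G) * x * (g * (y : G))⁻¹) * (g * (y : G))⁻¹⁻¹
            = x := by group
        rwa [e3] at h2
      rw [e1] at hx
      have h2 := (key ⟨(y : G) * x * (y : G)⁻¹, hN.conj_mem x hxN y⟩).mp hx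
      have h3 : (y : G)⁻¹ * ((y : G) * x * (y : G)⁻¹) * (y : G) ∈ Q := h2
      rwa [e2] at h3
  have hg' : Cfsg.SameBlock M θ.1 (helper24.conjFun N θ''.1 (g * (y : G))) := by
    have hcf : Cfsg.IsClassFunction N (helper24.conjFun N θ''.1 g) :=
      isClassFunction_irr (conjIrr N g θ'')
    rw [conjFun_mul, conjFun_of_mem N hcf y.2]
    exact hg
  obtain ⟨h, hh_eq⟩ : ∃ h : ↥(Subgroup.normalizer (Q : Set G)), (h : G) = g * (y : G) :=
    ⟨⟨_, hh⟩, rfl⟩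
  have hdh : Cfsg.blockOf M θ.1 = irrMap (MulAut.conjNormal (h : G) : N ≃* N) '' d'' := by
    rw [hd''eq, irrMap_image_blockOf, hh_eq]
    exact (blockOf_eq_of_mem hMp
      (show irrMap (MulAut.conjNormal (g * (y : G)) : N ≃* N) θ'' ∈ Cfsg.blockOf M θ.1
        from hg')).symm
  have hconj := isInducedBlockIn_conj (M := M) (Subgroup.normalizer (Q : Set G)) N h
    (Cfsg.blockOf M ξ''.1) d'' hd''ind
  rw [← hdh, ← hd_eq] at hconj
  have heq : e = irrMap (conjInf (Subgroup.normalizer (Q : Set G)) N h) '' Cfsg.blockOf M ξ''.1 :=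
    inducedIn_unique hM N Q hQ hQN e _ d heQ hed hconj
  refine ⟨Cfsg.blockOf M ψ₀.1, ⟨ψ₀, rfl⟩, ⟨ψ₀, mem_blockOf_self hMp.ne_top ψ₀,
    irrMap (conjInf (Subgroup.normalizer (Q : Set G)) N h) ξ'', ?_, ?_⟩, hψ₀⟩
  · rw [heq]
    exact ⟨ξ'', mem_blockOf_self hMp.ne_top ξ'', rfl⟩
  · rw [classInner_conjInf]
    exact hξ''

/-- a block of `G` is induced by at most one block of `N_G(Q)` covering `e` -/
theorem hk_unique (hM : Cfsg.IsPModular p M) (N : Subgroup G) [hN : N.Normal] [Fintype N]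
    (Q : Subgroup G) (hQN : Q ≤ N)
    [Fintype ↥(Subgroup.normalizer (Q : Set G) ⊓ N)]
    (e : Set (Cfsg.IrrCharacter ↥(Subgroup.normalizer (Q : Set G) ⊓ N)))
    (he : Cfsg.IsPBlock M e)
    (heQ : Cfsg.IsDefectGroup p M e (Q.subgroupOf (Subgroup.normalizer (Q : Set G) ⊓ N)))
    (c₁ c₂ : Set (Cfsg.IrrCharacter ↥(Subgroup.normalizer (Q : Set G))))
    (hc₁ : Cfsg.IsPBlock M c₁) (hc₂ : Cfsg.IsPBlock M c₂)
    (hcov₁ : ∃ ψ ∈ c₁, ∃ ξ ∈ e, Cfsg.classInner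
      (fun l : ↥(Subgroup.normalizer (Q : Set G) ⊓ N) =>
        ψ.1 (Subgroup.inclusion inf_le_left l)) ξ.1 ≠ 0)
    (hcov₂ : ∃ ψ ∈ c₂, ∃ ξ ∈ e, Cfsg.classInner
      (fun l : ↥(Subgroup.normalizer (Q : Set G) ⊓ N) =>
        ψ.1 (Subgroup.inclusion inf_le_left l)) ξ.1 ≠ 0)
    (B : Set (Cfsg.IrrCharacter G))
    (hind₁ : Cfsg.IsInducedBlock M (Subgroup.normalizer (Q : Set G)) c₁ B)
    (hind₂ : Cfsg.IsInducedBlock M (Subgroup.normalizer (Q : Set G)) c₂ B) : c₁ = c₂ := by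
  classical
  haveI := Fintype.ofFinite (Cfsg.IrrCharacter G)
  haveI : Fintype (Subgroup.normalizer (Q : Set G)) := Fintype.ofFinite _
  haveI := Fintype.ofFinite (Cfsg.IrrCharacter (Subgroup.normalizer (Q : Set G)))
  have hMp := isPModular_isPrime hM
  have hQH : Q ≤ Subgroup.normalizer (Q : Set G) := Subgroup.le_normalizer
  obtain ⟨D₁, hD₁, hP₁⟩ := knorr_meet_sub hM N (Subgroup.normalizer (Q : Set G)) Q hQH hQN e he
    heQ c₁ hc₁ hcov₁
  obtain ⟨D₂, hD₂, hP₂⟩ := knorr_meet_sub hM N (Subgroup.normalizer (Q : Set G)) Q hQH hQN e he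
    heQ c₂ hc₂ hcov₂
  have hnormle : ∀ P : Subgroup G, P ⊓ N = Q →
      Subgroup.normalizer (P : Set G) ≤ Subgroup.normalizer (Q : Set G) := by
    intro P hPQ g hg
    rw [Subgroup.mem_normalizer_iff] at hg ⊢
    intro x
    rw [← hPQ, Subgroup.mem_inf, Subgroup.mem_inf, ← hg x]
    constructor
    · rintro ⟨h1, h2⟩
      exact ⟨h1, hN.conj_mem x h2 g⟩
    · rintro ⟨h1, h2⟩
      refine ⟨h1, ?_⟩
      have h3 := hN.conj_mem _ h2 g⁻¹
      have e3 : g⁻¹ * (g * x * g⁻¹) * g⁻¹⁻¹ = x := by group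
      rwa [e3] at h3
  have hsub : ∀ D : Subgroup ↥(Subgroup.normalizer (Q : Set G)),
      (D.map (Subgroup.normalizer (Q : Set G)).subtype).subgroupOf
        (Subgroup.normalizer (Q : Set G)) = D :=
    fun D => Subgroup.comap_map_eq_self_of_injective
      (Subgroup.normalizer (Q : Set G)).subtype_injective D
  have hP₁p : IsPGroup p (D₁.map (Subgroup.normalizer (Q : Set G)).subtype) :=
    (isPGroup_of_isDefectGroup hD₁).map _
  have hP₂p : IsPGroup p (D₂.map (Subgroup.normalizer (Q : Set G)).subtype) :=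
    (isPGroup_of_isDefectGroup hD₂).map _
  obtain ⟨ψ₁, rfl⟩ := hc₁
  obtain ⟨ψ₂, rfl⟩ := hc₂
  obtain ⟨χ₀, hBχ₀⟩ := hind₁.2.1
  rw [hBχ₀] at hind₁ hind₂
  have hB₁ := (extfmt hM _ _ hP₁p (hnormle _ hP₁) ψ₁ (by rw [hsub]; exact hD₁) χ₀ hind₁).1
  have hB₂ := (extfmt hM _ _ hP₂p (hnormle _ hP₂) ψ₂ (by rw [hsub]; exact hD₂) χ₀ hind₂).1
  obtain ⟨g, hg⟩ := Cfsg.Agent.Lib.helper22.defectGroup_conj_of hM χ₀ hB₁ hB₂
  have hgH : g ∈ Subgroup.normalizer (Q : Set G) := by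
    rw [Subgroup.mem_normalizer_iff]
    intro x
    conv_lhs => rw [← hP₁]
    conv_rhs => rw [← hP₂, hg]
    rw [Subgroup.mem_inf, Subgroup.mem_inf, mem_map_conj]
    have e1 : g⁻¹ * (g * x * g⁻¹) * g = x := by group
    rw [e1]
    constructor
    · rintro ⟨h1, h2⟩
      exact ⟨h1, hN.conj_mem x h2 g⟩
    · rintro ⟨h1, h2⟩
      refine ⟨h1, ?_⟩
      have h3 := hN.conj_mem _ h2 g⁻¹
      have e3 : g⁻¹ * (g * x * g⁻¹) * g⁻¹⁻¹ = x := by group
      rwa [e3] at h3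
  have hD₂eq : D₂ = D₁.map
      (MulAut.conj (⟨g, hgH⟩ : ↥(Subgroup.normalizer (Q : Set G)))).toMonoidHom := by
    ext x
    rw [mem_map_conj]
    have h1 : x ∈ D₂ ↔ (x : G) ∈ D₂.map (Subgroup.normalizer (Q : Set G)).subtype :=
      (Subgroup.mem_map_iff_mem (Subgroup.normalizer (Q : Set G)).subtype_injective).symm
    have h2 : (⟨g, hgH⟩ : ↥(Subgroup.normalizer (Q : Set G)))⁻¹ * x * ⟨g, hgH⟩ ∈ D₁
        ↔ g⁻¹ * (x : G) * g ∈ D₁.map (Subgroup.normalizer (Q : Set G)).subtype :=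
      (Subgroup.mem_map_iff_mem (Subgroup.normalizer (Q : Set G)).subtype_injective
        (x := (⟨g, hgH⟩ : ↥(Subgroup.normalizer (Q : Set G)))⁻¹ * x * ⟨g, hgH⟩)).symm
    rw [h1, h2, hg, mem_map_conj]
  have hD₁' : Cfsg.IsDefectGroup p M (Cfsg.blockOf M ψ₁.1) D₂ := by
    rw [hD₂eq]
    exact isDefectGroup_conj hD₁ _
  exact extfmt_inj hM _ _ hP₂p (hnormle _ hP₂) ψ₁ ψ₂ (by rw [hsub]; exact hD₁')
    (by rw [hsub]; exact hD₂) χ₀ hind₁ hind₂

end hk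

end Cfsg.Agent.Lib.helper5
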