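import Mathlib
import Cfsg.Agent.Lib.helper5.K4237c
import Cfsg.Agent.Lib.helper17.K4237
import Cfsg.Agent.Lib.lead.K4237a
import Cfsg.Agent.Lib.helper1.SelfCent
import Cfsg.Agent.Lib.helper1.NormAb2
import Cfsg.Agent.S0112

set_option autoImplicit false

namespace Cfsg.Agent.Lib.helper5

open Subgroup

/-- The exact congruence behind `S4237` (copied from the proof of helper17's `main_of`): the number of
subgroups of order `p ^ a` is `1 + p * (number of non-cyclic subgroups of order p ^ (a + 1))` modulo `p ^ 2`. -/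
theorem k4_main_cong {G : Type*} [Group G] [Finite G] (p a : ℕ) (hp : p.Prime)
    (hdvd : p ^ (a + 1) ∣ Nat.card G) :
    Nat.card {H : Subgroup G // Nat.card H = p ^ a} ≡
      1 + p * Nat.card {H : Subgroup G // Nat.card H = p ^ (a + 1) ∧ ¬ IsCyclic H} [MOD p ^ 2] := by
  obtain ⟨L, hL⟩ := hdvd
  have m1 := Cfsg.Agent.Lib.lead.K4237a.card_pairs_modEq (G := G) p a hp
  have hNZ : NeZero (p ^ (a + 1) * L) := ⟨by rw [← hL]; exact (Nat.card_pos (α := G)).ne'⟩
  have m2 := Cfsg.Agent.Lib.lead.K4237a.card_pairs_modEq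
    (G := Multiplicative (ZMod (p ^ (a + 1) * L))) p a hp
  have hfrob : Nat.card {H : Subgroup G // Nat.card H = p ^ a} ≡ 1 [MOD p] :=
    Cfsg.Agent.Lib.helper20.card_subgroups_modEq_one p a hp
      ((pow_dvd_pow p (Nat.le_succ a)).trans ⟨L, hL⟩)
  have hL0 : L ≠ 0 := by
    rintro rfl; rw [mul_zero] at hL; exact (Nat.card_pos (α := G)).ne' hL
  have : NeZero (p ^ (a + 1) * L) := ⟨by rw [← hL]; exact (Nat.card_pos (α := G)).ne'⟩
  have hC : Nat.card (Multiplicative (ZMod (p ^ (a + 1) * L))) = p ^ (a + 1) * L := by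
    rw [Nat.card_eq_fintype_card, Fintype.card_multiplicative, ZMod.card]
  obtain ⟨r, e1⟩ := Cfsg.Agent.Lib.helper17.K4237.wielandt_sq (G := G) p a L hp hL
  obtain ⟨r', e2⟩ := Cfsg.Agent.Lib.helper17.K4237.wielandt_sq (G := Multiplicative (ZMod (p ^ (a + 1) * L))) p a L hp hC
  have c1 := Cfsg.Agent.Lib.helper17.K4237.card_subgroups_cyclic_eq_one (C := Multiplicative (ZMod (p ^ (a + 1) * L))) p (a + 1)
    hp (by rw [hC]; exact dvd_mul_right _ _)
  have c0 := Cfsg.Agent.Lib.helper17.K4237.card_subgroups_cyclic_eq_one (C := Multiplicative (ZMod (p ^ (a + 1) * L))) p a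
    hp (by rw [hC]; exact (pow_dvd_pow p (Nat.le_succ a)).trans (dvd_mul_right _ _))
  have cnc : Nat.card {Q : Subgroup (Multiplicative (ZMod (p ^ (a + 1) * L))) //
      Nat.card Q = p ^ (a + 1) ∧ ¬ IsCyclic Q} = 0 := by
    have : IsEmpty {Q : Subgroup (Multiplicative (ZMod (p ^ (a + 1) * L))) //
        Nat.card Q = p ^ (a + 1) ∧ ¬ IsCyclic Q} := ⟨fun ⟨Q, _, hQ⟩ => hQ inferInstance⟩
    exact Nat.card_of_isEmpty
  rw [c1, cnc, mul_zero, add_zero] at m2
  rw [c1, c0, hC] at e2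
  rw [hL] at e1
  obtain ⟨hB, hB1⟩ := Cfsg.Agent.Lib.helper17.K4237.choose_facts p L hp hL0
  rw [hB] at e1 e2
  generalize Nat.card {x : Subgroup G × Subgroup G // x.1 ≤ x.2 ∧ Nat.card x.1 = p ^ a ∧
          Nat.card x.2 = p ^ (a + 1)} = Pi0 at e1 m1
  generalize Nat.card {x : Subgroup (Multiplicative (ZMod (p ^ (a + 1) * L))) ×
      Subgroup (Multiplicative (ZMod (p ^ (a + 1) * L))) // x.1 ≤ x.2 ∧ Nat.card x.1 = p ^ a ∧
          Nat.card x.2 = p ^ (a + 1)} = Pi1 at e2 m2
  generalize Nat.card {Q : Subgroup G // Nat.card Q = p ^ (a + 1) ∧ ¬ IsCyclic Q} = nc at m1 ⊢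
  generalize Nat.card {Q : Subgroup G // Nat.card Q = p ^ (a + 1)} = n1 at e1 m1
  generalize Nat.card {H : Subgroup G // Nat.card H = p ^ a} = n0 at e1 hfrob ⊢
  generalize (p * L - 1).choose (p - 1) = B at e1 e2 hB1
  generalize (p ^ (a + 1) * L).choose (p ^ (a + 1)) = X at e1 e2
  obtain ⟨k3, hk3⟩ := Nat.modEq_iff_dvd.mp m1
  obtain ⟨k4, hk4⟩ := Nat.modEq_iff_dvd.mp m2
  obtain ⟨k5, hk5⟩ := Nat.modEq_iff_dvd.mp hB1
  obtain ⟨k6, hk6⟩ := Nat.modEq_iff_dvd.mp hfrob
  push_cast at hk3 hk4 hk5 hk6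
  have e1' : (X : ℤ) + L * Pi0 = L * n1 + L * B * n0 + p ^ 2 * L * r := by exact_mod_cast e1
  have e2' : (X : ℤ) + L * Pi1 = L * 1 + L * B * 1 + p ^ 2 * L * r' := by exact_mod_cast e2
  have ePi0 : (Pi0 : ℤ) = n1 + p * nc - p ^ 2 * k3 := by linarith
  have ePi1 : (Pi1 : ℤ) = 1 - p ^ 2 * k4 := by linarith
  have en0 : (n0 : ℤ) = 1 - p * k6 := by linarith
  have eB : (B : ℤ) = 1 - p * k5 := by linarith
  rw [ePi0, en0, eB] at e1'
  rw [ePi1, eB] at e2'
  have hD : (L : ℤ) * ((p : ℤ) * ((nc : ℤ) + k6 - p * (k3 - k4 + k5 * k6 + r - r'))) = 0 := by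
    linear_combination e1' - e2'
  have hLz : (L : ℤ) ≠ 0 := by exact_mod_cast hL0
  have hpz : (p : ℤ) ≠ 0 := by exact_mod_cast hp.ne_zero
  have hD2 : (nc : ℤ) + k6 - p * (k3 - k4 + k5 * k6 + r - r') = 0 := by
    rcases mul_eq_zero.mp hD with h | h
    · exact absurd h hLz
    · rcases mul_eq_zero.mp h with h | h
      · exact absurd h hpz
      · exact h
  apply Nat.modEq_iff_dvd.mpr
  refine ⟨(k3 - k4 + k5 * k6 + r - r'), ?_⟩
  push_cast
  linear_combination (p : ℤ) * hD2 - en0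

/-- Fibres of `Z ↦ Z ⊔ E` on cyclic subgroups of order `p ^ c`, abstract version. -/
theorem k4_fiber_gen {P : Type*} [Group P] [Finite P] {p : ℕ} [Fact p.Prime]
    (E : Subgroup P) [hEn : E.Normal] (hE2 : Nat.card E = p ^ 2)
    (hEp : ∀ a ∈ E, a ^ p = 1) (c : ℕ)
    (hord0 : ∀ y : P, orderOf y = p ^ c → ∀ e ∈ E, orderOf (y * e) = p ^ c)
    (hinf : ∀ y : P, orderOf y = p ^ c → ∀ e ∈ E, zpowers (y * e) ⊓ E ≤ zpowers y)
    (z : P) (hz : orderOf z = p ^ c) :
    p ∣ Nat.card {Z : Subgroup P // (Nat.card Z = p ^ c ∧ IsCyclic Z) ∧ Z ⊔ E = zpowers z ⊔ E} := by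
  have hpp : p.Prime := Fact.out
  set D : Subgroup P := zpowers z ⊓ E with hD
  set D' : Subgroup ↥E := D.subgroupOf E with hD'
  have hord : ∀ e ∈ E, orderOf (z * e) = p ^ c :=
    fun e he => hord0 z hz e he
  have hmem : ∀ e : ↥E, (Nat.card (zpowers (z * (e : P))) = p ^ c ∧
      IsCyclic (zpowers (z * (e : P)))) ∧ zpowers (z * (e : P)) ⊔ E = zpowers z ⊔ E := by
    intro e
    refine ⟨⟨by rw [Nat.card_zpowers, hord e e.2], inferInstance⟩, ?_⟩
    apply le_antisymm
    · exact sup_le (zpowers_le.mpr (mul_mem (mem_sup_left (mem_zpowers z)) (mem_sup_right e.2)))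
        le_sup_right
    · refine sup_le (zpowers_le.mpr ?_) le_sup_right
      have h : (z * (e : P)) * (e : P)⁻¹ ∈ zpowers (z * (e : P)) ⊔ E :=
        mul_mem (mem_sup_left (mem_zpowers _)) (mem_sup_right (E.inv_mem e.2))
      rwa [mul_inv_cancel_right] at h
  have hcrit : ∀ e e' : ↥E,
      zpowers (z * (e : P)) = zpowers (z * (e' : P)) ↔ e⁻¹ * e' ∈ D' := by
    intro e e'
    rw [hD', Subgroup.mem_subgroupOf, hD, Subgroup.mem_inf]
    constructor
    · intro h
      have h1 : z * (e' : P) ∈ zpowers (z * (e : P)) := by rw [h]; exact mem_zpowers _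
      have h2 : ((e⁻¹ * e' : ↥E) : P) = (z * (e : P))⁻¹ * (z * (e' : P)) := by
        push_cast; group
      have h3 : ((e⁻¹ * e' : ↥E) : P) ∈ zpowers (z * (e : P)) := by
        rw [h2]; exact mul_mem (inv_mem (mem_zpowers _)) h1
      exact ⟨hinf z hz e e.2 ⟨h3, (e⁻¹ * e').2⟩, (e⁻¹ * e').2⟩
    · rintro ⟨h1, h2⟩
      have h3 : ((e⁻¹ * e' : ↥E) : P) ∈ zpowers (z * (e : P)) := by
        have hz' : orderOf (z * (e : P)) = p ^ c := hord e e.2
        have := hinf (z * (e : P)) hz' (e : P)⁻¹ (E.inv_mem e.2)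
        have hzz : z * (e : P) * (e : P)⁻¹ = z := by group
        rw [hzz] at this
        exact this ⟨h1, h2⟩
      have h4 : z * (e' : P) ∈ zpowers (z * (e : P)) := by
        have : z * (e' : P) = (z * (e : P)) * ((e⁻¹ * e' : ↥E) : P) := by push_cast; group
        rw [this]; exact mul_mem (mem_zpowers _) h3
      symm
      apply Subgroup.eq_of_le_of_card_ge (zpowers_le.mpr h4)
      rw [Nat.card_zpowers, Nat.card_zpowers, hord e e.2, hord e' e'.2]
  let ψ : ↥E ⧸ D' →
      {Z : Subgroup P // (Nat.card Z = p ^ c ∧ IsCyclic Z) ∧ Z ⊔ E = zpowers z ⊔ E} :=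
    Quotient.lift (fun e : ↥E => ⟨zpowers (z * (e : P)), hmem e⟩)
      (by
        intro a b hab
        have : a⁻¹ * b ∈ D' := QuotientGroup.leftRel_apply.mp hab
        exact Subtype.ext ((hcrit a b).mpr this))
  have hinj : Function.Injective ψ := by
    intro q1 q2
    refine Quotient.inductionOn₂ q1 q2 ?_
    intro a b h
    have h1 : zpowers (z * (a : P)) = zpowers (z * (b : P)) := congrArg Subtype.val h
    exact QuotientGroup.eq.mpr ((hcrit a b).mp h1)
  have hsurj : Function.Surjective ψ := by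
    rintro ⟨Z, ⟨hZc, hZcyc⟩, hZE⟩
    have hzmem : z ∈ ((Z ⊔ E : Subgroup P) : Set P) := by
      rw [hZE]; exact mem_sup_left (mem_zpowers z)
    rw [Subgroup.mul_normal Z E] at hzmem
    obtain ⟨w, hw, e', he', hwe⟩ := Set.mem_mul.mp hzmem
    have hw' : w = z * e'⁻¹ := by rw [← hwe]; group
    have hordw : orderOf w = p ^ c := by rw [hw']; exact hord _ (E.inv_mem he')
    have hZeq : zpowers (z * e'⁻¹) = Z := by
      rw [← hw']
      apply Subgroup.eq_of_le_of_card_ge (zpowers_le.mpr hw)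
      rw [Nat.card_zpowers, hordw, hZc]
    exact ⟨QuotientGroup.mk ⟨e'⁻¹, E.inv_mem he'⟩, Subtype.ext hZeq⟩
  have hcardF := (Nat.card_congr (Equiv.ofBijective ψ ⟨hinj, hsurj⟩)).symm
  have h1 := Subgroup.card_eq_card_quotient_mul_card_subgroup D'
  have h2 : Nat.card D' = Nat.card D :=
    Nat.card_congr (Subgroup.subgroupOfEquivOfLe (inf_le_right : D ≤ E)).toEquiv
  have h3 : Nat.card D ∣ p ^ 2 := by rw [← hE2]; exact Subgroup.card_dvd_of_le inf_le_right
  obtain ⟨i, hi, hDi⟩ := (Nat.dvd_prime_pow hpp).mp h3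
  have hi2 : i ≠ 2 := by
    rintro rfl
    have hDE : D = E := Subgroup.eq_of_le_of_card_ge inf_le_right (by rw [hDi, hE2])
    have hle : E ≤ zpowers z := by rw [← hDE]; exact inf_le_left
    have hEcyc : IsCyclic ↥E := by
      haveI : IsCyclic ↥(E.subgroupOf (zpowers z)) := inferInstance
      exact (Subgroup.subgroupOfEquivOfLe hle).isCyclic.mp this
    obtain ⟨g, hg⟩ := hEcyc.exists_generator
    have hgo : orderOf g = Nat.card ↥E := orderOf_eq_card_of_forall_mem_zpowers hg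
    have hgp : g ^ p = 1 := Subtype.ext (by simpa using hEp g g.2)
    have := orderOf_dvd_of_pow_eq_one hgp
    rw [hgo, hE2] at this
    have h4 := Nat.le_of_dvd hpp.pos this
    have : p < p ^ 2 := by
      calc p = p ^ 1 := (pow_one p).symm
        _ < p ^ 2 := Nat.pow_lt_pow_right hpp.one_lt (by norm_num)
    omega
  rw [hcardF]
  rw [hE2, h2, hDi] at h1
  have hi1 : i ≤ 1 := by omega
  interval_cases i
  · rw [pow_zero, mul_one] at h1
    rw [← h1]; exact dvd_pow_self p (by norm_num)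
  · rw [pow_one] at h1
    have : Nat.card (↥E ⧸ D') = p := by
      have h5 : p * p = Nat.card (↥E ⧸ D') * p := by rw [← h1]; ring
      exact (Nat.eq_of_mul_eq_mul_right hpp.pos h5).symm
    rw [this]

theorem k4_pgroup_gen {P : Type*} [Group P] [Finite P] {p : ℕ} [Fact p.Prime]
    (E : Subgroup P) [hEn : E.Normal] (hE2 : Nat.card E = p ^ 2)
    (hEp : ∀ a ∈ E, a ^ p = 1) (c : ℕ)
    (hord0 : ∀ y : P, orderOf y = p ^ c → ∀ e ∈ E, orderOf (y * e) = p ^ c)
    (hinf : ∀ y : P, orderOf y = p ^ c → ∀ e ∈ E, zpowers (y * e) ⊓ E ≤ zpowers y) :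
    p ∣ Nat.card {Z : Subgroup P // Nat.card Z = p ^ c ∧ IsCyclic Z} := by
  classical
  haveI : Fintype (Subgroup P) := Fintype.ofFinite _
  rw [Nat.card_eq_fintype_card, Fintype.card_subtype]
  rw [Finset.card_eq_sum_card_fiberwise (f := fun Z : Subgroup P => Z ⊔ E)
    (t := (Finset.univ.filter (fun Z : Subgroup P => Nat.card Z = p ^ c ∧ IsCyclic Z)).image
      (fun Z => Z ⊔ E)) (fun x hx => Finset.mem_image_of_mem _ hx)]
  apply Finset.dvd_sum
  intro T hT
  obtain ⟨Z₀, hZ₀, rfl⟩ := Finset.mem_image.mp hT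
  rw [Finset.mem_filter] at hZ₀
  obtain ⟨-, hZc, hZcyc⟩ := hZ₀
  obtain ⟨g, hg⟩ := hZcyc.exists_generator
  have hgo : orderOf g = Nat.card Z₀ := orderOf_eq_card_of_forall_mem_zpowers hg
  have hz : orderOf (g : P) = p ^ c := by rw [Subgroup.orderOf_coe, hgo, hZc]
  have hZz : Z₀ = zpowers (g : P) := by
    symm; apply Subgroup.eq_of_le_of_card_ge (zpowers_le.mpr g.2); rw [Nat.card_zpowers, hz, hZc]
  have key := k4_fiber_gen E hE2 hEp c hord0 hinf (g : P) hz
  rw [Nat.card_eq_fintype_card, Fintype.card_subtype] at key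
  rw [Finset.filter_filter, hZz]
  convert key using 2

/-- In a finite `2`-group, multiplying by an element of a normal four-group changes squares by a central
involution of the four-group. -/
theorem k2_mul_sq {P : Type*} [Group P] [Finite P] (hP : IsPGroup 2 P)
    (E : Subgroup P) [hEn : E.Normal] (hE2 : Nat.card E = 2 ^ 2)
    (hEp : ∀ a ∈ E, a ^ 2 = 1) (y e : P) (he : e ∈ E) :
    (y * e) ^ 2 = (e * y * e⁻¹ * y⁻¹) * y ^ 2 := by
  set c : P := e * y * e⁻¹ * y⁻¹ with hc
  have hcz : c ∈ Subgroup.center P := k4_comm_central hP E hE2 e y he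
  have hcomm : ∀ g : P, Commute c g := fun g => (Subgroup.mem_center_iff.mp hcz g).symm
  have h : e * y = c * y * e := by rw [hc]; group
  have he2 : e * e = 1 := by have := hEp e he; rwa [pow_two] at this
  have hc1 : y * c = c * y := ((hcomm y).eq).symm
  calc (y * e) ^ 2 = y * (e * y) * e := by rw [pow_two]; group
    _ = y * (c * y * e) * e := by rw [h]
    _ = (y * c) * y * (e * e) := by group
    _ = (c * y) * y * (e * e) := by rw [hc1]
    _ = c * y ^ 2 := by rw [he2, mul_one, pow_two, mul_assoc]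

theorem k2_comm_mem {P : Type*} [Group P] (E : Subgroup P) [hEn : E.Normal] (y e : P) (he : e ∈ E) :
    e * y * e⁻¹ * y⁻¹ ∈ E := by
  have h1 : y * e⁻¹ * y⁻¹ ∈ E := hEn.conj_mem _ (E.inv_mem he) y
  have : e * y * e⁻¹ * y⁻¹ = e * (y * e⁻¹ * y⁻¹) := by group
  rw [this]; exact E.mul_mem he h1

theorem k2_mul_pow_four {P : Type*} [Group P] [Finite P] (hP : IsPGroup 2 P)
    (E : Subgroup P) [hEn : E.Normal] (hE2 : Nat.card E = 2 ^ 2)
    (hEp : ∀ a ∈ E, a ^ 2 = 1) (y e : P) (he : e ∈ E) : (y * e) ^ 4 = y ^ 4 := by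
  have hcz : e * y * e⁻¹ * y⁻¹ ∈ Subgroup.center P := k4_comm_central hP E hE2 e y he
  have hcomm : ∀ g : P, Commute (e * y * e⁻¹ * y⁻¹) g :=
    fun g => (Subgroup.mem_center_iff.mp hcz g).symm
  have h4 : (y * e) ^ 4 = ((y * e) ^ 2) ^ 2 := by rw [← pow_mul]
  rw [h4, k2_mul_sq hP E hE2 hEp y e he, (hcomm (y ^ 2)).mul_pow,
    hEp _ (k2_comm_mem E y e he), one_mul, ← pow_mul]

theorem k2_mul_pow_pow {P : Type*} [Group P] [Finite P] (hP : IsPGroup 2 P)
    (E : Subgroup P) [hEn : E.Normal] (hE2 : Nat.card E = 2 ^ 2)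
    (hEp : ∀ a ∈ E, a ^ 2 = 1) (y e : P) (he : e ∈ E) (m : ℕ) (hm : 2 ≤ m) :
    (y * e) ^ (2 ^ m) = y ^ (2 ^ m) := by
  obtain ⟨k, rfl⟩ : ∃ k, m = k + 2 := ⟨m - 2, by omega⟩
  have h4 : (2 : ℕ) ^ (k + 2) = 4 * 2 ^ k := by rw [pow_add]; ring
  rw [h4, pow_mul, pow_mul, k2_mul_pow_four hP E hE2 hEp y e he]

theorem k2_order {P : Type*} [Group P] [Finite P] (hP : IsPGroup 2 P)
    (E : Subgroup P) [hEn : E.Normal] (hE2 : Nat.card E = 2 ^ 2)
    (hEp : ∀ a ∈ E, a ^ 2 = 1) (c : ℕ) (hc : 3 ≤ c) (y e : P) (he : e ∈ E)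
    (hy : orderOf y = 2 ^ c) : orderOf (y * e) = 2 ^ c := by
  obtain ⟨k, rfl⟩ : ∃ k, c = k + 1 := ⟨c - 1, by omega⟩
  apply orderOf_eq_prime_pow
  · rw [k2_mul_pow_pow hP E hE2 hEp y e he k (by omega)]
    intro h
    have := orderOf_dvd_of_pow_eq_one h
    rw [hy] at this
    have h2 := Nat.le_of_dvd (pow_pos (by norm_num) _) this
    exact absurd h2 (not_le.mpr (Nat.pow_lt_pow_right (by norm_num) (by omega)))
  · rw [k2_mul_pow_pow hP E hE2 hEp y e he (k + 1) (by omega), ← hy, pow_orderOf_eq_one]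

theorem k2_inf_le {P : Type*} [Group P] [Finite P] (hP : IsPGroup 2 P)
    (E : Subgroup P) [hEn : E.Normal] (hE2 : Nat.card E = 2 ^ 2)
    (hEp : ∀ a ∈ E, a ^ 2 = 1) (c : ℕ) (hc : 3 ≤ c) (z : P) (hz : orderOf z = 2 ^ c)
    (e : P) (he : e ∈ E) : zpowers (z * e) ⊓ E ≤ zpowers z := by
  rintro x ⟨hx1, hx2⟩
  have hord := k2_order hP E hE2 hEp c hc z e he hz
  obtain ⟨n, rfl⟩ := (Submonoid.mem_powers_iff _ _).mp (mem_powers_iff_mem_zpowers.mpr hx1)
  have h1 : ((z * e) ^ n) ^ 2 = 1 := hEp _ hx2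
  rw [← pow_mul] at h1
  have h2 : 2 ^ c ∣ n * 2 := by rw [← hord]; exact orderOf_dvd_of_pow_eq_one h1
  obtain ⟨k, rfl⟩ : ∃ k, c = k + 1 := ⟨c - 1, by omega⟩
  rw [pow_succ] at h2
  have h3 : 2 ^ k ∣ n := Nat.dvd_of_mul_dvd_mul_right (by norm_num) h2
  obtain ⟨t, rfl⟩ := h3
  rw [pow_mul, k2_mul_pow_pow hP E hE2 hEp z e he k (by omega), ← pow_mul]
  exact Subgroup.pow_mem _ (mem_zpowers z) _

/-- In a finite `2`-group with a normal four-group, the number of cyclic subgroups of order `2 ^ c`,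
`c ≥ 3`, is even. -/
theorem k2_cyclic_even {P : Type*} [Group P] [Finite P] (hP : IsPGroup 2 P)
    (E : Subgroup P) [hEn : E.Normal] (hE2 : Nat.card E = 2 ^ 2) (hEp : ∀ a ∈ E, a ^ 2 = 1)
    (c : ℕ) (hc : 3 ≤ c) :
    2 ∣ Nat.card {Z : Subgroup P // Nat.card Z = 2 ^ c ∧ IsCyclic Z} :=
  k4_pgroup_gen E hE2 hEp c (fun y hy e he => k2_order hP E hE2 hEp c hc y e he hy)
    (fun y hy e he => k2_inf_le hP E hE2 hEp c hc y hy e he)

/-- In a finite group of even order the number of solutions of `x ^ 2 = 1` is even. -/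
theorem k2_even_card_sq_one {X : Type*} [Group X] [Finite X] (h : 2 ∣ Nat.card X) :
    2 ∣ Nat.card {x : X // x ^ 2 = 1} := by
  classical
  haveI : Fintype X := Fintype.ofFinite X
  let f : Function.End X := fun x => x⁻¹
  have hf : f ^ 2 ^ 1 = 1 := by
    rw [pow_one, pow_two]
    funext x
    show (x⁻¹)⁻¹ = x
    exact inv_inv x
  have key := Equiv.Perm.card_fixedPoints_modEq (p := 2) (n := 1) hf
  rw [← Nat.card_eq_fintype_card, ← Nat.card_eq_fintype_card] at key
  have e : Nat.card {x : X // x ^ 2 = 1} = Nat.card (Function.fixedPoints f) :=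
    Nat.card_congr (Equiv.subtypeEquivRight (fun x => by
      show x ^ 2 = 1 ↔ x⁻¹ = x
      rw [pow_two, mul_eq_one_iff_inv_eq]))
  rw [e]
  exact Nat.modEq_zero_iff_dvd.mp (key.symm.trans (Nat.modEq_zero_iff_dvd.mpr h))

theorem k2_card_split {α : Type*} [Finite α] (p q : α → Prop) :
    Nat.card {x : α // p x} = Nat.card {x : α // p x ∧ q x} + Nat.card {x : α // p x ∧ ¬ q x} := by
  classical
  rw [← Nat.card_sum]
  apply Nat.card_congr
  exact ((Equiv.sumCompl (fun x : {x : α // p x} => q x.1)).symm.trans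
    (Equiv.sumCongr (Equiv.subtypeSubtypeEquivSubtypeInter p q)
      (Equiv.subtypeSubtypeEquivSubtypeInter p (fun x => ¬ q x))))

/-- A finite `2`-group with a normal four-group that is not self-centralizing has a number of solutions of
`x ^ 2 = 1` divisible by `4`. -/
theorem k2_card_sq_one {P : Type*} [Group P] [Finite P] (hP : IsPGroup 2 P)
    (E : Subgroup P) [hEn : E.Normal] (hE2 : Nat.card E = 2 ^ 2) (hEp : ∀ a ∈ E, a ^ 2 = 1)
    (hC : Subgroup.centralizer (E : Set P) ≠ E) :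
    4 ∣ Nat.card {x : P // x ^ 2 = 1} := by
  classical
  set C : Subgroup P := Subgroup.centralizer (E : Set P) with hCdef
  have hEcomm : ∀ a ∈ E, ∀ b ∈ E, a * b = b * a := by
    intro a ha b hb
    have h1 := hEp (a * b) (E.mul_mem ha hb)
    have ha' : a⁻¹ = a := inv_eq_of_mul_eq_one_left (by rw [← pow_two]; exact hEp a ha)
    have hb' : b⁻¹ = b := inv_eq_of_mul_eq_one_left (by rw [← pow_two]; exact hEp b hb)
    have hab : (a * b)⁻¹ = a * b := inv_eq_of_mul_eq_one_left (by rw [← pow_two]; exact h1)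
    rw [mul_inv_rev, ha', hb'] at hab
    exact hab.symm
  have hEC : E ≤ C := by
    intro e he
    rw [hCdef, Subgroup.mem_centralizer_iff]
    intro g hg
    exact hEcomm g hg e he
  -- Part 1: solutions inside `C`
  have h1 : 4 ∣ Nat.card {x : P // x ^ 2 = 1 ∧ x ∈ C} := by
    set A : Set (P ⧸ E) := {q | ∃ x : P, x ^ 2 = 1 ∧ x ∈ C ∧ (x : P ⧸ E) = q} with hA
    have hpre : {x : P | x ^ 2 = 1 ∧ x ∈ C} = QuotientGroup.mk ⁻¹' A := by
      ext y
      constructor
      · rintro ⟨hy1, hy2⟩; exact ⟨y, hy1, hy2, rfl⟩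
      · rintro ⟨x, hx2, hx1, hxy⟩
        have hxy' : x⁻¹ * y ∈ E := QuotientGroup.eq.mp hxy
        have hy : y = x * (x⁻¹ * y) := by group
        have hcomm : Commute x (x⁻¹ * y) :=
          ((Subgroup.mem_centralizer_iff.mp hx1) (x⁻¹ * y) hxy').symm
        refine ⟨?_, ?_⟩
        · rw [hy, hcomm.mul_pow, hx2, hEp _ hxy', one_mul]
        · rw [hy]; exact C.mul_mem hx1 (hEC hxy')
    have e1 : Nat.card {x : P // x ^ 2 = 1 ∧ x ∈ C} = Nat.card E * Nat.card A := by
      have : Nat.card {x : P // x ^ 2 = 1 ∧ x ∈ C} =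
          Nat.card ↥(QuotientGroup.mk ⁻¹' A : Set P) := by
        show Nat.card ↥{x : P | x ^ 2 = 1 ∧ x ∈ C} = _
        rw [hpre]
      rw [this, Nat.card_congr (QuotientGroup.preimageMkEquivSubgroupProdSet E A), Nat.card_prod]
    rw [e1, hE2]
    exact Dvd.intro _ rfl
  -- Part 2: solutions outside `C`
  have h2 : 4 ∣ Nat.card {x : P // x ^ 2 = 1 ∧ ¬ x ∈ C} := by
    by_cases hCtop : C = ⊤
    · have : IsEmpty {x : P // x ^ 2 = 1 ∧ ¬ x ∈ C} :=
        ⟨fun ⟨x, _, hx⟩ => hx (by rw [hCtop]; exact Subgroup.mem_top x)⟩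
      rw [Nat.card_of_isEmpty]
      exact dvd_zero 4
    · obtain ⟨y₀, hy₀⟩ : ∃ y₀ : P, y₀ ∉ C := by
        by_contra hcon
        push Not at hcon
        exact hCtop (eq_top_iff.mpr (fun x _ => hcon x))
      obtain ⟨e₁, he₁, hne₁⟩ : ∃ e₁ ∈ E, e₁ * y₀ ≠ y₀ * e₁ := by
        by_contra hcon
        push Not at hcon
        exact hy₀ (Subgroup.mem_centralizer_iff.mpr (fun h hh => hcon h hh))
      set f : P := e₁ * y₀ * e₁⁻¹ * y₀⁻¹ with hf
      have hfE : f ∈ E := k2_comm_mem E y₀ e₁ he₁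
      have hfZ : f ∈ Subgroup.center P := k4_comm_central hP E hE2 e₁ y₀ he₁
      have hf1 : f ≠ 1 := by
        intro h
        apply hne₁
        have : e₁ * y₀ = f * y₀ * e₁ := by rw [hf]; group
        rw [this, h, one_mul]
      obtain ⟨e₀, he₀, he₀1, he₀f⟩ : ∃ e₀ ∈ E, e₀ ≠ 1 ∧ e₀ ≠ f := by
        by_contra hcon
        push Not at hcon
        have hsub : (E : Set P) ⊆ {1, f} := by
          intro x hx
          by_cases hx1 : x = 1
          · left; exact hx1
          · right; exact hcon x hx hx1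
        have h1' : (E : Set P).ncard ≤ ({1, f} : Set P).ncard :=
          Set.ncard_le_ncard hsub (Set.toFinite _)
        have h2' : ({1, f} : Set P).ncard ≤ 2 := by
          have := Set.ncard_insert_le (1 : P) ({f} : Set P)
          rw [Set.ncard_singleton] at this
          exact this
        have h3' : Nat.card E = (E : Set P).ncard := Nat.card_coe_set_eq (E : Set P)
        rw [hE2] at h3'
        omega
      have hU : ∀ y : P, y ∉ C → ∀ a ∈ E, a * y = y * a → a = 1 ∨ a = f := by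
        intro y hy a ha hay
        by_contra hcon
        push Not at hcon
        apply hy
        set K : Subgroup P := E ⊓ Subgroup.centralizer ({y} : Set P) with hK
        have hfK : f ∈ K := ⟨hfE, Subgroup.mem_centralizer_iff.mpr (by
          intro h hh
          rw [Set.mem_singleton_iff] at hh
          rw [hh]
          exact (Subgroup.mem_center_iff.mp hfZ y))⟩
        have haK : a ∈ K := ⟨ha, Subgroup.mem_centralizer_iff.mpr (by
          intro h hh
          rw [Set.mem_singleton_iff] at hh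
          rw [hh]
          exact hay.symm)⟩
        have hKE : K ≤ E := inf_le_left
        have hdvd : Nat.card K ∣ 2 ^ 2 := by rw [← hE2]; exact Subgroup.card_dvd_of_le hKE
        have h3 : 3 ≤ Nat.card K := by
          have hsub : ({1, f, a} : Set P) ⊆ (K : Set P) := by
            intro x hx
            rcases hx with rfl | rfl | rfl
            · exact K.one_mem
            · exact hfK
            · exact haK
          have hc3 : ({1, f, a} : Set P).ncard = 3 := by
            rw [Set.ncard_eq_three]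
            exact ⟨1, f, a, hf1.symm, hcon.1.symm, hcon.2.symm, rfl⟩
          have := Set.ncard_le_ncard hsub (Set.toFinite _)
          rw [hc3] at this
          have h3' : Nat.card K = (K : Set P).ncard := Nat.card_coe_set_eq (K : Set P)
          omega
        have hK4 : Nat.card K = 4 := by
          obtain ⟨i, hi, hKi⟩ := (Nat.dvd_prime_pow Nat.prime_two).mp hdvd
          have hi' : i = 0 ∨ i = 1 ∨ i = 2 := by omega
          rcases hi' with rfl | rfl | rfl
          · rw [pow_zero] at hKi; omega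
          · rw [pow_one] at hKi; omega
          · rw [hKi]; norm_num
        have hKeq : K = E := Subgroup.eq_of_le_of_card_ge hKE (by rw [hK4, hE2]; norm_num)
        rw [hCdef, Subgroup.mem_centralizer_iff]
        intro h hh
        have hhK : h ∈ K := by rw [hKeq]; exact hh
        exact (Subgroup.mem_centralizer_iff.mp hhK.2 y (Set.mem_singleton y)).symm
      have hc₀ : ∀ y : P, y ∉ C → e₀ * y * e₀⁻¹ * y⁻¹ = f := by
        intro y hy
        have hcE := k2_comm_mem E y e₀ he₀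
        have hcZ := k4_comm_central hP E hE2 e₀ y he₀
        rcases hU y hy _ hcE (Subgroup.mem_center_iff.mp hcZ y).symm with h | h
        · exfalso
          have hcomm : e₀ * y = y * e₀ := by
            have : e₀ * y = (e₀ * y * e₀⁻¹ * y⁻¹) * y * e₀ := by group
            rw [this, h, one_mul]
          rcases hU y hy e₀ he₀ hcomm with h' | h'
          · exact he₀1 h'
          · exact he₀f h'
        · exact h
      have hf2 : f ^ 2 = 1 := hEp f hfE
      have he₀2 : e₀ * e₀ = 1 := by have := hEp e₀ he₀; rwa [pow_two] at this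
      have hnC : ∀ y : P, y ∉ C → y * e₀ ∉ C := by
        intro y hy h
        apply hy
        have := C.mul_mem h (C.inv_mem (hEC he₀))
        rwa [mul_inv_cancel_right] at this
      have hsq : ∀ y : P, y ∉ C → (y * e₀) ^ 2 = f * y ^ 2 := by
        intro y hy
        rw [k2_mul_sq hP E hE2 hEp y e₀ he₀, hc₀ y hy]
      have hJ2 : ∀ y : P, y ∉ C → y ^ 2 ∈ E → y ^ 2 ≠ 1 → y ^ 2 = f := by
        intro y hy hyE hy1
        rcases hU y hy _ hyE (by rw [pow_two, mul_assoc]) with h | h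
        · exact absurd h hy1
        · exact h
      -- `J' = {y ∉ C, y² ∈ E}` has twice as many elements as `J = {x² = 1, x ∉ C}`
      have hJcard : Nat.card {y : P // y ∉ C ∧ y ^ 2 ∈ E} =
          2 * Nat.card {x : P // x ^ 2 = 1 ∧ ¬ x ∈ C} := by
        have hs := k2_card_split (α := P) (fun y => y ∉ C ∧ y ^ 2 ∈ E) (fun y => y ^ 2 = 1)
        have e1 : Nat.card {x : P // x ^ 2 = 1 ∧ ¬ x ∈ C} =
            Nat.card {y : P // (y ∉ C ∧ y ^ 2 ∈ E) ∧ y ^ 2 = 1} :=
          Nat.card_congr (Equiv.subtypeEquivRight (fun x => by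
            constructor
            · rintro ⟨h1, h2⟩; exact ⟨⟨h2, by rw [h1]; exact E.one_mem⟩, h1⟩
            · rintro ⟨⟨h1, -⟩, h3⟩; exact ⟨h3, h1⟩))
        have e2 : Nat.card {x : P // x ^ 2 = 1 ∧ ¬ x ∈ C} =
            Nat.card {y : P // (y ∉ C ∧ y ^ 2 ∈ E) ∧ ¬ y ^ 2 = 1} := by
          apply Nat.card_congr
          exact
            { toFun := fun y => ⟨y.1 * e₀, by
                refine ⟨⟨hnC y.1 y.2.2, ?_⟩, ?_⟩
                · rw [hsq y.1 y.2.2, y.2.1, mul_one]; exact hfE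
                · rw [hsq y.1 y.2.2, y.2.1, mul_one]; exact hf1⟩
              invFun := fun y => ⟨y.1 * e₀, by
                refine ⟨?_, hnC y.1 y.2.1.1⟩
                rw [hsq y.1 y.2.1.1, hJ2 y.1 y.2.1.1 y.2.1.2 y.2.2, ← pow_two, hf2]⟩
              left_inv := fun y => Subtype.ext (by
                show y.1 * e₀ * e₀ = y.1
                rw [mul_assoc, he₀2, mul_one])
              right_inv := fun y => Subtype.ext (by
                show y.1 * e₀ * e₀ = y.1
                rw [mul_assoc, he₀2, mul_one]) }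
        rw [hs, ← e1, ← e2]; ring
      -- `J'` is the preimage of a set `B` of even size
      set K : Subgroup (P ⧸ E) := C.map (QuotientGroup.mk' E) with hKdef
      set B : Set (P ⧸ E) := {q | q ∉ K ∧ q ^ 2 = 1} with hB
      have hpre : {y : P | y ∉ C ∧ y ^ 2 ∈ E} = QuotientGroup.mk ⁻¹' B := by
        ext y
        have hK : ((y : P ⧸ E) ∈ K) ↔ y ∈ C := by
          constructor
          · intro hyK
            obtain ⟨c, hc, hcy⟩ := Subgroup.mem_map.mp hyK
            have hcE : c⁻¹ * y ∈ E := QuotientGroup.eq.mp hcy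
            have hy : y = c * (c⁻¹ * y) := by group
            rw [hy]; exact C.mul_mem hc (hEC hcE)
          · intro hy; exact Subgroup.mem_map.mpr ⟨y, hy, rfl⟩
        have hsq' : ((y : P ⧸ E) ^ 2 = 1) ↔ y ^ 2 ∈ E := by
          rw [← QuotientGroup.mk_pow, QuotientGroup.eq_one_iff]
        show (y ∉ C ∧ y ^ 2 ∈ E) ↔ ((y : P ⧸ E) ∉ K ∧ (y : P ⧸ E) ^ 2 = 1)
        rw [hK, hsq']
      have hJ'card : Nat.card {y : P // y ∉ C ∧ y ^ 2 ∈ E} = Nat.card E * Nat.card B := by
        have : Nat.card {y : P // y ∉ C ∧ y ^ 2 ∈ E} =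
            Nat.card ↥(QuotientGroup.mk ⁻¹' B : Set P) := by
          show Nat.card ↥{y : P | y ∉ C ∧ y ^ 2 ∈ E} = _
          rw [hpre]
        rw [this, Nat.card_congr (QuotientGroup.preimageMkEquivSubgroupProdSet E B),
          Nat.card_prod]
      have hQ : IsPGroup 2 (P ⧸ E) := hP.to_quotient E
      have hquot_even : 2 ∣ Nat.card (P ⧸ E) := by
        rcases hQ.card_eq_or_dvd with h | h
        · exfalso
          have hE : E = ⊤ := Subgroup.index_eq_one.mp h
          apply hC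
          rw [hE]
          exact eq_top_iff.mpr (by rw [← hE]; exact hEC)
        · exact h
      have hKeven : 2 ∣ Nat.card K := by
        rcases (hQ.to_subgroup K).card_eq_or_dvd with h | h
        · exfalso
          have hKbot : K = ⊥ := Subgroup.card_eq_one.mp h
          rw [hKdef, Subgroup.map_eq_bot_iff, QuotientGroup.ker_mk'] at hKbot
          exact hC (le_antisymm hKbot hEC)
        · exact h
      have hBeven : 2 ∣ Nat.card B := by
        have hs := k2_card_split (α := P ⧸ E) (fun q => q ^ 2 = 1) (fun q => q ∈ K)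
        have hT : 2 ∣ Nat.card {q : P ⧸ E // q ^ 2 = 1} := k2_even_card_sq_one hquot_even
        have hTK : 2 ∣ Nat.card {q : P ⧸ E // q ^ 2 = 1 ∧ q ∈ K} := by
          have e : Nat.card {q : P ⧸ E // q ^ 2 = 1 ∧ q ∈ K} = Nat.card {k : ↥K // k ^ 2 = 1} := by
            apply Nat.card_congr
            exact
              { toFun := fun q => ⟨⟨q.1, q.2.2⟩, Subtype.ext q.2.1⟩
                invFun := fun k => ⟨k.1.1, congrArg Subtype.val k.2, k.1.2⟩
                left_inv := fun q => rfl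
                right_inv := fun k => rfl }
          rw [e]
          exact k2_even_card_sq_one hKeven
        have hBeq : Nat.card B = Nat.card {q : P ⧸ E // q ^ 2 = 1 ∧ ¬ q ∈ K} :=
          Nat.card_congr (Equiv.subtypeEquivRight (fun q => by
            show (q ∉ K ∧ q ^ 2 = 1) ↔ (q ^ 2 = 1 ∧ ¬ q ∈ K)
            exact and_comm))
        rw [hBeq]
        rw [hs] at hT
        exact (Nat.dvd_add_right hTK).mp hT
      obtain ⟨b, hb⟩ := hBeven
      rw [hJ'card, hE2, hb] at hJcard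
      exact ⟨b, by norm_num at hJcard; omega⟩
  have hs := k2_card_split (α := P) (fun x => x ^ 2 = 1) (fun x => x ∈ C)
  rw [hs]
  exact dvd_add h1 h2

open Cfsg.Agent.Lib.helper1 in
/-- Copy of helper1's `cyclic_normal_setup`, with "`P` is not cyclic" in place of "`P` has a non-cyclic
abelian subgroup". -/
theorem k2_setup {P : Type*} [Group P] [Finite P] (p : ℕ) [Fact p.Prime]
    (hP : IsPGroup p P) (hn : ∀ A : Subgroup P, A.Normal → IsMulCommutative A → IsCyclic A)
    (hnc : ¬ IsCyclic P) :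
    ∃ (a : P) (k : ℕ), 2 ≤ k ∧ orderOf a = p ^ k ∧ (zpowers a).Normal ∧
      (∀ g : P, g * a = a * g → g ∈ zpowers a) ∧
      (∀ g h : P, g * h * g⁻¹ * h⁻¹ ∈ zpowers a) ∧ (∃ y, y ∉ zpowers a) := by
  have hpp : p.Prime := Fact.out
  obtain ⟨A, hAn, hAab, hCA⟩ := exists_self_centralizing_normal hP
  have hAcyc : IsCyclic A := hn A hAn ⟨⟨fun x y => Subtype.ext (hAab x x.2 y y.2)⟩⟩
  obtain ⟨a, ha⟩ := A.isCyclic_iff_exists_zpowers_eq_top.mp hAcyc
  subst ha
  have haA : a ∈ zpowers a := Subgroup.mem_zpowers a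
  obtain ⟨k, hk⟩ : ∃ k, orderOf a = p ^ k := by
    obtain ⟨k, hk⟩ := hP a
    obtain ⟨j, -, hj⟩ := (Nat.dvd_prime_pow hpp).mp (orderOf_dvd_of_pow_eq_one hk)
    exact ⟨j, hj⟩
  have hPA : ∃ y, y ∉ zpowers a := by
    by_contra hcon; push Not at hcon
    have hAtop : zpowers a = ⊤ := (Subgroup.eq_top_iff' _).mpr hcon
    apply hnc
    rw [isCyclic_iff_exists_zpowers_eq_top]; exact ⟨a, hAtop⟩
  have hexp : ∀ g : P, ∃ r : ℤ, a ^ r = g * a * g⁻¹ := by
    intro g
    exact Subgroup.mem_zpowers_iff.mp (hAn.conj_mem a haA g)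
  have hmemA : ∀ g : P, g * a = a * g → g ∈ zpowers a := by
    intro g hg
    rw [← hCA, Subgroup.mem_centralizer_iff]
    intro c hc
    rw [SetLike.mem_coe] at hc
    obtain ⟨i, rfl⟩ := Subgroup.mem_zpowers_iff.mp hc
    have h : Commute g a := hg
    exact (h.zpow_right i).eq.symm
  have hcomm' : ∀ g h : P, g⁻¹ * h⁻¹ * g * h ∈ zpowers a := by
    intro g h
    obtain ⟨r₁, hr₁⟩ := hexp g
    obtain ⟨r₂, hr₂⟩ := hexp h
    have e : (g * h) * a * (g * h)⁻¹ = (h * g) * a * (h * g)⁻¹ := by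
      have e1 : (g * h) * a * (g * h)⁻¹ = g * (h * a * h⁻¹) * g⁻¹ := by group
      have e2 : (h * g) * a * (h * g)⁻¹ = h * (g * a * g⁻¹) * h⁻¹ := by group
      rw [e1, e2, ← hr₂, ← hr₁, ← conj_zpow, ← conj_zpow, ← hr₁, ← hr₂, ← zpow_mul, ← zpow_mul,
        mul_comm]
    apply hmemA
    calc g⁻¹ * h⁻¹ * g * h * a = (h * g)⁻¹ * ((g * h) * a * (g * h)⁻¹) * (g * h) := by group
      _ = (h * g)⁻¹ * ((h * g) * a * (h * g)⁻¹) * (g * h) := by rw [e]
      _ = a * (g⁻¹ * h⁻¹ * g * h) := by group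
  have hcomm : ∀ g h : P, g * h * g⁻¹ * h⁻¹ ∈ zpowers a := by
    intro g h
    have := hcomm' g⁻¹ h⁻¹
    rwa [inv_inv, inv_inv] at this
  have hk2 : 2 ≤ k := by
    by_contra hk2
    haveI : Group.IsNilpotent P := hP.isNilpotent
    have hcard : Nat.card (zpowers a) = p ^ k := by rw [Nat.card_zpowers, hk]
    have hAcenter : zpowers a ≤ center P := by
      rcases Nat.lt_or_ge k 1 with h0 | h1
      · have hk0 : k = 0 := by omega
        rw [hk0, pow_zero] at hcard
        rw [Subgroup.card_eq_one.mp hcard]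
        exact bot_le
      · have hk1 : k = 1 := by omega
        rw [hk1, pow_one] at hcard
        have hne : zpowers a ≠ ⊥ := by
          intro h
          rw [h, Subgroup.card_bot] at hcard
          exact hpp.one_lt.ne hcard
        have h1 := Cfsg.Agent.S0065.normal_inf_center_ne_bot (zpowers a) hne
        have h2 : 1 < Nat.card (zpowers a ⊓ center P : Subgroup P) :=
          (Subgroup.one_lt_card_iff_ne_bot _).mpr h1
        have h3 : Nat.card (zpowers a ⊓ center P : Subgroup P) ∣ p := by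
          rw [← hcard]; exact Subgroup.card_dvd_of_le inf_le_left
        have h4 : Nat.card (zpowers a ⊓ center P : Subgroup P) = p := by
          rcases (Nat.dvd_prime hpp).mp h3 with h | h
          · omega
          · exact h
        have h5 : (zpowers a ⊓ center P : Subgroup P) = zpowers a :=
          Subgroup.eq_of_le_of_card_ge inf_le_left (by rw [h4, hcard])
        rw [← h5]; exact inf_le_right
    have htop : Subgroup.centralizer (zpowers a : Set P) = ⊤ :=
      Subgroup.centralizer_eq_top_iff_subset.mpr hAcenter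
    obtain ⟨y, hy⟩ := hPA
    apply hy
    rw [← hCA, htop]; trivial
  exact ⟨a, k, hk2, hk, hAn, hmemA, hcomm, hPA⟩

open Cfsg.Agent.Lib.helper1 in
/-- Copy of a step in the proof of helper1's `cyclic_normal_two`. -/
theorem k2_case3 {P : Type*} [Group P] [Finite P]
    (hn : ∀ A : Subgroup P, A.Normal → IsMulCommutative A → IsCyclic A)
    (a : P) (k : ℕ) (hk : orderOf a = 2 ^ k) (hAn : (zpowers a).Normal)
    (hcomm : ∀ g h : P, g * h * g⁻¹ * h⁻¹ ∈ zpowers a)
    (b : P) (hb2 : b ^ 2 = 1) (hbA : b ∉ zpowers a) (hk3 : 3 ≤ k)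
    (hba : b * a * b⁻¹ = a ^ (1 + 2 ^ (k - 1))) : False := by
  obtain ⟨k', rfl⟩ : ∃ k', k = k' + 1 := ⟨k - 1, by omega⟩
  rw [Nat.add_sub_cancel] at hba
  have hb1 : b ≠ 1 := by rintro rfl; exact hbA (one_mem _)
  have hbo : orderOf b = 2 := orderOf_eq_prime hb2 hb1
  have hωp : (a ^ (2 ^ k')) ^ 2 = 1 := by
    rw [← pow_mul, ← pow_succ, ← hk]; exact pow_orderOf_eq_one a
  have hω1 : a ^ (2 ^ k') ≠ 1 := by
    intro h
    have h' := orderOf_dvd_of_pow_eq_one h
    rw [hk] at h'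
    have := (Nat.pow_dvd_pow_iff_le_right (by norm_num : 1 < 2)).mp h'
    omega
  have hωo : orderOf (a ^ (2 ^ k')) = 2 := orderOf_eq_prime hωp hω1
  have hωA : zpowers (a ^ (2 ^ k')) ≤ zpowers a :=
    Subgroup.zpowers_le.mpr (Subgroup.npow_mem_zpowers a _)
  refine false_of_normal_pair hn b (a ^ (2 ^ k')) 2 hbo hωo (fun h => hbA (hωA h))
    (modular_conj_omega 2 a b k' (by omega) hk hba) ?_ ?_
  · intro g
    have hc := hcomm g b
    have hpow : (g * b * g⁻¹ * b⁻¹ * b) ^ 2 = 1 := by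
      have e : g * b * g⁻¹ * b⁻¹ * b = g * b * g⁻¹ := by group
      rw [e, conj_pow, hb2]; group
    have hmem := (kc_two a b k' (by omega) hk hb2 hba _ hc).2 hpow
    have e : g * b * g⁻¹ = (g * b * g⁻¹ * b⁻¹) * b := by group
    rw [e]
    exact mul_mem (le_sup_right (a := zpowers b) hmem)
      (le_sup_left (b := zpowers (a ^ (2 ^ k'))) (Subgroup.mem_zpowers b))
  · intro g
    have hc : g * a ^ (2 ^ k') * g⁻¹ ∈ zpowers a :=
      hAn.conj_mem _ (Subgroup.npow_mem_zpowers a _) g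
    have hpow : (g * a ^ (2 ^ k') * g⁻¹) ^ 2 = 1 := by
      rw [conj_pow, hωp]; group
    have hmem := (kc_two a b k' (by omega) hk hb2 hba _ hc).1 hpow
    exact le_sup_right (a := zpowers b) hmem

open Cfsg.Agent.Lib.helper1 in
/-- A finite `2`-group of order `2 ^ m` which is neither cyclic nor of maximal class has a normal
four-group. -/
theorem k2_exists_normal_four {P : Type*} [Group P] [Finite P] (m : ℕ) (hcard : Nat.card P = 2 ^ m)
    (hnc : ¬ IsCyclic P) (hcl : Group.nilpotencyClass P ≠ m - 1) :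
    ∃ E : Subgroup P, E.Normal ∧ Nat.card E = 2 ^ 2 ∧ ∀ a ∈ E, a ^ 2 = 1 := by
  by_contra hno
  have hP : IsPGroup 2 P := IsPGroup.of_card hcard
  have hn : ∀ A : Subgroup P, A.Normal → IsMulCommutative A → IsCyclic A := by
    intro A hAn hAc
    by_contra hAnc
    obtain ⟨E, -, hEn, -, hEp, hEc⟩ := exists_normal_ea_sq_of_abelian hP A hAn
      (fun u hu v hv => congrArg Subtype.val ((isMulCommutative_iff.1 hAc) ⟨u, hu⟩ ⟨v, hv⟩)) hAnc
    exact hno ⟨E, hEn, hEc, hEp⟩
  obtain ⟨a, k, hk2, hk, hAn, hmemA, hcomm, hPA⟩ := k2_setup 2 hP hn hnc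
  rcases two_group_cyclic_self_centralizing hP a k hk2 hk hAn hmemA hPA with
    ⟨b, hb2, hbA, hk3, hba⟩ | ⟨hAi, b, hbA, htypes⟩
  · exact k2_case3 hn a k hk hAn hcomm b hb2 hbA hk3 hba
  · obtain ⟨hc1, hc2⟩ := maxclass_of_index_two_types a b k hk2 hk hAi hbA htypes
    have hm' : m = k + 1 := Nat.pow_right_injective (le_refl 2) (hcard.symm.trans hc1)
    apply hcl
    rw [hc2, hm', Nat.add_sub_cancel]

theorem k4_nc_modEq_one {G : Type*} [Group G] [Finite G] (p c : ℕ) (hp : p.Prime)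
    (hdvd : p ^ c ∣ Nat.card G)
    (hm : p ∣ Nat.card {H : Subgroup G // Nat.card H = p ^ c ∧ IsCyclic H}) :
    Nat.card {H : Subgroup G // Nat.card H = p ^ c ∧ ¬ IsCyclic H} ≡ 1 [MOD p] := by
  have h1 := Cfsg.Agent.Lib.helper20.card_subgroups_modEq_one (G := G) p c hp hdvd
  have hs := k2_card_split (α := Subgroup G) (fun H => Nat.card H = p ^ c) (fun H => IsCyclic H)
  rw [hs] at h1
  obtain ⟨t, ht⟩ := hm
  rw [ht] at h1
  unfold Nat.ModEq at h1 ⊢
  rw [Nat.mul_add_mod] at h1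
  exact h1

/-- The number of solutions of `x ^ 2 = 1` is one more than the number of subgroups of order `2`. -/
theorem k2_card_order_two (G : Type*) [Group G] [Finite G] :
    Nat.card {x : G // x ^ 2 = 1} = Nat.card {H : Subgroup G // Nat.card H = 2 ^ 1} + 1 := by
  classical
  have hs := k2_card_split (α := G) (fun x => x ^ 2 = 1) (fun x => x = 1)
  have e1 : Nat.card {x : G // x ^ 2 = 1 ∧ x = 1} = 1 := by
    rw [Nat.card_eq_one_iff_unique]
    exact ⟨⟨fun a b => Subtype.ext (a.2.2.trans b.2.2.symm)⟩, ⟨⟨1, one_pow 2, rfl⟩⟩⟩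
  have e2 : Nat.card {x : G // x ^ 2 = 1 ∧ ¬ x = 1} =
      Nat.card {H : Subgroup G // Nat.card H = 2 ^ 1} := by
    apply Nat.card_congr
    refine Equiv.ofBijective (fun x => ⟨zpowers x.1, by
      rw [Nat.card_zpowers, pow_one]; exact orderOf_eq_prime x.2.1 x.2.2⟩) ⟨?_, ?_⟩
    · intro x y hxy
      have h : zpowers x.1 = zpowers y.1 := congrArg Subtype.val hxy
      have hx : x.1 ∈ zpowers y.1 := by rw [← h]; exact mem_zpowers x.1
      obtain ⟨n, hn⟩ := (Submonoid.mem_powers_iff _ _).mp (mem_powers_iff_mem_zpowers.mpr hx)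
      apply Subtype.ext
      rcases Nat.even_or_odd' n with ⟨t, ht | ht⟩
      · exfalso
        apply x.2.2
        rw [← hn, ht, pow_mul, y.2.1, one_pow]
      · rw [← hn, ht, pow_succ, pow_mul, y.2.1, one_pow, one_mul]
    · rintro ⟨H, hH⟩
      rw [pow_one] at hH
      have hcyc : IsCyclic H := isCyclic_of_prime_card hH
      obtain ⟨g, hg⟩ := hcyc.exists_generator
      have hgo : orderOf g = 2 := by rw [orderOf_eq_card_of_forall_mem_zpowers hg, hH]
      have hgo' : orderOf (g : G) = 2 := by rw [Subgroup.orderOf_coe, hgo]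
      refine ⟨⟨(g : G), ?_, ?_⟩, ?_⟩
      · rw [← hgo']; exact pow_orderOf_eq_one _
      · intro h1
        rw [h1, orderOf_one] at hgo'
        omega
      · apply Subtype.ext
        show zpowers (g : G) = H
        apply Subgroup.eq_of_le_of_card_ge (zpowers_le.mpr g.2)
        rw [Nat.card_zpowers, hgo', hH]
  rw [hs, e1, e2, add_comm]

/-- Kulakoff's theorem (with the `2`-group analogue): in a non-cyclic group of order `p ^ m` (for `p = 2`:
not of maximal class) the number of subgroups of order `p ^ k`, `1 ≤ k < m`, is `1 + p` modulo `p ^ 2`. -/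
theorem k4157_main {G : Type*} [Group G] [Finite G] {p : ℕ} [Fact p.Prime] (m : ℕ)
    (hG : Nat.card G = p ^ m) (hnc : ¬ IsCyclic G) (h2 : p = 2 → Group.nilpotencyClass G ≠ m - 1)
    (k : ℕ) (hk1 : 1 ≤ k) (hk2 : k < m) :
    Nat.card {H : Subgroup G // Nat.card H = p ^ k} ≡ 1 + p [MOD p ^ 2] := by
  have hp : p.Prime := Fact.out
  have hP : IsPGroup p G := IsPGroup.of_card hG
  have hdvd : p ^ (k + 1) ∣ Nat.card G := by rw [hG]; exact pow_dvd_pow p (by omega)
  have hred : Nat.card {H : Subgroup G // Nat.card H = p ^ (k + 1) ∧ ¬ IsCyclic H} ≡ 1 [MOD p] →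
      Nat.card {H : Subgroup G // Nat.card H = p ^ k} ≡ 1 + p [MOD p ^ 2] := by
    intro h
    have hW := k4_main_cong (G := G) p k hp hdvd
    refine hW.trans ?_
    have h3 : p * Nat.card {H : Subgroup G // Nat.card H = p ^ (k + 1) ∧ ¬ IsCyclic H} ≡
        p * 1 [MOD p * p] := Nat.ModEq.mul_left' p h
    rw [mul_one, ← pow_two] at h3
    exact Nat.ModEq.add_left 1 h3
  by_cases hp2 : p = 2
  · subst hp2
    obtain ⟨E, hEn, hE2, hEp⟩ := k2_exists_normal_four m hG hnc (h2 rfl)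
    haveI := hEn
    by_cases hk : k = 1
    · subst hk
      have hCE : Subgroup.centralizer (E : Set G) ≠ E := by
        intro h
        exact h2 rfl (Cfsg.Agent.S0112.result m hG E hE2 h)
      have h4 := k2_card_sq_one hP E hE2 hEp hCE
      rw [k2_card_order_two G] at h4
      obtain ⟨t, ht⟩ := h4
      simp only [pow_one] at ht ⊢
      have h5 : Nat.card {H : Subgroup G // Nat.card H = 2} % 4 = 3 := by omega
      exact h5
    · apply hred
      apply k4_nc_modEq_one 2 (k + 1) hp hdvd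
      exact k2_cyclic_even hP E hE2 hEp (k + 1) (by omega)
  · apply hred
    apply k4_nc_modEq_one p (k + 1) hp hdvd
    exact miller_pgroup p (k + 1) hp hp2 hP hnc (by omega)

end Cfsg.Agent.Lib.helper5
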