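import Mathlib
import Cfsg.Agent.Lib.helper5.HK5
import Cfsg.Agent.Lib.helper23.BPDefect2
import Cfsg.Agent.Lib.helper22.CliffDeg
import Cfsg.Agent.S0917

set_option autoImplicit false

/-!
# Induced blocks from subgroups containing the centralizer of a defect group

Let `b` be a block of `H ≤ G` with defect group `P₀` and `C_G(P₀) ≤ H`.  Then `b^G` is defined
(`nested_step`) and has a defect group `D ≥ P₀` with `Z(D) ≤ P₀` (`nested_main`).
-/

namespace Cfsg.Agent.Lib.helper5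

open Cfsg.Agent.Lib.helper23 Cfsg.Agent.Lib.helper24
open scoped ComplexConjugate

universe u

section grp

variable {G : Type u} [Group G]

theorem normalizer_le_normalizer_sup_centralizer (P : Subgroup G) :
    Subgroup.normalizer (P : Set G)
      ≤ Subgroup.normalizer ((P ⊔ Subgroup.centralizer (P : Set G) : Subgroup G) : Set G) := by
  intro n hn
  have h1 := map_conj_eq_of_mem_normalizer P n hn
  have h2 := map_conj_eq_of_mem_normalizer (Subgroup.centralizer (P : Set G)) n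
    (normalizer_le_normalizer_centralizer P hn)
  have h3 : (P ⊔ Subgroup.centralizer (P : Set G)).map (MulAut.conj n).toMonoidHom
      = P ⊔ Subgroup.centralizer (P : Set G) := by
    rw [Subgroup.map_sup, h1, h2]
  rw [Subgroup.mem_normalizer_iff]
  intro x
  conv_rhs => rw [← h3, mem_map_conj]
  have e : n⁻¹ * (n * x * n⁻¹) * n = x := by group
  rw [e]

end grp

section step

variable {G : Type u} [Group G] [Fintype G]
variable {M : Ideal Cfsg.AlgInt} {p : ℕ} [Fact p.Prime]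

/-- one step: the block of `ψ ∈ Irr H` with defect group `P₀` (`C_G(P₀) ≤ H`) induces a block of
`G`, which is also induced by a block of `N_G(P₀)` having a defect group `D₁` with
`D₁ ∩ P₀ C_G(P₀) = P₀` -/
theorem nested_step (hM : Cfsg.IsPModular p M) (H P₀ : Subgroup G) (hP₀H : P₀ ≤ H)
    (hC : Subgroup.centralizer (P₀ : Set G) ≤ H) (ψ : Cfsg.IrrCharacter H)
    (hdef : Cfsg.IsDefectGroup p M (Cfsg.blockOf M ψ.1) (P₀.subgroupOf H)) :
    ∃ χ₀ : Cfsg.IrrCharacter G,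
      Cfsg.IsInducedBlock M H (Cfsg.blockOf M ψ.1) (Cfsg.blockOf M χ₀.1) ∧
      ∃ (χ₁ : Cfsg.IrrCharacter (Subgroup.normalizer (P₀ : Set G)))
        (D₁ : Subgroup (Subgroup.normalizer (P₀ : Set G))),
        Cfsg.IsDefectGroup p M (Cfsg.blockOf M χ₁.1) D₁ ∧
        Cfsg.IsInducedBlock M (Subgroup.normalizer (P₀ : Set G)) (Cfsg.blockOf M χ₁.1)
          (Cfsg.blockOf M χ₀.1) ∧
        D₁ ⊓ (P₀ ⊔ Subgroup.centralizer (P₀ : Set G)).subgroupOf
            (Subgroup.normalizer (P₀ : Set G))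
          = P₀.subgroupOf (Subgroup.normalizer (P₀ : Set G)) := by
  classical
  haveI := Fintype.ofFinite (Cfsg.IrrCharacter G)
  haveI : Fintype H := Fintype.ofFinite H
  haveI := Fintype.ofFinite (Cfsg.IrrCharacter H)
  have hMp := isPModular_isPrime hM
  have hP₀p : IsPGroup p P₀ := by
    have h1 : IsPGroup p (P₀.subgroupOf H) := isPGroup_of_isDefectGroup hdef
    have h2 := h1.map H.subtype
    rwa [Subgroup.map_subgroupOf_eq_of_le hP₀H] at h2
  obtain ⟨K, hK⟩ : ∃ K : Subgroup G, K = P₀ ⊔ Subgroup.centralizer (P₀ : Set G) := ⟨_, rfl⟩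
  have hP₀K : P₀ ≤ K := by
    rw [hK]
    exact le_sup_left
  have hCK : Subgroup.centralizer (P₀ : Set G) ≤ K := by
    rw [hK]
    exact le_sup_right
  have hKN : K ≤ Subgroup.normalizer (P₀ : Set G) := by
    rw [hK]
    exact sup_le Subgroup.le_normalizer (Subgroup.centralizer_le_normalizer _)
  have hKH : K ≤ H := by
    rw [hK]
    exact sup_le hP₀H hC
  haveI : Fintype K := Fintype.ofFinite K
  haveI := Fintype.ofFinite (Cfsg.IrrCharacter K)
  haveI : Fintype (K.subgroupOf H) := Fintype.ofFinite _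
  haveI := Fintype.ofFinite (Cfsg.IrrCharacter (K.subgroupOf H))
  -- (i) a block of `K` (inside `H`) inducing the block of `ψ`
  have hP₀K' : P₀.subgroupOf H ≤ K.subgroupOf H := fun x hx => hP₀K hx
  have hcentG : ∀ x : H, x ∈ Subgroup.centralizer ((P₀.subgroupOf H : Subgroup H) : Set H) →
      (x : G) ∈ Subgroup.centralizer (P₀ : Set G) := by
    intro x hx
    rw [Subgroup.mem_centralizer_iff]
    intro y hy
    have := Subgroup.mem_centralizer_iff.mp hx ⟨y, hP₀H hy⟩ hy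
    exact congrArg Subtype.val this
  have hCK' : Subgroup.centralizer ((P₀.subgroupOf H : Subgroup H) : Set H) ≤ K.subgroupOf H :=
    fun x hx => hCK (hcentG x hx)
  have hK'N : K.subgroupOf H ≤ Subgroup.normalizer ((P₀.subgroupOf H : Subgroup H) : Set H) := by
    intro x hx
    have hxN : (x : G) ∈ Subgroup.normalizer (P₀ : Set G) := hKN hx
    rw [Subgroup.mem_normalizer_iff] at hxN ⊢
    intro y
    rw [Subgroup.mem_subgroupOf, Subgroup.mem_subgroupOf]
    exact hxN (y : G)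
  have hP₀Hp : IsPGroup p (P₀.subgroupOf H) := hP₀p.comap_subtype
  obtain ⟨c, hc, S, hS⟩ := hdef
  have hdef : Cfsg.IsDefectGroup p M (Cfsg.blockOf M ψ.1) (P₀.subgroupOf H) := ⟨c, hc, S, hS⟩
  have hcC : c ∈ Subgroup.centralizer ((P₀.subgroupOf H : Subgroup H) : Set H) :=
    le_centralizer_singleton_iff.mp (by rw [hS]; exact sylow_map_le _ S)
  obtain ⟨ξ', hξ'ind⟩ := exists_isInducedBlock_of_coef (K.subgroupOf H) hM (P₀.subgroupOf H)
    hP₀Hp hP₀K' hCK' hK'N ψ c hcC hc.2.1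
  -- its defect group
  haveI hnorm' : ((P₀.subgroupOf H).subgroupOf (K.subgroupOf H)).Normal :=
    (Subgroup.normal_subgroupOf_iff_le_normalizer hP₀K').mpr hK'N
  obtain ⟨E', hE'⟩ := exists_defectGroup (p := p) hMp ξ'
  have hle : (P₀.subgroupOf H).subgroupOf (K.subgroupOf H) ≤ E' :=
    normal_pgroup_le_defectGroup hM ((P₀.subgroupOf H).subgroupOf (K.subgroupOf H))
      hP₀Hp.comap_subtype ⟨ξ', rfl⟩ hE'
  obtain ⟨E, hE, hE'E⟩ := Cfsg.Agent.S0917.result p M hM (K.subgroupOf H) (Cfsg.blockOf M ξ'.1)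
    ⟨ξ', rfl⟩ (Cfsg.blockOf M ψ.1) ⟨ψ, rfl⟩ hξ'ind E' hE'
  have hcard : Nat.card E' ≤ Nat.card ((P₀.subgroupOf H).subgroupOf (K.subgroupOf H)) := by
    rw [Nat.card_congr (Subgroup.subgroupOfEquivOfLe hP₀K').toEquiv,
      defectGroup_card_eq hM _ ⟨ψ, rfl⟩ _ _ hdef hE,
      ← Subgroup.card_map_of_injective (K.subgroupOf H).subtype_injective]
    exact Subgroup.card_le_of_le hE'E
  have hEq : (P₀.subgroupOf H).subgroupOf (K.subgroupOf H) = E' :=
    Subgroup.eq_of_le_of_card_ge hle hcard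
  rw [← hEq] at hE'
  -- transport to `K ≤ G`
  obtain ⟨ξ, hξ⟩ : ∃ ξ : Cfsg.IrrCharacter K,
      ξ = irrMap (Subgroup.subgroupOfEquivOfLe hKH).symm ξ' := ⟨_, rfl⟩
  have hξ' : irrMap (Subgroup.subgroupOfEquivOfLe hKH) ξ = ξ' := by
    rw [hξ]
    exact irrMap_irrMap_symm _ ξ'
  have hξdef : Cfsg.IsDefectGroup p M (Cfsg.blockOf M ξ.1) (P₀.subgroupOf K) := by
    have h := isDefectGroup_irrMap (p := p) (M := M) (Subgroup.subgroupOfEquivOfLe hKH).symm
      _ _ hE'
    rw [irrMap_image_blockOf, ← hξ] at h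
    exact h
  -- (ii) the induced block of `G`
  obtain ⟨Bχ, hBχ⟩ := exists_induced_of_le_normalizer hM P₀ hP₀p K hP₀K hCK hKN
    (b := Cfsg.blockOf M ξ.1) ⟨ξ, rfl⟩
  obtain ⟨χ₀, rfl⟩ := hBχ.2.1
  have htr := isInducedBlock_trans' hMp H K hKH ξ ξ' (by rw [← hξ']; rfl) ψ χ₀ hξ'ind hBχ
  refine ⟨χ₀, htr, ?_⟩
  -- (iii) a block of the normalizer covering the block of `ξ`
  haveI : Fintype (Subgroup.normalizer (P₀ : Set G)) := Fintype.ofFinite _
  haveI := Fintype.ofFinite (Cfsg.IrrCharacter (Subgroup.normalizer (P₀ : Set G)))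
  haveI : Fintype (K.subgroupOf (Subgroup.normalizer (P₀ : Set G))) := Fintype.ofFinite _
  haveI := Fintype.ofFinite
    (Cfsg.IrrCharacter (K.subgroupOf (Subgroup.normalizer (P₀ : Set G))))
  haveI hK₁n : (K.subgroupOf (Subgroup.normalizer (P₀ : Set G))).Normal := by
    apply (Subgroup.normal_subgroupOf_iff_le_normalizer hKN).mpr
    rw [hK]
    exact normalizer_le_normalizer_sup_centralizer P₀
  haveI hP₁n : (P₀.subgroupOf (Subgroup.normalizer (P₀ : Set G))).Normal :=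
    (Subgroup.normal_subgroupOf_iff_le_normalizer Subgroup.le_normalizer).mpr le_rfl
  have hP₁p : IsPGroup p (P₀.subgroupOf (Subgroup.normalizer (P₀ : Set G))) :=
    hP₀p.comap_subtype
  have hCK₁ : Subgroup.centralizer
      ((P₀.subgroupOf (Subgroup.normalizer (P₀ : Set G)) :
        Subgroup (Subgroup.normalizer (P₀ : Set G))) : Set (Subgroup.normalizer (P₀ : Set G)))
      ≤ K.subgroupOf (Subgroup.normalizer (P₀ : Set G)) := by
    intro x hx
    apply hCK
    rw [Subgroup.mem_centralizer_iff]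
    intro y hy
    have := Subgroup.mem_centralizer_iff.mp hx ⟨y, Subgroup.le_normalizer hy⟩ hy
    exact congrArg Subtype.val this
  obtain ⟨χ₁, hχ₁⟩ := Cfsg.Agent.Lib.helper22.exists_irr_over
    (K.subgroupOf (Subgroup.normalizer (P₀ : Set G)))
    (irrMap (Subgroup.subgroupOfEquivOfLe hKN) ξ).2
  have hcon : Cfsg.classInner
      (fun n : K.subgroupOf (Subgroup.normalizer (P₀ : Set G)) => χ₁.1 n)
      (irrMap (Subgroup.subgroupOfEquivOfLe hKN) ξ).1 ≠ 0 := hχ₁
  have hcovind := cover_induced hM (P₀.subgroupOf (Subgroup.normalizer (P₀ : Set G))) hP₁p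
    (K.subgroupOf (Subgroup.normalizer (P₀ : Set G))) hCK₁ χ₁
    (irrMap (Subgroup.subgroupOfEquivOfLe hKN) ξ) hcon
  have htr₁ := isInducedBlock_trans' hMp (Subgroup.normalizer (P₀ : Set G)) K hKN ξ
    (irrMap (Subgroup.subgroupOfEquivOfLe hKN) ξ) rfl χ₁ χ₀ hcovind hBχ
  -- (iv) Knörr
  have hξ₁def : Cfsg.IsDefectGroup p M
      (Cfsg.blockOf M (irrMap (Subgroup.subgroupOfEquivOfLe hKN) ξ).1)
      ((P₀.subgroupOf (Subgroup.normalizer (P₀ : Set G))).subgroupOf
        (K.subgroupOf (Subgroup.normalizer (P₀ : Set G)))) := by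
    have h := isDefectGroup_irrMap (p := p) (M := M) (Subgroup.subgroupOfEquivOfLe hKN)
      _ _ hξdef
    rw [irrMap_image_blockOf] at h
    exact h
  have hP₁K₁ : P₀.subgroupOf (Subgroup.normalizer (P₀ : Set G))
      ≤ K.subgroupOf (Subgroup.normalizer (P₀ : Set G)) := fun x hx => hP₀K hx
  obtain ⟨D₁, hD₁, hmeet⟩ := knorr_meet hM (K.subgroupOf (Subgroup.normalizer (P₀ : Set G)))
    (P₀.subgroupOf (Subgroup.normalizer (P₀ : Set G))) hP₁K₁
    (Cfsg.blockOf M (irrMap (Subgroup.subgroupOfEquivOfLe hKN) ξ).1) ⟨_, rfl⟩ hξ₁def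
    (Cfsg.blockOf M χ₁.1) ⟨χ₁, rfl⟩
    ⟨χ₁, mem_blockOf_self hMp.ne_top χ₁, _, mem_blockOf_self hMp.ne_top _, hcon⟩
  refine ⟨χ₁, D₁, hD₁, htr₁, ?_⟩
  rw [← hK]
  exact hmeet

/-- the block induced by a block of `H` with defect group `P₀`, `C_G(P₀) ≤ H`, has a defect group
`D ≥ P₀` with `Z(D) ≤ P₀` -/
theorem nested_main (hM : Cfsg.IsPModular p M) (χ₀ : Cfsg.IrrCharacter G) :
    ∀ n : ℕ, ∀ (H P₀ : Subgroup G) (hP₀H : P₀ ≤ H), Subgroup.centralizer (P₀ : Set G) ≤ H →
      ∀ ψ : Cfsg.IrrCharacter H,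
      Cfsg.IsDefectGroup p M (Cfsg.blockOf M ψ.1) (P₀.subgroupOf H) →
      Cfsg.IsInducedBlock M H (Cfsg.blockOf M ψ.1) (Cfsg.blockOf M χ₀.1) →
      Nat.card G - Nat.card P₀ = n →
      ∃ D : Subgroup G, Cfsg.IsDefectGroup p M (Cfsg.blockOf M χ₀.1) D ∧ P₀ ≤ D ∧
        ∀ x ∈ D, (∀ w ∈ D, x * w = w * x) → x ∈ P₀ := by
  classical
  haveI := Fintype.ofFinite (Cfsg.IrrCharacter G)
  have hMp := isPModular_isPrime hM
  intro n
  induction n using Nat.strong_induction_on with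
  | _ n ih =>
    intro H P₀ hP₀H hC ψ hdef hind hn
    obtain ⟨χ₀', hind', χ₁, D₁, hD₁, hind₁, hmeet⟩ := nested_step hM H P₀ hP₀H hC ψ hdef
    have hχeq : Cfsg.blockOf M χ₀'.1 = Cfsg.blockOf M χ₀.1 := induced_unique hMp hind' hind
    rw [hχeq] at hind₁
    have hP₀p : IsPGroup p P₀ := by
      have h1 : IsPGroup p (P₀.subgroupOf H) := isPGroup_of_isDefectGroup hdef
      have h2 := h1.map H.subtype
      rwa [Subgroup.map_subgroupOf_eq_of_le hP₀H] at h2
    obtain ⟨P₁, hP₁⟩ : ∃ P₁ : Subgroup G,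
        P₁ = D₁.map (Subgroup.normalizer (P₀ : Set G)).subtype := ⟨_, rfl⟩
    have hsub : P₁.subgroupOf (Subgroup.normalizer (P₀ : Set G)) = D₁ := by
      rw [hP₁]
      exact Subgroup.comap_map_eq_self_of_injective (Subgroup.subtype_injective _) D₁
    have hP₁N : P₁ ≤ Subgroup.normalizer (P₀ : Set G) := by
      rw [hP₁]
      exact Subgroup.map_subtype_le _
    have hP₀P₁ : P₀ ≤ P₁ := by
      intro x hx
      have h1 : (⟨x, Subgroup.le_normalizer hx⟩ : Subgroup.normalizer (P₀ : Set G))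
          ∈ P₀.subgroupOf (Subgroup.normalizer (P₀ : Set G)) := hx
      rw [← hmeet] at h1
      rw [hP₁]
      exact ⟨_, (Subgroup.mem_inf.mp h1).1, rfl⟩
    have hZ : ∀ x ∈ P₁, (∀ w ∈ P₁, x * w = w * x) → x ∈ P₀ := by
      intro x hx hxc
      have hxN := hP₁N hx
      have hxC : x ∈ Subgroup.centralizer (P₀ : Set G) := by
        rw [Subgroup.mem_centralizer_iff]
        intro w hw
        exact (hxc w (hP₀P₁ hw)).symm
      have h1 : (⟨x, hxN⟩ : Subgroup.normalizer (P₀ : Set G))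
          ∈ D₁ ⊓ (P₀ ⊔ Subgroup.centralizer (P₀ : Set G)).subgroupOf
            (Subgroup.normalizer (P₀ : Set G)) := by
        refine Subgroup.mem_inf.mpr ⟨?_, ?_⟩
        · rw [← hsub]
          exact hx
        · exact Subgroup.mem_sup_right hxC
      rw [hmeet] at h1
      exact h1
    by_cases hle : P₁ ≤ P₀
    · have heq : P₁ = P₀ := le_antisymm hle hP₀P₁
      rw [heq] at hsub
      rw [← hsub] at hD₁
      haveI : Fintype (Subgroup.normalizer (P₀ : Set G)) := Fintype.ofFinite _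
      haveI := Fintype.ofFinite (Cfsg.IrrCharacter (Subgroup.normalizer (P₀ : Set G)))
      obtain ⟨χ', hχ'ind, hχ'def⟩ := fmt_induce P₀ hM hP₀p χ₁ hD₁
      have h2 : Cfsg.blockOf M χ'.1 = Cfsg.blockOf M χ₀.1 := induced_unique hMp hχ'ind hind₁
      rw [h2] at hχ'def
      exact ⟨P₀, hχ'def, le_rfl, fun x hx _ => hx⟩
    · have hlt : P₀ < P₁ := lt_of_le_of_ne hP₀P₁ (fun h => hle (h ▸ le_rfl))
      have hcardlt : Nat.card P₀ < Nat.card P₁ := card_lt_of_lt' hlt
      have hcardle : Nat.card P₁ ≤ Nat.card G := Subgroup.card_le_card_group P₁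
      have hC₁ : Subgroup.centralizer (P₁ : Set G) ≤ Subgroup.normalizer (P₀ : Set G) :=
        (centralizer_le_of_le hP₀P₁).trans (Subgroup.centralizer_le_normalizer _)
      obtain ⟨D, hD, hP₁D, hDc⟩ := ih (Nat.card G - Nat.card P₁) (by omega)
        (Subgroup.normalizer (P₀ : Set G)) P₁ hP₁N hC₁ χ₁ (by rw [hsub]; exact hD₁) hind₁ rfl
      refine ⟨D, hD, hP₀P₁.trans hP₁D, ?_⟩
      intro x hx hxc
      have hx₁ := hDc x hx hxc
      exact hZ x hx₁ (fun w hw => hxc w (hP₁D hw))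

end step

end Cfsg.Agent.Lib.helper5
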