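import Mathlib
import Cfsg.Prelude.Def_HallClasses

set_option autoImplicit false

namespace Cfsg.Agent.Lib.helper5

open Cfsg

universe u v

/-- conjugate subgroup `g H g⁻¹` -/
abbrev cjs {G : Type u} [Group G] (g : G) (H : Subgroup G) : Subgroup G :=
  H.map (MulAut.conj g).toMonoidHom

section basics

variable {G : Type u} [Group G]

theorem prn_mem_conj (H : Subgroup G) (g x : G) : x ∈ cjs g H ↔ g⁻¹ * x * g ∈ H := by
  constructor
  · rintro ⟨y, hy, rfl⟩
    show g⁻¹ * (g * y * g⁻¹) * g ∈ H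
    have e : g⁻¹ * (g * y * g⁻¹) * g = y := by group
    rw [e]; exact hy
  · intro h
    refine ⟨g⁻¹ * x * g, h, ?_⟩
    show g * (g⁻¹ * x * g) * g⁻¹ = x
    group

theorem prn_conj_mul (H : Subgroup G) (g h : G) : cjs (g * h) H = cjs g (cjs h H) := by
  ext x
  rw [prn_mem_conj, prn_mem_conj, prn_mem_conj]
  have e : (g * h)⁻¹ * x * (g * h) = h⁻¹ * (g⁻¹ * x * g) * h := by group
  rw [e]

theorem prn_conj_one (H : Subgroup G) : cjs 1 H = H := by
  ext x
  rw [prn_mem_conj]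
  simp

theorem prn_conj_of_mem (H : Subgroup G) {g : G} (hg : g ∈ H) : cjs g H = H := by
  ext x
  rw [prn_mem_conj]
  constructor
  · intro h
    have e : x = g * (g⁻¹ * x * g) * g⁻¹ := by group
    rw [e]
    exact H.mul_mem (H.mul_mem hg h) (H.inv_mem hg)
  · intro h
    exact H.mul_mem (H.mul_mem (H.inv_mem hg) h) hg

theorem prn_conj_inv_cancel (H : Subgroup G) (g : G) : cjs g⁻¹ (cjs g H) = H := by
  rw [← prn_conj_mul, inv_mul_cancel, prn_conj_one]

theorem prn_conj_cancel_inv (H : Subgroup G) (g : G) : cjs g (cjs g⁻¹ H) = H := by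
  rw [← prn_conj_mul, mul_inv_cancel, prn_conj_one]

theorem prn_conj_sup (H K : Subgroup G) (g : G) : cjs g (H ⊔ K) = cjs g H ⊔ cjs g K :=
  Subgroup.map_sup H K _

theorem prn_conj_mono {H K : Subgroup G} (h : H ≤ K) (g : G) : cjs g H ≤ cjs g K :=
  Subgroup.map_mono h

theorem prn_conj_le_of_mem {H L : Subgroup G} (h : H ≤ L) {g : G} (hg : g ∈ L) :
    cjs g H ≤ L := by
  calc cjs g H ≤ cjs g L := prn_conj_mono h g
    _ = L := prn_conj_of_mem L hg

theorem prn_mem_normalizer_iff (H : Subgroup G) (g : G) :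
    g ∈ Subgroup.normalizer (H : Set G) ↔ cjs g H = H := by
  rw [Subgroup.mem_normalizer_iff'']
  constructor
  · intro h
    ext x
    rw [prn_mem_conj]
    exact (h x).symm
  · intro h x
    rw [← prn_mem_conj, h]

theorem prn_conj_normal (A : Subgroup G) [hA : A.Normal] (g : G) : cjs g A = A := by
  ext x
  rw [prn_mem_conj]
  constructor
  · intro h
    have h1 := hA.conj_mem _ h g
    have e : g * (g⁻¹ * x * g) * g⁻¹ = x := by group
    rwa [e] at h1
  · intro h
    have h1 := hA.conj_mem _ h g⁻¹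
    rwa [inv_inv] at h1

theorem prn_conj_inf_normal (H A : Subgroup G) [hA : A.Normal] {x : G} (hx : x ∈ H) :
    cjs x (H ⊓ A) = H ⊓ A := by
  ext z
  rw [prn_mem_conj]
  constructor
  · rintro ⟨h1, h2⟩
    have h1' : x⁻¹ * z * x ∈ H := h1
    have h2' : x⁻¹ * z * x ∈ A := h2
    refine Subgroup.mem_inf.mpr ⟨?_, ?_⟩
    · have e : z = x * (x⁻¹ * z * x) * x⁻¹ := by group
      rw [e]; exact H.mul_mem (H.mul_mem hx h1') (H.inv_mem hx)
    · have h3 := hA.conj_mem _ h2' x
      have e : x * (x⁻¹ * z * x) * x⁻¹ = z := by group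
      rwa [e] at h3
  · intro hz
    obtain ⟨h1, h2⟩ := Subgroup.mem_inf.mp hz
    refine Subgroup.mem_inf.mpr ⟨H.mul_mem (H.mul_mem (H.inv_mem hx) h1) hx, ?_⟩
    have h3 := hA.conj_mem _ h2 x⁻¹
    rwa [inv_inv] at h3

theorem prn_map {G' : Type v} [Group G'] (f : G →* G') (H : Subgroup G) (g : G) :
    (cjs g H).map f = cjs (f g) (H.map f) := by
  ext x
  constructor
  · rintro ⟨y, ⟨z, hz, rfl⟩, rfl⟩
    refine ⟨f z, ⟨z, hz, rfl⟩, ?_⟩
    show f g * f z * (f g)⁻¹ = f (g * z * g⁻¹)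
    rw [map_mul, map_mul, map_inv]
  · rintro ⟨y, ⟨z, hz, rfl⟩, rfl⟩
    refine ⟨g * z * g⁻¹, ⟨z, hz, rfl⟩, ?_⟩
    show f (g * z * g⁻¹) = f g * f z * (f g)⁻¹
    rw [map_mul, map_mul, map_inv]

theorem prn_step (H : Subgroup G) (g u b : G) (hg : g = u * b) (hu : u ∈ H ⊔ cjs g H)
    (hb : ∃ w ∈ H ⊔ cjs b H, cjs b H = cjs w H) : ∃ w ∈ H ⊔ cjs g H, cjs g H = cjs w H := by
  obtain ⟨w, hw, hbw⟩ := hb
  have hbL : cjs b H ≤ H ⊔ cjs g H := by
    have e : b = u⁻¹ * g := by rw [hg]; group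
    rw [e, prn_conj_mul]
    exact prn_conj_le_of_mem le_sup_right (inv_mem hu)
  have hwL : w ∈ H ⊔ cjs g H := (sup_le le_sup_left hbL) hw
  refine ⟨u * w, mul_mem hu hwL, ?_⟩
  rw [hg, prn_conj_mul, hbw, ← prn_conj_mul]

theorem prn_of_conj (H : Subgroup G) (g0 : G) (h : IsPronormal (cjs g0 H)) : IsPronormal H := by
  intro g
  obtain ⟨x, hx, hxe⟩ := h (g0 * g * g0⁻¹)
  have e0 : g0 * g * g0⁻¹ * g0 = g0 * g := by group
  have e1 : cjs (g0 * g * g0⁻¹) (cjs g0 H) = cjs (g0 * g) H := by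
    rw [← prn_conj_mul, e0]
  have e2 : cjs x (cjs g0 H) = cjs (x * g0) H := (prn_conj_mul H x g0).symm
  refine ⟨g0⁻¹ * x * g0, ?_, ?_⟩
  · rw [← prn_mem_conj, prn_conj_sup, ← prn_conj_mul, ← e1]
    exact hx
  · have h1 : cjs (g0 * g) H = cjs (x * g0) H := by rw [← e1, ← e2]; exact hxe
    have h2 : cjs g0⁻¹ (cjs (g0 * g) H) = cjs g0⁻¹ (cjs (x * g0) H) := by rw [h1]
    rw [← prn_conj_mul, ← prn_conj_mul] at h2
    have e3 : g0⁻¹ * (g0 * g) = g := by group
    have e4 : g0⁻¹ * (x * g0) = g0⁻¹ * x * g0 := by group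
    rw [e3, e4] at h2
    exact h2

theorem prn_map_surj {G' : Type v} [Group G'] (f : G →* G') (hf : Function.Surjective f)
    (H : Subgroup G) (h : IsPronormal H) : IsPronormal (H.map f) := by
  intro g'
  obtain ⟨g, rfl⟩ := hf g'
  obtain ⟨x, hx, hxe⟩ := h g
  refine ⟨f x, ?_, ?_⟩
  · have h1 := Subgroup.mem_map_of_mem f hx
    rw [Subgroup.map_sup, prn_map] at h1
    exact h1
  · have h1 := congrArg (Subgroup.map f) hxe
    rw [prn_map, prn_map] at h1
    exact h1

theorem prn_subgroupOf (H N : Subgroup G) (hHN : H ≤ N) (h : IsPronormal H) :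
    IsPronormal (H.subgroupOf N) := by
  intro n
  obtain ⟨x, hx, hxe⟩ := h (n : G)
  have e1 : (cjs n (H.subgroupOf N)).map N.subtype = cjs (n : G) H := by
    rw [prn_map, Subgroup.map_subgroupOf_eq_of_le hHN]; rfl
  have hcN : cjs (n : G) H ≤ N := prn_conj_le_of_mem hHN n.2
  have hxN : x ∈ N := (sup_le hHN hcN) hx
  refine ⟨⟨x, hxN⟩, ?_, ?_⟩
  · have h1 : x ∈ (H.subgroupOf N ⊔ cjs n (H.subgroupOf N)).map N.subtype := by
      rw [Subgroup.map_sup, e1, Subgroup.map_subgroupOf_eq_of_le hHN]; exact hx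
    obtain ⟨z, hz, hzx⟩ := h1
    have e : z = ⟨x, hxN⟩ := Subtype.ext hzx
    rw [← e]; exact hz
  · apply Subgroup.map_injective N.subtype_injective
    have e2 : (cjs (⟨x, hxN⟩ : N) (H.subgroupOf N)).map N.subtype = cjs x H := by
      rw [prn_map, Subgroup.map_subgroupOf_eq_of_le hHN]; rfl
    show (cjs n (H.subgroupOf N)).map N.subtype = (cjs (⟨x, hxN⟩ : N) (H.subgroupOf N)).map N.subtype
    rw [e1, e2]
    exact hxe

end basics

section sylow

variable {G : Type u} [Group G]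

/-- `T` is a maximal `p`-subgroup of `K` -/
def PrnMax (p : ℕ) (K T : Subgroup G) : Prop :=
  T ≤ K ∧ IsPGroup p T ∧ ∀ Q : Subgroup G, IsPGroup p Q → T ≤ Q → Q ≤ K → Q = T

theorem prn_max_conj {p : ℕ} (K T : Subgroup G) (g : G) (h : PrnMax p K T) :
    PrnMax p (cjs g K) (cjs g T) := by
  refine ⟨prn_conj_mono h.1 g, h.2.1.map _, ?_⟩
  intro Q hQ hTQ hQK
  have h1 : T ≤ cjs g⁻¹ Q := by
    have h0 := prn_conj_mono hTQ g⁻¹
    rwa [prn_conj_inv_cancel] at h0
  have h2 : cjs g⁻¹ Q ≤ K := by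
    have h0 := prn_conj_mono hQK g⁻¹
    rwa [prn_conj_inv_cancel] at h0
  have h3 := h.2.2 _ (hQ.map _) h1 h2
  rw [← h3, prn_conj_cancel_inv]

theorem prn_max_of_sylow_sub {p : ℕ} (A : Subgroup G) (P : Sylow p A) :
    PrnMax p A ((P : Subgroup A).map A.subtype) := by
  refine ⟨?_, P.2.map _, ?_⟩
  · rintro _ ⟨y, _, rfl⟩; exact y.2
  · intro Q hQ hTQ hQA
    have h1 : IsPGroup p (Q.subgroupOf A) := hQ.comap_subtype
    have h2 : (P : Subgroup A) ≤ Q.subgroupOf A := by
      intro x hx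
      exact hTQ ⟨x, hx, rfl⟩
    have h3 := P.is_maximal' h1 h2
    rw [← Subgroup.map_subgroupOf_eq_of_le hQA, h3]

theorem prn_max_conj_in {p : ℕ} [Fact p.Prime] [Finite G] (K T1 T2 : Subgroup G)
    (h1 : PrnMax p K T1) (h2 : PrnMax p K T2) : ∃ k ∈ K, T2 = cjs k T1 := by
  classical
  have key : ∀ T : Subgroup G, PrnMax p K T →
      ∃ P : Sylow p K, (P : Subgroup K) = T.subgroupOf K := by
    intro T hT
    refine ⟨{ toSubgroup := T.subgroupOf K
              isPGroup' := hT.2.1.comap_subtype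
              is_maximal' := ?_ }, rfl⟩
    intro Q hQ hTQ
    have hQ' : IsPGroup p (Q.map K.subtype) := hQ.map _
    have hle : T ≤ Q.map K.subtype := by
      intro x hx
      exact ⟨⟨x, hT.1 hx⟩, hTQ (show (⟨x, hT.1 hx⟩ : K) ∈ T.subgroupOf K from hx), rfl⟩
    have hK : Q.map K.subtype ≤ K := by
      rintro _ ⟨y, _, rfl⟩; exact y.2
    have h3 := hT.2.2 _ hQ' hle hK
    rw [← h3]
    exact (Subgroup.comap_map_eq_self_of_injective K.subtype_injective Q).symm
  obtain ⟨P1, hP1⟩ := key T1 h1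
  obtain ⟨P2, hP2⟩ := key T2 h2
  obtain ⟨k, hk⟩ := MulAction.exists_smul_eq K P1 P2
  refine ⟨k, k.2, ?_⟩
  have e1 : ((k • P1 : Sylow p K) : Subgroup K) = cjs k (P1 : Subgroup K) := rfl
  have e2 : ((k • P1 : Sylow p K) : Subgroup K) = (P2 : Subgroup K) := by rw [hk]
  rw [e1, hP1, hP2] at e2
  have e3 := congrArg (Subgroup.map K.subtype) e2
  rw [prn_map, Subgroup.map_subgroupOf_eq_of_le h1.1, Subgroup.map_subgroupOf_eq_of_le h2.1] at e3
  exact e3.symm

theorem prn_sylow_le_normalizer {p : ℕ} (A : Subgroup G) [hAn : A.Normal]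
    (T : Subgroup G) (hTmax : PrnMax p A T) (S : Sylow p G) (hTS : T ≤ S) :
    (S : Subgroup G) ≤ Subgroup.normalizer (T : Set G) := by
  have hSA : (S : Subgroup G) ⊓ A = T :=
    hTmax.2.2 _ (S.2.to_le inf_le_left) (le_inf hTS hTmax.1) inf_le_right
  intro s hs
  rw [prn_mem_normalizer_iff, ← hSA]
  exact prn_conj_inf_normal (S : Subgroup G) A hs

end sylow

section core

variable {G : Type u} [Group G]

theorem prn_core3 {p : ℕ} [Fact p.Prime] [Finite G]
    (T : Subgroup G) [hTn : (T.subgroupOf (Subgroup.normalizer (T : Set G))).Normal]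
    (hi : ∀ K : Subgroup (↥(Subgroup.normalizer (T : Set G)) ⧸
        T.subgroupOf (Subgroup.normalizer (T : Set G))),
      (∃ P : Sylow p (↥(Subgroup.normalizer (T : Set G)) ⧸
        T.subgroupOf (Subgroup.normalizer (T : Set G))),
        (P : Subgroup (↥(Subgroup.normalizer (T : Set G)) ⧸
          T.subgroupOf (Subgroup.normalizer (T : Set G)))) ≤ K) → IsPronormal K)
    (H : Subgroup G) (S : Sylow p G)
    (hSN : (S : Subgroup G) ≤ Subgroup.normalizer (T : Set G))
    (hSH : (S : Subgroup G) ≤ H) (HA : Subgroup G) (hHAH : HA ≤ H) (hTHA : PrnMax p HA T)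
    (hnorm : ∀ x ∈ H, cjs x HA = HA) (c : G) (hcT : cjs c T = T) (hcHA : cjs c HA = HA) :
    ∃ w ∈ H ⊔ cjs c H, cjs c H = cjs w H := by
  have hTN : T ≤ Subgroup.normalizer (T : Set G) := Subgroup.le_normalizer
  have hcN : c ∈ Subgroup.normalizer (T : Set G) := (prn_mem_normalizer_iff T c).mpr hcT
  have hTH : T ≤ H := hTHA.1.trans hHAH
  -- Frattini
  have hfr : H = HA ⊔ (H ⊓ Subgroup.normalizer (T : Set G)) := by
    apply le_antisymm
    · intro x hx
      have hT2 : PrnMax p HA (cjs x T) := by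
        have h0 := prn_max_conj (p := p) HA T x hTHA
        rwa [hnorm x hx] at h0
      obtain ⟨h, hhHA, hhT⟩ := prn_max_conj_in HA T (cjs x T) hTHA hT2
      have hxn : h⁻¹ * x ∈ Subgroup.normalizer (T : Set G) := by
        rw [prn_mem_normalizer_iff, prn_conj_mul, hhT, prn_conj_inv_cancel]
      have e : x = h * (h⁻¹ * x) := by group
      rw [e]
      exact Subgroup.mul_mem_sup hhHA
        (Subgroup.mem_inf.mpr ⟨H.mul_mem (H.inv_mem (hHAH hhHA)) hx, hxn⟩)
    · exact sup_le hHAH inf_le_left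
  -- quotient
  have hf : Function.Surjective (QuotientGroup.mk' (T.subgroupOf (Subgroup.normalizer (T : Set G)))) :=
    QuotientGroup.mk'_surjective _
  have hKbar : IsPronormal (((H ⊓ Subgroup.normalizer (T : Set G)).subgroupOf
      (Subgroup.normalizer (T : Set G))).map
      (QuotientGroup.mk' (T.subgroupOf (Subgroup.normalizer (T : Set G))))) := by
    apply hi
    refine ⟨(S.subtype hSN).mapSurjective hf, ?_⟩
    rw [Sylow.coe_mapSurjective, Sylow.coe_subtype]
    apply Subgroup.map_mono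
    intro x hx
    exact Subgroup.mem_inf.mpr ⟨hSH hx, x.2⟩
  obtain ⟨ybar, hybar0, hyebar0⟩ := hKbar (QuotientGroup.mk' _ ⟨c, hcN⟩)
  have hybar : ybar ∈ (((H ⊓ Subgroup.normalizer (T : Set G)).subgroupOf
      (Subgroup.normalizer (T : Set G))) ⊔
      cjs (⟨c, hcN⟩ : ↥(Subgroup.normalizer (T : Set G)))
        ((H ⊓ Subgroup.normalizer (T : Set G)).subgroupOf
          (Subgroup.normalizer (T : Set G)))).map
      (QuotientGroup.mk' (T.subgroupOf (Subgroup.normalizer (T : Set G)))) := by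
    rw [Subgroup.map_sup, prn_map]; exact hybar0
  obtain ⟨yN, hyN, rfl⟩ := hybar
  have hyebar : (cjs (⟨c, hcN⟩ : ↥(Subgroup.normalizer (T : Set G)))
        ((H ⊓ Subgroup.normalizer (T : Set G)).subgroupOf
          (Subgroup.normalizer (T : Set G)))).map
      (QuotientGroup.mk' (T.subgroupOf (Subgroup.normalizer (T : Set G)))) =
      (cjs yN ((H ⊓ Subgroup.normalizer (T : Set G)).subgroupOf
          (Subgroup.normalizer (T : Set G)))).map
      (QuotientGroup.mk' (T.subgroupOf (Subgroup.normalizer (T : Set G)))) := by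
    rw [prn_map, prn_map]; exact hyebar0
  have hker : (QuotientGroup.mk' (T.subgroupOf (Subgroup.normalizer (T : Set G)))).ker =
      T.subgroupOf (Subgroup.normalizer (T : Set G)) := QuotientGroup.ker_mk' _
  have hTK : T.subgroupOf (Subgroup.normalizer (T : Set G)) ≤
      (H ⊓ Subgroup.normalizer (T : Set G)).subgroupOf (Subgroup.normalizer (T : Set G)) := by
    intro x hx
    exact Subgroup.mem_inf.mpr ⟨hTH hx, x.2⟩
  have hTnorm : ∀ n : ↥(Subgroup.normalizer (T : Set G)),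
      T.subgroupOf (Subgroup.normalizer (T : Set G)) ≤
        cjs n ((H ⊓ Subgroup.normalizer (T : Set G)).subgroupOf
          (Subgroup.normalizer (T : Set G))) := by
    intro n
    have h0 : cjs n (T.subgroupOf (Subgroup.normalizer (T : Set G))) =
        T.subgroupOf (Subgroup.normalizer (T : Set G)) := prn_conj_normal _ n
    rw [← h0]; exact prn_conj_mono hTK n
  have heqN : cjs (⟨c, hcN⟩ : ↥(Subgroup.normalizer (T : Set G)))
      ((H ⊓ Subgroup.normalizer (T : Set G)).subgroupOf (Subgroup.normalizer (T : Set G))) =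
      cjs yN ((H ⊓ Subgroup.normalizer (T : Set G)).subgroupOf
        (Subgroup.normalizer (T : Set G))) := by
    have h0 := Subgroup.map_eq_map_iff.mp hyebar
    rwa [hker, sup_eq_left.mpr (hTnorm _), sup_eq_left.mpr (hTnorm _)] at h0
  have hmapKN : ((H ⊓ Subgroup.normalizer (T : Set G)).subgroupOf
      (Subgroup.normalizer (T : Set G))).map (Subgroup.normalizer (T : Set G)).subtype =
      H ⊓ Subgroup.normalizer (T : Set G) := Subgroup.map_subgroupOf_eq_of_le inf_le_right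
  have heq : cjs c (H ⊓ Subgroup.normalizer (T : Set G)) =
      cjs (yN : G) (H ⊓ Subgroup.normalizer (T : Set G)) := by
    have h0 := congrArg (Subgroup.map (Subgroup.normalizer (T : Set G)).subtype) heqN
    rw [prn_map, prn_map, hmapKN] at h0
    exact h0
  have hyJ : (yN : G) ∈ (H ⊓ Subgroup.normalizer (T : Set G)) ⊔
      cjs c (H ⊓ Subgroup.normalizer (T : Set G)) := by
    have h1 : (yN : G) ∈ (((H ⊓ Subgroup.normalizer (T : Set G)).subgroupOf
        (Subgroup.normalizer (T : Set G))) ⊔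
        cjs (⟨c, hcN⟩ : ↥(Subgroup.normalizer (T : Set G)))
          ((H ⊓ Subgroup.normalizer (T : Set G)).subgroupOf
            (Subgroup.normalizer (T : Set G)))).map
        (Subgroup.normalizer (T : Set G)).subtype := ⟨yN, hyN, rfl⟩
    rw [Subgroup.map_sup, prn_map, hmapKN] at h1
    exact h1
  have hyHA : cjs (yN : G) HA = HA := by
    rw [← prn_mem_normalizer_iff]
    have hle : (H ⊓ Subgroup.normalizer (T : Set G)) ⊔
        cjs c (H ⊓ Subgroup.normalizer (T : Set G)) ≤ Subgroup.normalizer (HA : Set G) := by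
      apply sup_le
      · intro x hx
        rw [prn_mem_normalizer_iff]; exact hnorm x (Subgroup.mem_inf.mp hx).1
      · intro x hx
        rw [prn_mem_conj] at hx
        rw [prn_mem_normalizer_iff]
        have e : x = c * (c⁻¹ * x * c) * c⁻¹ := by group
        have h1 : cjs c⁻¹ HA = HA := by
          conv_lhs => rw [← hcHA]
          exact prn_conj_inv_cancel HA c
        rw [e, prn_conj_mul, prn_conj_mul, h1, hnorm _ (Subgroup.mem_inf.mp hx).1, hcHA]
    exact hle hyJ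
  refine ⟨(yN : G), ?_, ?_⟩
  · exact (sup_le_sup inf_le_left (prn_conj_mono inf_le_left c)) hyJ
  · have e1 : cjs c H = cjs c HA ⊔ cjs c (H ⊓ Subgroup.normalizer (T : Set G)) := by
      conv_lhs => rw [hfr]
      exact prn_conj_sup _ _ _
    have e2 : cjs (yN : G) H =
        cjs (yN : G) HA ⊔ cjs (yN : G) (H ⊓ Subgroup.normalizer (T : Set G)) := by
      conv_lhs => rw [hfr]
      exact prn_conj_sup _ _ _
    rw [e1, e2, hcHA, hyHA, heq]

theorem prn_core {p : ℕ} [Fact p.Prime] [Finite G] (A : Subgroup G) [hAn : A.Normal]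
    (hA : ∀ K : Subgroup ↥A, (∃ P : Sylow p ↥A, (P : Subgroup ↥A) ≤ K) → IsPronormal K)
    (T : Subgroup G) (hT : ∃ P : Sylow p ↥A, (P : Subgroup ↥A).map A.subtype = T)
    [hTn : (T.subgroupOf (Subgroup.normalizer (T : Set G))).Normal]
    (hi : ∀ K : Subgroup (↥(Subgroup.normalizer (T : Set G)) ⧸
        T.subgroupOf (Subgroup.normalizer (T : Set G))),
      (∃ P : Sylow p (↥(Subgroup.normalizer (T : Set G)) ⧸
        T.subgroupOf (Subgroup.normalizer (T : Set G))),
        (P : Subgroup (↥(Subgroup.normalizer (T : Set G)) ⧸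
          T.subgroupOf (Subgroup.normalizer (T : Set G)))) ≤ K) → IsPronormal K)
    (H : Subgroup G) (S : Sylow p G) (hTS : T ≤ S) (hSH : (S : Subgroup G) ≤ H)
    (a : G) (ha : a ∈ A) :
    ∃ w ∈ H ⊔ cjs a H, cjs a H = cjs w H := by
  obtain ⟨P, hPT⟩ := hT
  have hTmax : PrnMax p A T := hPT ▸ prn_max_of_sylow_sub A P
  have hTA : T ≤ A := hTmax.1
  have hTH : T ≤ H := hTS.trans hSH
  have hTHA : T ≤ H ⊓ A := le_inf hTH hTA
  have hK : IsPronormal ((H ⊓ A).subgroupOf A) := by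
    apply hA
    refine ⟨P, ?_⟩
    intro x hx
    show (x : G) ∈ H ⊓ A
    apply hTHA
    rw [← hPT]
    exact ⟨x, hx, rfl⟩
  obtain ⟨y', hy', hye'⟩ := hK ⟨a, ha⟩
  have hmapHA : ((H ⊓ A).subgroupOf A).map A.subtype = H ⊓ A :=
    Subgroup.map_subgroupOf_eq_of_le inf_le_right
  have hye : cjs a (H ⊓ A) = cjs (y' : G) (H ⊓ A) := by
    have h0 := congrArg (Subgroup.map A.subtype) hye'
    rw [prn_map, prn_map, hmapHA] at h0
    exact h0
  have hyL : (y' : G) ∈ H ⊔ cjs a H := by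
    have h1 : (y' : G) ∈ ((H ⊓ A).subgroupOf A ⊔
        cjs (⟨a, ha⟩ : A) ((H ⊓ A).subgroupOf A)).map A.subtype := ⟨y', hy', rfl⟩
    rw [Subgroup.map_sup, prn_map, hmapHA] at h1
    exact (sup_le_sup inf_le_left (prn_conj_mono inf_le_left a)) h1
  refine prn_step H a (y' : G) ((y' : G)⁻¹ * a) (by group) hyL ?_
  have hbA : (y' : G)⁻¹ * a ∈ A := A.mul_mem (A.inv_mem y'.2) ha
  have hbHA : cjs ((y' : G)⁻¹ * a) (H ⊓ A) = H ⊓ A := by
    rw [prn_conj_mul, hye, prn_conj_inv_cancel]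
  have hT1 : PrnMax p (H ⊓ A) T :=
    ⟨hTHA, hTmax.2.1, fun Q hQ hTQ hQK => hTmax.2.2 Q hQ hTQ (hQK.trans inf_le_right)⟩
  have hT2 : PrnMax p (H ⊓ A) (cjs ((y' : G)⁻¹ * a) T) := by
    have h0 := prn_max_conj (p := p) (H ⊓ A) T ((y' : G)⁻¹ * a) hT1
    rwa [hbHA] at h0
  obtain ⟨h, hhHA, hhT⟩ := prn_max_conj_in (H ⊓ A) T (cjs ((y' : G)⁻¹ * a) T) hT1 hT2
  have hhH : h ∈ H := (Subgroup.mem_inf.mp hhHA).1
  refine prn_step H ((y' : G)⁻¹ * a) h (h⁻¹ * ((y' : G)⁻¹ * a)) (by group)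
    ((le_sup_left : H ≤ H ⊔ cjs ((y' : G)⁻¹ * a) H) hhH) ?_
  have hcT : cjs (h⁻¹ * ((y' : G)⁻¹ * a)) T = T := by
    rw [prn_conj_mul, hhT, prn_conj_inv_cancel]
  have hcHA : cjs (h⁻¹ * ((y' : G)⁻¹ * a)) (H ⊓ A) = H ⊓ A := by
    rw [prn_conj_mul, hbHA]
    exact prn_conj_of_mem (H ⊓ A) ((H ⊓ A).inv_mem hhHA)
  exact prn_core3 T hi H S (prn_sylow_le_normalizer A T hTmax S hTS) hSH (H ⊓ A) inf_le_left hT1
    (fun x hx => prn_conj_inf_normal H A hx) _ hcT hcHA

theorem prn_quot_of_all {p : ℕ} [Fact p.Prime] [Finite G] (A : Subgroup G) [hAn : A.Normal]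
    (T : Subgroup G) (hT : ∃ P : Sylow p ↥A, (P : Subgroup ↥A).map A.subtype = T)
    [hTn : (T.subgroupOf (Subgroup.normalizer (T : Set G))).Normal]
    (hall : ∀ K : Subgroup G, (∃ P : Sylow p G, (P : Subgroup G) ≤ K) → IsPronormal K)
    (K : Subgroup (↥(Subgroup.normalizer (T : Set G)) ⧸
        T.subgroupOf (Subgroup.normalizer (T : Set G))))
    (hK : ∃ P : Sylow p (↥(Subgroup.normalizer (T : Set G)) ⧸
        T.subgroupOf (Subgroup.normalizer (T : Set G))),
        (P : Subgroup (↥(Subgroup.normalizer (T : Set G)) ⧸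
          T.subgroupOf (Subgroup.normalizer (T : Set G)))) ≤ K) : IsPronormal K := by
  obtain ⟨P, hPT⟩ := hT
  have hTmax : PrnMax p A T := hPT ▸ prn_max_of_sylow_sub A P
  obtain ⟨S0, hTS0⟩ := hTmax.2.1.exists_le_sylow
  have hSN := prn_sylow_le_normalizer A T hTmax S0 hTS0
  have hf : Function.Surjective (QuotientGroup.mk' (T.subgroupOf (Subgroup.normalizer (T : Set G)))) :=
    QuotientGroup.mk'_surjective _
  obtain ⟨Pbar, hPbar⟩ := hK
  obtain ⟨nbar, hn⟩ := MulAction.exists_smul_eq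
    (↥(Subgroup.normalizer (T : Set G)) ⧸ T.subgroupOf (Subgroup.normalizer (T : Set G)))
    ((S0.subtype hSN).mapSurjective hf) Pbar
  obtain ⟨n, rfl⟩ := hf nbar
  have hKGN : (K.comap (QuotientGroup.mk' (T.subgroupOf (Subgroup.normalizer (T : Set G))))).map
      (Subgroup.normalizer (T : Set G)).subtype ≤ Subgroup.normalizer (T : Set G) := by
    rintro _ ⟨y, _, rfl⟩; exact y.2
  have hKG : IsPronormal ((K.comap (QuotientGroup.mk'
      (T.subgroupOf (Subgroup.normalizer (T : Set G))))).map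
      (Subgroup.normalizer (T : Set G)).subtype) := by
    apply hall
    refine ⟨(n : G) • S0, ?_⟩
    intro x hx
    have hx' : x ∈ cjs (n : G) (S0 : Subgroup G) := hx
    rw [prn_mem_conj] at hx'
    have hxN : x ∈ Subgroup.normalizer (T : Set G) := by
      have e : x = (n : G) * ((n : G)⁻¹ * x * (n : G)) * (n : G)⁻¹ := by group
      rw [e]
      exact Subgroup.mul_mem _ (Subgroup.mul_mem _ n.2 (hSN hx')) (Subgroup.inv_mem _ n.2)
    refine ⟨⟨x, hxN⟩, ?_, rfl⟩
    show QuotientGroup.mk' (T.subgroupOf (Subgroup.normalizer (T : Set G))) ⟨x, hxN⟩ ∈ K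
    apply hPbar
    rw [← hn]
    show QuotientGroup.mk' (T.subgroupOf (Subgroup.normalizer (T : Set G))) ⟨x, hxN⟩ ∈
      cjs (QuotientGroup.mk' (T.subgroupOf (Subgroup.normalizer (T : Set G))) n)
        (((S0.subtype hSN).mapSurjective hf : Sylow p _) : Subgroup _)
    rw [prn_mem_conj, Sylow.coe_mapSurjective, Sylow.coe_subtype]
    refine ⟨n⁻¹ * ⟨x, hxN⟩ * n, ?_, ?_⟩
    · show ((n⁻¹ * ⟨x, hxN⟩ * n : ↥(Subgroup.normalizer (T : Set G))) : G) ∈ (S0 : Subgroup G)
      exact hx'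
    · rw [map_mul, map_mul, map_inv]
  have h1 := prn_subgroupOf _ _ hKGN hKG
  have h2 : ((K.comap (QuotientGroup.mk' (T.subgroupOf (Subgroup.normalizer (T : Set G))))).map
      (Subgroup.normalizer (T : Set G)).subtype).subgroupOf (Subgroup.normalizer (T : Set G)) =
      K.comap (QuotientGroup.mk' (T.subgroupOf (Subgroup.normalizer (T : Set G)))) :=
    Subgroup.comap_map_eq_self_of_injective (Subgroup.subtype_injective _) _
  rw [h2] at h1
  have h3 := prn_map_surj _ hf _ h1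
  rwa [Subgroup.map_comap_eq_self_of_surjective hf] at h3

theorem prn_normalizer_map (A : Subgroup G) [hAn : A.Normal] (K : Subgroup G)
    (hK : IsPronormal K) :
    (Subgroup.normalizer (K : Set G)).map (QuotientGroup.mk' A) =
      Subgroup.normalizer ((K.map (QuotientGroup.mk' A) : Subgroup (G ⧸ A)) : Set (G ⧸ A)) := by
  apply le_antisymm
  · rintro _ ⟨x, hx, rfl⟩
    rw [prn_mem_normalizer_iff, ← prn_map, (prn_mem_normalizer_iff K x).mp hx]
  · intro xbar hxbar
    obtain ⟨g, rfl⟩ := QuotientGroup.mk'_surjective A xbar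
    rw [prn_mem_normalizer_iff, ← prn_map] at hxbar
    obtain ⟨y, hy, hye0⟩ := hK g
    have hye : cjs g K = cjs y K := hye0
    have hm : y⁻¹ * g ∈ Subgroup.normalizer (K : Set G) := by
      rw [prn_mem_normalizer_iff, prn_conj_mul, hye, prn_conj_inv_cancel]
    have hy' : QuotientGroup.mk' A y ∈ K.map (QuotientGroup.mk' A) := by
      have h0 := Subgroup.mem_map_of_mem (QuotientGroup.mk' A) hy
      rwa [Subgroup.map_sup, hxbar, sup_idem] at h0
    have hy'' : QuotientGroup.mk' A y ∈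
        (Subgroup.normalizer (K : Set G)).map (QuotientGroup.mk' A) :=
      Subgroup.map_mono Subgroup.le_normalizer hy'
    have e : QuotientGroup.mk' A g = QuotientGroup.mk' A y * QuotientGroup.mk' A (y⁻¹ * g) := by
      rw [← map_mul, mul_inv_cancel_left]
    rw [e]
    exact mul_mem hy'' (Subgroup.mem_map_of_mem _ hm)

end core

end Cfsg.Agent.Lib.helper5
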