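import Mathlib
import Cfsg.Agent.Lib.helper5.SelfCentA
import Cfsg.Agent.Lib.helper5.PairCount
import Cfsg.Agent.Lib.helper24.CharReg
import Cfsg.Agent.Lib.helper24.CharComplete
import Cfsg.Agent.Lib.helper24.CharOrth

set_option autoImplicit false

/-!
# Elements of prime order with `C_G(x) = ⟨x⟩`: character theory, part 1

Fourier analysis on `⟨x⟩`, multiplicities of the restriction, the TI inequality,
and vanishing on elements acting nontrivially on `⟨x⟩`.
-/

namespace Cfsg.Agent.Lib.helper5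

open Cfsg.Agent.Lib.helper24
open scoped ComplexConjugate

universe u v

section fourier

variable (p : ℕ) [Fact p.Prime]

/-- Fourier inversion on `ZMod p`. -/
theorem scp_fourier_inv (f : ZMod p → ℂ) (a : ZMod p) :
    ∑ j : ZMod p, ZMod.stdAddChar (a * j) *
      ((p : ℂ)⁻¹ * ∑ b : ZMod p, ZMod.stdAddChar (-(b * j)) * f b) = f a := by
  haveI : NeZero p := ⟨(Fact.out : p.Prime).ne_zero⟩
  have hp0 : (p : ℂ) ≠ 0 := Nat.cast_ne_zero.mpr (NeZero.ne p)
  simp_rw [Finset.mul_sum]
  rw [Finset.sum_comm]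
  have key : ∀ b : ZMod p, ∑ j : ZMod p, ZMod.stdAddChar (a * j) *
      ((p : ℂ)⁻¹ * (ZMod.stdAddChar (-(b * j)) * f b)) = if a - b = 0 then f b else 0 := by
    intro b
    have h1 : ∀ j : ZMod p, ZMod.stdAddChar (a * j) *
        ((p : ℂ)⁻¹ * (ZMod.stdAddChar (-(b * j)) * f b))
        = (p : ℂ)⁻¹ * f b * ZMod.stdAddChar (j * (a - b)) := by
      intro j
      have : j * (a - b) = a * j + -(b * j) := by ring
      rw [this, AddChar.map_add_eq_mul]
      ring
    simp_rw [h1]
    rw [← Finset.mul_sum, AddChar.sum_mulShift (a - b) (ZMod.isPrimitive_stdAddChar p)]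
    split_ifs with h
    · rw [ZMod.card]
      field_simp
    · simp
  simp_rw [key, sub_eq_zero]
  rw [Finset.sum_ite_eq Finset.univ a f, if_pos (Finset.mem_univ a)]

/-- Parseval on `ZMod p` for a function with natural Fourier coefficients. -/
theorem scp_parseval (m : ZMod p → ℕ) (f : ZMod p → ℂ)
    (hf : ∀ a, f a = ∑ j : ZMod p, ZMod.stdAddChar (a * j) * (m j : ℂ)) :
    ∑ a : ZMod p, f a * conj (f a) = (p : ℂ) * ∑ j : ZMod p, ((m j : ℂ)) ^ 2 := by
  haveI : NeZero p := ⟨(Fact.out : p.Prime).ne_zero⟩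
  have hconj : ∀ a, conj (f a) = ∑ j : ZMod p, ZMod.stdAddChar (-(a * j)) * (m j : ℂ) := by
    intro a
    rw [hf a, map_sum]
    apply Finset.sum_congr rfl
    intro j _
    rw [map_mul, Complex.conj_natCast, AddChar.map_neg_eq_conj]
  have hexp : ∀ a, f a * conj (f a)
      = ∑ j : ZMod p, ∑ j' : ZMod p,
          (m j : ℂ) * (m j' : ℂ) * ZMod.stdAddChar (a * (j - j')) := by
    intro a
    rw [hconj a, hf a, Finset.sum_mul_sum]
    apply Finset.sum_congr rfl
    intro j _
    apply Finset.sum_congr rfl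
    intro j' _
    have : a * (j - j') = a * j + -(a * j') := by ring
    rw [this, AddChar.map_add_eq_mul]
    ring
  simp_rw [hexp]
  rw [Finset.sum_comm]
  have h2 : ∀ j : ZMod p, ∑ a : ZMod p, ∑ j' : ZMod p,
      (m j : ℂ) * (m j' : ℂ) * ZMod.stdAddChar (a * (j - j')) = (p : ℂ) * (m j : ℂ) ^ 2 := by
    intro j
    rw [Finset.sum_comm]
    have h3 : ∀ j' : ZMod p, ∑ a : ZMod p,
        (m j : ℂ) * (m j' : ℂ) * ZMod.stdAddChar (a * (j - j'))
        = if j - j' = 0 then (p : ℂ) * (m j : ℂ) ^ 2 else 0 := by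
      intro j'
      rw [← Finset.mul_sum, AddChar.sum_mulShift (j - j') (ZMod.isPrimitive_stdAddChar p)]
      split_ifs with h
      · have : j' = j := (sub_eq_zero.mp h).symm
        rw [this, ZMod.card]
        ring
      · simp
    simp_rw [h3, sub_eq_zero]
    rw [Finset.sum_ite_eq Finset.univ j (fun _ => (p : ℂ) * (m j : ℂ) ^ 2),
      if_pos (Finset.mem_univ j)]
  simp_rw [h2]
  rw [Finset.mul_sum]

/-- The combinatorial core: multiplicities invariant under a subgroup of order `≥ 2` with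
small square sum have no trivial constituent. -/
theorem scp_comb (K : Subgroup (ZMod p)ˣ) (hK : 2 ≤ Nat.card K) (m : ZMod p → ℕ)
    (h1 : ∑ j : ZMod p, m j = p - 1)
    (h2 : ∑ j : ZMod p, (m j) ^ 2 + 2 ≤ Nat.card K + p)
    (h3 : ∀ k ∈ K, ∀ j : ZMod p, m ((k : ZMod p) * j) = m j) : m 0 = 0 := by
  classical
  by_contra h0
  have hp := Fact.out (p := p.Prime)
  haveI : NeZero p := ⟨hp.ne_zero⟩
  have hex : ∃ j₁ : ZMod p, j₁ ≠ 0 ∧ m j₁ = 0 := by
    by_contra hne
    push_neg at hne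
    have hge : ∀ j : ZMod p, 1 ≤ m j := by
      intro j
      by_cases hj : j = 0
      · rw [hj]
        omega
      · exact Nat.one_le_iff_ne_zero.mpr (hne j hj)
    have h4 : ∑ _j : ZMod p, 1 ≤ ∑ j : ZMod p, m j := Finset.sum_le_sum (fun j _ => hge j)
    rw [Finset.sum_const, Finset.card_univ, ZMod.card, smul_eq_mul, mul_one, h1] at h4
    have := hp.pos
    omega
  obtain ⟨j₁, hj₁, hm₁⟩ := hex
  set O : Finset (ZMod p) :=
    Finset.univ.image (fun k : K => ((k : (ZMod p)ˣ) : ZMod p) * j₁) with hO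
  have hOcard : O.card = Nat.card K := by
    rw [hO, Finset.card_image_of_injective, Finset.card_univ, Nat.card_eq_fintype_card]
    intro k k' h
    have h' : ((k : (ZMod p)ˣ) : ZMod p) * j₁ = ((k' : (ZMod p)ˣ) : ZMod p) * j₁ := h
    exact Subtype.ext (Units.ext (mul_right_cancel₀ hj₁ h'))
  have hOm : ∀ j ∈ O, m j = 0 := by
    intro j hj
    rw [hO, Finset.mem_image] at hj
    obtain ⟨k, _, rfl⟩ := hj
    rw [h3 k k.2, hm₁]
  have h1z : ∑ j : ZMod p, (m j : ℤ) = (p : ℤ) - 1 := by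
    have := congrArg (fun n : ℕ => (n : ℤ)) h1
    simp only [Nat.cast_sum] at this
    rw [this, Nat.cast_sub hp.one_le]
    simp
  have h2z : ∑ j : ZMod p, (m j : ℤ) ^ 2 + 2 ≤ (Nat.card K : ℤ) + p := by
    have : ((∑ j : ZMod p, (m j) ^ 2 + 2 : ℕ) : ℤ) ≤ ((Nat.card K + p : ℕ) : ℤ) :=
      Nat.cast_le.mpr h2
    push_cast at this
    exact this
  have e1 : ∑ j : ZMod p, ((m j : ℤ) - 1) ^ 2
      = ∑ j : ZMod p, (m j : ℤ) ^ 2 - 2 * ∑ j : ZMod p, (m j : ℤ) + (p : ℤ) := by
    have : ∀ j : ZMod p, ((m j : ℤ) - 1) ^ 2 = (m j : ℤ) ^ 2 - 2 * (m j : ℤ) + 1 :=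
      fun j => by ring
    simp_rw [this]
    rw [Finset.sum_add_distrib, Finset.sum_sub_distrib, ← Finset.mul_sum, Finset.sum_const,
      Finset.card_univ, ZMod.card]
    simp
  have hsq : ∑ j : ZMod p, ((m j : ℤ) - 1) ^ 2 ≤ (Nat.card K : ℤ) := by
    rw [e1, h1z]
    linarith
  have hsplit := Finset.sum_add_sum_compl O (fun j : ZMod p => ((m j : ℤ) - 1) ^ 2)
  have hOsum : ∑ j ∈ O, ((m j : ℤ) - 1) ^ 2 = (Nat.card K : ℤ) := by
    have : ∀ j ∈ O, ((m j : ℤ) - 1) ^ 2 = 1 := by
      intro j hj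
      rw [hOm j hj]
      norm_num
    rw [Finset.sum_congr rfl this, Finset.sum_const, hOcard]
    simp
  have hcomp0 : ∑ j ∈ Oᶜ, ((m j : ℤ) - 1) ^ 2 = 0 := by
    have hnn : 0 ≤ ∑ j ∈ Oᶜ, ((m j : ℤ) - 1) ^ 2 :=
      Finset.sum_nonneg (fun j _ => sq_nonneg _)
    linarith
  have hcomp1 : ∀ j ∈ Oᶜ, m j = 1 := by
    intro j hj
    have := (Finset.sum_eq_zero_iff_of_nonneg (fun j _ => sq_nonneg ((m j : ℤ) - 1))).mp
      hcomp0 j hj
    have h5 : (m j : ℤ) - 1 = 0 := by
      simpa using this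
    omega
  have hsplit2 := Finset.sum_add_sum_compl O (fun j : ZMod p => m j)
  rw [Finset.sum_congr rfl hOm, Finset.sum_congr rfl hcomp1, Finset.sum_const_zero, zero_add,
    Finset.sum_const, smul_eq_mul, mul_one, Finset.card_compl, hOcard, Fintype.card, 
    ← Fintype.card, ZMod.card, h1] at hsplit2
  have := hp.two_le
  omega

end fourier

section rep

variable {G : Type u} [Group G]

theorem scp_centralizer_pw (p : ℕ) [Fact p.Prime] (x : G) (hx : orderOf x = p) (a : ZMod p)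
    (ha : a ≠ 0) :
    Subgroup.centralizer ({scpPw p x a} : Set G) = Subgroup.centralizer ({x} : Set G) := by
  haveI : NeZero p := ⟨(Fact.out : p.Prime).ne_zero⟩
  ext g
  simp only [Subgroup.mem_centralizer_iff, Set.mem_singleton_iff, forall_eq]
  constructor
  · intro h
    have hx' : x = scpPw p x a ^ (a⁻¹).val := by
      rw [← scpPw_mul p x hx, mul_inv_cancel₀ ha, scpPw_one]
    rw [hx']
    exact (Commute.pow_left (show Commute (scpPw p x a) g from h) _).eq
  · intro h
    exact (Commute.pow_left (show Commute x g from h) _).eq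

/-- Multiplicities of the eigenvalues of `ρ x`. -/
theorem scp_mult (p : ℕ) [Fact p.Prime] (x : G) (hx : orderOf x = p)
    {V : Type v} [AddCommGroup V] [Module ℂ V] [FiniteDimensional ℂ V]
    (ρ : Representation ℂ G V) (j : ZMod p) :
    ∃ m : ℕ, (m : ℂ) = (p : ℂ)⁻¹ *
        ∑ a : ZMod p, ZMod.stdAddChar (-(a * j)) * ρ.character (scpPw p x a) ∧
      (m = 0 → ∑ a : ZMod p, (ZMod.stdAddChar (-(a * j)) : ℂ) • ρ (scpPw p x a) = 0) := by
  haveI : NeZero p := ⟨(Fact.out : p.Prime).ne_zero⟩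
  have hp0 : (p : ℂ) ≠ 0 := Nat.cast_ne_zero.mpr (NeZero.ne p)
  obtain ⟨T, hT⟩ : ∃ T : V →ₗ[ℂ] V,
      T = ∑ a : ZMod p, (ZMod.stdAddChar (-(a * j)) : ℂ) • ρ (scpPw p x a) := ⟨_, rfl⟩
  rw [← hT]
  have key : T * T = (p : ℂ) • T := by
    have h1 : ∀ a : ZMod p, ((ZMod.stdAddChar (-(a * j)) : ℂ) • ρ (scpPw p x a)) * T = T := by
      intro a
      rw [hT, Finset.mul_sum, ← Equiv.sum_comp (Equiv.addLeft a)
        (fun c => (ZMod.stdAddChar (-(c * j)) : ℂ) • ρ (scpPw p x c))]
      apply Finset.sum_congr rfl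
      intro b _
      rw [smul_mul_smul_comm, ← map_mul ρ, ← scpPw_add p x hx, ← AddChar.map_add_eq_mul,
        Equiv.coe_addLeft]
      congr 2
      ring
    conv_lhs => rw [hT]
    rw [Finset.sum_mul, ← hT, Finset.sum_congr rfl (fun a _ => h1 a), Finset.sum_const,
      Finset.card_univ, ZMod.card, Nat.cast_smul_eq_nsmul]
  have hidem : IsIdempotentElem ((p : ℂ)⁻¹ • T) := by
    unfold IsIdempotentElem
    rw [smul_mul_smul_comm, key, smul_smul]
    congr 1
    field_simp
  have htr : LinearMap.trace ℂ V ((p : ℂ)⁻¹ • T) = (p : ℂ)⁻¹ *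
      ∑ a : ZMod p, ZMod.stdAddChar (-(a * j)) * ρ.character (scpPw p x a) := by
    rw [map_smul, hT, map_sum, smul_eq_mul]
    congr 1
    apply Finset.sum_congr rfl
    intro a _
    rw [map_smul, smul_eq_mul]
    rfl
  refine ⟨Module.finrank ℂ (LinearMap.range ((p : ℂ)⁻¹ • T)), ?_, ?_⟩
  · rw [← htr, (LinearMap.IsIdempotentElem.isProj_range _ hidem).trace]
  · intro h0
    have h1 : LinearMap.range ((p : ℂ)⁻¹ • T) = ⊥ := Submodule.finrank_eq_zero.mp h0
    have h2 : (p : ℂ)⁻¹ • T = 0 := LinearMap.range_eq_bot.mp h1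
    have h3 := congrArg (fun S : V →ₗ[ℂ] V => (p : ℂ) • S) h2
    simpa [smul_smul, hp0] using h3

/-- If `⟨x⟩` has no fixed points, characters vanish on elements acting nontrivially on `⟨x⟩`. -/
theorem scp_vanish (p : ℕ) [Fact p.Prime] (x : G) (hx : orderOf x = p)
    {V : Type v} [AddCommGroup V] [Module ℂ V] [FiniteDimensional ℂ V]
    (ρ : Representation ℂ G V) (hT : ∑ a : ZMod p, ρ (scpPw p x a) = 0) (g : G) (l : ZMod p)
    (hl : l ≠ 1) (hg : g * x * g⁻¹ = scpPw p x l) : ρ.character g = 0 := by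
  haveI : NeZero p := ⟨(Fact.out : p.Prime).ne_zero⟩
  have h1l : (1 - l) ≠ 0 := sub_ne_zero.mpr (Ne.symm hl)
  have hcl : ∀ a : ZMod p, ρ.character (scpPw p x a * g) = ρ.character g := by
    intro a
    obtain ⟨b, hb⟩ : ∃ b : ZMod p, b = a * (1 - l)⁻¹ := ⟨_, rfl⟩
    have hv : scpPw p x b * g * (scpPw p x b)⁻¹ = scpPw p x a * g := by
      have h2 : g * (scpPw p x b)⁻¹ * g⁻¹ = scpPw p x (-(l * b)) := by
        rw [← scpPw_neg p x hx b, scp_conj_pw p x hx g l (-b) hg]
        congr 1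
        ring
      have h3 : scpPw p x b * g * (scpPw p x b)⁻¹
          = scpPw p x b * (g * (scpPw p x b)⁻¹ * g⁻¹) * g := by group
      rw [h3, h2, ← scpPw_add p x hx]
      congr 2
      rw [hb]
      field_simp
      ring
    rw [← hv]
    exact Representation.char_conj ρ _ _
  have hsum : ∑ a : ZMod p, ρ.character (scpPw p x a * g) = 0 := by
    have h4 : ∀ a : ZMod p, ρ.character (scpPw p x a * g)
        = LinearMap.trace ℂ V (ρ (scpPw p x a) * ρ g) := by
      intro a
      rw [← map_mul]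
      rfl
    simp_rw [h4]
    rw [← map_sum, ← Finset.sum_mul, hT, zero_mul, map_zero]
  simp_rw [hcl] at hsum
  rw [Finset.sum_const, Finset.card_univ, ZMod.card, nsmul_eq_mul] at hsum
  exact (mul_eq_zero.mp hsum).resolve_left (Nat.cast_ne_zero.mpr (NeZero.ne p))

/-- The TI inequality. -/
theorem scp_ti [Fintype G] (p : ℕ) [Fact p.Prime] (x : G) (hx : orderOf x = p)
    (hC : Subgroup.centralizer ({x} : Set G) = Subgroup.zpowers x) (χ : Cfsg.IrrCharacter G) :
    (Nat.card G : ℝ) * ∑ a : ZMod p,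
        (if a = 0 then 0 else Complex.normSq (χ.1 (scpPw p x a)))
      ≤ (p : ℝ) * (Nat.card (scpK p x) : ℝ) * ((Nat.card G : ℝ) - Complex.normSq (χ.1 1)) := by
  classical
  have hp := Fact.out (p := p.Prime)
  haveI : NeZero p := ⟨hp.ne_zero⟩
  obtain ⟨F, hF⟩ : ∃ F : G → ℝ, F = fun g => Complex.normSq (χ.1 g) := ⟨_, rfl⟩
  have hFv : ∀ g, F g = Complex.normSq (χ.1 g) := fun g => by rw [hF]
  have hFcl : ∀ g t : G, F (t * g * t⁻¹) = F g := fun g t => by
    rw [hFv, hFv, isClassFunction_irr χ g t]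
  have hFnn : ∀ g, 0 ≤ F g := fun g => by
    rw [hFv]
    exact Complex.normSq_nonneg _
  have hsum : ∑ g : G, F g = (Nat.card G : ℝ) := by
    have h1 := irr_inner_self χ
    unfold Cfsg.classInner at h1
    have hG : (Nat.card G : ℂ) ≠ 0 := Nat.cast_ne_zero.mpr Nat.card_pos.ne'
    have h2 : ∑ g : G, χ.1 g * conj (χ.1 g) = (Nat.card G : ℂ) := by
      have h3 := congrArg (fun z : ℂ => (Nat.card G : ℂ) * z) h1
      simp only [mul_one] at h3
      rw [← h3, ← mul_assoc, mul_inv_cancel₀ hG, one_mul]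
    have h3 : ((∑ g : G, F g : ℝ) : ℂ) = ((Nat.card G : ℝ) : ℂ) := by
      rw [Complex.ofReal_natCast, ← h2, Complex.ofReal_sum]
      apply Finset.sum_congr rfl
      intro g _
      rw [Complex.mul_conj, hFv]
    exact_mod_cast h3
  have hA : ∀ a : ZMod p, a ≠ 0 → (Nat.card G : ℝ) * F (scpPw p x a)
      = (p : ℝ) * ∑ g : G, if IsConj (scpPw p x a) g then F g else 0 := by
    intro a ha
    have h1 := sum_conjCount_mul (scpPw p x a) (fun g => ((F g : ℝ) : ℂ))
    have hcard : Nat.card (Subgroup.centralizer ({scpPw p x a} : Set G)) = p := by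
      rw [scp_centralizer_pw p x hx a ha, hC, Nat.card_zpowers, hx]
    simp only [conjCount_eq_ite, hcard, hFcl] at h1
    rw [Finset.sum_const, Finset.card_univ, nsmul_eq_mul] at h1
    have h2 : (((Nat.card G : ℝ) * F (scpPw p x a) : ℝ) : ℂ)
        = (((p : ℝ) * ∑ g : G, if IsConj (scpPw p x a) g then F g else 0 : ℝ) : ℂ) := by
      push_cast
      rw [Nat.card_eq_fintype_card, ← h1, Finset.mul_sum]
      apply Finset.sum_congr rfl
      intro g _
      split_ifs <;> simp
    exact_mod_cast h2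
  have hcount : ∀ g : G,
      ((Finset.univ.filter (fun a : ZMod p => a ≠ 0 ∧ IsConj (scpPw p x a) g)).card : ℝ)
        ≤ (Nat.card (scpK p x) : ℝ) := by
    intro g
    rcases (Finset.univ.filter
      (fun a : ZMod p => a ≠ 0 ∧ IsConj (scpPw p x a) g)).eq_empty_or_nonempty with h | h
    · rw [h]
      simp
    · obtain ⟨a₀, ha₀⟩ := h
      rw [Finset.mem_filter] at ha₀
      obtain ⟨-, ha₀0, ha₀c⟩ := ha₀
      have hsub : (Finset.univ.filter (fun a : ZMod p => a ≠ 0 ∧ IsConj (scpPw p x a) g))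
          ⊆ Finset.univ.image (fun k : scpK p x => a₀ * ((k : (ZMod p)ˣ) : ZMod p)) := by
        intro a ha
        rw [Finset.mem_filter] at ha
        obtain ⟨-, ha0, hac⟩ := ha
        have hconj : IsConj (scpPw p x ((Units.mk0 a₀ ha₀0 : (ZMod p)ˣ) : ZMod p))
            (scpPw p x ((Units.mk0 a ha0 : (ZMod p)ˣ) : ZMod p)) := by
          rw [Units.val_mk0, Units.val_mk0]
          exact ha₀c.trans hac.symm
        have hmem := (scp_isConj_pw p x hx _ _).mp hconj
        rw [Finset.mem_image]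
        refine ⟨⟨_, hmem⟩, Finset.mem_univ _, ?_⟩
        show a₀ * (((Units.mk0 a₀ ha₀0)⁻¹ * Units.mk0 a ha0 : (ZMod p)ˣ) : ZMod p) = a
        rw [Units.val_mul, Units.val_inv_eq_inv_val, Units.val_mk0, Units.val_mk0,
          mul_inv_cancel_left₀ ha₀0]
      have h1 := Finset.card_le_card hsub
      have h2 := Finset.card_image_le (s := (Finset.univ : Finset (scpK p x)))
        (f := fun k : scpK p x => a₀ * ((k : (ZMod p)ˣ) : ZMod p))
      rw [Finset.card_univ, ← Nat.card_eq_fintype_card] at h2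
      exact_mod_cast h1.trans h2
  have hcount1 : (Finset.univ.filter
      (fun a : ZMod p => a ≠ 0 ∧ IsConj (scpPw p x a) (1 : G))) = ∅ := by
    rw [Finset.filter_eq_empty_iff]
    rintro a - ⟨ha0, hac⟩
    rw [isConj_one_left, scpPw_eq_one p x hx] at hac
    exact ha0 hac
  calc (Nat.card G : ℝ) * ∑ a : ZMod p, (if a = 0 then 0 else Complex.normSq (χ.1 (scpPw p x a)))
      = ∑ a : ZMod p, (p : ℝ) * ∑ g : G,
          (if a ≠ 0 ∧ IsConj (scpPw p x a) g then F g else 0) := by
        rw [Finset.mul_sum]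
        apply Finset.sum_congr rfl
        intro a _
        by_cases h : a = 0
        · rw [if_pos h, mul_zero]
          simp [h]
        · rw [if_neg h, ← hFv, hA a h]
          simp [h]
    _ = (p : ℝ) * ∑ g : G, F g *
          ((Finset.univ.filter (fun a : ZMod p => a ≠ 0 ∧ IsConj (scpPw p x a) g)).card : ℝ) := by
        rw [← Finset.mul_sum, Finset.sum_comm]
        congr 1
        apply Finset.sum_congr rfl
        intro g _
        rw [← Finset.sum_boole, Finset.mul_sum]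
        apply Finset.sum_congr rfl
        intro a _
        split_ifs <;> simp
    _ ≤ (p : ℝ) * ∑ g : G, (F g * (Nat.card (scpK p x) : ℝ) -
          (if g = 1 then F 1 * (Nat.card (scpK p x) : ℝ) else 0)) := by
        apply mul_le_mul_of_nonneg_left _ (Nat.cast_nonneg p)
        apply Finset.sum_le_sum
        intro g _
        by_cases hg : g = 1
        · rw [if_pos hg, hg, hcount1]
          simp
        · rw [if_neg hg, sub_zero]
          exact mul_le_mul_of_nonneg_left (hcount g) (hFnn g)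
    _ = (p : ℝ) * (Nat.card (scpK p x) : ℝ) * ((Nat.card G : ℝ) - Complex.normSq (χ.1 1)) := by
        rw [Finset.sum_sub_distrib, ← Finset.sum_mul, hsum, Finset.sum_ite_eq' Finset.univ (1 : G)
          (fun _ => F 1 * (Nat.card (scpK p x) : ℝ)), if_pos (Finset.mem_univ _), hFv 1]
        ring

end rep

end Cfsg.Agent.Lib.helper5
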