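import Mathlib
import Cfsg.Agent.Lib.helper5.SelfCentB
import Cfsg.Agent.Lib.helper24.CharDet
import Cfsg.Agent.Lib.helper24.CharEquiv
import Cfsg.Agent.Lib.helper24.CharKer

set_option autoImplicit false

/-!
# Elements of prime order with `C_G(x) = ⟨x⟩`: character theory, part 2

Determinants of representations of cyclic groups whose character is a multiple of the regular
character, and the main theorem `scp_char_main`.
-/

namespace Cfsg.Agent.Lib.helper5

open Cfsg.Agent.Lib.helper24
open scoped ComplexConjugate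

universe u v

theorem scp_det_ofMulAction {K : Type u} {H : Type v} [Group K] [MulAction K H] [Fintype H]
    [DecidableEq H] (c : K) :
    LinearMap.det (Representation.ofMulAction ℂ K H c)
      = (((Equiv.Perm.sign (MulAction.toPerm c : Equiv.Perm H) : ℤˣ) : ℤ) : ℂ) := by
  rw [← LinearMap.det_toMatrix (MonoidAlgebra.basis H ℂ)]
  have h : LinearMap.toMatrix (MonoidAlgebra.basis H ℂ) (MonoidAlgebra.basis H ℂ)
      (Representation.ofMulAction ℂ K H c)
      = (1 : Matrix H H ℂ).submatrix id (MulAction.toPerm c : Equiv.Perm H) := by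
    ext i j
    rw [LinearMap.toMatrix_apply, Matrix.submatrix_apply, Matrix.one_apply]
    simp [MonoidAlgebra.basis, Finsupp.single_apply, eq_comm]
  rw [h, Matrix.det_permute', Matrix.det_one, mul_one]

theorem scp_sign_mulLeft {K : Type u} [Group K] [Fintype K] [DecidableEq K] (c : K)
    (hc : ∀ y : K, y ∈ Subgroup.zpowers c) (he : Even (Fintype.card K)) :
    Equiv.Perm.sign (Equiv.mulLeft c) = -1 := by
  have hc1 : c ≠ 1 := by
    rintro rfl
    have h1 : Fintype.card K = 1 := by
      rw [Fintype.card_eq_one_iff]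
      refine ⟨1, fun y => ?_⟩
      have := hc y
      rw [Subgroup.zpowers_one_eq_bot, Subgroup.mem_bot] at this
      exact this
    rw [h1] at he
    exact absurd he (by decide)
  have hpow : ∀ n : ℕ, ((Equiv.mulLeft c) ^ n) 1 = c ^ n := by
    intro n
    induction n with
    | zero => simp
    | succ n ih => rw [pow_succ', Equiv.Perm.mul_apply, ih, Equiv.coe_mulLeft, pow_succ']
  have hcyc : (Equiv.mulLeft c).IsCycle := by
    refine ⟨1, ?_, fun y _ => ?_⟩
    · show c * 1 ≠ 1
      rw [mul_one]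
      exact hc1
    · have hy := hc y
      rw [← (isOfFinOrder_of_finite c).mem_powers_iff_mem_zpowers] at hy
      obtain ⟨n, hn⟩ := hy
      refine ⟨(n : ℤ), ?_⟩
      rw [zpow_natCast, hpow]
      exact hn
  rw [hcyc.sign]
  have hsupp : (Equiv.mulLeft c).support = Finset.univ := by
    ext y
    simp [hc1]
  rw [hsupp, Finset.card_univ, he.neg_one_pow]

/-- A representation of a cyclic group of even order whose character is an odd multiple of the
regular character has determinant `-1` at a generator. -/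
theorem scp_det_cyclic {K : Type u} [Group K] [Finite K] {V : Type v} [AddCommGroup V]
    [Module ℂ V] [FiniteDimensional ℂ V] (σ : Representation ℂ K V) (c : K)
    (hc : ∀ y : K, y ∈ Subgroup.zpowers c) (t : ℕ) (ht : Odd t) (he : Even (Nat.card K))
    (h1 : σ.character 1 = ((t * Nat.card K : ℕ) : ℂ))
    (h0 : ∀ y : K, y ≠ 1 → σ.character y = 0) : LinearMap.det (σ c) = -1 := by
  classical
  haveI := Fintype.ofFinite K
  letI act : MulAction K (Fin t × K) :=
    { smul := fun c h => (h.1, c * h.2)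
      one_smul := fun h => by
        show (h.1, 1 * h.2) = h
        rw [one_mul]
      mul_smul := fun a b h => by
        show (h.1, a * b * h.2) = (h.1, a * (b * h.2))
        rw [mul_assoc] }
  have hsmul : ∀ (a : K) (h : Fin t × K), a • h = (h.1, a * h.2) := fun _ _ => rfl
  haveI : FiniteDimensional ℂ (MonoidAlgebra ℂ (Fin t × K)) :=
    Module.Finite.of_basis (MonoidAlgebra.basis (Fin t × K) ℂ)
  have hchar : σ.character = (Representation.ofMulAction ℂ K (Fin t × K)).character := by
    funext y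
    rw [ofMulAction_character]
    by_cases hy : y = 1
    · rw [hy, h1]
      congr 1
      rw [Nat.card_congr (Equiv.subtypeUnivEquiv (fun h : Fin t × K => one_smul K h)),
        Nat.card_prod, Nat.card_fin]
    · rw [h0 y hy]
      have : IsEmpty {h : Fin t × K // y • h = h} := by
        constructor
        rintro ⟨h, hh⟩
        apply hy
        rw [hsmul] at hh
        have h2 : y * h.2 = h.2 := congrArg Prod.snd hh
        exact mul_eq_right.mp h2
      rw [Nat.card_of_isEmpty, Nat.cast_zero]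
  obtain ⟨eqv⟩ := equiv_of_character_eq σ (Representation.ofMulAction ℂ K (Fin t × K)) hchar
  rw [← det_eq_of_equiv σ _ eqv c, scp_det_ofMulAction]
  have hperm : (MulAction.toPerm c : Equiv.Perm (Fin t × K))
      = Equiv.prodCongrRight (fun _ : Fin t => Equiv.mulLeft c) := by
    ext h
    · rfl
    · rfl
  rw [hperm, Equiv.Perm.sign_prodCongrRight, Finset.prod_const, Finset.card_univ,
    Fintype.card_fin, scp_sign_mulLeft c hc (by rwa [← Nat.card_eq_fintype_card]),
    ht.neg_one_pow]
  simp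

theorem scp_even_of_hom {G : Type u} [Group G] [Finite G] (δ : G →* ℂˣ) (g : G)
    (h : δ g = -1) : Even (commutator G).index := by
  have hle : commutator G ≤ δ.ker := Abelianization.commutator_subset_ker δ
  have h1 := Subgroup.index_dvd_of_le hle
  rw [Subgroup.index_ker] at h1
  have h2 : orderOf (δ g) = 2 := by
    rw [h]
    apply orderOf_eq_prime
    · norm_num
    · intro h3
      have := congrArg (fun u : ℂˣ => (u : ℂ)) h3
      norm_num at this
  have h3 : orderOf (δ g) ∣ Nat.card δ.range := by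
    have h4 := orderOf_dvd_natCard (⟨δ g, g, rfl⟩ : δ.range)
    rwa [← Subgroup.orderOf_coe] at h4
  rw [h2] at h3
  exact even_iff_two_dvd.mpr (h3.trans h1)

/-- Main theorem: `p` odd, `C_G(x) = ⟨x⟩` of order `p`, an irreducible character of degree
`p - 1`, and an odd number of classes of elements of order `p` force `|G : G'|` even. -/
theorem scp_char_main {G : Type u} [Group G] [Finite G] (p : ℕ) [Fact p.Prime] (hp2 : p ≠ 2)
    (x : G) (hx : orderOf x = p)
    (hC : Subgroup.centralizer ({x} : Set G) = Subgroup.zpowers x)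
    (χ : Cfsg.IrrCharacter G) (hχ : Cfsg.charDegree (χ : G → ℂ) + 1 = p)
    (hodd : Odd (scpK p x).index) : Even (commutator G).index := by
  classical
  haveI := Fintype.ofFinite G
  have hp := Fact.out (p := p.Prime)
  haveI : NeZero p := ⟨hp.ne_zero⟩
  obtain ⟨e, he⟩ : ∃ e : ℕ, e = Nat.card (scpK p x) := ⟨_, rfl⟩
  have het : e * (scpK p x).index = p - 1 := by
    rw [he]
    exact scp_card_K_mul p x
  have hpodd : Odd p := hp.odd_of_ne_two hp2
  have heven : Even e := by
    have h1 : Even (e * (scpK p x).index) := by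
      rw [het]
      exact Nat.Odd.sub_odd hpodd odd_one
    rcases Nat.even_mul.mp h1 with h | h
    · exact h
    · exact absurd h (Nat.not_even_iff_odd.mpr hodd)
  have he2 : 2 ≤ e := by
    obtain ⟨r, hr⟩ := heven
    have : 0 < e := by
      rw [he]
      exact Nat.card_pos
    omega
  obtain ⟨N, ρ, hirr, hρ⟩ := χ.2
  have hdeg : χ.1 1 = ((p - 1 : ℕ) : ℂ) := by
    rw [← charDegree_cast χ]
    congr 1
    omega
  choose m hm hm0 using fun j : ZMod p => scp_mult p x hx ρ j
  have hinv : ∀ a : ZMod p, χ.1 (scpPw p x a)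
      = ∑ j : ZMod p, ZMod.stdAddChar (a * j) * (m j : ℂ) := by
    intro a
    have h1 := scp_fourier_inv p (fun b => χ.1 (scpPw p x b)) a
    rw [← h1]
    apply Finset.sum_congr rfl
    intro j _
    rw [hm j, hρ]
  have hsum : ∑ j : ZMod p, m j = p - 1 := by
    have h1 := hinv 0
    rw [scpPw_zero, hdeg] at h1
    simp only [zero_mul, AddChar.map_zero_eq_one, one_mul] at h1
    exact_mod_cast h1.symm
  have hpars := scp_parseval p m (fun a => χ.1 (scpPw p x a)) hinv
  have hinvar : ∀ k ∈ scpK p x, ∀ j : ZMod p, m ((k : ZMod p) * j) = m j := by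
    intro k hk j
    have hcast : (m ((k : ZMod p) * j) : ℂ) = (m j : ℂ) := by
      rw [hm, hm, hρ]
      congr 1
      obtain ⟨n, hn⟩ := hk
      rw [← Equiv.sum_comp (Units.mulLeft k)
        (fun a => ZMod.stdAddChar (-(a * j)) * χ.1 (scpPw p x a))]
      apply Finset.sum_congr rfl
      intro a _
      rw [Units.mulLeft_apply, ← hn a, isClassFunction_irr χ]
      congr 2
      ring
    exact_mod_cast hcast
  have hti := scp_ti p x hx hC χ
  have hparsR : ∑ a : ZMod p, Complex.normSq (χ.1 (scpPw p x a))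
      = (p : ℝ) * ∑ j : ZMod p, ((m j : ℝ)) ^ 2 := by
    have h3 : ((∑ a : ZMod p, Complex.normSq (χ.1 (scpPw p x a)) : ℝ) : ℂ)
        = (((p : ℝ) * ∑ j : ZMod p, ((m j : ℝ)) ^ 2 : ℝ) : ℂ) := by
      push_cast
      rw [← hpars]
      apply Finset.sum_congr rfl
      intro a _
      rw [Complex.mul_conj]
    exact_mod_cast h3
  have hn1 : Complex.normSq (χ.1 1) = ((p : ℝ) - 1) ^ 2 := by
    rw [hdeg, Complex.normSq_natCast, Nat.cast_sub hp.one_le]
    push_cast
    ring
  have hS : ∑ a : ZMod p, (if a = 0 then 0 else Complex.normSq (χ.1 (scpPw p x a)))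
      = (p : ℝ) * ∑ j : ZMod p, ((m j : ℝ)) ^ 2 - ((p : ℝ) - 1) ^ 2 := by
    rw [← hparsR, ← hn1]
    have h4 : ∀ a : ZMod p, (if a = 0 then 0 else Complex.normSq (χ.1 (scpPw p x a)))
        = Complex.normSq (χ.1 (scpPw p x a))
          - (if a = 0 then Complex.normSq (χ.1 1) else 0) := by
      intro a
      split_ifs with h
      · rw [h, scpPw_zero]
        ring
      · ring
    simp_rw [h4]
    rw [Finset.sum_sub_distrib, Finset.sum_ite_eq' Finset.univ (0 : ZMod p)
      (fun _ => Complex.normSq (χ.1 1)), if_pos (Finset.mem_univ _)]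
  have hM2 : ∑ j : ZMod p, (m j) ^ 2 + 2 ≤ Nat.card (scpK p x) + p := by
    rw [← he]
    by_contra hcon
    push_neg at hcon
    have hcon' : (e : ℝ) + p - 1 ≤ ∑ j : ZMod p, ((m j : ℝ)) ^ 2 := by
      have h5 : e + p ≤ ∑ j : ZMod p, (m j) ^ 2 + 1 := by omega
      have h6 : ((e + p : ℕ) : ℝ) ≤ ((∑ j : ZMod p, (m j) ^ 2 + 1 : ℕ) : ℝ) :=
        Nat.cast_le.mpr h5
      push_cast at h6
      linarith
    rw [hS, hn1, ← he] at hti
    have hg : (1 : ℝ) ≤ (Nat.card G : ℝ) := by exact_mod_cast Nat.card_pos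
    have hp2r : (2 : ℝ) ≤ (p : ℝ) := by exact_mod_cast hp.two_le
    have he2r : (2 : ℝ) ≤ (e : ℝ) := by exact_mod_cast he2
    have hA : 0 ≤ (Nat.card G : ℝ) * (p : ℝ)
        * (∑ j : ZMod p, ((m j : ℝ)) ^ 2 - ((e : ℝ) + p - 1)) :=
      mul_nonneg (mul_nonneg (by linarith) (by linarith)) (sub_nonneg.mpr hcon')
    have hB : 0 < (Nat.card G : ℝ) * ((p : ℝ) - 1) := mul_pos (by linarith) (by linarith)
    have hC' : 0 ≤ (p : ℝ) * (e : ℝ) * ((p : ℝ) - 1) ^ 2 :=
      mul_nonneg (mul_nonneg (by linarith) (by linarith)) (sq_nonneg _)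
    nlinarith [hti, hA, hB, hC']
  have hm00 : m 0 = 0 := scp_comb p (scpK p x) (by rw [← he]; exact he2) m hsum hM2 hinvar
  have hT0 : ∑ a : ZMod p, ρ (scpPw p x a) = 0 := by
    have h1 := hm0 0 hm00
    simpa using h1
  -- a generator of `scpK p x` and an element inducing it
  obtain ⟨k₀, hk₀⟩ := IsCyclic.exists_generator (α := scpK p x)
  have hk₀ord : orderOf k₀ = e := by
    rw [he]
    exact orderOf_eq_card_of_forall_mem_zpowers hk₀
  obtain ⟨n₀, hn₀⟩ := k₀.2
  have hpowconj : ∀ (i : ℕ) (a : ZMod p), n₀ ^ i * scpPw p x a * (n₀ ^ i)⁻¹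
      = scpPw p x ((((k₀ : (ZMod p)ˣ) ^ i : (ZMod p)ˣ) : ZMod p) * a) := by
    intro i
    induction i with
    | zero =>
      intro a
      simp
    | succ i ih =>
      intro a
      rw [pow_succ', pow_succ', Units.val_mul, mul_assoc ((k₀ : (ZMod p)ˣ) : ZMod p), ← hn₀,
        ← ih]
      group
  have hk₀ne : (k₀ : (ZMod p)ˣ) ≠ 1 := by
    intro h
    have h1 : k₀ = 1 := Subtype.ext h
    rw [h1, orderOf_one] at hk₀ord
    omega
  have hvan : ∀ i : ℕ, ((k₀ : (ZMod p)ˣ) ^ i ≠ 1) → χ.1 (n₀ ^ i) = 0 := by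
    intro i hi
    rw [← hρ]
    apply scp_vanish p x hx ρ hT0 (n₀ ^ i) ((((k₀ : (ZMod p)ˣ) ^ i : (ZMod p)ˣ)) : ZMod p)
    · intro h
      exact hi (Units.val_eq_one.mp h)
    · have h1 := hpowconj i 1
      rwa [scpPw_one, mul_one] at h1
  have hone : ∀ i : ℕ, ((k₀ : (ZMod p)ˣ) ^ i = 1) → n₀ ^ i = 1 := by
    intro i hi
    have h1 := hpowconj i 1
    rw [hi, Units.val_one, one_mul, scpPw_one] at h1
    have h2 : n₀ ^ i ∈ Subgroup.centralizer ({x} : Set G) := by
      rw [Subgroup.mem_centralizer_iff]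
      intro y hy
      rw [Set.mem_singleton_iff] at hy
      rw [hy]
      calc x * n₀ ^ i = n₀ ^ i * x * (n₀ ^ i)⁻¹ * n₀ ^ i := by rw [h1]
        _ = n₀ ^ i * x := by group
    rw [hC] at h2
    obtain ⟨a, ha⟩ := scp_mem_zpowers p x hx h2
    have h3 : n₀ * scpPw p x a * n₀⁻¹ = scpPw p x a := by
      rw [ha, ← pow_succ', pow_succ, mul_inv_cancel_right]
    rw [hn₀ a, scpPw_inj p x hx] at h3
    have h4 : a = 0 := by
      by_contra ha0
      apply hk₀ne
      apply Units.val_eq_one.mp
      have h5 : ((k₀ : (ZMod p)ˣ) : ZMod p) * a = 1 * a := by rw [h3, one_mul]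
      exact mul_right_cancel₀ ha0 h5
    rw [← ha, h4, scpPw_zero]
  have hordn : orderOf n₀ = e := by
    rw [← hk₀ord, ← Subgroup.orderOf_coe k₀, orderOf_eq_orderOf_iff]
    intro i
    constructor
    · intro hi
      have h1 := hpowconj i 1
      rw [hi, scpPw_one, mul_one] at h1
      have h2 : scpPw p x 1
          = scpPw p x ((((k₀ : (ZMod p)ˣ) ^ i : (ZMod p)ˣ)) : ZMod p) := by
        rw [scpPw_one, ← h1]
        group
      rw [scpPw_inj p x hx] at h2
      exact Units.val_eq_one.mp h2.symm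
    · exact hone i
  -- the restriction to `⟨n₀⟩`
  obtain ⟨C₀, hC₀⟩ : ∃ C₀ : Subgroup G, C₀ = Subgroup.zpowers n₀ := ⟨_, rfl⟩
  have hn₀C : n₀ ∈ C₀ := hC₀ ▸ Subgroup.mem_zpowers n₀
  have hcardC : Nat.card C₀ = e := by
    rw [hC₀, Nat.card_zpowers, hordn]
  have hgen : ∀ y : C₀, y ∈ Subgroup.zpowers (⟨n₀, hn₀C⟩ : C₀) := by
    intro y
    have hy : (y : G) ∈ Subgroup.zpowers n₀ := hC₀ ▸ y.2
    obtain ⟨i, hi⟩ := Subgroup.mem_zpowers_iff.mp hy
    rw [Subgroup.mem_zpowers_iff]
    refine ⟨i, Subtype.ext ?_⟩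
    rw [Subgroup.coe_zpow]
    exact hi
  have hdet : LinearMap.det ((ρ.comp C₀.subtype) (⟨n₀, hn₀C⟩ : C₀)) = -1 := by
    apply scp_det_cyclic (ρ.comp C₀.subtype) (⟨n₀, hn₀C⟩ : C₀) hgen (scpK p x).index hodd
    · rw [hcardC]
      exact heven
    · rw [hcardC, mul_comm, het]
      show ρ.character ((1 : C₀) : G) = _
      rw [hρ, Subgroup.coe_one, hdeg]
    · intro y hy
      show ρ.character (y : G) = 0
      rw [hρ]
      have hy' : (y : G) ∈ Subgroup.zpowers n₀ := hC₀ ▸ y.2
      rw [← (isOfFinOrder_of_finite n₀).mem_powers_iff_mem_zpowers] at hy'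
      obtain ⟨i, hi⟩ := hy'
      have hi' : n₀ ^ i = (y : G) := hi
      by_cases hki : (k₀ : (ZMod p)ˣ) ^ i = 1
      · exfalso
        apply hy
        apply Subtype.ext
        rw [← hi', hone i hki, Subgroup.coe_one]
      · rw [← hi']
        exact hvan i hki
  have hdet' : LinearMap.det (ρ n₀) = -1 := hdet
  apply scp_even_of_hom (detHom ρ) n₀
  apply Units.ext
  rw [detHom_apply, hdet']
  simp

end Cfsg.Agent.Lib.helper5
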